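import Cfsg.Agent.Gag.Def
import Cfsg.Agent.Grp.Cores

set_option autoImplicit false
set_option linter.unusedSectionVars false
open Matrix MatrixGroups Cfsg.Agent.Perm.Fpf Cfsg.Agent.PLocal

namespace Cfsg.Agent.Gag

universe u v
variable {p : ℕ} {G : Type u} {V : Type v} [Group G] [Finite G] [AddCommGroup V] [Finite V] [DistribMulAction G V]

/-! PRIORITY (S4841). Easy kit for `Sr`. -/

theorem Sr.sub (h : Sr p G V) (K : Subgroup G) : Sr p K V :=
  ⟨h.prime, h.nontriv, h.tors, fun g hg => Subtype.ext (h.faith g hg), fun g v hv hg => by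
    obtain ⟨k, hk⟩ := h.pel g v hv hg
    exact ⟨k, Subtype.ext (by simpa using hk)⟩⟩

/-- every element of `K` is a `p`-element by `pel` -/
theorem Sr.pgroup_of_fix (h : Sr p G V) {K : Subgroup G} {v : V} (hv : v ≠ 0)
    (hK : ∀ g ∈ K, g • v = v) : IsPGroup p K := fun g => by
  obtain ⟨k, hk⟩ := h.pel g v hv (hK g g.2)
  exact ⟨k, Subtype.ext (by simpa using hk)⟩

theorem bas1_card {W : Type*} [AddCommGroup W] [Finite W] [Nontrivial W] (hp : p.Prime)
    (ht : ∀ w : W, p • w = 0) : ∃ m, 0 < m ∧ Nat.card W = p ^ m := by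
  haveI := Fact.mk hp
  have hP : IsPGroup p (Multiplicative W) := fun w =>
    ⟨1, by rw [pow_one]; exact congrArg Multiplicative.ofAdd (ht w.toAdd)⟩
  obtain ⟨m, hm⟩ := hP.exists_card_eq
  have hm' : Nat.card W = p ^ m := hm
  refine ⟨m, Nat.pos_of_ne_zero ?_, hm'⟩
  rintro rfl
  have := Finite.one_lt_card (α := W)
  rw [hm', pow_zero] at this
  exact lt_irrefl _ this

/-- `|V|` is a power of `p` (`Multiplicative V` is a `p`-group by `tors`) -/
theorem Sr.card_V (h : Sr p G V) : ∃ m, 0 < m ∧ Nat.card V = p ^ m := by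
  haveI := h.nontriv
  exact bas1_card h.prime h.tors

/-- `P` acts on the `p`-group `W`; `IsPGroup.exists_fixed_point_of_prime_dvd_card_of_fixed_point` with `0`. -/
theorem Sr.exists_fix (h : Sr p G V) {P : Subgroup G} (hP : IsPGroup p P) {W : AddSubgroup V}
    (hW : W ≠ ⊥) (hi : ∀ g ∈ P, ∀ w ∈ W, g • w ∈ W) :
    ∃ v ∈ W, v ≠ 0 ∧ ∀ g ∈ P, g • v = v := by
  haveI := Fact.mk h.prime
  haveI : Nontrivial W := (AddSubgroup.nontrivial_iff_ne_bot W).2 hW
  obtain ⟨m, hm0, hm⟩ := bas1_card (W := W) h.prime fun w => Subtype.ext (h.tors w)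
  letI : MulAction P W :=
    { smul := fun g w => ⟨(g : G) • (w : V), hi g g.2 w w.2⟩
      one_smul := fun w => Subtype.ext (one_smul G (w : V))
      mul_smul := fun a b w => Subtype.ext (mul_smul (a : G) (b : G) (w : V)) }
  have h0 : (0 : W) ∈ MulAction.fixedPoints P W := fun g => Subtype.ext (smul_zero (g : G))
  obtain ⟨b, hb, hb0⟩ := hP.exists_fixed_point_of_prime_dvd_card_of_fixed_point W
    (by rw [hm]; exact dvd_pow_self p hm0.ne') h0
  exact ⟨b, b.2, fun e => hb0 (Subtype.ext e.symm), fun g hg => congrArg Subtype.val (hb ⟨g, hg⟩)⟩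

theorem Sr.fpf (h : Sr p G V) {g : G} (hg : (orderOf g).Coprime p) (h1 : g ≠ 1) {v : V}
    (hv : g • v = v) : v = 0 := by
  by_contra h0
  obtain ⟨k, hk⟩ := h.pel g v h0 hv
  exact h1 (orderOf_eq_one_iff.1
    (Nat.Coprime.eq_one_of_dvd (hg.pow_right k) (orderOf_dvd_of_pow_eq_one hk)))

/-- `FGS.FrobCompl.occurs_of_isFpf` on `Multiplicative V`, then `AbCyc.of_occurs` (trivial `K` apart). -/
theorem Sr.abCyc (h : Sr p G V) {K : Subgroup G} (hK : (Nat.card K).Coprime p) : AbCyc K := by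
  rcases subsingleton_or_nontrivial K with h1 | h1
  · intro H _
    infer_instance
  haveI := h.nontriv
  let φ : K →* MulAut (Multiplicative V) :=
    { toFun := fun g => AddEquiv.toMultiplicative (DistribMulAction.toAddEquiv V (g : G))
      map_one' := MulEquiv.ext fun v => congrArg Multiplicative.ofAdd (one_smul G v.toAdd)
      map_mul' := fun a b => MulEquiv.ext fun v =>
        congrArg Multiplicative.ofAdd (mul_smul (a : G) (b : G) v.toAdd) }
  refine AbCyc.of_occurs (FGS.FrobCompl.occurs_of_isFpf φ fun a v hv => ?_)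
  by_cases ha : a = 1
  · exact Or.inl ha
  · refine Or.inr ?_
    have h2 : (a : G) • v.toAdd = v.toAdd := congrArg Multiplicative.toAdd hv
    exact h.fpf (g := (a : G)) (Nat.Coprime.coprime_dvd_left (K.orderOf_dvd_natCard a.2) hK)
      (fun e => ha (Subtype.ext e)) h2

theorem Sr.cyc (h : Sr p G V) {q : ℕ} [Fact q.Prime] (hq : q ≠ p) (h2 : q ≠ 2) {K : Subgroup G}
    (hK : IsPGroup q K) : IsCyclic K := by
  obtain ⟨m, hm⟩ := hK.exists_card_eq
  have hc : (Nat.card K).Coprime p := by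
    rw [hm]
    exact ((Nat.coprime_primes Fact.out h.prime).2 hq).pow_left m
  exact ((h.abCyc hc).isCyclic_or hK).resolve_right fun e => h2 e.1

theorem Sr.oddCyc (h : Sr 2 G V) : OddCyc G := fun K hK hc => by
  have h1 := h.abCyc (K := K) (Nat.coprime_two_right.2 hK) ⊤ inferInstance
  exact isCyclic_of_surjective _ Subgroup.topEquiv.surjective

theorem Sr.ρ_inj (h : Sr p G V) : Function.Injective (ρ V : G → AddMonoid.End V) := by
  intro a b hab
  have h1 : b⁻¹ * a = 1 := h.faith _ fun v => by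
    have : a • v = b • v := DFunLike.congr_fun hab v
    rw [mul_smul, this, inv_smul_smul]
  exact (inv_mul_eq_one.1 h1).symm

theorem Sr.n_eq_zero (h : Sr p G V) {g : G} (hg : n V g = 0) : g = 1 :=
  h.faith g fun v => sub_eq_zero.1 (DFunLike.congr_fun hg v)

/-- `(x - 1)(x² + x + 1) v = 0` and `x` has no nonzero fixed vector -/
theorem Sr.cube (h : Sr p G V) (h3 : p ≠ 3) {x : G} (hx : orderOf x = 3) :
    ρ V x * ρ V x + ρ V x + 1 = 0 := by
  refine AddMonoidHom.ext fun v => ?_
  have hx3 : x * x * x = 1 := by rw [← pow_three', ← hx, pow_orderOf_eq_one]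
  have hc : (orderOf x).Coprime p := by
    rw [hx]; exact (Nat.coprime_primes Nat.prime_three h.prime).2 (Ne.symm h3)
  have h1 : x ≠ 1 := fun e => by rw [e, orderOf_one] at hx; omega
  show x • x • v + x • v + v = 0
  refine h.fpf hc h1 ?_
  rw [smul_add, smul_add, smul_smul, smul_smul, hx3, one_smul, smul_smul]
  abel

theorem Sr.two (h : Sr 2 G V) : (2 : AddMonoid.End V) = 0 := by
  refine AddMonoidHom.ext fun v => ?_
  exact h.tors v

/-- for `p` odd an involution acts as `-1` (`t • v + v` is fixed by `t`) -/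
theorem Sr.invol (h : Sr p G V) (h2 : p ≠ 2) {t : G} (ht : orderOf t = 2) (v : V) : t • v = -v := by
  have ht2 : t * t = 1 := by rw [← pow_two, ← ht, pow_orderOf_eq_one]
  have hc : (orderOf t).Coprime p := by
    rw [ht]; exact (Nat.coprime_primes Nat.prime_two h.prime).2 (Ne.symm h2)
  have h1 : t ≠ 1 := fun e => by rw [e, orderOf_one] at ht; omega
  refine eq_neg_of_add_eq_zero_left (h.fpf hc h1 ?_)
  rw [smul_add, smul_smul, ht2, one_smul, add_comm]

/-- `O_p(K)` is characteristic in the normal subgroup `K` -/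
theorem pCore_sub_eq_bot (hO : pCore p G = ⊥) (K : Subgroup G) [K.Normal] : pCore p K = ⊥ := by
  have h1 := Grp.map_pCore_le_of_normal p K
  rw [hO, le_bot_iff] at h1
  exact (Subgroup.map_eq_bot_iff_of_injective _ K.subtype_injective).1 h1

theorem eq_bot_of_normal_pgroup (hO : pCore p G = ⊥) (K : Subgroup G) [K.Normal] (hK : IsPGroup p K) :
    K = ⊥ :=
  le_bot_iff.1 (hO ▸ Grp.le_pCore inferInstance hK)

end Cfsg.Agent.Gag
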