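import Cfsg.Agent.Gag.Def
import Cfsg.Agent.Gag.Bas1

set_option autoImplicit false
set_option linter.unusedSectionVars false
open Matrix MatrixGroups Cfsg.Agent.Perm.Fpf Cfsg.Agent.PLocal

namespace Cfsg.Agent.Gag

universe u v
variable {p : ℕ} {G : Type u} {V : Type v} [Group G] [Finite G] [AddCommGroup V] [Finite V] [DistribMulAction G V]

/-! PRIORITY (S4841). Counting kit. -/

theorem b2_orb {H X : Type*} [Group H] [Finite X] [MulAction H X] (d : ℕ) (A : X → Prop)
    (h1 : ∀ x, A x → ∀ g : H, A (g • x)) (h2 : ∀ x, A x → d ∣ (MulAction.stabilizer H x).index) :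
    d ∣ Nat.card {x : X // A x} := by
  classical
  have := Fintype.ofFinite X
  rw [Nat.card_eq_fintype_card, Fintype.card_subtype, Finset.card_eq_sum_card_image (MulAction.orbit H)]
  refine Finset.dvd_sum fun b hb => ?_
  obtain ⟨y, hy, rfl⟩ := Finset.mem_image.1 hb
  have hy' := (Finset.mem_filter.1 hy).2
  have e : (Finset.univ.filter A).filter
      (fun a => MulAction.orbit H a = MulAction.orbit H y) = (MulAction.orbit H y).toFinset := by
    ext a
    simp only [Finset.mem_filter, Finset.mem_univ, true_and, Set.mem_toFinset]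
    refine ⟨fun h => MulAction.orbit_eq_iff.1 h.2, fun h => ⟨?_, MulAction.orbit_eq_iff.2 h⟩⟩
    obtain ⟨g, rfl⟩ := h
    exact h1 y hy' g
  rw [e, ← Set.ncard_eq_toFinset_card', ← MulAction.index_stabilizer]
  exact h2 y hy'

theorem b2_card {X : Type*} [Finite X] (A : X → Prop) {a : X} (ha : A a) :
    Nat.card {x // x ≠ a ∧ A x} = Nat.card {x // A x} - 1 := by
  classical
  have := Fintype.ofFinite X
  rw [Nat.card_eq_fintype_card, Nat.card_eq_fintype_card, Fintype.card_subtype, Fintype.card_subtype,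
    ← Finset.card_erase_of_mem (Finset.mem_filter.2 ⟨Finset.mem_univ a, ha⟩)]
  congr 1
  ext x
  simp

theorem b2_card' {X : Type*} [Finite X] (a : X) : Nat.card {x // x ≠ a} = Nat.card X - 1 := by
  classical
  have := Fintype.ofFinite X
  rw [Nat.card_eq_fintype_card, Nat.card_eq_fintype_card, Fintype.card_subtype_compl, Fintype.card_subtype_eq]

theorem b2_ne {v : V} (hv : v ≠ 0) (g : G) : g • v ≠ 0 := fun e => hv ((smul_eq_zero_iff_eq g).1 e)

theorem Sr.stab_eq (h : Sr p G V) (P : Sylow p G) {v : V} (hv : v ≠ 0) (hf : ∀ g ∈ (P : Subgroup G), g • v = v) :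
    MulAction.stabilizer G v = P :=
  P.is_maximal' (h.pgroup_of_fix hv fun _ hg => hg) hf

theorem Sr.sylow_fix (h : Sr p G V) (P : Sylow p G) : ∃ v : V, v ≠ 0 ∧ ∀ g ∈ (P : Subgroup G), g • v = v := by
  have := h.nontriv
  obtain ⟨v, -, h1⟩ := h.exists_fix P.2 (W := ⊤) top_ne_bot fun _ _ _ _ => trivial
  exact ⟨v, h1⟩

theorem b2_idx (hp : p.Prime) (P Q : Sylow p G) : (P : Subgroup G).index = (Q : Subgroup G).index := by
  have : Fact p.Prime := ⟨hp⟩
  have h1 := (P : Subgroup G).card_mul_index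
  have h2 := (Q : Subgroup G).card_mul_index
  rw [P.card_eq_multiplicity] at h1
  rw [Q.card_eq_multiplicity] at h2
  exact Nat.eq_of_mul_eq_mul_left (pow_pos hp.pos _) (h1.trans h2.symm)

theorem b2_rel (P K : Subgroup G) [K.Normal] : P.relIndex K ∣ P.index := by
  obtain ⟨c, hc⟩ := Subgroup.relIndex_dvd_index_of_normal K P
  have h1 := Subgroup.relIndex_mul_index (inf_le_left : P ⊓ K ≤ P)
  have h2 := Subgroup.relIndex_mul_index (inf_le_right : P ⊓ K ≤ K)
  rw [Subgroup.inf_relIndex_left] at h1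
  rw [Subgroup.inf_relIndex_right, hc, ← h1, mul_left_comm] at h2
  exact ⟨c, (Nat.eq_of_mul_eq_mul_left (Nat.pos_of_ne_zero Subgroup.index_ne_zero_of_finite) h2).symm⟩

/-- A Sylow `P` of `G` fixes some `v₀ ≠ 0` (`exists_fix`), so the `p`-group `G_{v₀}` equals `P`; by
transitivity every `G_v` is Sylow in `G`; `K_v = K ⊓ G_v` has index in the normal `K` dividing
`|G : G_v|` (`Subgroup.relIndex_dvd_index_of_normal`-style: `|K : K ⊓ P| = |KP : P|`). -/
theorem Tr.sy (h : Sr p G V) (ht : Tr G V) (K : Subgroup G) [K.Normal] : Sy p K V := by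
  intro v hv hd
  have : Fact p.Prime := ⟨h.prime⟩
  obtain ⟨P⟩ : Nonempty (Sylow p G) := inferInstance
  obtain ⟨w, hw, hf⟩ := h.sylow_fix P
  obtain ⟨g, rfl⟩ := ht w v hw hv
  have h1 := hd.trans (b2_rel (MulAction.stabilizer G (g • w)) K)
  rw [MulAction.index_stabilizer, MulAction.orbit_smul, ← MulAction.index_stabilizer, h.stab_eq P hw hf] at h1
  exact P.not_dvd_index h1

theorem Tr.sy' (h : Sr p G V) (ht : Tr G V) : Sy p G V := by
  intro v hv h1
  have : Fact p.Prime := ⟨h.prime⟩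
  obtain ⟨P⟩ : Nonempty (Sylow p G) := inferInstance
  obtain ⟨w, hw, hf⟩ := h.sylow_fix P
  obtain ⟨g, rfl⟩ := ht w v hw hv
  rw [MulAction.index_stabilizer, MulAction.orbit_smul, ← MulAction.index_stabilizer, h.stab_eq P hw hf] at h1
  exact P.not_dvd_index h1

/-- with `Sy` the stabiliser of `v ≠ 0` is a Sylow `p`-subgroup -/
theorem Sy.exists_sylow (h : Sr p G V) (hs : Sy p G V) {v : V} (hv : v ≠ 0) :
    ∃ P : Sylow p G, (P : Subgroup G) = MulAction.stabilizer G v :=
  have : Fact p.Prime := ⟨h.prime⟩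
  ⟨(h.pgroup_of_fix hv fun _ hg => hg).toSylow (hs v hv), rfl⟩

/-- all orbits on the nonzero vectors have length `|G : P|` -/
theorem Sy.index_dvd (h : Sr p G V) (hs : Sy p G V) (P : Sylow p G) :
    (P : Subgroup G).index ∣ Nat.card V - 1 := by
  rw [← b2_card' (0 : V)]
  refine b2_orb (H := G) _ _ (fun v hv g => b2_ne hv g) fun v hv => ?_
  obtain ⟨Q, hQ⟩ := Sy.exists_sylow h hs hv
  rw [← hQ, b2_idx h.prime P Q]

/-- one orbit of length `|G : P|` -/
theorem Tr.index_eq (h : Sr p G V) (ht : Tr G V) (P : Sylow p G) :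
    (P : Subgroup G).index = Nat.card V - 1 := by
  obtain ⟨w, hw, hf⟩ := h.sylow_fix P
  have e : MulAction.orbit G w = {v | v ≠ 0} :=
    Set.ext fun v => ⟨by rintro ⟨g, rfl⟩; exact b2_ne hw g, fun hv => ht w v hw hv⟩
  rw [← h.stab_eq P hw hf, MulAction.index_stabilizer, e, ← b2_card' (0 : V)]
  exact (Nat.card_coe_set_eq _).symm

/-- The nonzero vectors are partitioned by their stabiliser (a Sylow subgroup `Q`, and `v ≠ 0` is
fixed by `Q` iff `G_v = Q`); all `C_V(Q)` have the same order `p ^ b`, `b > 0`. -/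
theorem Sy.points (h : Sr p G V) (hs : Sy p G V) (P : Sylow p G) :
    ∃ b, 0 < b ∧ Nat.card {v : V // ∀ g ∈ (P : Subgroup G), g • v = v} = p ^ b ∧
      Nat.card V - 1 = Nat.card (Sylow p G) * (p ^ b - 1) := by
  classical
  have : Fact p.Prime := ⟨h.prime⟩
  let W : AddSubgroup V :=
    { carrier := {v | ∀ g ∈ (P : Subgroup G), g • v = v}
      zero_mem' := fun g _ => smul_zero g
      add_mem' := fun ha hb g hg => by rw [smul_add, ha g hg, hb g hg]
      neg_mem' := fun ha g hg => by rw [smul_neg, ha g hg] }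
  obtain ⟨m, -, hm⟩ := h.card_V
  obtain ⟨b, -, hb⟩ := (Nat.dvd_prime_pow h.prime).1 (hm ▸ W.card_addSubgroup_dvd_card)
  have hb' : Nat.card {v : V // ∀ g ∈ (P : Subgroup G), g • v = v} = p ^ b := hb
  obtain ⟨w, hw, hw'⟩ := h.sylow_fix P
  refine ⟨b, Nat.pos_of_ne_zero ?_, hb', ?_⟩
  · rintro rfl
    rw [pow_zero, AddSubgroup.card_eq_one] at hb
    exact hw (AddSubgroup.mem_bot.1 (hb.le hw'))
  choose! f hf using fun (v : V) (hv : v ≠ 0) => Sy.exists_sylow h hs hv
  have e1 : ∀ v ≠ 0, ∀ k : G, f (k • v) = k • f v := fun v hv k => Sylow.ext (by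
    rw [hf _ (b2_ne hv k), MulAction.stabilizer_smul_eq_stabilizer_map_conj, Sylow.coe_subgroup_smul, hf v hv]
    rfl)
  have e2 : ∀ Q : Sylow p G, Nat.card {x : {v : V // v ≠ 0} // f x = Q} = p ^ b - 1 := fun Q => by
    obtain ⟨k, rfl⟩ := MulAction.exists_smul_eq G P Q
    rw [← hb', ← b2_card (fun v : V => ∀ g ∈ (P : Subgroup G), g • v = v) (a := 0) fun g _ => smul_zero g]
    refine Nat.card_congr ((Equiv.subtypeSubtypeEquivSubtypeInter _ fun v => f v = k • P).trans
      (Equiv.subtypeEquiv (MulAction.toPerm k) fun v => ?_).symm)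
    rw [MulAction.toPerm_apply]
    constructor
    · rintro ⟨h1, h2⟩
      exact ⟨b2_ne h1 k, by rw [e1 v h1, Sylow.ext ((hf v h1).trans (h.stab_eq P h1 h2))]⟩
    · rintro ⟨h1, h2⟩
      have h3 : v ≠ 0 := fun e => h1 (by rw [e, smul_zero])
      rw [e1 v h3, smul_left_cancel_iff] at h2
      exact ⟨h3, fun g hg => (hf v h3).le (h2.symm ▸ hg)⟩
  have := Fintype.ofFinite (Sylow p G)
  rw [← b2_card' (0 : V), ← Nat.card_congr (Equiv.sigmaFiberEquiv fun x : {v : V // v ≠ 0} => f x),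
    Nat.card_sigma]
  simp [e2]

/-- `N(P)/P` acts semiregularly on the nonzero vectors fixed by `P` (their stabiliser is `P`). -/
theorem Sy.norm_dvd (h : Sr p G V) (P : Sylow p G) :
    (P : Subgroup G).relIndex (Subgroup.normalizer ((P : Subgroup G) : Set G)) ∣
      Nat.card {v : V // ∀ g ∈ (P : Subgroup G), g • v = v} - 1 := by
  rw [← b2_card (fun v : V => ∀ g ∈ (P : Subgroup G), g • v = v) (a := 0) fun g _ => smul_zero g]
  refine b2_orb (H := Subgroup.normalizer ((P : Subgroup G) : Set G)) _ _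
    (fun v hv k => ⟨b2_ne hv.1 (k : G), fun g hg => ?_⟩) fun v hv => ?_
  · have := hv.2 _ ((Subgroup.mem_normalizer_iff''.1 k.2 g).1 hg)
    rw [mul_smul, mul_smul, inv_smul_eq_iff] at this
    exact this
  · have e : MulAction.stabilizer (Subgroup.normalizer ((P : Subgroup G) : Set G)) v =
        (P : Subgroup G).subgroupOf (Subgroup.normalizer ((P : Subgroup G) : Set G)) := by
      ext g
      rw [Subgroup.mem_subgroupOf]
      exact SetLike.ext_iff.1 (h.stab_eq P hv.1 hv.2) (g : G)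
    rw [e, Subgroup.relIndex]

end Cfsg.Agent.Gag
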