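import Cfsg.Agent.Gag.Def
import Cfsg.Agent.Gag.Bas2

set_option autoImplicit false
set_option linter.unusedSectionVars false
open Matrix MatrixGroups Cfsg.Agent.Perm.Fpf Cfsg.Agent.PLocal.SL2Nat

namespace Cfsg.Agent.Gag

universe u v
variable {p : ℕ} {G : Type u} {V : Type v} [Group G] [Finite G] [AddCommGroup V] [Finite V] [DistribMulAction G V]

theorem a7k_perm (τ : Equiv.Perm (Fin 7)) (h : τ ^ 9 = 1) : τ ^ 3 = 1 := by
  rw [← orderOf_dvd_iff_pow_eq_one] at h ⊢
  rw [← Equiv.Perm.lcm_cycleType, Multiset.lcm_dvd]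
  intro k hk
  have h1 := (Equiv.Perm.dvd_of_mem_cycleType hk).trans h
  have h2 := (Equiv.Perm.le_card_support_of_mem_cycleType hk).trans (Finset.card_le_univ _)
  rw [Fintype.card_fin] at h2
  interval_cases k <;> simp_all

theorem a7k_num {m b s : ℕ} (hb : 0 < b) (h1 : 560 ∣ 3 ^ m - 1) (hm : 0 < m) (h2 : s ∣ 560) (h3 : s ≠ 1)
    (e : 3 ^ m - 1 = s * (3 ^ b - 1)) : False := by
  have s1 := Nat.le_of_dvd (by norm_num) h2
  have s0 := Nat.pos_of_dvd_of_pos h2 (by norm_num)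
  have a1 : 3 ^ 1 ≤ 3 ^ b := Nat.pow_le_pow_right (by norm_num) hb
  have a2 : 3 ^ 1 ≤ 3 ^ m := Nat.pow_le_pow_right (by norm_num) hm
  have a3 : 1 * (3 ^ b - 1) ≤ s * (3 ^ b - 1) := Nat.mul_le_mul_right _ s0
  have a4 : 3 ^ b ∣ 3 ^ m :=
    pow_dvd_pow 3 ((Nat.pow_le_pow_iff_right (by norm_num : 1 < 3)).1 (by omega))
  have a5 : s * 1 ≤ s * 3 ^ b := Nat.mul_le_mul_left _ (by omega)
  have a6 := Nat.dvd_sub (dvd_mul_left (3 ^ b) s) a4
  have a7 := Nat.mul_sub_one s (3 ^ b)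
  rw [show s * 3 ^ b - 3 ^ m = s - 1 by omega] at a6
  have a8 := Nat.le_of_dvd (by omega) a6
  have a9 : b < 6 := (Nat.pow_lt_pow_iff_right (by norm_num : 1 < 3)).1 (by omega)
  have b1 : 3 ^ b ≤ 3 ^ 5 := Nat.pow_le_pow_right (by norm_num) (by omega)
  have b2 : s * (3 ^ b - 1) ≤ 560 * 242 := Nat.mul_le_mul s1 (by omega)
  have b3 : m < 11 := (Nat.pow_lt_pow_iff_right (by norm_num : 1 < 3)).1 (by omega)
  interval_cases m <;> norm_num at h1

/-- `|G| = 5040`. `p ≠ 3`: the Sylow 3-subgroup (order 9) is cyclic (`Sr.cyc`), so `A₇` has an element of order 9: false (order of a permutation of 7 points).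
`p = 3`: `|V| = 3^n`, `560 ∣ 3^n - 1` (`index_dvd`) so `12 ∣ n`; `points`: `3^n - 1 = s (3^b - 1)`, `s ∣ 560`, `b < n` (faithful, `P ≠ ⊥`) so `s ≠ 1`,
`s ≡ 1 mod 3^b`, `3^b < 560`, `b ≤ 5`, `3^n ≤ 560 * 242 + 1 < 3^11`. -/
theorem a7k (h : Sr p G V) (h2 : p ≠ 2) (hs : Sy p G V) (σ : G →* alternatingGroup (Fin 7))
    (hσ : Function.Surjective σ) (hk : Nat.card σ.ker = 2) : False := by
  have hG : Nat.card G = 5040 := by
    rw [← σ.ker.card_mul_index, Subgroup.index_ker, MonoidHom.range_eq_top.2 hσ, Subgroup.card_top, hk,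
      two_mul_nat_card_alternatingGroup, Nat.card_perm, Nat.card_eq_fintype_card, Fintype.card_fin]
    rfl
  obtain ⟨P⟩ : Nonempty (Sylow 3 G) := inferInstance
  have hP : Nat.card (P : Subgroup G) = 9 := by
    rw [P.card_eq_multiplicity, hG, show 5040 = 3 ^ 2 * 560 by norm_num,
      Nat.factorization_mul (by norm_num) (by norm_num), Nat.prime_three.factorization_pow,
      Finsupp.add_apply, Finsupp.single_eq_same,
      Nat.factorization_eq_zero_of_not_dvd (by norm_num)]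
    rfl
  by_cases h3 : p = 3
  · subst h3
    have hi : (P : Subgroup G).index = 560 := by
      have := (P : Subgroup G).card_mul_index
      rw [hP, hG] at this
      omega
    obtain ⟨m, m1, m2⟩ := h.card_V
    obtain ⟨b, b1, b2, b3⟩ := hs.points h P
    have h4 := hs.index_dvd h P
    rw [hi, m2] at h4
    refine a7k_num b1 h4 m1 (hi ▸ P.card_dvd_index) (fun e => ?_) (m2 ▸ b3)
    have h5 : Nat.card {v : V // ∀ g ∈ (P : Subgroup G), g • v = v} = Nat.card V := by
      have : 0 < Nat.card V := Nat.card_pos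
      have : 0 < 3 ^ b := by positivity
      rw [e] at b3
      omega
    have h6 := ((Nat.bijective_iff_injective_and_card Subtype.val).2 ⟨Subtype.val_injective, h5⟩).2
    have h7 : (P : Subgroup G) = ⊥ := eq_bot_iff.2 fun g hg => h.faith g fun v => by
      obtain ⟨w, rfl⟩ := h6 v
      exact w.2 g hg
    rw [h7, Subgroup.card_bot] at hP
    omega
  · have := h.cyc (q := 3) (Ne.symm h3) (by norm_num) P.isPGroup'
    obtain ⟨g, hg⟩ := IsCyclic.exists_ofOrder_eq_natCard (α := (P : Subgroup G))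
    rw [hP, ← Subgroup.orderOf_coe] at hg
    have h4 : σ ((g : G) ^ 3) = 1 := by
      rw [map_pow]
      refine Subtype.ext (a7k_perm _ ?_)
      rw [← Subgroup.coe_pow, ← map_pow, ← hg, pow_orderOf_eq_one, map_one, Subgroup.coe_one]
    have h5 := σ.ker.orderOf_dvd_natCard h4
    rw [hk, orderOf_pow' _ (by norm_num), hg] at h5
    norm_num at h5

end Cfsg.Agent.Gag
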