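import Cfsg.Agent.Gag.Def
import Cfsg.Agent.Gag.Bas1

set_option autoImplicit false
set_option linter.unusedSectionVars false
open Matrix MatrixGroups Cfsg.Agent.Perm.Fpf Cfsg.Agent.PLocal

namespace Cfsg.Agent.Gag

universe u v
variable {p : ℕ} {G : Type u} {V : Type v} [Group G] [Finite G] [AddCommGroup V] [Finite V] [DistribMulAction G V]

/-! PRIORITY (S4841). The axis groups. For an involution `t`: `n t * n t = 0` (char 2), and by `Fr`
`ker (n t) = range (n t) =: W_t`, so `|W_t|² = |V|` for every involution. -/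

theorem n_sq (h : Sr 2 G V) {t : G} (ht : t * t = 1) : n V t * n V t = 0 := by
  have e := n_mul (V := V) t t
  rw [ht, ← two_mul, h.two, zero_mul, zero_add] at e
  rw [← e]
  simp [n]

theorem sq_of_n_sq (h : Sr 2 G V) {t : G} (ht : n V t * n V t = 0) : t * t = 1 :=
  h.n_eq_zero (by rw [n_mul, ht, ← two_mul, h.two, zero_mul, zero_add])

variable (V) in
/-- the fixed points of `t` -/
def axbK (t : G) : AddSubgroup V := AddMonoidHom.ker (n V t : V →+ V)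

theorem axb_mem {t : G} {v : V} : v ∈ axbK V t ↔ t • v = v := sub_eq_zero

theorem axb_n (h : Sr 2 G V) {t : G} (ht : t * t = 1) (u : V) : t • n V t u = n V t u :=
  sub_eq_zero.1 (DFunLike.congr_fun (n_sq h ht) u)

theorem axb_fix (hF : Fr G V) {e g : G} (h1 : e ≠ 1) (he : e * e = 1) (hg : g ∈ Ax V e) {v : V}
    (hv : e • v = v) : g • v = v := by
  obtain ⟨u, rfl⟩ := hF e h1 he v (sub_eq_zero.2 hv)
  exact DFunLike.congr_fun (show ρ V g * n V e = n V e from hg) u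

theorem axb_card (h : Sr 2 G V) (hF : Fr G V) {t : G} (h1 : t ≠ 1) (ht : t * t = 1) :
    Nat.card (axbK V t) ^ 2 = Nat.card V := by
  have e : AddMonoidHom.range (n V t : V →+ V) = axbK V t := le_antisymm
    (by
      rintro _ ⟨u, rfl⟩
      exact axb_mem.2 (axb_n h ht u))
    fun v hv => hF t h1 ht v hv
  rw [← (axbK V t).card_mul_index, sq]
  congr 1
  rw [← e]
  exact (AddSubgroup.index_ker _).symm.trans (by rw [e]; rfl)

theorem card_ker_sq (h : Sr 2 G V) (hF : Fr G V) {t : G} (h1 : t ≠ 1) (ht : t * t = 1) :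
    Nat.card {v : V // t • v = v} ^ 2 = Nat.card V := by
  rw [← axb_card h hF h1 ht]
  exact congrArg (· ^ 2) (Nat.card_congr (Equiv.subtypeEquivRight fun v => axb_mem.symm))

theorem self_mem_Ax (h : Sr 2 G V) {e : G} (he : e * e = 1) : e ∈ Ax V e :=
  mem_Ax.2 (n_sq h he)

/-- an involution `g` fixing `W_e` pointwise has `W_g = W_e` (inclusion and equal cardinality) -/
theorem fix_iff (h : Sr 2 G V) (hF : Fr G V) {e g : G} (h1 : e ≠ 1) (he : e * e = 1) (hg : g ∈ Ax V e)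
    (hg1 : g ≠ 1) (hgg : g * g = 1) (v : V) : g • v = v ↔ e • v = v := by
  have l : axbK V e ≤ axbK V g := fun w hw => axb_mem.2 (axb_fix hF h1 he hg (axb_mem.1 hw))
  have c := Nat.pow_left_injective two_ne_zero ((axb_card h hF hg1 hgg).trans (axb_card h hF h1 he).symm)
  rw [← axb_mem, ← axb_mem, AddSubgroup.eq_of_le_of_card_ge l c.le]

/-- `A = Ax e` is a nontrivial 2-group (`pgroup_of_fix`); take an involution `t ∈ Z(A)`, `W_t = W_e`;
`n t * n g = n g * n t = 0` so `range (n g) ⊆ W_t`, which `g` fixes: `n g * n g = 0`. -/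
theorem Ax_sq (h : Sr 2 G V) (hF : Fr G V) {e g : G} (h1 : e ≠ 1) (he : e * e = 1) (hg : g ∈ Ax V e) :
    g * g = 1 := by
  have := Fact.mk Nat.prime_two
  obtain ⟨u, hu⟩ : ∃ u, n V e u ≠ 0 := by
    by_contra! r
    exact h1 (h.n_eq_zero (AddMonoidHom.ext r))
  have hA : IsPGroup 2 (Ax V e) :=
    h.pgroup_of_fix hu fun f hf => axb_fix hF h1 he hf (axb_n h he u)
  have : Nontrivial (Ax V e) := ⟨⟨e, self_mem_Ax h he⟩, 1, fun k => h1 (congrArg Subtype.val k)⟩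
  obtain ⟨m, m0, hm⟩ := (hA.to_subgroup (Subgroup.center _)).nontrivial_iff_card.1 hA.center_nontrivial
  obtain ⟨t, ht⟩ := exists_prime_orderOf_dvd_card' (G := Subgroup.center (Ax V e)) 2
    (hm ▸ dvd_pow_self 2 m0.ne')
  rw [← Subgroup.orderOf_coe, ← Subgroup.orderOf_coe] at ht
  have t1 : (t.1 : G) ≠ 1 := fun k => by simp [k] at ht
  have t2 : (t.1 : G) * t.1 = 1 := by rw [← sq, ← ht, pow_orderOf_eq_one]
  have c : Commute g t.1 := congrArg Subtype.val (Subgroup.mem_center_iff.1 t.2 ⟨g, hg⟩)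
  have k := fix_iff h hF h1 he t.1.2 t1 t2
  have k1 : n V g * n V (t.1 : G) = 0 := AddMonoidHom.ext fun w =>
    sub_eq_zero.2 (axb_fix hF h1 he hg ((k _).1 (axb_n h t2 w)))
  rw [(n_comm c).eq] at k1
  exact sq_of_n_sq h (AddMonoidHom.ext fun w => sub_eq_zero.2 (axb_fix hF h1 he hg ((k _).1
    (sub_eq_zero.1 (DFunLike.congr_fun k1 w)))))

theorem Ax_quad (h : Sr 2 G V) (hF : Fr G V) {e f g : G} (h1 : e ≠ 1) (he : e * e = 1)
    (hf : f ∈ Ax V e) (hg : g ∈ Ax V e) : n V f * n V g = 0 := by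
  by_cases g1 : g = 1
  · simp [g1, n]
  have g2 := Ax_sq h hF h1 he hg
  exact AddMonoidHom.ext fun w => sub_eq_zero.2 (axb_fix hF h1 he hf
    ((fix_iff h hF h1 he hg g1 g2 _).1 (axb_n h g2 w)))

theorem Ax_eq (h : Sr 2 G V) (hF : Fr G V) {e g : G} (h1 : e ≠ 1) (he : e * e = 1) (hg : g ∈ Ax V e)
    (hg1 : g ≠ 1) : Ax V g = Ax V e :=
  Subgroup.ext fun _ => ⟨fun hf => mem_Ax.2 (Ax_quad h hF hg1 (Ax_sq h hF h1 he hg) hf
    (mem_Ax.2 (Ax_quad h hF h1 he (self_mem_Ax h he) hg))),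
    fun hf => mem_Ax.2 (Ax_quad h hF h1 he hf hg)⟩

theorem Ax_comm (h : Sr 2 G V) (hF : Fr G V) {e f g : G} (h1 : e ≠ 1) (he : e * e = 1)
    (hf : f ∈ Ax V e) (hg : g ∈ Ax V e) : Commute f g :=
  h.ρ_inj (by
  rw [ρ_eq, ρ_eq, n_mul, n_mul, Ax_quad h hF h1 he hf hg, Ax_quad h hF h1 he hg hf,
    add_comm (n V f)])

theorem Ax_elem (h : Sr 2 G V) (hF : Fr G V) {e : G} (h1 : e ≠ 1) (he : e * e = 1) :
    IsElementaryAbelian 2 (Ax V e) :=
  ⟨⟨⟨fun a b => Subtype.ext (Ax_comm h hF h1 he a.2 b.2)⟩⟩,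
    fun a ha => by rw [sq]; exact Ax_sq h hF h1 he ha⟩

/-- same range -/
theorem Ax_mul_left (h : Sr 2 G V) (hF : Fr G V) {e g : G} (h1 : e ≠ 1) (he : e * e = 1)
    (hg : g ∈ Ax V e) (hg1 : g ≠ 1) (T : AddMonoid.End V) : T * n V g = 0 ↔ T * n V e = 0 := by
  have g2 := Ax_sq h hF h1 he hg
  have k := fix_iff h hF h1 he hg hg1 g2
  refine ⟨fun r => AddMonoidHom.ext fun w => ?_, fun r => AddMonoidHom.ext fun w => ?_⟩
  · obtain ⟨u, hu⟩ := hF g hg1 g2 _ (sub_eq_zero.2 ((k _).2 (axb_n h he w)))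
    exact (congrArg T hu.symm).trans (DFunLike.congr_fun r u)
  · obtain ⟨u, hu⟩ := hF e h1 he _ (sub_eq_zero.2 ((k _).1 (axb_n h g2 w)))
    exact (congrArg T hu.symm).trans (DFunLike.congr_fun r u)

/-- same kernel -/
theorem Ax_mul_right (h : Sr 2 G V) (hF : Fr G V) {e g : G} (h1 : e ≠ 1) (he : e * e = 1)
    (hg : g ∈ Ax V e) (hg1 : g ≠ 1) (T : AddMonoid.End V) : n V g * T = 0 ↔ n V e * T = 0 := by
  have k := fix_iff h hF h1 he hg hg1 (Ax_sq h hF h1 he hg)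
  exact ⟨fun r => AddMonoidHom.ext fun w =>
      sub_eq_zero.2 ((k _).1 (sub_eq_zero.1 (DFunLike.congr_fun r w))),
    fun r => AddMonoidHom.ext fun w =>
      sub_eq_zero.2 ((k _).2 (sub_eq_zero.1 (DFunLike.congr_fun r w)))⟩

theorem conj_mem_Ax {e g : G} (k : G) : k * g * k⁻¹ ∈ Ax V (k * e * k⁻¹) ↔ g ∈ Ax V e := by
  have e1 : ρ V k⁻¹ * ρ V k = 1 := by rw [← map_mul, inv_mul_cancel, map_one]
  have e2 : n V (k * g * k⁻¹) * n V (k * e * k⁻¹) = ρ V k * (n V g * n V e * ρ V k⁻¹) := by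
    rw [n_conj, n_conj]
    calc _ = ρ V k * n V g * (ρ V k⁻¹ * ρ V k) * n V e * ρ V k⁻¹ := by simp only [mul_assoc]
      _ = _ := by rw [e1]; simp only [mul_assoc, one_mul]
  rw [mem_Ax, mem_Ax, e2, ((Group.isUnit k).map (ρ V)).mul_right_eq_zero,
    ((Group.isUnit k⁻¹).map (ρ V)).mul_left_eq_zero]

theorem Ax_conj (e k : G) : Ax V (k * e * k⁻¹) = (Ax V e).map (MulAut.conj k).toMonoidHom := by
  ext x
  constructor
  · intro hx
    exact ⟨k⁻¹ * x * k, (conj_mem_Ax k).1 (by simpa [mul_assoc] using hx), by simp [mul_assoc]⟩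
  · rintro ⟨y, hy, rfl⟩
    exact (conj_mem_Ax k).2 hy

/-- if `k g k⁻¹ ∈ Ax e` for one `1 ≠ g ∈ Ax e` then `k` normalises `Ax e` -/
theorem Ax_norm (h : Sr 2 G V) (hF : Fr G V) {e g k f : G} (h1 : e ≠ 1) (he : e * e = 1)
    (hg : g ∈ Ax V e) (hg1 : g ≠ 1) (hk : k * g * k⁻¹ ∈ Ax V e) (hf : f ∈ Ax V e) :
    k * f * k⁻¹ ∈ Ax V e := by
  rw [← Ax_eq h hF h1 he hk fun r => hg1 (conj_eq_one_iff.1 r), conj_mem_Ax, Ax_eq h hF h1 he hg hg1]
  exact hf

/-- TI -/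
theorem Ax_ti (h : Sr 2 G V) (hF : Fr G V) {e e' g : G} (h1 : e ≠ 1) (he : e * e = 1)
    (h1' : e' ≠ 1) (he' : e' * e' = 1) (hne : Ax V e' ≠ Ax V e) (hg : g ∈ Ax V e) (hg' : g ∈ Ax V e') :
    g = 1 := by
  by_contra r
  exact hne ((Ax_eq h hF h1' he' hg' r).symm.trans (Ax_eq h hF h1 he hg r))

end Cfsg.Agent.Gag
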