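import Cfsg.Agent.Gag.Def
import Cfsg.Agent.Gag.AxB

set_option autoImplicit false
set_option linter.unusedSectionVars false
open Matrix MatrixGroups Cfsg.Agent.Perm.Fpf Cfsg.Agent.PLocal

namespace Cfsg.Agent.Gag

universe u v
variable {p : ℕ} {G : Type u} {V : Type v} [Group G] [Finite G] [AddCommGroup V] [Finite V] [DistribMulAction G V]

theorem ant_flip {x : G} {N : AddMonoid.End V} (ha : N * ρ V x = ρ V x⁻¹ * N) :
    ρ V x * N = N * ρ V x⁻¹ := by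
  calc ρ V x * N = ρ V x * (N * ρ V x) * ρ V x⁻¹ := by
        rw [mul_assoc, mul_assoc, ← map_mul, mul_inv_cancel, map_one, mul_one]
    _ = _ := by rw [ha, ← mul_assoc, ← map_mul, mul_inv_cancel, map_one, one_mul]

theorem ant_sq {x : G} {N : AddMonoid.End V} (ha : N * ρ V x = ρ V x⁻¹ * N) :
    ρ V (x * x) * N = N * ρ V (x * x)⁻¹ := by
  rw [_root_.mul_inv_rev, map_mul, map_mul, mul_assoc, ant_flip ha, ← mul_assoc, ant_flip ha, mul_assoc]

theorem ant_conj {x e : G} (ha : n V e * ρ V x = ρ V x⁻¹ * n V e) :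
    n V (x * e * x⁻¹) = ρ V (x * x) * n V e := by
  rw [n_conj, mul_assoc, ← ant_flip ha, map_mul, mul_assoc]

theorem ant_half {x : G} (hx : Odd (orderOf x)) : ∃ m : ℕ, (x * x) ^ m = x := by
  obtain ⟨k, hk⟩ := hx
  refine ⟨k + 1, ?_⟩
  rw [← pow_two, ← pow_mul, mul_add, mul_one, pow_succ, ← hk, pow_orderOf_eq_one, one_mul]

theorem ant_pow {u : G} {A B N : AddMonoid.End V} {w : G} (hu : ρ V w * N = N * ρ V w⁻¹)
    (h0 : A * N = B * N) (h1 : ∀ T : AddMonoid.End V, T * ρ V u * A * N = T * A * ρ V w * N) (m : ℕ) :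
    ρ V (u ^ m) * A * N = B * ρ V (w ^ m) * N := by
  induction m with
  | zero => simpa using h0
  | succ m ih =>
    rw [pow_succ, map_mul, h1, mul_assoc _ (ρ V w), hu, ← mul_assoc, ih, mul_assoc, ← hu, pow_succ,
      map_mul]
    simp only [mul_assoc]

/-- `y = b x b⁻¹` acts on `Ax e` as `x` does and `n e y = y⁻¹ n e`. From
`n (x e x⁻¹) = ρ x ρ x n e = ρ y ρ y n e` and odd order (`x = (x²)^m`, `y = (y²)^m`; by induction
`ρ (x²)^m n e = ρ (y²)^m n e`, using `ρ x² n e = n e ρ x⁻²`) get `ρ x n e = ρ y n e`: `x⁻¹ y ∈ Ax e`. -/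
theorem ant_mem (h : Sr 2 G V) (hF : Fr G V) {e x b : G} (h1 : e ≠ 1) (he : e * e = 1)
    (hx : Odd (orderOf x)) (ha : n V e * ρ V x = ρ V x⁻¹ * n V e) (hxe : x * e * x⁻¹ ∈ Ax V e)
    (hb : ∀ f ∈ Ax V e, Commute f b) : x⁻¹ * (b * x * b⁻¹) ∈ Ax V e := by
  have be : b * e * b⁻¹ = e := (hb e (self_mem_Ax h he)).symm.mul_inv_cancel
  have bf : b * (x * e * x⁻¹) * b⁻¹ = x * e * x⁻¹ := (hb _ hxe).symm.mul_inv_cancel
  have i1 : ρ V b⁻¹ * ρ V b = 1 := by rw [← map_mul, inv_mul_cancel, map_one]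
  have hy : n V e * ρ V (b * x * b⁻¹) = ρ V (b * x * b⁻¹)⁻¹ * n V e := by
    conv_lhs => rw [← be, n_conj]
    conv_rhs => rw [← be, n_conj, conj_inv]
    simp only [map_mul, mul_assoc]
    rw [← mul_assoc (ρ V b⁻¹), ← mul_assoc (ρ V b⁻¹), i1, one_mul, one_mul, ← mul_assoc (n V e), ha,
      mul_assoc]
  have e1 : ρ V (x * x) * n V e = ρ V (b * x * b⁻¹ * (b * x * b⁻¹)) * n V e := by
    rw [← ant_conj ha, ← ant_conj hy, ← bf]
    congr 1
    conv_rhs => rw [← be]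
    group
  obtain ⟨m, hm⟩ := ant_half hx
  have e2 := ant_pow (u := x * x) (A := 1) (B := 1) (ant_sq hy) rfl
    (fun T => by rw [mul_one, mul_one, mul_assoc T, e1, mul_assoc T]) m
  rw [mul_one, one_mul, hm, conj_mul, conj_pow, hm] at e2
  show ρ V _ * n V e = n V e
  rw [map_mul, mul_assoc, ← e2, ← mul_assoc, ← map_mul, inv_mul_cancel, map_one, one_mul]

/-- `b x = x g b` with `g ∈ Ax e` and `n e ρ g = n e` (`Ax_quad`), so `n e ρ b` is antilinear; subtract `ha`. -/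
theorem ant_mul (h : Sr 2 G V) (hF : Fr G V) {e x b : G} (h1 : e ≠ 1) (he : e * e = 1)
    (hx : Odd (orderOf x)) (ha : n V e * ρ V x = ρ V x⁻¹ * n V e) (hxe : x * e * x⁻¹ ∈ Ax V e)
    (hb : ∀ f ∈ Ax V e, Commute f b) : n V e * n V b * ρ V x = ρ V x⁻¹ * (n V e * n V b) := by
  have hg := ant_mem h hF h1 he hx ha hxe hb
  have e1 : n V e * ρ V (x⁻¹ * (b * x * b⁻¹)) = n V e := by
    rw [ρ_eq, mul_add, Ax_quad h hF h1 he (self_mem_Ax h he) hg, mul_one, zero_add]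
  have e2 : n V e * ρ V b * ρ V x = ρ V x⁻¹ * (n V e * ρ V b) := by
    rw [mul_assoc, ← map_mul, show b * x = x * (x⁻¹ * (b * x * b⁻¹)) * b by group, map_mul, map_mul,
      ← mul_assoc, ← mul_assoc, ha, mul_assoc (ρ V x⁻¹), e1, mul_assoc]
  rw [show n V b = ρ V b - 1 from rfl, mul_sub, sub_mul, mul_sub, mul_one, e2, ha]

/-- `π = n e n e'`. `n (x e x⁻¹) n e' = ρ x ρ x π` and `π` are both `x'`-antilinear (`ant_mul` for
`e', x'` with `b = x e x⁻¹`, `b = e`; `n_comm`), so `x²` commutes with `x'⁻¹` on `range π`; `range π` is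
`x`- and `x'`-invariant (`ρ x π = π ρ x⁻¹`), `x` is a power of `x²`. -/
theorem ant_comm (h : Sr 2 G V) (hF : Fr G V) {e e' x x' : G} (h1 : e ≠ 1) (he : e * e = 1)
    (h1' : e' ≠ 1) (he' : e' * e' = 1) (hx : Odd (orderOf x)) (hx' : Odd (orderOf x'))
    (ha : n V e * ρ V x = ρ V x⁻¹ * n V e) (ha' : n V e' * ρ V x' = ρ V x'⁻¹ * n V e')
    (hxe : x * e * x⁻¹ ∈ Ax V e) (hxe' : x' * e' * x'⁻¹ ∈ Ax V e')
    (hc : ∀ f ∈ Ax V e, ∀ f' ∈ Ax V e', Commute f f') :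
    ρ V x * ρ V x' * (n V e * n V e') = ρ V x' * ρ V x * (n V e * n V e') := by
  have s1 := self_mem_Ax h he
  have s2 := self_mem_Ax h he'
  have c0 : n V e' * n V e = n V e * n V e' := (n_comm (hc e s1 e' s2)).symm
  have p0 := ant_mul h hF h1 he hx ha hxe fun f hf => hc f hf e' s2
  have p1 := ant_mul h hF h1' he' hx' ha' hxe' fun f hf => (hc e s1 f hf).symm
  have p2 := ant_mul h hF h1' he' hx' ha' hxe' fun f hf => (hc _ hxe f hf).symm
  rw [← (n_comm (hc _ hxe e' s2)).eq, ant_conj ha, mul_assoc (ρ V (x * x))] at p2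
  rw [c0] at p1
  generalize n V e * n V e' = π at p0 p1 p2 ⊢
  obtain ⟨m, hm⟩ := ant_half hx
  have e2 := ant_pow (u := x * x) (A := ρ V x'⁻¹) (B := ρ V x'⁻¹) (ant_sq p0) rfl
    (fun T => by simp only [mul_assoc]; rw [← p1, ← p2, mul_assoc]) m
  rw [hm] at e2
  calc ρ V x * ρ V x' * π = ρ V x' * (ρ V x'⁻¹ * ρ V x * π) * ρ V x'⁻¹ := by
        rw [mul_assoc, ant_flip p1, ← mul_assoc, ← mul_assoc, ← mul_assoc, ← map_mul, mul_inv_cancel,
          map_one, one_mul]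
    _ = _ := by
        rw [← e2, mul_assoc (ρ V x), ← p1]
        simp only [mul_assoc]
        rw [← map_mul, mul_inv_cancel, map_one, mul_one]

end Cfsg.Agent.Gag
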