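import Cfsg.Agent.Gag.Def
import Cfsg.Agent.Gag.AxB
import Cfsg.Agent.Gag.Bas2

set_option autoImplicit false
set_option linter.unusedSectionVars false
open Matrix MatrixGroups Cfsg.Agent.Perm.Fpf Cfsg.Agent.PLocal

namespace Cfsg.Agent.Gag

universe u v
variable {p : ℕ} {G : Type u} {V : Type v} [Group G] [Finite G] [AddCommGroup V] [Finite V] [DistribMulAction G V]

/-- `|C_V(t')| = 2^m` for all involutions (`card_ker_sq`, `card_V`). Count pairs `(t', v)`, `t'` conjugate to `t`, `v ≠ 0`,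
`t' v = v`: `|t^G| (2^m - 1) = (2^(2m) - 1) c`, `c = |t^G ∩ G_v|` independent of `v` (the `G_v` are Sylow, so conjugate).
So `2^m + 1 ∣ |t^G| ∣ |G|`. -/
theorem ar1 (h : Sr 2 G V) (hs : Sy 2 G V) (hF : Fr G V) {t : G} (h1 : t ≠ 1) (ht : t * t = 1) :
    ∃ m, 0 < m ∧ Nat.card V = 2 ^ (2 * m) ∧ 2 ^ m + 1 ∣ Nat.card G := by
  classical
  haveI := Fact.mk Nat.prime_two
  haveI := Fintype.ofFinite G
  haveI := Fintype.ofFinite V
  obtain ⟨M, hM0, hM⟩ := h.card_V
  have hq := card_ker_sq h hF h1 ht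
  obtain ⟨m, -, hm⟩ := (Nat.dvd_prime_pow Nat.prime_two).1
    (show Nat.card {v : V // t • v = v} ∣ 2 ^ M by
      rw [← hM, ← hq]; exact dvd_pow_self _ two_ne_zero)
  have hV : Nat.card V = 2 ^ (2 * m) := by rw [← hq, hm, ← pow_mul, mul_comm]
  have hm0 : 0 < m := by
    have e : 2 ^ M = 2 ^ (2 * m) := hM.symm.trans hV
    have := Nat.pow_right_injective (le_refl 2) e
    omega
  refine ⟨m, hm0, hV, ?_⟩
  obtain ⟨P0⟩ : Nonempty (Sylow 2 G) := inferInstance
  have key := Finset.card_mul_eq_card_mul (s := (Finset.univ : Finset G))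
    (t := (Finset.univ : Finset V).erase 0) (fun g v => (g * t * g⁻¹) • v = v) (m := 2 ^ m - 1)
    (n := (Finset.univ.filter fun g : G => g * t * g⁻¹ ∈ (P0 : Subgroup G)).card)
    (fun g _ => by
      have g1 : g * t * g⁻¹ ≠ 1 := fun e => h1 (by simpa using e)
      have g2 : g * t * g⁻¹ * (g * t * g⁻¹) = 1 := by
        rw [conj_mul, ht, mul_one, mul_inv_cancel]
      have e1 : Nat.card {v : V // (g * t * g⁻¹) • v = v} = 2 ^ m := by
        rw [← hm]
        exact Nat.pow_left_injective two_ne_zero ((card_ker_sq h hF g1 g2).trans hq.symm)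
      rw [← e1, Finset.bipartiteAbove, Finset.filter_erase, Finset.card_erase_of_mem (by simp),
        Nat.card_eq_fintype_card, Fintype.card_subtype])
    (fun v hv => by
      have hv0 : v ≠ 0 := (Finset.mem_erase.1 hv).1
      obtain ⟨P, hP⟩ := Sy.exists_sylow h hs hv0
      obtain ⟨k, rfl⟩ := MulAction.exists_smul_eq G P0 P
      rw [Finset.bipartiteBelow]
      refine Finset.card_equiv (Equiv.mulLeft k⁻¹) fun g => ?_
      simp only [Finset.mem_filter, Finset.mem_univ, true_and, Equiv.coe_mulLeft]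
      rw [← MulAction.mem_stabilizer_iff, ← hP, Sylow.coe_subgroup_smul,
        Subgroup.mem_pointwise_smul_iff_inv_smul_mem]
      simp [mul_assoc])
  rw [Finset.card_erase_of_mem (Finset.mem_univ _), Finset.card_univ, Finset.card_univ,
    ← Nat.card_eq_fintype_card, ← Nat.card_eq_fintype_card, hV] at key
  have e : 2 ^ (2 * m) - 1 = (2 ^ m + 1) * (2 ^ m - 1) := by
    rw [mul_comm 2 m, pow_mul, ← Nat.sq_sub_sq, one_pow]
  have hpos : 0 < 2 ^ m - 1 := by
    have := Nat.one_lt_two_pow hm0.ne'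
    omega
  rw [e, mul_right_comm] at key
  exact ⟨_, Nat.eq_of_mul_eq_mul_right hpos key⟩

end Cfsg.Agent.Gag
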