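import Cfsg.Agent.Gag.Def
import Cfsg.Agent.Gag.AxB

set_option autoImplicit false
set_option linter.unusedSectionVars false
open Matrix MatrixGroups Cfsg.Agent.Perm.Fpf Cfsg.Agent.PLocal

namespace Cfsg.Agent.Gag

universe u v
variable {p : ℕ} {G : Type u} {V : Type v} [Group G] [Finite G] [AddCommGroup V] [Finite V] [DistribMulAction G V]

/-- The hypothesis of `S1179`. `E = Ax e`, `E' = Ax (g e g⁻¹) ≤ C(a)`; suppose `E' ≠ E` (so `E ⊓ E' = 1`,
`Ax_ti`). `E'` normalises `E` (`Ax_norm`). For `1 ≠ e' ∈ E'`, an `f ∈ E` commuting with `e'` normalises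
`E'`, so `⁅f, E'⁆ ≤ E ⊓ E' = 1`: `C := C_E(e') = C_E(E')` for all `e' ≠ 1`. For `f ∈ E`, `⁅f, e'⁆ ∈ E`
commutes with the involution `e'` (`E` elementary abelian), so lies in `C`. If `f ∈ E \ C` then
`e' ↦ ⁅f, e'⁆` is an injective map (a homomorphism with trivial kernel) `E' → C`, and
`|E'| = |E| > |C|`, absurd. So `E'` centralises `E` and `hw g` gives `E' = E`. -/
theorem wc_hyp (h : Sr 2 G V) (hF : Fr G V) {e : G} (h1 : e ≠ 1) (he : e * e = 1) (hw : Wc V e) :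
    ∀ a ∈ Ax V e, a ≠ 1 → ∀ g : G,
      (Ax V e).map (MulAut.conj g).toMonoidHom ≤ Subgroup.centralizer ({a} : Set G) →
      (Ax V e).map (MulAut.conj g).toMonoidHom = Ax V e := by
  intro a ha a1 g hc
  have hcard : Nat.card (Ax V (g * e * g⁻¹)) = Nat.card (Ax V e) := by
    rw [Ax_conj]
    exact Subgroup.card_map_of_injective (MulAut.conj g).injective
  rw [← Ax_conj] at hc ⊢
  have hw' := hw g
  have h1' : g * e * g⁻¹ ≠ 1 := fun e0 => h1 (by simpa [mul_inv_eq_iff_eq_mul] using e0)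
  have he' : g * e * g⁻¹ * (g * e * g⁻¹) = 1 := by
    rw [show g * e * g⁻¹ * (g * e * g⁻¹) = g * (e * e) * g⁻¹ by group, he]
    group
  generalize g * e * g⁻¹ = e' at *
  by_contra hne
  have N1 : ∀ k ∈ Ax V e', ∀ f ∈ Ax V e, k * f * k⁻¹ ∈ Ax V e := fun k hk f hf =>
    Ax_norm h hF h1 he ha a1 (by
      rwa [Subgroup.mem_centralizer_singleton_iff.1 (hc hk), mul_inv_cancel_right]) hf
  have N0 : ∀ y ∈ Ax V e', ∀ f ∈ Ax V e, f * y * f⁻¹ * y⁻¹ ∈ Ax V e := fun y hy f hf => by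
    have := mul_mem hf (N1 y hy f⁻¹ (inv_mem hf))
    simpa only [mul_assoc] using this
  have N2 : ∀ x ∈ Ax V e', x ≠ 1 → ∀ f ∈ Ax V e, Commute f x → ∀ y ∈ Ax V e', Commute f y := by
    intro x hx x1 f hf c y hy
    have k1 := Ax_norm h hF h1' he' hx x1 (k := f) (by rwa [c.eq, mul_inv_cancel_right]) hy
    have k2 := Ax_ti h hF h1 he h1' he' hne (N0 y hy f hf) (mul_mem k1 (inv_mem hy))
    rwa [mul_inv_eq_one, mul_inv_eq_iff_eq_mul] at k2
  refine hne (hw' fun f hf f' hf' => ?_)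
  by_contra hn
  have N3 : ∀ x ∈ Ax V e', f * x * f⁻¹ * x⁻¹ ∈
      Ax V e ⊓ Subgroup.centralizer (Ax V e' : Set G) := by
    intro x hx
    refine ⟨N0 x hx f hf, Subgroup.mem_centralizer_iff.2 fun y hy => ?_⟩
    by_cases x1 : x = 1
    · simp [x1]
    refine (N2 x hx x1 _ (N0 x hx f hf) ?_ y hy).symm.eq
    have k := (Ax_comm h hF h1 he hf (N1 x hx f hf)).eq
    have ix : x⁻¹ = x := inv_eq_of_mul_eq_one_right (Ax_sq h hF h1' he' hx)
    have if' : f⁻¹ = f := inv_eq_of_mul_eq_one_right (Ax_sq h hF h1 he hf)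
    rw [ix] at k
    rw [ix, if']
    calc f * x * f * x * x = f * (x * f * x) * x := by simp only [mul_assoc]
      _ = x * f * x * f * x := by rw [k]
      _ = x * (f * x * f * x) := by simp only [mul_assoc]
  have c1 : Nat.card (Ax V e') ≤
      Nat.card (Ax V e ⊓ Subgroup.centralizer (Ax V e' : Set G) : Subgroup G) := by
    refine Nat.card_le_card_of_injective (fun y : Ax V e' => (⟨_, N3 y y.2⟩ :
      (Ax V e ⊓ Subgroup.centralizer (Ax V e' : Set G) : Subgroup G))) fun y z e0 => ?_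
    have e1 : f * y * f⁻¹ * (y : G)⁻¹ = f * z * f⁻¹ * (z : G)⁻¹ := congrArg Subtype.val e0
    by_contra hyz
    refine hn (N2 ((z : G)⁻¹ * y) (mul_mem (inv_mem z.2) y.2)
      (fun e2 => hyz (Subtype.ext (inv_mul_eq_one.1 e2).symm)) f hf ?_ f' hf')
    refine Commute.inv_left_iff.1 ?_
    calc f⁻¹ * ((z : G)⁻¹ * y) = (z : G)⁻¹ * f⁻¹ * (f * z * f⁻¹ * (z : G)⁻¹) * y := by group
      _ = (z : G)⁻¹ * f⁻¹ * (f * y * f⁻¹ * (y : G)⁻¹) * y := by rw [e1]
      _ = (z : G)⁻¹ * y * f⁻¹ := by group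
  have c2 := Subgroup.eq_of_le_of_card_ge
    (inf_le_left : Ax V e ⊓ Subgroup.centralizer (Ax V e' : Set G) ≤ _) (hcard ▸ c1)
  exact hn (Subgroup.mem_centralizer_iff.1 (c2.ge hf).2 f' hf').symm

end Cfsg.Agent.Gag
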