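import Cfsg.Agent.Gag.Def
import Cfsg.Agent.Gag.AxB

set_option autoImplicit false
set_option linter.unusedSectionVars false
open Matrix MatrixGroups Cfsg.Agent.Perm.Fpf Cfsg.Agent.PLocal.SL2Nat

namespace Cfsg.Agent.Gag

universe u v
variable {p : ℕ} {G : Type u} {V : Type v} [Group G] [Finite G] [AddCommGroup V] [Finite V] [DistribMulAction G V]

/-! `φ : SL(2, F) →* G` injective, `|F| ≥ 8`, char 2. Use `PLocal/SL2Fpf3` for `ρ' = (ρ V).comp φ`
(`h3` from `Sr.cube`: a `Tr1` element has order 3; `h2 = Sr.two`). `N = n (φ (uu 1))`, `w = φ (nn 1)`,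
`N w + w N = 1` (`nil_W`), `σ = scal`. -/
variable {F : Type*} [Field F] [Finite F] [CharP F 2]

section ring
variable {R : Type*} [Ring R] (r : SL(2, F) →* R) (h3 : ∀ g, Tr1 g → r g * r g + r g + 1 = 0)
  (h2 : (2 : R) = 0)

theorem b1_def (a : F) : scal r h3 h2 a =
    (r (uu a) - 1) * r (nn 1 one_ne_zero) + r (nn 1 one_ne_zero) * (r (uu a) - 1) := rfl

theorem b1_mulN (a b : F) : scal r h3 h2 a * (r (uu b) - 1) = r (uu (a * b)) - 1 := by
  rw [b1_def, add_mul, nil_W_nil r h3 h2, mul_assoc, nil_mul_nil r h3 h2, mul_zero, add_zero]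

theorem b1_Nmul (a b : F) : (r (uu b) - 1) * scal r h3 h2 a = r (uu (a * b)) - 1 := by
  rw [b1_def, mul_add, ← mul_assoc, ← mul_assoc, nil_W_nil r h3 h2, nil_mul_nil r h3 h2, zero_mul,
    zero_add, mul_comm a b]

theorem b1_W (a : F) : Commute (scal r h3 h2 a) (r (nn 1 one_ne_zero)) := by
  have e3 : r (nn 1 one_ne_zero) * r (nn 1 one_ne_zero) = 1 := by rw [← map_mul, nn_sq, map_one]
  change _ * _ = _ * _
  rw [b1_def, add_mul, mul_add, mul_assoc, e3, ← mul_assoc, ← mul_assoc, e3, mul_one, one_mul, add_comm]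

theorem b1_comm (a : F) (g : SL(2, F)) : Commute (scal r h3 h2 a) (r g) := by
  have hu : ∀ b, Commute (scal r h3 h2 a) (r (uu b)) := fun b => by
    have e : Commute (scal r h3 h2 a) (r (uu b) - 1) :=
      (b1_mulN r h3 h2 a b).trans (b1_Nmul r h3 h2 a b).symm
    simpa using e.add_right (Commute.one_right _)
  refine uu_ll_induction (fun g => Commute (scal r h3 h2 a) (r g)) hu (fun b => ?_)
    (fun g k e1 e2 => ?_) g
  · rw [ll_eq, map_mul, map_mul]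
    exact ((b1_W r h3 h2 a).mul_right (hu b)).mul_right (b1_W r h3 h2 a)
  · rw [map_mul]
    exact e1.mul_right e2

theorem b1_hh (t : F) (ht : t ≠ 0) : r (hh t ht) =
    scal r h3 h2 t * ((r (uu 1) - 1) * r (nn 1 one_ne_zero)) +
      scal r h3 h2 t⁻¹ * (r (nn 1 one_ne_zero) * (r (uu 1) - 1)) := by
  have e1 : hh t ht * nn 1 one_ne_zero = nn 1 one_ne_zero * hh t⁻¹ (inv_ne_zero ht) := by
    simp only [nn_mul_hh, hh_mul_nn, inv_inv, mul_comm]
  rw [← mul_assoc, ← mul_assoc, (b1_W r h3 h2 t⁻¹).eq, mul_assoc, mul_assoc, ← mul_assoc, b1_mulN,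
    b1_mulN, mul_one, mul_one, nil_eq r h3 h2 ht, nil_eq r h3 h2 (inv_ne_zero ht), ← mul_assoc,
    ← map_mul, ← e1, map_mul, mul_assoc, mul_assoc, ← mul_add, nil_W r h3 h2, mul_one]

end ring

theorem b1_h3 (h : Sr 2 G V) (φ : SL(2, F) →* G) (hφ : Function.Injective φ) :
    ∀ g, Tr1 g → (ρ V).comp φ g * (ρ V).comp φ g + (ρ V).comp φ g + 1 = 0 := fun g hg => by
  refine h.cube (by norm_num) ?_
  rw [orderOf_injective φ hφ]
  haveI : Fact (Nat.Prime 3) := ⟨by norm_num⟩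
  refine orderOf_eq_prime (by rw [pow_three, hg.cube]) ?_
  rintro rfl
  simp [Tr1] at hg

/-- `T = T (N w + w N) = (T N) w + w (T N) = 0` -/
theorem b1_zero (h : Sr 2 G V) (φ : SL(2, F) →* G) (hφ : Function.Injective φ) (h8 : 8 ≤ Nat.card F)
    {T : AddMonoid.End V} (hT : ∀ g, Commute T (ρ V (φ g))) (h0 : T * n V (φ (uu 1)) = 0) : T = 0 := by
  have e : n V (φ (uu 1)) * ρ V (φ (nn 1 one_ne_zero)) + ρ V (φ (nn 1 one_ne_zero)) * n V (φ (uu 1)) = 1 :=
    nil_W ((ρ V).comp φ) (b1_h3 h φ hφ) h.two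
  rw [← mul_one T, ← e, mul_add, ← mul_assoc, ← mul_assoc, (hT _).eq, mul_assoc _ T, h0]
  simp

/-- the scalars: `σ a = N_a w + w N_a` (`scal`; prove the commutation with `uu`, `nn`, which generate, or
find it in `SL2Fpf3`); it commutes with whatever commutes with the image of `φ`. -/
theorem b1_scal (h : Sr 2 G V) (φ : SL(2, F) →* G) (hφ : Function.Injective φ) (h8 : 8 ≤ Nat.card F) :
    ∃ σ : F →+* AddMonoid.End V, (∀ a g, Commute (σ a) (ρ V (φ g))) ∧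
      (∀ a, n V (φ (uu a)) = σ a * n V (φ (uu 1))) ∧
      (∀ T : AddMonoid.End V, (∀ g, Commute T (ρ V (φ g))) → ∀ a, Commute T (σ a)) ∧
      (∀ t ht, ρ V (φ (hh t ht)) = σ t * (n V (φ (uu 1)) * ρ V (φ (nn 1 one_ne_zero))) +
        σ t⁻¹ * (ρ V (φ (nn 1 one_ne_zero)) * n V (φ (uu 1)))) := by
  refine ⟨scal ((ρ V).comp φ) (b1_h3 h φ hφ) h.two,
    b1_comm ((ρ V).comp φ) (b1_h3 h φ hφ) h.two, fun a => ?_, fun T hT a => ?_,
    b1_hh ((ρ V).comp φ) (b1_h3 h φ hφ) h.two⟩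
  · have e := b1_mulN ((ρ V).comp φ) (b1_h3 h φ hφ) h.two a 1
    rw [mul_one] at e
    exact e.symm
  · have e : Commute T ((ρ V).comp φ (uu a) - 1) := (hT _).sub_right (Commute.one_right _)
    rw [b1_def]
    exact (e.mul_right (hT _)).add_right ((hT _).mul_right e)

/-- antilinearity (`nil_hh`), and `hh t` normalises the axis group (`hh t uu 1 hh t⁻¹ = uu (t²)`, `nil_mul_nil`) -/
theorem b1_anti (h : Sr 2 G V) (φ : SL(2, F) →* G) (hφ : Function.Injective φ) (h8 : 8 ≤ Nat.card F)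
    (a t : F) (ht : t ≠ 0) :
    n V (φ (uu a)) * ρ V (φ (hh t ht)) = ρ V (φ (hh t ht))⁻¹ * n V (φ (uu a)) ∧
      φ (uu a) ∈ Ax V (φ (uu 1)) ∧ φ (hh t ht) * φ (uu a) * (φ (hh t ht))⁻¹ ∈ Ax V (φ (uu 1)) ∧
      Odd (orderOf (φ (hh t ht))) ∧ φ (uu 1) ≠ 1 ∧ φ (uu 1) * φ (uu 1) = 1 := by
  have hA : ∀ b : F, φ (uu b) ∈ Ax V (φ (uu 1)) := fun b =>
    mem_Ax.2 (nil_mul_nil ((ρ V).comp φ) (b1_h3 h φ hφ) h.two b 1)
  refine ⟨?_, hA a, ?_, ?_, fun e => ?_, ?_⟩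
  · rw [← map_inv]
    exact nil_hh ((ρ V).comp φ) (b1_h3 h φ hφ) h.two a ht
  · rw [← map_mul, hh_mul_uu, map_mul, mul_inv_cancel_right]
    exact hA _
  · let f : Fˣ →* SL(2, F) := MonoidHom.mk' (fun u => hh (u : F) u.ne_zero)
      fun u w => (hh_mul_hh _ _ _ _).symm
    have e : orderOf (φ (hh t ht)) ∣ Nat.card Fˣ :=
      (orderOf_map_dvd (φ.comp f) (Units.mk0 t ht)).trans (orderOf_dvd_natCard _)
    refine Odd.of_dvd_nat ?_ e
    haveI := Fintype.ofFinite F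
    obtain ⟨m, -, hm⟩ := FiniteField.card F 2
    rw [Nat.card_units, Nat.card_eq_fintype_card, hm]
    exact Nat.Even.sub_odd Nat.one_le_two_pow (Nat.even_pow.2 ⟨even_two, m.ne_zero⟩) odd_one
  · exact one_ne_zero (uu_eq_one_iff.1 (hφ (e.trans (map_one φ).symm)))
  · rw [← map_mul, ← uu_add, CharTwo.add_self_eq_zero, uu_zero, map_one]

end Cfsg.Agent.Gag
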