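import Cfsg.Agent.Gag.Def
import Cfsg.Agent.Gag.B1

set_option autoImplicit false
set_option linter.unusedSectionVars false
open Matrix MatrixGroups Cfsg.Agent.Perm.Fpf Cfsg.Agent.PLocal.SL2Nat

namespace Cfsg.Agent.Gag

universe u v
variable {p : ℕ} {G : Type u} {V : Type v} [Group G] [Finite G] [AddCommGroup V] [Finite V] [DistribMulAction G V]

variable {F : Type*} [Field F] [Finite F] [CharP F 2]

/-- the image of `t ↦ t + t⁻¹` has at least `|F|/2` elements (fibres `{t, t⁻¹}`), a proper subfield has at most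
`√|F| < |F|/2` elements -/
theorem b1c_gen (h8 : 8 ≤ Nat.card F) (K : Subring F) (hK : ∀ t : F, t ≠ 0 → t + t⁻¹ ∈ K) : K = ⊤ := by
  classical
  by_contra hne
  obtain ⟨x, hx⟩ : ∃ x, x ∉ K := by
    by_contra hc
    push Not at hc
    exact hne (eq_top_iff.2 fun x _ => hc x)
  letI := Fintype.ofFinite F
  have h2 : (2 : F) = 0 := CharTwo.two_eq_zero
  have hq : 8 ≤ Fintype.card F := by rwa [Nat.card_eq_fintype_card] at h8
  have hinv : ∀ a ∈ K, a⁻¹ ∈ K := fun a ha => by
    by_cases h0 : a = 0
    · rw [h0, _root_.inv_zero]; exact zero_mem _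
    have e : a * a ^ (Fintype.card F - 2) = 1 := by
      rw [← pow_succ', show Fintype.card F - 2 + 1 = Fintype.card F - 1 by omega]
      exact FiniteField.pow_card_sub_one_eq_one a h0
    rw [inv_eq_of_mul_eq_one_right e]
    exact pow_mem ha _
  have hinj : Function.Injective fun z : K × K => (z.1 : F) + z.2 * x := by
    rintro ⟨a, b⟩ ⟨a', b'⟩ e
    simp only at e
    by_cases hb : (b : F) - b' = 0
    · have hb' : (b : F) = b' := sub_eq_zero.1 hb
      rw [hb', add_left_inj] at e
      exact Prod.ext (Subtype.ext e) (Subtype.ext hb')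
    · refine absurd ?_ hx
      have : x = ((b : F) - b')⁻¹ * (a' - a) := by
        rw [eq_inv_mul_iff_mul_eq₀ hb]
        linear_combination e
      rw [this]
      exact mul_mem (hinv _ (sub_mem b.2 b'.2)) (sub_mem a'.2 a.2)
  have c1 : Nat.card K * Nat.card K ≤ Nat.card F := by
    rw [← Nat.card_prod]
    exact Nat.card_le_card_of_injective _ hinj
  have c2 : Nat.card F ≤ 2 * Nat.card K := by
    have := Finset.card_le_mul_card_image_of_maps_to (f := fun t : F => t + t⁻¹) (s := Finset.univ)
      (t := Finset.univ.filter (· ∈ K)) (fun t _ => by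
        rw [Finset.mem_filter]
        refine ⟨Finset.mem_univ _, ?_⟩
        by_cases h0 : t = 0
        · rw [h0, _root_.inv_zero, add_zero]; exact zero_mem _
        · exact hK t h0) 2 (fun y _ => by
        by_cases hy : y = 0
        · refine le_trans (Finset.card_le_card (t := {0, 1}) fun t ht => ?_) Finset.card_le_two
          rw [Finset.mem_filter, hy] at ht
          rw [Finset.mem_insert, Finset.mem_singleton]
          by_cases h0 : t = 0
          · exact Or.inl h0
          · have e := ht.2
            have e1 : t * t⁻¹ = 1 := mul_inv_cancel₀ h0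
            have e2 : (t - 1) ^ 2 = 0 := by linear_combination t * e - e1 - t * h2
            exact Or.inr (sub_eq_zero.1 (pow_eq_zero_iff two_ne_zero |>.1 e2))
        · rcases (Finset.univ.filter fun t : F => t + t⁻¹ = y).eq_empty_or_nonempty with he | ⟨s, hs⟩
          · rw [he]; simp
          · refine le_trans (Finset.card_le_card (t := {s, s⁻¹}) fun t ht => ?_) Finset.card_le_two
            rw [Finset.mem_filter] at ht hs
            rw [Finset.mem_insert, Finset.mem_singleton]
            have t0 : t ≠ 0 := by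
              rintro rfl
              exact hy (by rw [← ht.2, _root_.inv_zero, add_zero])
            have s0 : s ≠ 0 := by
              rintro rfl
              exact hy (by rw [← hs.2, _root_.inv_zero, add_zero])
            have e1 : t * t⁻¹ = 1 := mul_inv_cancel₀ t0
            have e2 : s * s⁻¹ = 1 := mul_inv_cancel₀ s0
            have e3 : (t - s) * (t - s⁻¹) = 0 := by
              linear_combination t * ht.2 - t * hs.2 - e1 + e2
            rcases mul_eq_zero.1 e3 with e | e
            · exact Or.inl (sub_eq_zero.1 e)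
            · exact Or.inr (sub_eq_zero.1 e))
    rw [Finset.card_univ, ← Nat.card_eq_fintype_card, ← Fintype.card_subtype,
      ← Nat.card_eq_fintype_card] at this
    exact this
  have c3 : Nat.card K ≤ 2 := by
    by_contra hc
    have : 3 * Nat.card K ≤ Nat.card K * Nat.card K := Nat.mul_le_mul_right _ (by omega)
    omega
  omega

theorem b1c_ring {R : Type*} [Ring R] {N w β : R} (hw : w * w = 1) (hW : N * w + w * N = 1)
    (cN : Commute β N) (c1 : Commute β (N * w)) : Commute β w := by
  have c2 : Commute β (w * N) := by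
    rw [eq_sub_of_add_eq' hW]
    exact (Commute.one_right β).sub_right c1
  have e1 : (β * w - w * β) * N = 0 := by
    rw [sub_mul, mul_assoc β, c2.eq, mul_assoc w β, cN.eq, mul_assoc, sub_self]
  have e2 : (β * w - w * β) * w = -(w * (β * w - w * β)) := by
    rw [sub_mul, mul_sub, mul_assoc β, hw, ← mul_assoc w w, hw, mul_one, one_mul, mul_assoc, neg_sub]
  have e3 : β * w - w * β = 0 := by
    calc β * w - w * β = (β * w - w * β) * (N * w + w * N) := by rw [hW, mul_one]
      _ = (β * w - w * β) * N * w + (β * w - w * β) * w * N := by rw [mul_add, mul_assoc, mul_assoc]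
      _ = 0 := by rw [e1, e2, zero_mul, zero_add, neg_mul, mul_assoc, e1, mul_zero, neg_zero]
  exact sub_eq_zero.1 e3

/-- `β = ρ b`. With `b1_scal`, `e₁ = N w`, `e₂ = w N`, `e₁ + e₂ = 1`: `h t + h t⁻¹ = σ (t + t⁻¹)`, so `β` commutes with
`σ (F)` (`b1c_gen` for the subring `{a | Commute β (σ a)}`); `h t = σ t⁻¹ + σ (t + t⁻¹) e₁` with `t ≠ 0, 1`
so `β` commutes with `e₁`, `e₂`. For `w₂ = β w β⁻¹`: `N w₂ = N w`, `w₂ N = w N`, `w₂² = 1 = w²`; `T = w + w₂`
has `T N = 0`, `T e₁ = 0`, `T e₂ = N + w₂ w N = N + w₂ w₂ N = 0`; so `w₂ = w`. `uu a`, `nn 1` generate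
`SL(2, F)` (`eq_top_of_hh`, or `ll_eq` and the usual generation); `ρ_inj`. -/
theorem b1c (h : Sr 2 G V) (φ : SL(2, F) →* G) (hφ : Function.Injective φ) (h8 : 8 ≤ Nat.card F)
    {b : G} (hu : ∀ a, Commute b (φ (uu a))) (hh' : ∀ t ht, Commute b (φ (hh t ht))) (g : SL(2, F)) :
    Commute b (φ g) := by
  classical
  obtain ⟨σ, -, -, -, hσ⟩ := b1_scal h φ hφ h8
  have h2 : (2 : F) = 0 := CharTwo.two_eq_zero
  set N := n V (φ (uu 1)) with hN
  set w := ρ V (φ (nn 1 one_ne_zero)) with hw
  have hW : N * w + w * N = 1 := by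
    have := hσ 1 one_ne_zero
    rw [hh_one, map_one, map_one, inv_one, map_one, one_mul, one_mul] at this
    exact this.symm
  have hww : w * w = 1 := by rw [hw, ← map_mul, ← map_mul, nn_sq, map_one, map_one]
  have ch : ∀ t ht, Commute (ρ V b) (ρ V (φ (hh t ht))) := fun t ht => (hh' t ht).map (ρ V)
  have cN : Commute (ρ V b) N := ((hu 1).map (ρ V)).sub_right (Commute.one_right _)
  have cσ : ∀ a, Commute (ρ V b) (σ a) := by
    have := b1c_gen h8 ((Subring.centralizer {ρ V b}).comap σ) fun t ht => by
      rw [Subring.mem_comap, Subring.mem_centralizer_iff]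
      rintro _ rfl
      have e : σ (t + t⁻¹) = ρ V (φ (hh t ht)) + ρ V (φ (hh t⁻¹ (inv_ne_zero ht))) := by
        rw [hσ, hσ, inv_inv, map_add, ← mul_one (σ t + σ t⁻¹), ← hW]
        noncomm_ring
      rw [e]
      exact ((ch _ _).add_right (ch _ _)).eq
    intro a
    have ha : a ∈ (Subring.centralizer {ρ V b}).comap σ := this ▸ Subring.mem_top a
    rw [Subring.mem_comap, Subring.mem_centralizer_iff] at ha
    exact ha _ rfl
  obtain ⟨t, t0, t1⟩ : ∃ t : F, t ≠ 0 ∧ t ≠ 1 := by
    by_contra hc
    push Not at hc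
    letI := Fintype.ofFinite F
    have : (Finset.univ : Finset F).card ≤ 2 := by
      refine le_trans (Finset.card_le_card (t := {0, 1}) fun t _ => ?_) Finset.card_le_two
      rw [Finset.mem_insert, Finset.mem_singleton]
      by_cases h0 : t = 0
      · exact Or.inl h0
      · exact Or.inr (hc t h0)
    rw [Finset.card_univ, ← Nat.card_eq_fintype_card] at this
    omega
  have ht : t - t⁻¹ ≠ 0 := fun e => by
    have e1 : t * t⁻¹ = 1 := mul_inv_cancel₀ t0
    have e2 : (t - 1) ^ 2 = 0 := by linear_combination t * e + e1 + (1 - t) * h2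
    exact t1 (sub_eq_zero.1 (pow_eq_zero_iff two_ne_zero |>.1 e2))
  have c1 : Commute (ρ V b) (N * w) := by
    have e : N * w = σ (t - t⁻¹)⁻¹ * (ρ V (φ (hh t t0)) - σ t⁻¹) := by
      have e1 : ρ V (φ (hh t t0)) - σ t⁻¹ = σ (t - t⁻¹) * (N * w) := by
        rw [hσ, eq_sub_of_add_eq' hW, map_sub]
        noncomm_ring
      rw [e1, ← mul_assoc, ← map_mul, inv_mul_cancel₀ ht, map_one, one_mul]
    rw [e]
    exact (cσ _).mul_right ((ch _ _).sub_right (cσ _))
  have cw : Commute b (φ (nn 1 one_ne_zero)) :=
    h.ρ_inj (by rw [map_mul, map_mul]; exact (b1c_ring hww hW cN c1).eq)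
  refine uu_ll_induction (fun g => Commute b (φ g)) hu (fun a => ?_) (fun x y hx hy => ?_) g
  · rw [ll_eq, map_mul, map_mul]
    exact (cw.mul_right (hu a)).mul_right cw
  · rw [map_mul]
    exact hx.mul_right hy

end Cfsg.Agent.Gag
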