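import Cfsg.Agent.Gag.Def
import Cfsg.Agent.Gag.B1c
import Cfsg.Agent.Gag.Ant

set_option autoImplicit false
set_option linter.unusedSectionVars false
open Matrix MatrixGroups Cfsg.Agent.Perm.Fpf Cfsg.Agent.PLocal.SL2Nat

namespace Cfsg.Agent.Gag

universe u v
variable {p : ℕ} {G : Type u} {V : Type v} [Group G] [Finite G] [AddCommGroup V] [Finite V] [DistribMulAction G V]

variable {F : Type*} [Field F] [Finite F] [CharP F 2]

/-- `n c` commutes with `ρ g` when `c` commutes with `g` -/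
theorem b2_nρ {c g : G} (hc : Commute c g) : Commute (n V c) (ρ V g) :=
  (hc.map (ρ V)).sub_left (Commute.one_left _)

omit [Finite F] [CharP F 2] in
theorem b2_hh_pow (s : F) (hs : s ≠ 0) (k : ℕ) : hh s hs ^ k = hh (s ^ k) (pow_ne_zero k hs) := by
  induction k with
  | zero => simp only [pow_zero]; exact hh_one.symm
  | succ k ih => rw [pow_succ, ih, hh_mul_hh]; simp only [pow_succ]

theorem b2_grp {E : Subgroup G} {x b : G} (hn : ∀ f ∈ E, x⁻¹ * f * x ∈ E) (hb : ∀ f ∈ E, Commute f b)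
    (hg : x⁻¹ * (b * x * b⁻¹) ∈ E) (hbb : b * b = 1) (hx : Odd (orderOf x)) :
    ∃ f ∈ E, Commute (f * b) x := by
  have h1 : ∀ k : ℕ, ∃ f ∈ E, b * x ^ k = x ^ k * f * b := by
    intro k
    induction k with
    | zero => exact ⟨1, one_mem _, by simp⟩
    | succ k ih =>
      obtain ⟨f, hf, e⟩ := ih
      refine ⟨x⁻¹ * f * x * (x⁻¹ * (b * x * b⁻¹)), mul_mem (hn f hf) hg, ?_⟩
      rw [pow_succ, ← mul_assoc, e]
      group
  have hn' : ∀ k : ℕ, ∀ f ∈ E, (x ^ k)⁻¹ * f * x ^ k ∈ E := by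
    intro k
    induction k with
    | zero => intro f hf; simpa using hf
    | succ k ih =>
      intro f hf
      have := hn _ (ih f hf)
      rwa [show x⁻¹ * ((x ^ k)⁻¹ * f * x ^ k) * x = (x ^ (k + 1))⁻¹ * f * x ^ (k + 1) by group] at this
  have h2 : ∀ k : ℕ, ∃ f ∈ E, (x * b) ^ k = x ^ k * f * b ^ k := by
    intro k
    induction k with
    | zero => exact ⟨1, one_mem _, by simp⟩
    | succ k ih =>
      obtain ⟨f, hf, e⟩ := ih
      obtain ⟨f', hf', e'⟩ := h1 k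
      refine ⟨f' * f, mul_mem hf' hf, ?_⟩
      rw [pow_succ', e, mul_assoc x b, ← mul_assoc b, ← mul_assoc b, e', pow_succ', pow_succ',
        mul_assoc _ b f, ← (hb f hf).eq]
      simp only [mul_assoc]
  obtain ⟨f, hf, e⟩ := h2 (orderOf x)
  obtain ⟨r, hr⟩ := hx
  have hbm : b ^ orderOf x = b := by
    rw [hr, pow_succ, pow_mul, pow_two, hbb, one_pow, one_mul]
  rw [pow_orderOf_eq_one, one_mul, hbm] at e
  refine ⟨f, hf, ?_⟩
  have c1 : Commute (f * b) (x * b) := e ▸ (Commute.refl (x * b)).pow_left _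
  have c2 : Commute (f * b) b := (hb f hf).mul_left (Commute.refl b)
  simpa using c1.mul_right c2.inv_right

/-- `f` commutes with the `uu a ∈ Ax e` (`Ax_comm`), so with `φ g` (`b1c`); `n f * N = 0`, `b1_zero`. -/
theorem b2_fix (h : Sr 2 G V) (hF : Fr G V) (φ : SL(2, F) →* G) (hφ : Function.Injective φ)
    (h8 : 8 ≤ Nat.card F) {f : G} (hf : f ∈ Ax V (φ (uu 1))) (hc : ∀ t ht, Commute f (φ (hh t ht))) :
    f = 1 := by
  obtain ⟨-, -, -, -, h1, he⟩ := b1_anti h φ hφ h8 1 1 one_ne_zero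
  have hu : ∀ a, Commute f (φ (uu a)) := fun a =>
    Ax_comm h hF h1 he hf (b1_anti h φ hφ h8 a 1 one_ne_zero).2.1
  exact h.n_eq_zero (b1_zero h φ hφ h8 (fun g => b2_nρ (b1c h φ hφ h8 hu hc g)) (mem_Ax.1 hf))

/-- `E = Ax e`. Let `x = φ (hh t₀)`, `t₀` a generator of `Fˣ`, of odd order `m`. By `ant_mem`,
`x b x⁻¹ ∈ b E`; the `x^i b x^-i ∈ b E` are commuting involutions (or all 1), `c = ∏_{i<m} x^i b x^-i ∈ b^m E = b E` is
centralised by `x`, so by all `hh t`, and by `E ∋ uu a`; `b1c`. -/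
theorem b2_dec (h : Sr 2 G V) (hF : Fr G V) (φ : SL(2, F) →* G) (hφ : Function.Injective φ)
    (h8 : 8 ≤ Nat.card F) {b : G} (hb : b * b = 1) (hc : ∀ f ∈ Ax V (φ (uu 1)), Commute f b) :
    ∃ c f : G, f ∈ Ax V (φ (uu 1)) ∧ b = c * f ∧ ∀ g, Commute c (φ g) := by
  obtain ⟨s, hs⟩ := IsCyclic.exists_monoid_generator (α := Fˣ)
  obtain ⟨ha, -, hxe, hx, h1, he⟩ := b1_anti h φ hφ h8 1 (s : F) s.ne_zero
  have hg := ant_mem h hF h1 he hx ha hxe hc
  have hne : φ (hh (s : F) s.ne_zero) * φ (uu 1) * (φ (hh (s : F) s.ne_zero))⁻¹ ≠ 1 := by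
    intro e
    rw [conj_eq_one_iff] at e
    exact h1 e
  have hn : ∀ f ∈ Ax V (φ (uu 1)),
      (φ (hh (s : F) s.ne_zero))⁻¹ * f * φ (hh (s : F) s.ne_zero) ∈ Ax V (φ (uu 1)) := by
    intro f hf
    have := Ax_norm h hF h1 he (k := (φ (hh (s : F) s.ne_zero))⁻¹) hxe hne
      (by
        rw [show ∀ x e : G, x⁻¹ * (x * e * x⁻¹) * x⁻¹⁻¹ = e from fun x e => by group]
        exact self_mem_Ax h he) hf
    rwa [inv_inv] at this
  obtain ⟨f, hf, hfx⟩ := b2_grp hn hc hg hb hx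
  refine ⟨f * b, f⁻¹, inv_mem hf, ?_, b1c h φ hφ h8 (fun a => ?_) (fun t ht => ?_)⟩
  · rw [(hc f hf).eq, mul_inv_cancel_right]
  · have hu := (b1_anti h φ hφ h8 a 1 one_ne_zero).2.1
    exact (Ax_comm h hF h1 he hf hu).mul_left (hc _ hu).symm
  · obtain ⟨k, hk⟩ := hs (Units.mk0 t ht)
    have e : (s : F) ^ k = t := by simpa using congrArg Units.val hk
    subst e
    rw [← b2_hh_pow _ s.ne_zero, map_pow]
    exact hfx.pow_right k

/-- `N n (c f) = N n c` for `f ∈ Ax e` commuting with `c` (`n_mul`, `Ax_quad`). So with `A = n (c₁ f₁)`,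
`B = n (c₂ f₂)`: `N C₁ C₂ = A N C₂ = A N B = N A B = 0` (`A` commutes with `N`); `T = C₁ C₂`, `b1_zero`. -/
theorem b2_quad (h : Sr 2 G V) (hF : Fr G V) (φ : SL(2, F) →* G) (hφ : Function.Injective φ)
    (h8 : 8 ≤ Nat.card F) {c₁ c₂ f₁ f₂ : G} (hf₁ : f₁ ∈ Ax V (φ (uu 1))) (hf₂ : f₂ ∈ Ax V (φ (uu 1)))
    (hc₁ : ∀ g, Commute c₁ (φ g)) (hc₂ : ∀ g, Commute c₂ (φ g)) (h₁ : Commute c₁ f₁) (h₂ : Commute c₂ f₂)
    (hq : n V (c₁ * f₁) * n V (c₂ * f₂) = 0) : n V c₁ * n V c₂ = 0 := by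
  obtain ⟨-, hm, -, -, h1, he⟩ := b1_anti h φ hφ h8 1 1 one_ne_zero
  have key : ∀ {c f : G}, f ∈ Ax V (φ (uu 1)) → Commute c (φ (uu 1)) →
      n V (φ (uu 1)) * n V (c * f) = n V (φ (uu 1)) * n V c := by
    intro c f hf hc
    have q := Ax_quad h hF h1 he hm hf
    rw [n_mul, mul_add, mul_add, q, add_zero, ← mul_assoc, ← (n_comm hc).eq, mul_assoc, q, mul_zero,
      add_zero]
  have cA : Commute (n V (c₁ * f₁)) (n V (φ (uu 1))) :=
    n_comm ((hc₁ _).mul_left (Ax_comm h hF h1 he hf₁ hm))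
  have cT : Commute (n V c₁ * n V c₂) (n V (φ (uu 1))) :=
    (n_comm (hc₁ _)).mul_left (n_comm (hc₂ _))
  refine b1_zero h φ hφ h8 (fun g => (b2_nρ (hc₁ g)).mul_left (b2_nρ (hc₂ g))) ?_
  rw [cT.eq, ← mul_assoc, ← key hf₁ (hc₁ _), ← cA.eq, mul_assoc, ← key hf₂ (hc₂ _), ← mul_assoc, cA.eq,
    mul_assoc, hq, mul_zero]

end Cfsg.Agent.Gag
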