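import Cfsg.Agent.Gag.Def
import Cfsg.Agent.Solv.Hall

set_option autoImplicit false
set_option linter.unusedSectionVars false
open Matrix MatrixGroups Cfsg.Agent.Perm.Fpf Cfsg.Agent.PLocal

namespace Cfsg.Agent.Gag

universe u v
variable {p : ℕ} {G : Type u} {V : Type v} [Group G] [Finite G] [AddCommGroup V] [Finite V] [DistribMulAction G V]

theorem b3a_cyc {A : Type*} [Group A] [Finite A] [IsCyclic A] {x y : A}
    (h : orderOf y ∣ orderOf x) : y ∈ Subgroup.zpowers x := by
  let _ : CommGroup A := IsCyclic.commGroup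
  have h1 : Subgroup.zpowers x = (powMonoidHom (orderOf x) : A →* A).ker := by
    apply Subgroup.eq_of_le_of_card_ge
    · exact Subgroup.zpowers_le_of_mem (pow_orderOf_eq_one x)
    · rw [IsCyclic.card_powMonoidHom_ker, Nat.card_zpowers]
      exact Nat.gcd_le_right _ (orderOf_pos x)
  rw [h1]
  exact orderOf_dvd_iff_pow_eq_one.1 h

theorem b3a_sub {J : Type*} [Group J] (hc : OddCyc J) (L : Subgroup J) : OddCyc L := by
  intro K hK hKc
  have e : K ≃* K.map L.subtype := K.equivMapOfInjective L.subtype L.subtype_injective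
  have h1 : IsCyclic (K.map L.subtype) := by
    apply hc
    · rw [← Nat.card_congr e.toEquiv]; exact hK
    · refine ⟨⟨fun a b => ?_⟩⟩
      obtain ⟨a, rfl⟩ := e.surjective a
      obtain ⟨b, rfl⟩ := e.surjective b
      rw [← map_mul, ← map_mul, hKc.is_comm.comm]
  exact isCyclic_of_surjective e.symm e.symm.surjective

theorem b3a_core {H : Type*} [Group H] [Finite H] (hc : OddCyc H) {T : Subgroup H} [T.Normal]
    (hT : IsPGroup 2 T) {x y : H} (hx : Odd (orderOf x)) (hxy : orderOf y = orderOf x)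
    (hgen : Subgroup.closure ({x, y} : Set H) = ⊤) (hcm : x * y * x⁻¹ * y⁻¹ ∈ T) :
    ∃ t ∈ T, t * x * t⁻¹ ∈ Subgroup.zpowers y := by
  haveI : Fact (Nat.Prime 2) := ⟨Nat.prime_two⟩
  set π := QuotientGroup.mk' T with hπ
  have hc0 : Commute (π x) (π y) := by
    have : π (x * y * x⁻¹ * y⁻¹) = 1 := (QuotientGroup.eq_one_iff _).2 hcm
    simp only [map_mul, map_inv] at this
    rw [mul_inv_eq_one, mul_inv_eq_iff_eq_mul] at this
    exact this
  have hgx : ∀ g : H, Commute (π x) (π g) ∧ Commute (π y) (π g) := by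
    intro g
    have hg : g ∈ Subgroup.closure ({x, y} : Set H) := hgen ▸ Subgroup.mem_top g
    induction hg using Subgroup.closure_induction with
    | mem z hz =>
      rcases hz with rfl | rfl
      · exact ⟨Commute.refl _, hc0.symm⟩
      · exact ⟨hc0, Commute.refl _⟩
    | one => simp
    | mul a b _ _ ha hb => rw [map_mul]; exact ⟨ha.1.mul_right hb.1, ha.2.mul_right hb.2⟩
    | inv a _ ha => rw [map_inv]; exact ⟨ha.1.inv_right, ha.2.inv_right⟩
  have hab : ∀ g h : H, Commute (π g) (π h) := by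
    intro g h
    have hg : g ∈ Subgroup.closure ({x, y} : Set H) := hgen ▸ Subgroup.mem_top g
    induction hg using Subgroup.closure_induction with
    | mem z hz =>
      rcases hz with rfl | rfl
      · exact (hgx h).1
      · exact (hgx h).2
    | one => simp
    | mul a b _ _ ha hb => rw [map_mul]; exact ha.mul_left hb
    | inv a _ ha => rw [map_inv]; exact ha.inv_left
  have hpow : ∀ g : H, (π g) ^ orderOf x = 1 := by
    intro g
    have hg : g ∈ Subgroup.closure ({x, y} : Set H) := hgen ▸ Subgroup.mem_top g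
    induction hg using Subgroup.closure_induction with
    | mem z hz =>
      rcases hz with rfl | rfl
      · rw [← map_pow, pow_orderOf_eq_one, map_one]
      · rw [← hxy, ← map_pow, pow_orderOf_eq_one, map_one]
    | one => simp
    | mul a b _ _ ha hb => rw [map_mul, (hab a b).mul_pow, ha, hb, one_mul]
    | inv a _ ha => rw [map_inv, inv_pow, ha, inv_one]
  have hodd : ¬ 2 ∣ T.index := by
    intro h2
    obtain ⟨q, hq⟩ := exists_prime_orderOf_dvd_card' (G := H ⧸ T) 2 h2
    obtain ⟨g, rfl⟩ := QuotientGroup.mk'_surjective T q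
    have := orderOf_dvd_of_pow_eq_one (hpow g)
    rw [hq] at this
    exact (Nat.not_even_iff_odd.2 hx) (even_iff_two_dvd.2 this)
  obtain ⟨k, hk⟩ := IsPGroup.iff_card.1 hT
  have hcop : ∀ {m : ℕ}, ¬ 2 ∣ m → m.Coprime (Nat.card T) := by
    intro m hm
    rw [hk]
    exact Nat.Coprime.pow_right _ ((Nat.Prime.coprime_iff_not_dvd Nat.prime_two).2 hm).symm
  haveI : Group.IsSolvable (H ⧸ T) := Group.isSolvable_of_comm (fun a b => by
    obtain ⟨a, rfl⟩ := QuotientGroup.mk'_surjective T a
    obtain ⟨b, rfl⟩ := QuotientGroup.mk'_surjective T b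
    exact hab a b)
  haveI : Group.IsNilpotent T := hT.isNilpotent
  haveI : Group.IsSolvable H := Group.isSolvable_of_ker_le_range T.subtype π (by
    rw [hπ, QuotientGroup.ker_mk', Subgroup.range_subtype])
  have hx2 : ¬ 2 ∣ orderOf x := fun h => (Nat.not_even_iff_odd.2 hx) (even_iff_two_dvd.2 h)
  have hH : Nat.card H = T.index * Nat.card T := (Subgroup.index_mul_card T).symm
  obtain ⟨K, hKc, hyK⟩ := Solv.exists_hall_ge hH (hcop hodd) (K := Subgroup.zpowers y)
    (by rw [Nat.card_zpowers, hxy]; exact hcop hx2)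
  have hKi : K.index = Nat.card T := Solv.index_eq_of_card_eq_mul hH hKc
  obtain ⟨g, hg⟩ := Solv.exists_conj_le_hall H inferInstance K (Subgroup.zpowers x)
    (by rw [hKi, hKc]; exact hcop hodd) (by rw [hKi, Nat.card_zpowers]; exact hcop hx2)
  have hcomp : Subgroup.IsComplement' K T :=
    Subgroup.isComplement'_of_coprime (by rw [hKc, hH]) (by rw [hKc]; exact hcop hodd)
  have hKab : ∀ a ∈ K, ∀ b ∈ K, a * b = b * a := by
    intro a ha b hb
    have h1 : a * b * a⁻¹ * b⁻¹ ∈ T := by
      rw [← QuotientGroup.eq_one_iff]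
      change π _ = 1
      simp only [map_mul, map_inv]
      rw [(hab a b).eq]; group
    have h2 : a * b * a⁻¹ * b⁻¹ ∈ K :=
      K.mul_mem (K.mul_mem (K.mul_mem ha hb) (K.inv_mem ha)) (K.inv_mem hb)
    have h3 := Subgroup.disjoint_def.1 hcomp.disjoint h2 h1
    rw [mul_inv_eq_one, mul_inv_eq_iff_eq_mul] at h3
    exact h3
  haveI : IsCyclic K := hc K (by rw [hKc]; exact Nat.odd_iff.2 (by omega))
    ⟨⟨fun a b => Subtype.ext (hKab _ a.2 _ b.2)⟩⟩
  have hgx' : g * x * g⁻¹ ∈ K := hg (Subgroup.smul_mem_pointwise_smul _ _ _ (Subgroup.mem_zpowers x))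
  have hyK' : y ∈ K := hyK (Subgroup.mem_zpowers y)
  have hz : g * x * g⁻¹ ∈ Subgroup.zpowers y := by
    have h1 : (⟨_, hgx'⟩ : K) ∈ Subgroup.zpowers (⟨y, hyK'⟩ : K) := by
      apply b3a_cyc
      rw [← Subgroup.orderOf_coe, ← Subgroup.orderOf_coe]
      change orderOf (g * x * g⁻¹) ∣ orderOf y
      rw [hxy]
      have : orderOf (g * x * g⁻¹) = orderOf x := (MulAut.conj g).orderOf_eq x
      rw [this]
    obtain ⟨i, hi⟩ := h1
    exact ⟨i, by simpa using congrArg Subtype.val hi⟩
  obtain ⟨⟨a, t⟩, hat, -⟩ := hcomp.existsUnique g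
  refine ⟨t, t.2, ?_⟩
  have hat' : (a : H) * t = g := hat
  have e : (t : H) * x * (t : H)⁻¹ = (a : H)⁻¹ * (g * x * g⁻¹) * a := by rw [← hat']; group
  rw [e, mul_assoc, hKab _ hgx' _ a.2, ← mul_assoc, inv_mul_cancel, one_mul]
  exact hz

/-- `J = closure {x, y}`, `T = S ⊓ J ⊴ J`, `J / T` is abelian (generated by two commuting elements) of odd order.
A Schur-Zassenhaus complement `K ≅ J / T` is abelian of odd order, so cyclic; the images of `x` and `y`
have the same order `m` (odd order elements meet `T` trivially), so generate the same subgroup: `J = T ⟨x⟩`,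
`|J| = |T| m`, and `⟨x⟩`, `⟨y⟩` are complements of the normal 2-subgroup `T`, conjugate under `T`
(Schur-Zassenhaus conjugacy, in the library; or: `⟨y⟩` of odd order acts on the `|T| / |N_T(⟨x⟩)|`, a power
of 2, ... or Glauberman's lemma). -/
theorem b3a {J : Type*} [Group J] [Finite J] (hc : OddCyc J) {S : Subgroup J} (hS : IsPGroup 2 S)
    {x y : J} (hx : Odd (orderOf x)) (hxy : orderOf y = orderOf x) (hnx : ∀ s ∈ S, x * s * x⁻¹ ∈ S)
    (hny : ∀ s ∈ S, y * s * y⁻¹ ∈ S) (hcm : x * y * x⁻¹ * y⁻¹ ∈ S) :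
    ∃ s ∈ S, s ∈ Subgroup.closure ({x, y} : Set J) ∧ s * x * s⁻¹ ∈ Subgroup.zpowers y := by
  set L := Subgroup.closure ({x, y} : Set J) with hL
  have hxL : x ∈ L := Subgroup.subset_closure (by simp)
  have hyL : y ∈ L := Subgroup.subset_closure (by simp)
  have hLN : L ≤ Subgroup.normalizer (S : Set J) := by
    rw [hL, Subgroup.closure_le]
    intro z hz
    rcases hz with rfl | rfl
    · exact Subgroup.mem_normalizer_fintype hnx
    · exact Subgroup.mem_normalizer_fintype hny
  haveI : (S.subgroupOf L).Normal := ⟨fun a ha g => by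
    rw [Subgroup.mem_subgroupOf] at ha ⊢
    exact (Subgroup.mem_normalizer_iff.1 (hLN g.2) _).1 ha⟩
  obtain ⟨t, ht, h⟩ := b3a_core (b3a_sub hc L) (T := S.subgroupOf L)
    (hS.comap_subtype) (x := ⟨x, hxL⟩) (y := ⟨y, hyL⟩)
    (by rw [← Subgroup.orderOf_coe]; exact hx)
    (by rw [← Subgroup.orderOf_coe, ← Subgroup.orderOf_coe]; exact hxy)
    (by
      apply Subgroup.map_injective L.subtype_injective
      rw [MonoidHom.map_closure, ← MonoidHom.range_eq_map, Subgroup.range_subtype]
      simp [Set.image_insert_eq, hL])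
    (Subgroup.mem_subgroupOf.2 hcm)
  obtain ⟨i, hi⟩ := h
  exact ⟨t, Subgroup.mem_subgroupOf.1 ht, t.2, i, by simpa using congrArg Subtype.val hi⟩

end Cfsg.Agent.Gag
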