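import Cfsg.Agent.Gag.Def
import Cfsg.Agent.Gag.B2
import Cfsg.Agent.Gag.B3a
import Cfsg.Agent.Gag.Bas1
import Cfsg.Agent.PLocal.AmbSyl

set_option autoImplicit false
set_option linter.unusedSectionVars false
open Matrix MatrixGroups Cfsg.Agent.Perm.Fpf Cfsg.Agent.PLocal.SL2Nat

namespace Cfsg.Agent.Gag

universe u v
variable {p : ℕ} {G : Type u} {V : Type v} [Group G] [Finite G] [AddCommGroup V] [Finite V] [DistribMulAction G V]

variable {F : Type*} [Field F] [Finite F] [CharP F 2]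

variable (V) in
/-- what is used of `e = φ (uu 1)` and `x = φ (hh t₀)` -/
structure B3Sd (e x : G) : Prop where
  e1 : e ≠ 1
  ee : e * e = 1
  odd : Odd (orderOf x)
  anti : n V e * ρ V x = ρ V x⁻¹ * n V e
  xe : x * e * x⁻¹ ∈ Ax V e
  fix : ∀ f ∈ Ax V e, Commute f x → f = 1
  dec : ∀ b, b * b = 1 → (∀ f ∈ Ax V e, Commute f b) → ∃ c f, f ∈ Ax V e ∧ b = c * f ∧ Commute c x
  quad : ∀ c₁ c₂ f₁ f₂, f₁ ∈ Ax V e → f₂ ∈ Ax V e → (∀ f ∈ Ax V e, Commute f c₁) →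
    (∀ f ∈ Ax V e, Commute f c₂) → Commute c₁ x → Commute c₂ x →
    n V (c₁ * f₁) * n V (c₂ * f₂) = 0 → n V c₁ * n V c₂ = 0

theorem b3b_hh (s : F) (hs : s ≠ 0) (m : ℕ) : hh s hs ^ m = hh (s ^ m) (pow_ne_zero m hs) := by
  induction m with
  | zero => simp [hh_one]
  | succ m ih => rw [pow_succ, ih, hh_mul_hh]; simp only [pow_succ]

theorem b3b_sd (h : Sr 2 G V) (hF : Fr G V) (φ : SL(2, F) →* G) (hφ : Function.Injective φ)
    (h8 : 8 ≤ Nat.card F) {t : Fˣ} (ht : ∀ u : Fˣ, u ∈ Submonoid.powers t) :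
    B3Sd V (φ (uu 1)) (φ (hh (t : F) t.ne_zero)) := by
  obtain ⟨a1, -, a3, a4, a5, a6⟩ := b1_anti h φ hφ h8 1 (t : F) t.ne_zero
  have k : ∀ c : G, Commute c (φ (hh (t : F) t.ne_zero)) → ∀ s hs, Commute c (φ (hh s hs)) := by
    intro c hc s hs
    obtain ⟨m, hm⟩ := ht (Units.mk0 s hs)
    obtain rfl : (t : F) ^ m = s := by simpa using congrArg Units.val hm
    rw [← b3b_hh _ t.ne_zero, map_pow]
    exact hc.pow_right m
  have k2 : ∀ c : G, (∀ f ∈ Ax V (φ (uu 1)), Commute f c) → Commute c (φ (hh (t : F) t.ne_zero)) →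
      ∀ g, Commute c (φ g) := fun c h1 h2 =>
    b1c h φ hφ h8 (fun a => (h1 _ (b1_anti h φ hφ h8 a 1 one_ne_zero).2.1).symm) (k c h2)
  refine ⟨a5, a6, a4, a1, a3, fun f hf c => b2_fix h hF φ hφ h8 hf (k f c), fun b hb hc => ?_,
    fun c₁ c₂ f₁ f₂ m1 m2 d1 d2 x1 x2 e => b2_quad h hF φ hφ h8 m1 m2 (k2 _ d1 x1) (k2 _ d2 x2)
      (d1 _ m1).symm (d2 _ m2).symm e⟩
  obtain ⟨c, f, m, e, d⟩ := b2_dec h hF φ hφ h8 hb hc
  exact ⟨c, f, m, e, d _⟩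

namespace B3Sd
variable {e x : G} (d : B3Sd V e x) (h : Sr 2 G V) (hF : Fr G V)
include d h hF

theorem nrm {f : G} (hf : f ∈ Ax V e) : x * f * x⁻¹ ∈ Ax V e :=
  Ax_norm h hF d.e1 d.ee (self_mem_Ax h d.ee) d.e1 d.xe hf

theorem com {b : G} (hb : ∀ f ∈ Ax V e, Commute f b) : x * b * x⁻¹ * b⁻¹ ∈ Ax V e := by
  have := inv_mem (d.nrm h hF (ant_mem h hF d.e1 d.ee d.odd d.anti d.xe hb))
  rwa [show (x * (x⁻¹ * (b * x * b⁻¹)) * x⁻¹)⁻¹ = x * b * x⁻¹ * b⁻¹ by group] at this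

theorem onto {f : G} (hf : f ∈ Ax V e) : ∃ g ∈ Ax V e, f = x * g * x⁻¹ * g⁻¹ := by
  let ψ : Ax V e → Ax V e := fun g => ⟨x * g * x⁻¹ * (g : G)⁻¹, mul_mem (d.nrm h hF g.2) (inv_mem g.2)⟩
  have inj : Function.Injective ψ := fun a b e1 => by
    have e2 : x * a * x⁻¹ * (a : G)⁻¹ = x * b * x⁻¹ * (b : G)⁻¹ := congrArg Subtype.val e1
    have e3 := d.fix _ (mul_mem (inv_mem b.2) a.2) (by
      show _ = _
      calc _ = (x * b * x⁻¹)⁻¹ * (x * b * x⁻¹ * (b : G)⁻¹) * a * x := by group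
        _ = _ := by rw [← e2]; group)
    exact Subtype.ext (inv_mul_eq_one.1 e3).symm
  obtain ⟨g, hg⟩ := Finite.injective_iff_surjective.1 inj ⟨f, hf⟩
  exact ⟨g, g.2, (congrArg Subtype.val hg).symm⟩

variable {B : Subgroup G} (hE : Ax V e ≤ B) (hB : ∀ a ∈ B, ∀ b ∈ B, Commute a b)
include hE hB

theorem nB {b : G} (hb : b ∈ B) : x * b * x⁻¹ ∈ B := by
  simpa using mul_mem (hE (d.com h hF fun f hf => hB f (hE hf) b hb)) hb

theorem comp {y : G} (hy : y ∈ Subgroup.zpowers x) {b : G} (hb : b ∈ B) : y * b * y⁻¹ * b⁻¹ ∈ Ax V e := by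
  obtain ⟨m, rfl⟩ := (mem_powers_iff_mem_zpowers.2 hy : y ∈ Submonoid.powers x)
  show x ^ m * b * (x ^ m)⁻¹ * b⁻¹ ∈ _
  clear hy
  induction m with
  | zero => simpa using one_mem _
  | succ m ih =>
    have := mul_mem (d.nrm h hF ih) (d.com h hF fun f hf => hB f (hE hf) b hb)
    rwa [show x * (x ^ m * b * (x ^ m)⁻¹ * b⁻¹) * x⁻¹ * (x * b * x⁻¹ * b⁻¹) =
      x ^ (m + 1) * b * (x ^ (m + 1))⁻¹ * b⁻¹ by rw [pow_succ']; group] at this

theorem quad' {e' : G} (h1 : e' ≠ 1) (h2 : e' * e' = 1) (hd : ∀ b ∈ B, ∃ f ∈ Ax V e, b * f ∈ Ax V e')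
    {c₁ c₂ : G} (m1 : c₁ ∈ B) (m2 : c₂ ∈ B) (x1 : Commute c₁ x) (x2 : Commute c₂ x) : c₁ ∈ Ax V c₂ := by
  obtain ⟨f₁, a1, b1⟩ := hd c₁ m1
  obtain ⟨f₂, a2, b2⟩ := hd c₂ m2
  exact mem_Ax.2 (d.quad c₁ c₂ f₁ f₂ a1 a2 (fun f hf => hB f (hE hf) _ m1) (fun f hf => hB f (hE hf) _ m2) x1 x2
    (Ax_quad h hF h1 h2 b1 b2))

end B3Sd

theorem b3b_norm {x : G} {π : AddMonoid.End V} (p : π * ρ V x = ρ V x⁻¹ * π) {s : G}
    (h1 : ρ V s * π = π) (h2 : π * ρ V s = π) :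
    ρ V (x * s * x⁻¹) * π = π ∧ π * ρ V (x * s * x⁻¹) = π := by
  have i1 : ρ V x * ρ V x⁻¹ = 1 := by rw [← map_mul, mul_inv_cancel, map_one]
  constructor
  · rw [map_mul, map_mul, mul_assoc, ← p, mul_assoc, ← mul_assoc (ρ V s), h1, p, ← mul_assoc, i1, one_mul]
  · rw [map_mul, map_mul, ← mul_assoc, ← mul_assoc, p, mul_assoc _ π, h2, ← p, mul_assoc, i1, mul_one]

theorem b3b_main (h : Sr 2 G V) (hF : Fr G V) {e e' x x' : G} (d : B3Sd V e x) (d' : B3Sd V e' x')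
    (ho : orderOf x' = orderOf x) (hc : ∀ f ∈ Ax V e, ∀ f' ∈ Ax V e', Commute f f') (hne : Ax V e' ≠ Ax V e) :
    ∃ s : G, ρ V s * (n V e * n V e') = n V e * n V e' ∧ n V e * n V e' * ρ V s = n V e * n V e' ∧
      (∀ f ∈ Ax V e, s * f * s⁻¹ ∈ Ax V e') ∧
      ∀ c f : G, f ∈ Ax V e → c * f ∈ Ax V e' → Commute c x → Commute s c := by
  have s1 := self_mem_Ax h d.ee
  have s2 := self_mem_Ax h d'.ee
  have ti : ∀ g ∈ Ax V e, g ∈ Ax V e' → g = 1 := fun g => Ax_ti h hF d.e1 d.ee d'.e1 d'.ee hne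
  have p0 := ant_mul h hF d.e1 d.ee d.odd d.anti d.xe fun f hf => hc f hf e' s2
  have p1 := ant_mul h hF d'.e1 d'.ee d'.odd d'.anti d'.xe fun f hf => (hc e s1 f hf).symm
  have p2 := ant_comm h hF d.e1 d.ee d'.e1 d'.ee d.odd d'.odd d.anti d'.anti d.xe d'.xe hc
  rw [← (n_comm (hc e s1 e' s2)).eq] at p1
  have π0 : n V e * n V e' ≠ 0 := fun c => d.e1 (ti e s1 (mem_Ax.2 c))
  generalize n V e * n V e' = π at p0 p1 p2 π0 ⊢
  have iv : ∀ g : G, ρ V g⁻¹ * ρ V g = 1 := fun g => by rw [← map_mul, inv_mul_cancel, map_one]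
  have iv' : ∀ g : G, ρ V g * ρ V g⁻¹ = 1 := fun g => by rw [← map_mul, mul_inv_cancel, map_one]
  let S : Subgroup G :=
    { carrier := {g | ρ V g * π = π ∧ π * ρ V g = π}
      one_mem' := by simp
      mul_mem' := fun {a b} ha hb => ⟨by rw [map_mul, mul_assoc, hb.1, ha.1],
        by rw [map_mul, ← mul_assoc, ha.2, hb.2]⟩
      inv_mem' := fun {a} ha => ⟨by
          conv_lhs => rw [← ha.1]
          rw [← mul_assoc, iv, one_mul], by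
          conv_lhs => rw [← ha.2]
          rw [mul_assoc, iv', mul_one]⟩ }
  have hS : IsPGroup 2 S := by
    obtain ⟨v, hv⟩ : ∃ v, π v ≠ 0 := by
      by_contra c
      push Not at c
      exact π0 (AddMonoidHom.ext c)
    exact h.pgroup_of_fix hv fun g hg => DFunLike.congr_fun hg.1 v
  have nx : ∀ s ∈ S, x * s * x⁻¹ ∈ S := fun s hs => b3b_norm p0 hs.1 hs.2
  have ny : ∀ s ∈ S, x' * s * x'⁻¹ ∈ S := fun s hs => b3b_norm p1 hs.1 hs.2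
  have cm : x * x' * x⁻¹ * x'⁻¹ ∈ S := by
    have q0 := ant_flip p0
    have q1 := ant_flip p1
    have k : x' * x * x'⁻¹ * x⁻¹ ∈ S := by
      constructor
      · simp only [map_mul]
        calc _ = ρ V x' * ρ V x * (ρ V x'⁻¹ * (ρ V x⁻¹ * π)) := by simp only [mul_assoc]
          _ = ρ V x' * ρ V x * π * ρ V x' * ρ V x := by
            rw [← p0, ← mul_assoc (ρ V x'⁻¹), ← p1]; simp only [mul_assoc]
          _ = ρ V x * (ρ V x' * (π * ρ V x') * ρ V x) := by rw [← p2]; simp only [mul_assoc]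
          _ = π := by rw [p1, ← mul_assoc (ρ V x'), iv', one_mul, p0, ← mul_assoc, iv', one_mul]
      · simp only [map_mul]
        calc _ = π * ρ V x' * ρ V x * ρ V x'⁻¹ * ρ V x⁻¹ := by simp only [mul_assoc]
          _ = ρ V x'⁻¹ * (ρ V x⁻¹ * (π * ρ V x'⁻¹ * ρ V x⁻¹)) := by
            rw [p1, mul_assoc _ π, p0]; simp only [mul_assoc]
          _ = ρ V x'⁻¹ * (ρ V x⁻¹ * (ρ V x' * ρ V x * π)) := by rw [← q1, mul_assoc _ π, ← q0, mul_assoc]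
          _ = π := by
            rw [← p2, mul_assoc (ρ V x), ← mul_assoc (ρ V x⁻¹), iv, one_mul, ← mul_assoc, iv, one_mul]
    have := inv_mem k
    rwa [show (x' * x * x'⁻¹ * x⁻¹)⁻¹ = x * x' * x⁻¹ * x'⁻¹ by group] at this
  obtain ⟨s, hs, sJ, hy⟩ := b3a h.oddCyc hS d.odd ho nx ny cm
  let B : Subgroup G :=
    { carrier := {b | ∃ f ∈ Ax V e, ∃ f' ∈ Ax V e', b = f * f'}
      one_mem' := ⟨1, one_mem _, 1, one_mem _, (one_mul _).symm⟩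
      mul_mem' := by
        rintro _ _ ⟨f, hf, f', hf', rfl⟩ ⟨g, hg, g', hg', rfl⟩
        exact ⟨_, mul_mem hf hg, _, mul_mem hf' hg', ((hc g hg f' hf').mul_mul_mul_comm f g').symm⟩
      inv_mem' := by
        rintro _ ⟨f, hf, f', hf', rfl⟩
        exact ⟨_, inv_mem hf, _, inv_mem hf', by
          rw [_root_.mul_inv_rev, (hc _ (inv_mem hf) _ (inv_mem hf')).eq]⟩ }
  have hE : Ax V e ≤ B := fun f hf => ⟨f, hf, 1, one_mem _, (mul_one _).symm⟩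
  have hE' : Ax V e' ≤ B := fun f hf => ⟨1, one_mem _, f, hf, (one_mul _).symm⟩
  have hB : ∀ a ∈ B, ∀ b ∈ B, Commute a b := by
    rintro _ ⟨f, hf, f', hf', rfl⟩ _ ⟨g, hg, g', hg', rfl⟩
    exact ((Ax_comm h hF d.e1 d.ee hf hg).mul_right (hc f hf g' hg')).mul_left
      ((hc g hg f' hf').symm.mul_right (Ax_comm h hF d'.e1 d'.ee hf' hg'))
  have sq : ∀ b ∈ B, b * b = 1 := by
    rintro _ ⟨f, hf, f', hf', rfl⟩
    rw [(hc f hf f' hf').symm.mul_mul_mul_comm, Ax_sq h hF d.e1 d.ee hf, Ax_sq h hF d'.e1 d'.ee hf', one_mul]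
  have hd : ∀ b ∈ B, ∃ f ∈ Ax V e, b * f ∈ Ax V e' := by
    rintro _ ⟨f, hf, f', hf', rfl⟩
    exact ⟨f⁻¹, inv_mem hf, by rwa [(hc f hf f' hf').mul_inv_cancel]⟩
  have hd' : ∀ b ∈ B, ∃ f ∈ Ax V e', b * f ∈ Ax V e := by
    rintro _ ⟨f, hf, f', hf', rfl⟩
    exact ⟨f'⁻¹, inv_mem hf', by rwa [mul_inv_cancel_right]⟩
  have JB : Subgroup.closure ({x, x'} : Set G) ≤ Subgroup.normalizer (B : Set G) := by
    rw [Subgroup.closure_le]
    rintro g (rfl | rfl)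
    · exact PLocal.Amb.mem_normalizer_of_cj_le (PLocal.Amb.cj_le_iff_forall.2 fun b hb => d.nB h hF hE hB hb)
    · exact PLocal.Amb.mem_normalizer_of_cj_le (PLocal.Amb.cj_le_iff_forall.2 fun b hb => d'.nB h hF hE' hB hb)
  have k1 : ∀ f ∈ Ax V e, s * f * s⁻¹ ∈ Ax V e' := fun f hf => by
    obtain ⟨g, hg, rfl⟩ := d.onto h hF hf
    have := d'.comp h hF hE' hB hy (PLocal.Amb.conj_mem_of_mem_normalizer (JB sJ) (hE hg))
    rwa [show s * x * s⁻¹ * (s * g * s⁻¹) * (s * x * s⁻¹)⁻¹ * (s * g * s⁻¹)⁻¹ =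
      s * (x * g * x⁻¹ * g⁻¹) * s⁻¹ by group] at this
  refine ⟨s, hs.1, hs.2, k1, fun c f hf hcf cx => ?_⟩
  have xJ : x ∈ Subgroup.closure ({x, x'} : Set G) := Subgroup.subset_closure (Or.inl rfl)
  obtain ⟨b, hb, b1⟩ := (Subgroup.bot_or_exists_ne_one _).resolve_left (PLocal.Amb.inf_centralizer_ne_bot
    (p := 2) (T := S ⊓ Subgroup.closure ({x, x'} : Set G)) (V := B) hS.to_inf_left
    (PLocal.Amb.isPGroup_iff.2 fun b hb => ⟨1, by rw [pow_one, pow_two]; exact sq b hb⟩) (inf_le_right.trans JB)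
    fun c => d.e1 (Subgroup.mem_bot.1 (c ▸ hE s1)))
  have bT : ∀ g ∈ S ⊓ Subgroup.closure ({x, x'} : Set G), g * b = b * g := fun g hg => hb.2 g hg
  have sb : Commute s b := bT s ⟨hs, sJ⟩
  have nx' : x⁻¹ * s * x ∈ S := by
    simpa using PLocal.Amb.conj_mem_of_mem_normalizer (inv_mem
      (PLocal.Amb.mem_normalizer_of_cj_le (PLocal.Amb.cj_le_iff_forall.2 nx))) hs
  have sb' : Commute s (x * b * x⁻¹) := by
    have := bT _ (Subgroup.mem_inf.2 ⟨nx', mul_mem (mul_mem (inv_mem xJ) sJ) xJ⟩)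
    show _ = _
    calc _ = x * (x⁻¹ * s * x * b) * x⁻¹ := by group
      _ = _ := by rw [this]; group
  have bx : Commute b x := by
    have m := d.com h hF fun f hf => hB f (hE hf) b hb.1
    have m' := k1 _ m
    rw [(sb'.mul_right sb.inv_right).mul_inv_cancel] at m'
    have := ti _ m m'
    rw [mul_inv_eq_one, mul_inv_eq_iff_eq_mul] at this
    exact this.symm
  have bx' : Commute b x' := by
    have e1 : Subgroup.zpowers (s * x * s⁻¹) = Subgroup.zpowers x' :=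
      Subgroup.eq_of_le_of_card_ge (Subgroup.zpowers_le.2 hy) (by
        rw [Nat.card_zpowers, Nat.card_zpowers, ho, PLocal.Amb.orderOf_conj'])
    obtain ⟨m, hm⟩ := Subgroup.mem_zpowers_iff.1 (e1.ge (Subgroup.mem_zpowers x'))
    rw [← hm]
    exact ((sb.symm.mul_right bx).mul_right sb.symm.inv_right).zpow_right m
  have cB : c ∈ B := by simpa using mul_mem (hE' hcf) (inv_mem (hE hf))
  obtain ⟨c', f', hf', e1, cx'⟩ := d'.dec c (sq c cB) fun g hg => hB g (hE' hg) c cB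
  have cB' : c' ∈ B := by simpa [e1] using mul_mem cB (inv_mem (hE' hf'))
  have m1 := d.quad' h hF hE hB d'.e1 d'.ee hd cB hb.1 cx bx
  have m2 := d'.quad' h hF hE' hB d.e1 d.ee hd' cB' hb.1 cx' bx'
  have m3 : f' ∈ Ax V b := by simpa [e1] using mul_mem (inv_mem m2) m1
  have f1 : f' = 1 := by
    by_contra k
    refine b1 (d'.fix b ?_ bx')
    rw [← Ax_eq h hF d'.e1 d'.ee hf' k, Ax_eq h hF b1 (sq b hb.1) m3 k]
    exact self_mem_Ax h (sq b hb.1)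
  rw [f1, mul_one] at e1
  have Jc : Subgroup.closure ({x, x'} : Set G) ≤ Subgroup.centralizer {c} := by
    rw [Subgroup.closure_le]
    rintro g (rfl | rfl)
    · exact Subgroup.mem_centralizer_singleton_iff.2 cx.symm
    · exact Subgroup.mem_centralizer_singleton_iff.2 (e1 ▸ cx').symm
  exact Subgroup.mem_centralizer_singleton_iff.1 (Jc sJ)

/-- `φ' = conj k ∘ φ` (apply all lemmas to it too), `e = φ (uu 1)`, `e' = k e k⁻¹`, `E = Ax e`, `E' = Ax e'`,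
`π = n e n e' ≠ 0`; `x = φ (hh t₀)` (`t₀` generates `Fˣ`), `x' = k x k⁻¹`. `π` is `x`- and `x'`-antilinear
(`ant_mul`). `S = {g | ρ g π = π ∧ π ρ g = π}` is a 2-group (`pgroup_of_fix`) normalised by `x`, `x'`, and
contains `x x' x⁻¹ x'⁻¹` (`ant_comm`). `b3a`: `s ∈ S ∩ J`, `J = closure {x, x'}`, `y = s x s⁻¹ ∈ ⟨x'⟩` (a generator).
`B = E E'` is elementary abelian, normalised by `x`, `x'` with `⁅x, B⁆ ≤ E`, `⁅x', B⁆ ≤ E'` (`ant_mem`, `Ax_norm`), so by `J`.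
(1) `f ↦ x f x⁻¹ f⁻¹` is injective (`b2_fix`) hence onto on `E`; `s ⁅x, f₁⁆ s⁻¹ = ⁅y, s f₁ s⁻¹⁆ ∈ E'`.
(2) Let `C = C_B(x)`, `C' = C_B(x')`; they centralise the images of `φ`, `φ'` (`b1c`), `B = C E = C' E'` (`b2_dec`), and
`n c₁ n c₂ = 0` on `C` (write `c = f' f`, `c f = f' ∈ E'`, `b2_quad`), same on `C'`. The 2-group `⟨s⟩` has
`C_B(S ∩ J) ≠ 1` (2-group acting on `B`), `x`-invariant: for `b = c f` in it `⁅x, b⁆ = ⁅x, f⁆ ∈ E` is fixed by `s` so lies in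
`E ⊓ E' = 1`, `f = 1`; so `1 ≠ c* ∈ C`, `s c* s⁻¹ = c*` centralises `y`, so `c* ∈ C'`. So `C, C' ≤ Ax c*`. If `c ∈ C`,
`c = c' f'`, `f' ∈ Ax c* ⊓ E'`; `f' ≠ 1` gives `c* ∈ E'`, `c* = 1` (`b2_fix` for `φ'`). So `C ≤ C'`: `J` centralises `C`. -/
theorem b3b (h : Sr 2 G V) (hF : Fr G V) (φ : SL(2, F) →* G) (hφ : Function.Injective φ)
    (h8 : 8 ≤ Nat.card F) (k : G)
    (hc : ∀ f ∈ Ax V (φ (uu 1)), ∀ f' ∈ Ax V (k * φ (uu 1) * k⁻¹), Commute f f')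
    (hne : Ax V (k * φ (uu 1) * k⁻¹) ≠ Ax V (φ (uu 1))) :
    ∃ s : G, ρ V s * (n V (φ (uu 1)) * n V (k * φ (uu 1) * k⁻¹)) = n V (φ (uu 1)) * n V (k * φ (uu 1) * k⁻¹) ∧
      n V (φ (uu 1)) * n V (k * φ (uu 1) * k⁻¹) * ρ V s = n V (φ (uu 1)) * n V (k * φ (uu 1) * k⁻¹) ∧
      (∀ f ∈ Ax V (φ (uu 1)), s * f * s⁻¹ ∈ Ax V (k * φ (uu 1) * k⁻¹)) ∧
      ∀ c f : G, f ∈ Ax V (φ (uu 1)) → c * f ∈ Ax V (k * φ (uu 1) * k⁻¹) → (∀ g, Commute c (φ g)) →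
        Commute s c := by
  obtain ⟨t, ht⟩ := IsCyclic.exists_monoid_generator (α := Fˣ)
  have d := b3b_sd h hF φ hφ h8 ht
  have d' := b3b_sd h hF ((MulAut.conj k).toMonoidHom.comp φ) ((MulAut.conj k).injective.comp hφ) h8 ht
  obtain ⟨s, h1, h2, h3, h4⟩ := b3b_main h hF (e' := k * φ (uu 1) * k⁻¹) d d'
    (PLocal.Amb.orderOf_conj' k _) hc hne
  exact ⟨s, h1, h2, h3, fun c f hf hcf hg => h4 c f hf hcf (hg _)⟩

end Cfsg.Agent.Gag
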