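import Cfsg.Agent.Gag.Def

set_option autoImplicit false
set_option linter.unusedSectionVars false
open Matrix MatrixGroups Cfsg.Agent.Perm.Fpf Cfsg.Agent.PLocal

namespace Cfsg.Agent.Gag

universe u v
variable {p : ℕ} {G : Type u} {V : Type v} [Group G] [Finite G] [AddCommGroup V] [Finite V] [DistribMulAction G V]

/-- `σ' a = s σ a s⁻¹`, `N' = s N s⁻¹ = C + N + C N` (`a = 1`), `σ' a N' = σ a N' + σ (a² + a) C N`; `σ'` is a ring
hom commuting with `N'`, `C`; `σ b` commutes with `N'`, `C N = C N'`. Expanding `σ' (a a) N' = σ' a σ' a N'`: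
`σ' a σ a N' = σ' a N' σ a`, `σ' a σ β C N = C σ' a N' σ β = σ (a β) C N`, so
`σ (a⁴ + a²) C N = σ (a (a² + a) + a (a² + a)) C N = 0`, and `a⁴ + a² ≠ 0`. -/
theorem b4 {R F : Type*} [Ring R] [Field F] [CharP F 2] (σ : F →+* R) (N C s s' : R)
    (hs : s * s' = 1) (hs' : s' * s = 1) (hN : ∀ a, Commute (σ a) N) (hC : ∀ a, Commute (σ a) C)
    (hNC : Commute C N) (hsC : Commute s C) (hCC : C * C = 0)
    (he : ∀ a, s * (σ a * N) * s' = σ a * (C + N) + σ (a * a) * (C * N))
    {a : F} (h0 : a ≠ 0) (h1 : a ≠ 1) : C * N = 0 := by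
  have e1 : s * N * s' = C + N + C * N := by simpa using he 1
  obtain ⟨M, hM⟩ : ∃ M, M = C + N + C * N := ⟨_, rfl⟩
  have cM : C * M = C * N := by rw [hM, mul_add, mul_add, ← mul_assoc, hCC]; simp
  have σM : ∀ b, Commute (σ b) M := fun b =>
    hM ▸ ((hC b).add_right (hN b)).add_right ((hC b).mul_right (hN b))
  have s'C : Commute s' C := by
    calc s' * C = s' * (C * s) * s' := by rw [mul_assoc, mul_assoc, hs, mul_one]
      _ = C * s' := by rw [← hsC.eq, ← mul_assoc, hs', one_mul]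
  have T : ∀ b, s * σ b * s' * M = σ b * M + σ (b * b - b) * (C * N) := fun b => by
    calc _ = s * (σ b * ((s' * s) * N)) * s' := by rw [hM, ← e1]; noncomm_ring
      _ = _ := by rw [hs', one_mul, he, hM, map_sub]; noncomm_ring
  have mu : s * σ (a * a) * s' = s * σ a * s' * (s * σ a * s') := by
    calc _ = s * (σ a * ((s' * s) * σ a)) * s' := by rw [hs', one_mul, map_mul]
      _ = _ := by noncomm_ring
  have τC : Commute (s * σ a * s') C := (hsC.mul_left (hC a)).mul_left s'C
  have T1 := T a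
  have T2 := T (a * a)
  rw [mu] at T2
  generalize s * σ a * s' = τ at τC T1 T2
  generalize hb : a * a - a = β at T1
  have CN : ∀ b, C * N * σ b = σ b * (C * N) := fun b => ((hC b).mul_right (hN b)).eq.symm
  have k1 : τ * (σ a * M) = σ (a * a) * M + σ (β * a) * (C * N) := by
    rw [(σM a).eq, ← mul_assoc, T1, add_mul, mul_assoc, ← (σM a).eq, mul_assoc, CN, map_mul, map_mul]
    noncomm_ring
  have k2 : τ * (σ β * (C * N)) = σ (β * a) * (C * N) := by
    calc _ = τ * C * M * σ β := by rw [← CN, ← cM]; noncomm_ring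
      _ = C * (τ * M) * σ β := by rw [τC.eq]; noncomm_ring
      _ = (C * σ a * M + C * σ β * C * N) * σ β := by rw [T1]; noncomm_ring
      _ = σ a * (C * N * σ β) := by
        rw [← (hC a).eq, ← (hC β).eq, mul_assoc (σ β), hCC, mul_assoc (σ a), cM]; noncomm_ring
      _ = _ := by rw [CN, mul_comm β, map_mul, mul_assoc]
  rw [mul_assoc, T1, mul_add, k1, k2, add_assoc, add_right_inj, ← add_mul, ← map_add, eq_comm,
    ← sub_eq_zero, ← sub_mul, ← map_sub] at T2
  have ne : a * a * (a * a) - a * a - (β * a + β * a) ≠ 0 := by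
    rw [← hb, show a * a * (a * a) - a * a - ((a * a - a) * a + (a * a - a) * a) =
      (a * (a - 1)) ^ 2 by ring]
    exact pow_ne_zero _ (mul_ne_zero h0 (sub_ne_zero.2 h1))
  have := congrArg (σ (a * a * (a * a) - a * a - (β * a + β * a))⁻¹ * ·) T2
  simpa only [← mul_assoc (σ _) (σ _), ← map_mul, inv_mul_cancel₀ ne, map_one, one_mul, mul_zero]
    using this

end Cfsg.Agent.Gag
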