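import Cfsg.Agent.Gag.Def
import Cfsg.Agent.Gag.B3b
import Cfsg.Agent.Gag.B4

set_option autoImplicit false
set_option linter.unusedSectionVars false
open Matrix MatrixGroups Cfsg.Agent.Perm.Fpf Cfsg.Agent.PLocal.SL2Nat

namespace Cfsg.Agent.Gag

universe u v
variable {p : ℕ} {G : Type u} {V : Type v} [Group G] [Finite G] [AddCommGroup V] [Finite V] [DistribMulAction G V]

variable {F : Type*} [Field F] [Finite F] [CharP F 2]

omit [Finite G] [Finite V] in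
theorem b3c_cm {a b : G} (c : Commute a b) : Commute (n V a) (ρ V b) :=
  (c.map (ρ V)).sub_left (Commute.one_left _)

/-- Suppose `E' ≠ E`; `s` from `b3b`, `σ` from `b1_scal`. Every `f' ∈ E'` is `c f` (`b2_dec`; `c` commutes with `E`).
`e' = c' f'`, `C' = n c'`, `π = N n e' = N C' = C' N ≠ 0`. For `a : F` write `s u_a s⁻¹ = c_a f`. `C' n c_a = 0`
(`b2_quad`), so `C' n f = C' n (s u_a s⁻¹) = s C' N_a s⁻¹ = s σ a π s⁻¹ = σ a π = C' N_a` (`σ a π = π σ a`). Hence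
`C' n (f u_a) = 0` (`n_mul`, `Ax_quad`, char 2) and `f = u_a` (else `C' N = 0` by `Ax_mul_left`).
`C_a = n c_a`, `n (s u_a s⁻¹) = C_a + N_a + C_a N_a`. `n (s u_a s⁻¹) n (s u_1 s⁻¹) = 0` gives `C_a N + N_a C_1 = 0`,
`(C_a + σ a C_1) N = 0`, so `C_a = σ a C_1` (`b1_zero`). `b4` gives `C_1 N = 0`, `C_1 = 0`, `c_1 = 1`, so
`u_1 = s u_1 s⁻¹ ∈ E ⊓ E' = 1`, absurd. -/
theorem caseB (h : Sr 2 G V) (hF : Fr G V) (φ : SL(2, F) →* G) (hφ : Function.Injective φ)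
    (h8 : 8 ≤ Nat.card F) : Wc V (φ (uu 1)) := by
  intro k hc
  by_contra hne
  obtain ⟨-, -, -, -, e1, e2⟩ := b1_anti h φ hφ h8 1 1 one_ne_zero
  have hu : ∀ a, φ (uu a) ∈ Ax V (φ (uu 1)) := fun a => (b1_anti h φ hφ h8 a 1 one_ne_zero).2.1
  have e1' : k * φ (uu 1) * k⁻¹ ≠ 1 := fun r => e1 (conj_eq_one_iff.1 r)
  have e2' : k * φ (uu 1) * k⁻¹ * (k * φ (uu 1) * k⁻¹) = 1 := by
    rw [show k * φ (uu 1) * k⁻¹ * (k * φ (uu 1) * k⁻¹) = k * (φ (uu 1) * φ (uu 1)) * k⁻¹ by group, e2]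
    group
  obtain ⟨s, hs1, hs2, hs3, hs4⟩ := b3b h hF φ hφ h8 k hc hne
  obtain ⟨σ, σc, σn, σT, -⟩ := b1_scal h φ hφ h8
  generalize k * φ (uu 1) * k⁻¹ = e' at *
  have dec : ∀ f' ∈ Ax V e', ∃ c f : G, f ∈ Ax V (φ (uu 1)) ∧ f' = c * f ∧ (∀ g, Commute c (φ g)) ∧
      Commute c f := fun f' hf' => by
    obtain ⟨c, f, hf, e, cc⟩ := b2_dec h hF φ hφ h8 (Ax_sq h hF e1' e2' hf') fun f hf => hc f hf f' hf'
    refine ⟨c, f, hf, e, cc, ?_⟩
    have : c = f' * f⁻¹ := by rw [e, mul_inv_cancel_right]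
    rw [this]
    exact (hc f hf f' hf').symm.mul_left (Commute.refl f).inv_left
  have ss : ρ V s * ρ V s⁻¹ = 1 := by rw [← map_mul, mul_inv_cancel, map_one]
  have ss' : ρ V s⁻¹ * ρ V s = 1 := by rw [← map_mul, inv_mul_cancel, map_one]
  have σN : ∀ a, Commute (σ a) (n V (φ (uu 1))) := fun a =>
    (σc a (uu 1)).sub_right (Commute.one_right _)
  have two : ∀ T : AddMonoid.End V, T + T = 0 := fun T => by rw [← two_mul, h.two, zero_mul]
  have me' := self_mem_Ax h e2'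
  obtain ⟨c', f', hf', ee', cc', cf'⟩ := dec e' me'
  have π0 : n V (φ (uu 1)) * n V e' ≠ 0 := fun r =>
    e1 (Ax_ti h hF e1 e2 e1' e2' hne (hu 1) (mem_Ax.2 r))
  have πe : n V (φ (uu 1)) * n V e' = n V c' * n V (φ (uu 1)) := by
    rw [(n_comm (cc' (uu 1))).eq, ee', cf'.eq, n_mul, mul_add, mul_add, ← mul_assoc,
      Ax_quad h hF e1 e2 (hu 1) hf', zero_mul, zero_add, add_zero]
  have σC' : ∀ a, Commute (n V c') (σ a) := σT _ fun g => b3c_cm (cc' g)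
  have sC' : Commute (n V c') (ρ V s) := b3c_cm (hs4 c' f' hf' (ee' ▸ me') cc').symm
  have key : ∀ a, ∃ c : G, s * φ (uu a) * s⁻¹ = c * φ (uu a) ∧ ∀ g, Commute c (φ g) := fun a => by
    have hg := hs3 _ (hu a)
    obtain ⟨c, f, hf, e, cc, cf⟩ := dec _ hg
    have q : n V c' * n V c = 0 := b2_quad h hF φ hφ h8 hf' hf cc' cc cf' cf
      (by rw [← ee', ← e]; exact Ax_quad h hF e1' e2' me' hg)
    have a1 : n V c' * n V (s * φ (uu a) * s⁻¹) = n V c' * n V f := by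
      rw [e, n_mul, mul_add, mul_add, ← mul_assoc, q, zero_mul, zero_add, add_zero]
    have a2 : n V c' * n V (φ (uu a)) = σ a * (n V (φ (uu 1)) * n V e') := by
      rw [σn a, ← mul_assoc, (σC' a).eq, mul_assoc, πe]
    have a3 : σ a * (n V (φ (uu 1)) * n V e') = n V (φ (uu 1)) * n V e' * σ a := by
      rw [πe]; exact ((σC' a).symm.mul_right (σN a)).eq
    have a4 : n V (φ (uu 1)) * n V e' * ρ V s⁻¹ = n V (φ (uu 1)) * n V e' := by
      nth_rewrite 1 [← hs2]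
      rw [mul_assoc, ss, mul_one]
    have a5 : n V c' * n V (s * φ (uu a) * s⁻¹) = n V c' * n V (φ (uu a)) := by
      rw [n_conj, ← mul_assoc, ← mul_assoc, sC'.eq, mul_assoc (ρ V s), a2, a3, ← mul_assoc (ρ V s), hs1,
        ← a3, mul_assoc, a4]
    have a6 : n V c' * n V (f * φ (uu a)) = 0 := by
      rw [n_mul, Ax_quad h hF e1 e2 hf (hu a), add_zero, mul_add, ← a1, a5, two]
    have a7 : f * φ (uu a) = 1 := by
      by_contra r
      exact π0 (πe.trans ((Ax_mul_left h hF e1 e2 (mul_mem hf (hu a)) r _).1 a6))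
    have a8 : f = φ (uu a) := by
      rw [eq_inv_of_mul_eq_one_left a7, inv_eq_of_mul_eq_one_right (Ax_sq h hF e1 e2 (hu a))]
    exact ⟨c, a8 ▸ e, cc⟩
  choose c hce hcc using key
  have mem : ∀ a, c a * φ (uu a) ∈ Ax V e' := fun a => hce a ▸ hs3 _ (hu a)
  have q : ∀ a, n V (c a) * n V (c 1) = 0 := fun a =>
    b2_quad h hF φ hφ h8 (hu a) (hu 1) (hcc a) (hcc 1) (hcc a _) (hcc 1 _)
      (Ax_quad h hF e1' e2' (mem a) (mem 1))
  have σC : ∀ a, Commute (n V (c 1)) (σ a) := σT _ fun g => b3c_cm (hcc 1 g)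
  have CN : ∀ a, Commute (n V (c 1)) (n V (φ (uu a))) := fun a => n_comm (hcc 1 _)
  have hCa : ∀ a, n V (c a) = σ a * n V (c 1) := fun a => by
    have r := Ax_quad h hF e1' e2' (mem a) (mem 1)
    have r0 := Ax_quad h hF e1 e2 (hu a) (hu 1)
    have r1 : n V (φ (uu a)) * n V (c 1 * φ (uu 1)) = n V (φ (uu a)) * n V (c 1) := by
      rw [n_mul, mul_add, mul_add, r0, add_zero, ← mul_assoc, ← (CN a).eq, mul_assoc, r0, mul_zero,
        add_zero]
    have r2 : n V (c a) * n V (c 1 * φ (uu 1)) = n V (c a) * n V (φ (uu 1)) := by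
      rw [n_mul, mul_add, mul_add, ← mul_assoc, q, zero_mul, zero_add, add_zero]
    rw [n_mul, add_mul, add_mul, mul_assoc, r1, r2, ← (CN a).eq, ← mul_assoc, q, zero_mul, add_zero,
      σn a, ← mul_assoc, (σC a).eq, ← add_mul] at r
    have r3 := b1_zero h φ hφ h8
      (fun g => (b3c_cm (hcc a g)).add_left ((σc a g).mul_left (b3c_cm (hcc 1 g)))) r
    rw [← add_zero (n V (c a)), ← two (σ a * n V (c 1)), ← add_assoc, r3, zero_add]
  obtain ⟨a, a0, a1⟩ : ∃ a : F, a ≠ 0 ∧ a ≠ 1 := by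
    classical
    have := Fintype.ofFinite F
    obtain ⟨a, ha⟩ := Finset.exists_mem_notMem_of_card_lt_card (s := ({0, 1} : Finset F))
      (t := Finset.univ) (by
        have := Finset.card_le_two (a := (0 : F)) (b := 1)
        rw [Finset.card_univ, ← Nat.card_eq_fintype_card]; omega)
    exact ⟨a, by simpa [not_or] using ha.2⟩
  have z1 := b4 σ (n V (φ (uu 1))) (n V (c 1)) (ρ V s) (ρ V s⁻¹) ss ss' σN (fun a => (σC a).symm) (CN 1)
    (b3c_cm (hs4 _ _ (hu 1) (mem 1) (hcc 1)).symm).symm (q 1) (fun a => by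
      rw [← σn a, ← n_conj, hce a, n_mul, hCa a, σn a, mul_add, map_mul, mul_assoc (σ a) (n V (c 1)),
        ← mul_assoc (n V (c 1)), (σC a).eq]
      simp only [mul_assoc]) a0 a1
  have z2 : c 1 = 1 := h.n_eq_zero (b1_zero h φ hφ h8 (fun g => b3c_cm (hcc 1 g)) z1)
  have z3 := mem 1
  rw [z2, one_mul] at z3
  exact e1 (Ax_ti h hF e1 e2 e1' e2' hne (hu 1) z3)

end Cfsg.Agent.Gag
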