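import Cfsg.Agent.Gag.Def

set_option autoImplicit false
set_option linter.unusedSectionVars false
open Matrix MatrixGroups Cfsg.Agent.Perm.Fpf Cfsg.Agent.PLocal

namespace Cfsg.Agent.Gag

universe u v
variable {p : ℕ} {G : Type u} {V : Type v} [Group G] [Finite G] [AddCommGroup V] [Finite V] [DistribMulAction G V]

/-! Pure ring identities; `x, y` of order three with inverses `x + 1`, `y + 1`; `d = x + y`,
`z = d * d = x + y + x y + y x`, `g = x (y + 1)`, `g⁻¹ = y (x + 1)`, `g + g⁻¹ = z`. -/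
variable {R : Type*} [Ring R]

theorem e2r_z (h2 : (2 : R) = 0) {x y : R} (hx : x * x + x + 1 = 0) (hy : y * y + y + 1 = 0) :
    (x + y) * (x + y) = x * (y + 1) + y * (x + 1) ∧ Commute x ((x + y) * (x + y)) ∧
      Commute y ((x + y) * (x + y)) := by
  refine ⟨?_, ?_, ?_⟩
  · linear_combination (norm := noncomm_ring) hx + hy - (x + y + 1) * h2
  · change _ = _
    linear_combination (norm := noncomm_ring) hx * y + x * hy - y * hx - hy * x + (y * x - x * y) * h2
  · change _ = _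
    linear_combination (norm := noncomm_ring) hy * x + y * hx - x * hy - hx * y + (x * y - y * x) * h2

theorem e2r_inv {x y : R} (hx : x * x + x + 1 = 0) (hy : y * y + y + 1 = 0) :
    x * (y + 1) * (y * (x + 1)) = 1 := by
  linear_combination (norm := noncomm_ring) x * hy * (x + 1) - hx

theorem e2r_sq (h2 : (2 : R) = 0) {u v : R} (h : Commute u v) : (u + v) * (u + v) = u * u + v * v := by
  linear_combination (norm := noncomm_ring) v * u * h2 + h.eq

theorem e2r_cg (h2 : (2 : R) = 0) {x y : R} (hx : x * x + x + 1 = 0) (hy : y * y + y + 1 = 0) :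
    Commute (x * (y + 1)) ((x + y) * (x + y)) :=
  (e2r_z h2 hx hy).2.1.mul_left ((e2r_z h2 hx hy).2.2.add_left (Commute.one_left _))

theorem e2r_gg (h2 : (2 : R) = 0) {x y : R} (hx : x * x + x + 1 = 0) (hy : y * y + y + 1 = 0) :
    x * (y + 1) * (x * (y + 1)) = x * (y + 1) * ((x + y) * (x + y)) + 1 := by
  rw [(e2r_z h2 hx hy).1, mul_add (x * (y + 1)), e2r_inv hx hy, add_assoc, one_add_one_eq_two, h2,
    add_zero]

theorem e2r_ind (h2 : (2 : R) = 0) {g z x : R} (hg : g * g = g * z + 1) (h1 : Commute g z)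
    (hx : Commute x z) (k : ℕ) :
    ∃ c, Commute c x ∧ Commute c g ∧ Commute c z ∧ g ^ 2 ^ k = z ^ (2 ^ k - 1) * g + c := by
  induction k with
  | zero => exact ⟨0, Commute.zero_left _, Commute.zero_left _, Commute.zero_left _, by simp⟩
  | succ k ih =>
    obtain ⟨c, c1, c2, c3, h⟩ := ih
    have e : 2 ^ (k + 1) - 1 = (2 ^ k - 1) + (2 ^ k - 1) + 1 := by
      have := Nat.one_le_two_pow (n := k)
      omega
    generalize 2 ^ k - 1 = m at h e
    refine ⟨z ^ m * z ^ m + c * c,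
      ((hx.symm.pow_left m).mul_left (hx.symm.pow_left m)).add_left (c1.mul_left c1),
      ((h1.symm.pow_left m).mul_left (h1.symm.pow_left m)).add_left (c2.mul_left c2),
      ((Commute.pow_self z m).mul_left (Commute.pow_self z m)).add_left (c3.mul_left c3), ?_⟩
    rw [e, pow_succ 2, pow_mul, h, sq, e2r_sq h2 ((c3.symm.pow_left m).mul_left c2.symm),
      (h1.pow_right m).mul_mul_mul_comm, hg, h1.eq, pow_succ, pow_add]
    noncomm_ring

/-- `g² = z g + 1`, so by induction `g ^ 2 ^ k = z ^ (2 ^ k - 1) g + c` with `c` central (a polynomial in `z`):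
`(a g + c)² = a² (z g + 1) + c²`; and `g x + x g = x (y x + x y) = x (z + d)`. -/
theorem e2r_pow (h2 : (2 : R) = 0) {x y : R} (hx : x * x + x + 1 = 0) (hy : y * y + y + 1 = 0) (k : ℕ) :
    (x * (y + 1)) ^ 2 ^ k * x + x * (x * (y + 1)) ^ 2 ^ k =
      ((x + y) * (x + y)) ^ (2 ^ k - 1) * (x * ((x + y) * (x + y) + (x + y))) := by
  obtain ⟨h3, h4, -⟩ := e2r_z h2 hx hy
  obtain ⟨c, c1, -, -, h⟩ := e2r_ind h2 (e2r_gg h2 hx hy) (e2r_cg h2 hx hy) h4 k
  have h5 := (h4.pow_right (2 ^ k - 1)).eq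
  rw [h]
  generalize ((x + y) * (x + y)) ^ (2 ^ k - 1) = a at h5
  rw [h3]
  linear_combination (norm := noncomm_ring) h5 * (x * (y + 1)) + c1.eq + x * c * h2 - a * x * y * h2

/-- `(g + 1)² = g z` with `z` commuting with `g`, Frobenius -/
theorem e2r_sub (h2 : (2 : R) = 0) {x y : R} (hx : x * x + x + 1 = 0) (hy : y * y + y + 1 = 0) (k : ℕ) :
    (x * (y + 1)) ^ 2 ^ (k + 1) - 1 = (x * (y + 1)) ^ 2 ^ k * ((x + y) * (x + y)) ^ 2 ^ k := by
  have h3 := e2r_cg h2 hx hy
  have h4 := e2r_gg h2 hx hy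
  generalize x * (y + 1) = g at h3 h4
  generalize (x + y) * (x + y) = z at h3 h4
  induction k with
  | zero => simp [sq, h4]
  | succ k ih =>
    rw [pow_succ 2 (k + 1), pow_mul, pow_succ 2 k, pow_mul g, pow_mul z, ← (h3.pow_pow _ _).mul_pow, ← ih,
      pow_succ 2 k, pow_mul g]
    generalize (g ^ 2 ^ k) ^ 2 = u
    linear_combination (norm := noncomm_ring) (u - 1) * h2

/-- if `g² = 1` (so `z = 0`, `g + 1 = d (x + 1)`) then `g + 1` is `x`-antilinear -/
theorem e2r_anti (h2 : (2 : R) = 0) {x y : R} (hx : x * x + x + 1 = 0) (hy : y * y + y + 1 = 0)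
    (hg : (x * (y + 1)) * (x * (y + 1)) = 1) :
    (x * (y + 1) - 1) * x = (x + 1) * (x * (y + 1) - 1) := by
  have h3 : y * (x + 1) = x * (y + 1) := by
    calc y * (x + 1) = y * (x + 1) * (x * (y + 1) * (x * (y + 1))) := by rw [hg, mul_one]
      _ = x * (y + 1) := by rw [← mul_assoc, e2r_inv hy hx, one_mul]
  have hz : x * (y + 1) + y * (x + 1) = 0 := by rw [h3, ← two_mul, h2, zero_mul]
  linear_combination (norm := noncomm_ring) x * hz - hx * y - hx * y - hx + (y + 1) * h2

end Cfsg.Agent.Gag
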