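import Cfsg.Agent.Gag.Def
import Cfsg.Agent.Gag.AxB
import Cfsg.Agent.Gag.E2r

set_option autoImplicit false
set_option linter.unusedSectionVars false
open Matrix MatrixGroups Cfsg.Agent.Perm.Fpf Cfsg.Agent.PLocal

namespace Cfsg.Agent.Gag

universe u v
variable {p : ℕ} {G : Type u} {V : Type v} [Group G] [Finite G] [AddCommGroup V] [Finite V] [DistribMulAction G V]

theorem e2a_app {M : Type*} [AddCommGroup M] (f g : AddMonoid.End M) (v : M) :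
    (f * g) v = f (g v) := rfl

theorem e2a_nil {M : Type*} [AddCommGroup M] (d : AddMonoid.End M) (a : ℕ)
    (hk : ∀ v, (d ^ (a + 1)) v = 0 → ∃ u, (d ^ (a + 1)) u = v) (h0 : d ^ (a + 1) * d ^ a = 0) :
    d ^ (a + 1) = 0 := by
  have key : ∀ m : ℕ, ∀ v, ∃ u, (d ^ a) v = (d ^ (m + a)) u := by
    intro m
    induction m with
    | zero => intro v; exact ⟨v, by rw [zero_add]⟩
    | succ m ih =>
      intro v
      obtain ⟨u, hu⟩ := ih v
      obtain ⟨u', hu'⟩ := hk ((d ^ a) u) (by rw [← e2a_app, h0]; rfl)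
      refine ⟨u', ?_⟩
      rw [hu, pow_add, e2a_app, ← hu', ← e2a_app, ← pow_add]
      congr 2
      ring
  have ha : d ^ a = 0 := by
    ext v
    obtain ⟨u, hu⟩ := key (a + 1) v
    rw [hu, pow_add, h0]
    rfl
  rw [pow_succ, ha, zero_mul]

theorem e2a_inv (h2 : (2 : AddMonoid.End V) = 0) {y : G} (hY : ρ V y * ρ V y + ρ V y + 1 = 0) :
    ρ V y⁻¹ = ρ V y + 1 := by
  have e : ρ V y⁻¹ * ρ V y = 1 := by rw [← map_mul, inv_mul_cancel, map_one]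
  have e2 : ρ V y⁻¹ * (ρ V y * ρ V y + ρ V y + 1) = 0 := by rw [hY, mul_zero]
  rw [mul_add, mul_add, ← mul_assoc, e, one_mul, mul_one] at e2
  have e3 : ρ V y⁻¹ + ρ V y⁻¹ = 0 := by rw [← two_mul, h2, zero_mul]
  calc ρ V y⁻¹ = ρ V y⁻¹ + (ρ V y + 1 + ρ V y⁻¹) := by rw [e2, add_zero]
    _ = (ρ V y⁻¹ + ρ V y⁻¹) + (ρ V y + 1) := by abel
    _ = ρ V y + 1 := by rw [e3, zero_add]

/-- the elements whose action commutes with `κ` -/
def e2aC (G : Type u) [Group G] [DistribMulAction G V] (κ : AddMonoid.End V) : Subgroup G where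
  carrier := {g | Commute (ρ V g) κ}
  one_mem' := by simp
  mul_mem' := by
    intro a b ha hb
    simp only [Set.mem_setOf_eq, map_mul] at *
    exact ha.mul_left hb
  inv_mem' := by
    intro a ha
    simp only [Set.mem_setOf_eq] at *
    have e : ρ V a⁻¹ * ρ V a = 1 := by rw [← map_mul, inv_mul_cancel, map_one]
    have e' : ρ V a * ρ V a⁻¹ = 1 := by rw [← map_mul, mul_inv_cancel, map_one]
    calc ρ V a⁻¹ * κ = ρ V a⁻¹ * (κ * ρ V a) * ρ V a⁻¹ := by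
          rw [mul_assoc, mul_assoc, e', mul_one]
      _ = κ * ρ V a⁻¹ := by rw [← ha.eq, ← mul_assoc, e, one_mul]

theorem e2a_mem {κ : AddMonoid.End V} {g : G} : g ∈ e2aC G κ ↔ Commute (ρ V g) κ := Iff.rfl

theorem e2a_cancel (a : G) {T : AddMonoid.End V} (hT : ρ V a * T = 0) : T = 0 := by
  have e : ρ V a⁻¹ * ρ V a = 1 := by rw [← map_mul, inv_mul_cancel, map_one]
  rw [← one_mul T, ← e, mul_assoc, hT, mul_zero]

/-- the middle step: `x` commutes with the involution `t`, `n t = ρ c * κ` -/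
theorem e2a_comm (h : Sr 2 G V) (hF : Fr G V) {x c t : G} {S : Subgroup G}
    (hS : IsPGroup 2 S) (hn : ∀ s ∈ S, x * s * x⁻¹ ∈ S) (hc : c ∈ S) {κ : AddMonoid.End V}
    (hxκ : Commute (ρ V x) κ) (hcκ : Commute (ρ V c) κ) (ht1 : t ≠ 1) (htt : t * t = 1)
    (hnt : n V t = ρ V c * κ) :
    κ ≠ 0 ∧ κ * κ = 0 ∧ (∀ v, κ v = 0 → ∃ u, κ u = v) ∧ (ρ V c * ρ V x + ρ V x * ρ V c) * κ = 0 := by
  have h2 := h.two
  have hκ0 : κ ≠ 0 := fun h0 => ht1 (h.n_eq_zero (by rw [hnt, h0, mul_zero]))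
  have hκκ : κ * κ = 0 := by
    have := n_sq h htt
    rw [hnt, mul_assoc, ← mul_assoc κ, ← hcκ.eq, mul_assoc] at this
    exact e2a_cancel c (e2a_cancel c this)
  have hker : ∀ v, κ v = 0 → ∃ u, κ u = v := by
    intro v hv
    obtain ⟨u, hu⟩ := hF t ht1 htt v (by rw [hnt, e2a_app, hv, map_zero])
    rw [hnt, hcκ.eq, e2a_app] at hu
    exact ⟨_, hu⟩
  have hxC : x ∈ e2aC G κ := hxκ
  have hcC : c ∈ e2aC G κ := hcκ
  have hc'C : x * c * x⁻¹ ∈ e2aC G κ := mul_mem (mul_mem hxC hcC) (inv_mem hxC)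
  have hc'κ : Commute (ρ V (x * c * x⁻¹)) κ := hc'C
  have hxi : Commute (ρ V x⁻¹) κ := (inv_mem hxC : x⁻¹ ∈ e2aC G κ)
  have hnt' : n V (x * t * x⁻¹) = ρ V (x * c * x⁻¹) * κ := by
    rw [n_conj, hnt, map_mul, map_mul, mul_assoc (ρ V x * ρ V c), hxi.eq]
    simp only [mul_assoc]
  have hA' : x * t * x⁻¹ ∈ Ax V t := by
    rw [mem_Ax, hnt', hnt, mul_assoc _ κ, ← mul_assoc κ, ← hcκ.eq, mul_assoc _ κ κ, hκκ, mul_zero, mul_zero]
  have hA : t * (x * t * x⁻¹) ∈ Ax V t := mul_mem (self_mem_Ax h htt) hA'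
  have hntt : n V (t * (x * t * x⁻¹)) = (ρ V c + ρ V (x * c * x⁻¹)) * κ := by
    rw [n_mul, hnt', hnt, mul_assoc (ρ V c) κ, ← mul_assoc κ, ← hc'κ.eq, mul_assoc _ κ κ, hκκ,
      mul_zero, mul_zero, add_zero, add_mul]
  have hP : IsPGroup 2 (S ⊓ e2aC G κ : Subgroup G) := hS.to_le inf_le_left
  obtain ⟨v, ⟨u, rfl⟩, hv0, hv⟩ := h.exists_fix hP (W := AddMonoidHom.range (κ : V →+ V))
    (by
      intro hb
      apply hκ0
      ext v
      have : κ v ∈ AddMonoidHom.range (κ : V →+ V) := ⟨v, rfl⟩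
      rw [hb] at this
      exact this)
    (by
      rintro g ⟨-, hg⟩ w ⟨u, rfl⟩
      refine ⟨g • u, ?_⟩
      have hg' : Commute (ρ V g) κ := hg
      exact (DFunLike.congr_fun hg'.eq u).symm)
  have hv0' : κ u ≠ 0 := hv0
  have f1 : c • κ u = κ u := hv c ⟨hc, hcC⟩
  have f2 : (x * c * x⁻¹) • κ u = κ u := hv _ ⟨hn c hc, hc'C⟩
  have hfix : (t * (x * t * x⁻¹)) • u = u := by
    have : n V (t * (x * t * x⁻¹)) u = 0 := by
      rw [hntt, e2a_app]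
      change c • κ u + (x * c * x⁻¹) • κ u = 0
      rw [f1, f2, ← two_nsmul]
      exact h.tors _
    rwa [n_apply, sub_eq_zero] at this
  have h1 : t * (x * t * x⁻¹) = 1 := by
    by_contra hne
    have := (fix_iff h hF ht1 htt hA hne (Ax_sq h hF ht1 htt hA) u).mp hfix
    have e : n V t u = 0 := by rw [n_apply, this, sub_self]
    rw [hnt, e2a_app, ρ_apply, f1] at e
    exact hv0' e
  refine ⟨hκ0, hκκ, hker, ?_⟩
  have e0 : (ρ V c + ρ V (x * c * x⁻¹)) * κ = 0 := by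
    rw [← hntt, h1]; simp [n]
  have e : ρ V x⁻¹ * ρ V x = 1 := by rw [← map_mul, inv_mul_cancel, map_one]
  calc (ρ V c * ρ V x + ρ V x * ρ V c) * κ = (ρ V c + ρ V (x * c * x⁻¹)) * ρ V x * κ := by
        rw [add_mul (ρ V c), map_mul, map_mul, mul_assoc _ (ρ V x⁻¹), e, mul_one]
    _ = 0 := by rw [mul_assoc, hxκ.eq, ← mul_assoc, e0, zero_mul]

/-- Put `y = g x` (order 3: `g ≠ x⁻¹` as `g` is a 2-element), `X = ρ x`, `Y = ρ y`, `γ = g⁻¹ = x y⁻¹`,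
`ρ γ = X (Y + 1)` (`Sr.cube`), `d = X + Y`, `z = d d` (commutes with `X`, `Y`: file `E2r`). Suppose `γ` has
order `2 ^ (k + 2)`; `j = 2 ^ k`, `t = γ ^ (2 j)` is an involution, `n t = ρ γ ^ j * κ`, `κ = z ^ j`
(`e2r_sub`), so `W_t = range κ = ker κ` (`Fr`), `κ κ = 0`. `t' = x t x⁻¹` has `n t' = ρ(xγx⁻¹)^j κ`, range
`range κ` too, so `t' ∈ Ax t` and `n (t t') = (ρ γ^j + ρ(xγx⁻¹)^j) κ`. The 2-group
`closure {γ, xγx⁻¹} ≤ S` (or `S ⊓ closure {x, y}`) stabilises `range κ`, so fixes some `κ u ≠ 0`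
(`exists_fix`): `n (t t') u = 0` with `u ∉ W_t`; hence `t t' = 1` (`fix_iff`), `x` commutes with `t`.
So `(ρ γ^j X + X ρ γ^j) κ = 0`; by `e2r_pow`, `z^(2j-1) (z + d) = 0`, so `d ^ (4j - 1) = 0` (`z^(2j) = 0`).
Thus `range d^(2j-1) ⊆ ker κ = range d^(2j)`, inductively `⊆ range d^m` for all `m`, so `d^(2j-1) = 0`,
`κ = 0`, `t = 1`: absurd. Hence `γ² = 1`, and `e2r_anti` (`ρ x⁻¹ = X + 1`). -/
theorem e2a (h : Sr 2 G V) (hF : Fr G V) {x g : G} (hx : orderOf x = 3) {S : Subgroup G}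
    (hS : IsPGroup 2 S) (hn : ∀ s ∈ S, x * s * x⁻¹ ∈ S) (hg : g ∈ S) (h3 : (g * x) ^ 3 = 1) :
    g * g = 1 ∧ n V g * ρ V x = ρ V x⁻¹ * n V g := by
  haveI : Fact (Nat.Prime 2) := ⟨Nat.prime_two⟩
  haveI : Fact (Nat.Prime 3) := ⟨Nat.prime_three⟩
  have h2 := h.two
  obtain ⟨m, hm⟩ : ∃ m, orderOf g = 2 ^ m := by
    obtain ⟨m, hm⟩ := (IsPGroup.iff_orderOf.mp hS) ⟨g, hg⟩
    exact ⟨m, by rw [← hm, Subgroup.orderOf_mk]⟩
  have hy1 : g * x ≠ 1 := by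
    intro h1
    have e : g = x⁻¹ := eq_inv_of_mul_eq_one_left h1
    rw [e, orderOf_inv, hx] at hm
    have : (3 : ℕ) ∣ 2 ^ m := hm ▸ dvd_rfl
    have := Nat.prime_three.dvd_of_dvd_pow this
    omega
  have hy3 : orderOf (g * x) = 3 := orderOf_eq_prime h3 hy1
  have hX := h.cube (by decide) hx
  have hY := h.cube (by decide) hy3
  have hγ : ρ V g⁻¹ = ρ V x * (ρ V (g * x) + 1) := by
    rw [← e2a_inv h2 hY, ← map_mul]
    congr 1
    group
  have hgg : g * g = 1 := by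
    by_contra hne
    obtain ⟨k, rfl⟩ : ∃ k, m = k + 2 := by
      rcases m with _ | _ | k
      · exact absurd (by rw [orderOf_eq_one_iff.mp hm, mul_one]) hne
      · exact absurd (by rw [← pow_two]; exact orderOf_dvd_iff_pow_eq_one.mp (by rw [hm]; rfl)) hne
      · exact ⟨k, rfl⟩
    have hm' : orderOf g⁻¹ = 2 ^ (k + 2) := by rw [orderOf_inv, hm]
    have ht1 : g⁻¹ ^ 2 ^ (k + 1) ≠ 1 := by
      intro h1
      have := orderOf_dvd_iff_pow_eq_one.mpr h1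
      rw [hm', Nat.pow_dvd_pow_iff_le_right (by decide)] at this
      omega
    have htt : g⁻¹ ^ 2 ^ (k + 1) * g⁻¹ ^ 2 ^ (k + 1) = 1 := by
      rw [← pow_add, ← two_mul, ← pow_succ', ← hm', pow_orderOf_eq_one]
    obtain ⟨-, cx, cy⟩ := e2r_z h2 hX hY
    set X := ρ V x with hXd
    set Y := ρ V (g * x) with hYd
    set d := X + Y with hd
    have cγ : Commute (X * (Y + 1)) (d * d) := cx.mul_left (cy.add_left (Commute.one_left _))
    have hc : ρ V (g⁻¹ ^ 2 ^ k) = (X * (Y + 1)) ^ 2 ^ k := by rw [map_pow, hγ]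
    obtain ⟨k0, kk, kr, ke⟩ := e2a_comm h hF (x := x) (c := g⁻¹ ^ 2 ^ k) (t := g⁻¹ ^ 2 ^ (k + 1)) hS hn
      (pow_mem (inv_mem hg) _) (κ := (d * d) ^ 2 ^ k) (cx.pow_right _)
      (by rw [hc]; exact cγ.pow_pow _ _) ht1 htt
      (by rw [hc, n, map_pow, hγ]; exact e2r_sub h2 hX hY k)
    rw [hc, ← hXd, e2r_pow h2 hX hY k, ← hd] at ke
    obtain ⟨j, hj⟩ : ∃ j, 2 ^ k = j + 1 := ⟨2 ^ k - 1, (Nat.sub_add_cancel Nat.one_le_two_pow).symm⟩
    rw [hj] at k0 kk kr ke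
    rw [Nat.add_sub_cancel, ← mul_assoc, ← (cx.pow_right j).eq, mul_assoc, mul_assoc] at ke
    have ke' := e2a_cancel x ke
    have e1 : ∀ i : ℕ, (d * d) ^ i = d ^ (2 * i) := fun i => by rw [pow_mul, pow_two]
    have e2 : 2 * (j + 1) = 2 * j + 1 + 1 := by ring
    rw [e1, e2] at k0 kk kr
    apply k0
    apply e2a_nil d (2 * j + 1) kr
    rw [e1, e1, add_mul, mul_add, ← pow_two, ← pow_add, ← pow_add, ← pow_succ', ← pow_add] at ke'
    rw [← pow_add] at kk ⊢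
    rw [show 2 * j + (2 + 2 * (j + 1)) = 2 * j + 1 + 1 + (2 * j + 1 + 1) by ring, kk, zero_add] at ke'
    rw [← ke']
    congr 1
    ring
  refine ⟨hgg, ?_⟩
  have hgi : g⁻¹ = g := inv_eq_of_mul_eq_one_left hgg
  rw [hgi] at hγ
  rw [n, hγ, e2a_inv h2 hX]
  refine e2r_anti h2 hX hY ?_
  rw [← hγ, ← map_mul, hgg, map_one]

end Cfsg.Agent.Gag
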