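import Cfsg.Agent.Gag.Def
import Cfsg.Agent.Gag.E2a

set_option autoImplicit false
set_option linter.unusedSectionVars false
open Matrix MatrixGroups Cfsg.Agent.Perm.Fpf Cfsg.Agent.PLocal

namespace Cfsg.Agent.Gag

universe u v
variable {p : ℕ} {G : Type u} {V : Type v} [Group G] [Finite G] [AddCommGroup V] [Finite V] [DistribMulAction G V]

theorem e2b_comm (h : Sr 2 G V) (hF : Fr G V) {x a b : G} (hx : orderOf x = 3) {S : Subgroup G}
    (hS : IsPGroup 2 S) (hn : ∀ s ∈ S, x * s * x⁻¹ ∈ S) (ha : a ∈ S) (h₁ : (a * x) ^ 3 = 1)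
    (hb : b ∈ S) (h₂ : (b * x) ^ 3 = 1) : Commute a b := by
  have := Fact.mk Nat.prime_three
  have h1 : orderOf (a * x) = 3 := orderOf_eq_prime h₁ fun e => by
    obtain ⟨k, hk⟩ := hS ⟨a, ha⟩
    have h2 : x ^ 2 ^ k = 1 := by
      rw [eq_inv_of_mul_eq_one_right e, inv_pow, show a ^ 2 ^ k = 1 from congrArg Subtype.val hk, inv_one]
    rw [← orderOf_dvd_iff_pow_eq_one, hx] at h2
    exact absurd (Nat.prime_three.dvd_of_dvd_pow h2) (by norm_num)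
  have h2 := (e2a h hF h1 hS (fun s hs => by
    rw [show a * x * s * (a * x)⁻¹ = a * (x * s * x⁻¹) * a⁻¹ by group]
    exact mul_mem (mul_mem ha (hn s hs)) (inv_mem ha)) (mul_mem hb (inv_mem ha))
    (by rwa [mul_assoc, inv_mul_cancel_left])).1
  have h3 := inv_eq_of_mul_eq_one_right (e2a h hF hx hS hn ha h₁).1
  have h4 := inv_eq_of_mul_eq_one_right (e2a h hF hx hS hn hb h₂).1
  rw [h3] at h2
  have h5 := inv_eq_of_mul_eq_one_right h2
  rwa [_root_.mul_inv_rev, h3, h4] at h5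

/-- `T = {g ∈ S | (g x)³ = 1}`. For `g₁, g₂ ∈ T`: `y₁ = g₁ x` has order 3, normalises `S`, and
`(g₂ g₁⁻¹) y₁ = g₂ x` has cube 1, so `e2a` (for `y₁`) gives `(g₂ g₁)² = 1`: the involutions of `T` commute.
`T` is closed under conjugation by `x`, and `(g x)³ = g · xgx⁻¹ · x²gx⁻²`; so `g₁ g₂ ∈ T`. With
`A = n g₁`, `B = n g₂`: `A`, `B`, `A + B + A B` are `x`-antilinear, so `A B` is antilinear and linear:
`(ρ x + ρ x⁻¹) A B = 0`, and `ρ x + ρ x⁻¹ = 1` (`Sr.cube`, `Sr.two`). -/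
theorem e2b (h : Sr 2 G V) (hF : Fr G V) {x g₁ g₂ : G} (hx : orderOf x = 3) {S : Subgroup G}
    (hS : IsPGroup 2 S) (hn : ∀ s ∈ S, x * s * x⁻¹ ∈ S) (hg₁ : g₁ ∈ S) (h₁ : (g₁ * x) ^ 3 = 1)
    (hg₂ : g₂ ∈ S) (h₂ : (g₂ * x) ^ 3 = 1) : n V g₁ * n V g₂ = 0 := by
  have h3 : x ^ 3 = 1 := hx ▸ pow_orderOf_eq_one x
  have k : ∀ g, (g * x) ^ 3 = 1 → (x * g * x⁻¹ * x) ^ 3 = 1 := fun g e => by
    rw [show x * g * x⁻¹ * x = x * (g * x) * x⁻¹ by group, conj_pow, e, mul_one, mul_inv_cancel]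
  have k' : ∀ g, (g * x) ^ 3 = g * (x * g * x⁻¹) * (x * (x * g * x⁻¹) * x⁻¹) := fun g => by
    rw [← mul_one (g * _ * _), ← h3]
    simp only [pow_succ, pow_zero]
    group
  have c1 := e2b_comm h hF hx hS hn hg₂ h₂ (hn _ hg₁) (k _ h₁)
  have c2 := e2b_comm h hF hx hS hn hg₂ h₂ (hn _ (hn _ hg₁)) (k _ (k _ h₁))
  have c3 := e2b_comm h hF hx hS hn (hn _ hg₂) (k _ h₂) (hn _ (hn _ hg₁)) (k _ (k _ h₁))
  have h4 : (g₁ * g₂ * x) ^ 3 = 1 := by
    have e : ∀ a b : G, x * (a * b) * x⁻¹ = x * a * x⁻¹ * (x * b * x⁻¹) := fun a b => by group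
    have e₁ := h₁
    have e₂ := h₂
    rw [k'] at e₁ e₂ ⊢
    rw [e, e]
    generalize x * (x * g₁ * x⁻¹) * x⁻¹ = a2 at *
    generalize x * (x * g₂ * x⁻¹) * x⁻¹ = b2 at *
    generalize x * g₁ * x⁻¹ = a1 at *
    generalize x * g₂ * x⁻¹ = b1 at *
    rw [c1.mul_mul_mul_comm, (c2.mul_left c3).mul_mul_mul_comm, e₁, e₂, one_mul]
  have hA := (e2a h hF hx hS hn hg₁ h₁).2
  have hB := (e2a h hF hx hS hn hg₂ h₂).2
  have hC := (e2a h hF hx hS hn (mul_mem hg₁ hg₂) h4).2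
  have h5 := h.cube (by norm_num) hx
  have h6 : ρ V x⁻¹ = ρ V x * ρ V x := by
    rw [← map_mul, inv_eq_of_mul_eq_one_right (show x * (x * x) = 1 by rw [← h3, pow_three])]
  have h7 : ρ V x * ρ V x⁻¹ = 1 := by rw [← map_mul, mul_inv_cancel, map_one]
  have h8 := h.two
  rw [n_mul] at hC
  generalize n V g₁ = A at *
  generalize n V g₂ = B at *
  generalize ρ V x⁻¹ = Y at *
  generalize ρ V x = X at *
  have h9 : A * Y = X * A := by rw [← one_mul (A * Y), ← h7, ← mul_one (X * A), ← h7, mul_assoc X Y, ← mul_assoc Y, ← hA]; noncomm_ring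
  have h10 : A * B * X = Y * (A * B) := by
    rw [add_mul, add_mul, mul_add, mul_add, hA, hB] at hC
    exact add_left_cancel hC
  rw [mul_assoc, hB, ← mul_assoc, h9, mul_assoc, ← sub_eq_zero, ← sub_mul, h6,
    show X - X * X = 1 + 2 * X - (X * X + X + 1) by noncomm_ring, h5, h8, zero_mul, add_zero, sub_zero, one_mul] at h10
  exact h10

end Cfsg.Agent.Gag
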