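import Cfsg.Agent.Gag.Def
import Cfsg.Agent.Gag.E2b
import Cfsg.Agent.Gag.Ant

set_option autoImplicit false
set_option linter.unusedSectionVars false
open Matrix MatrixGroups Cfsg.Agent.Perm.Fpf Cfsg.Agent.PLocal

namespace Cfsg.Agent.Gag

universe u v
variable {p : ℕ} {G : Type u} {V : Type v} [Group G] [Finite G] [AddCommGroup V] [Finite V] [DistribMulAction G V]

theorem ca_inv (h : Sr 2 G V) {y : G} (hy : orderOf y = 3) : ρ V y⁻¹ = ρ V y + 1 := by
  have e : y⁻¹ = y * y := inv_eq_of_mul_eq_one_right (by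
    rw [← pow_orderOf_eq_one y, hy, pow_succ', pow_two])
  have c := h.cube (by norm_num) hy
  have t : ρ V y + 1 + (ρ V y + 1) = 0 := by rw [← two_mul, h.two, zero_mul]
  rw [e, map_mul]
  rw [add_assoc, ← t] at c
  exact add_right_cancel c

theorem ca_flip {y : G} {a : AddMonoid.End V} (e : a * ρ V y = ρ V y⁻¹ * a) : a * ρ V y⁻¹ = ρ V y * a := by
  have i1 : ρ V y * ρ V y⁻¹ = 1 := by rw [← map_mul, mul_inv_cancel, map_one]
  calc a * ρ V y⁻¹ = ρ V y * (ρ V y⁻¹ * a) * ρ V y⁻¹ := by rw [← mul_assoc, i1, one_mul]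
    _ = _ := by rw [← e, mul_assoc, mul_assoc, i1, mul_one]

theorem ca_key (h : Sr 2 G V) (hF : Fr G V) {x e e' y : G} (hx : orderOf x = 3) (h1 : e ≠ 1) (ee : e * e = 1)
    (h3 : (e * x) ^ 3 = 1) (ha : n V e * ρ V x = ρ V x⁻¹ * n V e) (hxe : x * e * x⁻¹ ∈ Ax V e)
    (h1' : e' ≠ 1) (ee' : e' * e' = 1) (hne : Ax V e' ≠ Ax V e) (hb : ∀ f ∈ Ax V e, Commute f e')
    (hy : orderOf y = 3) (hye : y⁻¹ * e' * y ∈ Ax V e') (hay : n V e' * ρ V y = ρ V y⁻¹ * n V e')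
    {v : V} (hv : v ≠ 0) (v1 : e • v = v) (v2 : e • x • v = x • v) (v3 : x • v = y • v) : False := by
  have ix : x⁻¹ • v = x • v + v := congrArg (fun a : AddMonoid.End V => a v) (ca_inv h hx)
  have iy : y⁻¹ • v = y • v + v := congrArg (fun a : AddMonoid.End V => a v) (ca_inv h hy)
  have hg : y * x⁻¹ ∈ Ax V e := mem_Ax.2 (e2b h hF hx
    (S := MulAction.stabilizer G v ⊓ MulAction.stabilizer G (x • v))
    (h.pgroup_of_fix hv fun g hg => hg.1) (fun s hs => ⟨by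
      have k1 : s • v = v := hs.1
      have k2 : s • x • v = x • v := hs.2
      show (x * s * x⁻¹) • v = v
      rw [mul_smul, mul_smul, ix, smul_add, k1, k2, ← ix, smul_inv_smul], by
      have k1 : s • v = v := hs.1
      show (x * s * x⁻¹) • x • v = x • v
      rw [mul_smul, mul_smul, inv_smul_smul, k1]⟩) ⟨by
      show (y * x⁻¹) • v = v
      rw [mul_smul, ix, v3, ← iy, smul_inv_smul], by
      show (y * x⁻¹) • x • v = x • v
      rw [mul_smul, inv_smul_smul, v3]⟩ (by rw [inv_mul_cancel_right, ← hy, pow_orderOf_eq_one]) ⟨v1, v2⟩ h3)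
  have m := ant_mem h hF h1 ee (by rw [hx]; decide) ha hxe hb
  have e1 : x⁻¹ * (e' * x * e'⁻¹) = y⁻¹ * e' * y * e'⁻¹ :=
    calc x⁻¹ * (e' * x * e'⁻¹) = y⁻¹ * (y * x⁻¹ * e') * x * e'⁻¹ := by group
      _ = _ := by rw [(hb _ hg).eq]; group
  rw [e1] at m
  have m1 := Ax_ti h hF h1 ee h1' ee' hne m (mul_mem hye (inv_mem (self_mem_Ax h ee')))
  have c : Commute e' y := by
    show e' * y = y * e'
    calc e' * y = y * (y⁻¹ * e' * y * e'⁻¹) * e' := by group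
      _ = _ := by rw [m1, mul_one]
  have c' : n V e' * ρ V y = ρ V y * n V e' := ((c.map (ρ V)).sub_left (Commute.one_left _)).eq
  rw [c', ca_inv h hy, add_mul, one_mul, left_eq_add] at hay
  exact h1' (h.n_eq_zero hay)

/-- `e² = 1`, `n e` is `x`-antilinear (`e2a`), `x e x⁻¹ ∈ E = Ax e` (`e2b`). Let `e' = k e k⁻¹`,
`x' = k x k⁻¹`, `E' = Ax e' ≠ E` centralising `E`; `π = n e n e' ≠ 0` (else `e ∈ E'`, `Ax_ti`). By `ant_mul`
(twice) `π` is `x`- and `x'`-antilinear, by `ant_comm` `X = ρ x`, `X' = ρ x'` commute on `range π`, so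
`(X + X') (X + X'⁻¹) π = (X² + X (X' + X'⁻¹) + 1) π = 0`: some `v ≠ 0` in `range π` has `x v = y v`,
`y ∈ {x', x'⁻¹}`. `S₀ = {g | g v = v ∧ g x v = x v}` is a 2-group normalised by `x` (`x² v = x v + v`),
contains `e` (`v, x v ∈ range π ⊆ range n e`) and `g = y x⁻¹` (`g x v = y v`, `g v = y (x v + v) = v`).
`(g x)³ = 1`, so `e2b` gives `g ∈ E`. By `ant_mem` `x e' x⁻¹ ∈ e' E`, so `y e' y⁻¹ ∈ e' E ∩ E' = {e'}`
(`y` normalises `E'`): `y` commutes with `e'`, while `n e'` is `y`-antilinear: `n e' = (ρ y + ρ y⁻¹) n e' = 0`. -/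
theorem caseA (h : Sr 2 G V) (hF : Fr G V) {x e : G} (hx : orderOf x = 3) {S : Subgroup G}
    (hS : IsPGroup 2 S) (hn : ∀ s ∈ S, x * s * x⁻¹ ∈ S) (he : e ∈ S) (h1 : e ≠ 1)
    (h3 : (e * x) ^ 3 = 1) : Wc V e := by
  obtain ⟨ee, ha⟩ := e2a h hF hx hS hn he h3
  have hxe : x * e * x⁻¹ ∈ Ax V e := mem_Ax.2 (e2b h hF hx hS hn (hn e he) (by
    rw [show x * e * x⁻¹ * x = x * (e * x) * x⁻¹ by group, conj_pow, h3, mul_one, mul_inv_cancel]) he h3)
  intro k hc
  by_contra hne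
  have h1' : k * e * k⁻¹ ≠ 1 := fun c => h1 (conj_eq_one_iff.1 c)
  have ee' : k * e * k⁻¹ * (k * e * k⁻¹) = 1 := by
    rw [show k * e * k⁻¹ * (k * e * k⁻¹) = k * (e * e) * k⁻¹ by group, ee, mul_one, mul_inv_cancel]
  have hx' : orderOf (k * x * k⁻¹) = 3 := ((MulAut.conj k).orderOf_eq x).trans hx
  have kk : ρ V k⁻¹ * ρ V k = 1 := by rw [← map_mul, inv_mul_cancel, map_one]
  have ha' : n V (k * e * k⁻¹) * ρ V (k * x * k⁻¹) = ρ V (k * x * k⁻¹)⁻¹ * n V (k * e * k⁻¹) := by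
    rw [show (k * x * k⁻¹)⁻¹ = k * x⁻¹ * k⁻¹ by group, n_conj, map_mul, map_mul, map_mul, map_mul]
    calc _ = ρ V k * (n V e * (ρ V k⁻¹ * ρ V k) * ρ V x) * ρ V k⁻¹ := by simp only [mul_assoc]
      _ = ρ V k * (ρ V x⁻¹ * (ρ V k⁻¹ * ρ V k) * n V e) * ρ V k⁻¹ := by rw [kk, mul_one, mul_one, ha]
      _ = _ := by simp only [mul_assoc]
  have hxe' : k * x * k⁻¹ * (k * e * k⁻¹) * (k * x * k⁻¹)⁻¹ ∈ Ax V (k * e * k⁻¹) := by
    rw [show k * x * k⁻¹ * (k * e * k⁻¹) * (k * x * k⁻¹)⁻¹ = k * (x * e * x⁻¹) * k⁻¹ by group]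
    exact (conj_mem_Ax k).2 hxe
  generalize k * e * k⁻¹ = e' at *
  generalize k * x * k⁻¹ = x' at *
  have me := self_mem_Ax (V := V) h ee
  have me' := self_mem_Ax (V := V) h ee'
  have o : Odd (orderOf x) := by rw [hx]; decide
  have o' : Odd (orderOf x') := by rw [hx']; decide
  have hb : ∀ f ∈ Ax V e, Commute f e' := fun f hf => hc f hf e' me'
  have p1 := ca_flip (ant_mul h hF h1 ee o ha hxe hb)
  have p2 := ca_flip (ant_mul h hF h1' ee' o' ha' hxe' (b := e) fun f hf => (hc e me f hf).symm)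
  rw [← (n_comm (V := V) (hb e me)).eq] at p2
  have p3 := ant_comm h hF h1 ee h1' ee' o o' ha ha' hxe hxe' hc
  have p0 : n V e * (n V e * n V e') = 0 := by rw [← mul_assoc, n_sq h ee, zero_mul]
  have pn : n V e * n V e' ≠ 0 := fun c => h1 (Ax_ti h hF h1 ee h1' ee' hne me (mem_Ax.2 c))
  generalize n V e * n V e' = π at p0 p1 p2 p3 pn
  have fx : ∀ u, e • π u = π u := fun u =>
    sub_eq_zero.1 (congrArg (fun a : AddMonoid.End V => a u) p0 : e • π u - π u = 0)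
  have q1 : ∀ u, x • π u = π (x⁻¹ • u) := fun u => (congrArg (fun a : AddMonoid.End V => a u) p1).symm
  have q2 : ∀ u, x' • π u = π (x'⁻¹ • u) := fun u => (congrArg (fun a : AddMonoid.End V => a u) p2).symm
  have t2 : ∀ v : V, v + v = 0 := fun v => (two_nsmul v).symm.trans (h.tors v)
  have eq2 : ∀ a b : V, a + b = 0 → a = b := fun a b c => by
    rw [← t2 b] at c
    exact add_right_cancel c
  obtain ⟨u, hu⟩ : ∃ u, π u ≠ 0 := by
    by_contra c
    push Not at c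
    exact pn (AddMonoidHom.ext c)
  have key := fun y hy hye hay u hu v3 => ca_key h hF hx h1 ee h3 ha hxe h1' ee' hne hb (y := y) hy hye hay
    (v := π u) hu (fx u) (by rw [q1, fx]) v3
  by_cases c : x • π u + (x' • π u + π u) = 0
  · refine key x'⁻¹ (by rw [orderOf_inv, hx']) (by rwa [inv_inv]) (by rw [inv_inv]; exact ca_flip ha') u hu ?_
    exact (eq2 _ _ c).trans (congrArg (fun a : AddMonoid.End V => a (π u)) (ca_inv h hx')).symm
  · have e1 : x • π u + (x' • π u + π u) = π (x⁻¹ • u + (x'⁻¹ • u + u)) := by rw [map_add, map_add, q1, q2]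
    refine key x' hx' ?_ ha' _ (e1 ▸ c) (eq2 _ _ ?_)
    · have e3 : x'⁻¹ = x' * x' := inv_eq_of_mul_eq_one_right (by
        rw [← pow_orderOf_eq_one x', hx', pow_succ', pow_two])
      have := Ax_norm h hF h1' ee' me' h1' hxe' hxe'
      rwa [show x' * (x' * e' * x'⁻¹) * x'⁻¹ = x' * x' * e' * (x' * x')⁻¹ by group, ← e3, inv_inv] at this
    · have c1 : x • x • π u + x • π u + π u = 0 :=
        congrArg (fun a : AddMonoid.End V => a (π u)) (h.cube (by norm_num) hx)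
      have c2 : x' • x' • π u + x' • π u + π u = 0 :=
        congrArg (fun a : AddMonoid.End V => a (π u)) (h.cube (by norm_num) hx')
      have c3 : x • x' • π u = x' • x • π u := congrArg (fun a : AddMonoid.End V => a u) p3
      rw [← e1]
      simp only [smul_add]
      rw [← c3]
      have := t2 (x • x' • π u)
      have := t2 (π u)
      linear_combination (norm := abel) c1 + c2 + t2 (x • x' • π u) - t2 (π u)

/-- take `x, S, s` violating `NoA`, `e = s x s⁻¹ x⁻¹ ∈ S`, `e x = s x s⁻¹` -/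
theorem caseA' (h : Sr 2 G V) (hF : Fr G V) (hA : ¬ NoA G) :
    ∃ e : G, e ≠ 1 ∧ e * e = 1 ∧ Wc V e := by
  unfold NoA at hA
  push Not at hA
  obtain ⟨x, hx, S, hS, hn, s, hs, c⟩ := hA
  have he : s * x * s⁻¹ * x⁻¹ ∈ S := by
    simpa only [mul_assoc] using mul_mem hs (hn _ (inv_mem hs))
  have h3 : (s * x * s⁻¹ * x⁻¹ * x) ^ 3 = 1 := by
    rw [inv_mul_cancel_right, conj_pow, ← hx, pow_orderOf_eq_one, mul_one, mul_inv_cancel]
  have h1 : s * x * s⁻¹ * x⁻¹ ≠ 1 := fun e =>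
    c (mul_inv_eq_iff_eq_mul.1 (mul_inv_eq_one.1 e)).symm
  exact ⟨_, h1, (e2a h hF hx hS hn he h3).1, caseA h hF hx hS hn he h1 h3⟩

end Cfsg.Agent.Gag
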