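import Cfsg.Agent.Gag.Def
import Cfsg.Agent.Gag.Bas1

set_option autoImplicit false
set_option linter.unusedSectionVars false
open Matrix MatrixGroups Cfsg.Agent.Perm.Fpf Cfsg.Agent.PLocal.SL2Nat

namespace Cfsg.Agent.Gag

universe u v
variable {p : ℕ} {G : Type u} {V : Type v} [Group G] [Finite G] [AddCommGroup V] [Finite V] [DistribMulAction G V]

/-- `C = C_G(S) ⊴ G`, `Z = C ⊓ S` is central in `C` with `C / Z` a `p`-group, so `C` is nilpotent (or: a Sylow `p`-subgroup `P` of `C` has `C = P Z`, so is normal,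
characteristic), `P ⊴ G`, `P = ⊥`; so `|C : Z|`, a power of `p`, is 1. -/
theorem cen_eq (hp : p.Prime) (hO : pCore p G = ⊥) (S : Subgroup G) [S.Normal] {k : ℕ}
    (hk : S.relIndex (Subgroup.centralizer (S : Set G)) = p ^ k) :
    Subgroup.centralizer (S : Set G) = (Subgroup.center S).map S.subtype := by
  haveI : Fact p.Prime := ⟨hp⟩
  set C := Subgroup.centralizer (S : Set G) with hC
  haveI : C.Normal := Subgroup.normal_centralizer
  have hq : IsPGroup p (C ⧸ Subgroup.center C) := by
    intro x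
    obtain ⟨c, rfl⟩ := QuotientGroup.mk_surjective x
    refine ⟨k, ?_⟩
    rw [← QuotientGroup.mk_pow, QuotientGroup.eq_one_iff, Subgroup.mem_center_iff]
    intro d
    have h1 : (c : G) ^ p ^ k ∈ S := hk ▸ Subgroup.pow_relIndex_mem S c.2
    apply Subtype.ext
    exact (Subgroup.mem_centralizer_iff.1 d.2 _ h1).symm
  haveI : Group.IsNilpotent C := Group.of_quotient_center_nilpotent hq.isNilpotent
  let P : Sylow p C := default
  have hPn : (P : Subgroup C).Normal :=
    Sylow.normal_of_normalizerCondition Group.normalizerCondition_of_isNilpotent P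
  haveI : (P : Subgroup C).Characteristic := Sylow.characteristic_of_normal P hPn
  have hb : (P : Subgroup C).map C.subtype = ⊥ :=
    eq_bot_of_normal_pgroup hO _ (P.isPGroup'.map _)
  have hP : (P : Subgroup C) = ⊥ := (Subgroup.map_eq_bot_iff_of_injective _ C.subtype_injective).1 hb
  have hnd := P.not_dvd_index
  rw [hP, Subgroup.index_bot] at hnd
  have hdv : p ^ k ∣ Nat.card C := hk ▸ Subgroup.index_dvd_card (S.subgroupOf C)
  have hk0 : k = 0 := by
    by_contra h0
    exact hnd ((dvd_pow_self p h0).trans hdv)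
  rw [hk0, pow_zero, Subgroup.relIndex_eq_one] at hk
  ext x
  constructor
  · intro hx
    exact ⟨⟨x, hk hx⟩, Subgroup.mem_center_iff.2 fun s =>
      Subtype.ext (Subgroup.mem_centralizer_iff.1 hx s s.2), rfl⟩
  · rintro ⟨y, hy, rfl⟩
    exact Subgroup.mem_centralizer_iff.2 fun s hs =>
      congrArg Subtype.val (Subgroup.mem_center_iff.1 hy ⟨s, hs⟩)

/-- `c` commutes with `a`; `⟨a, c⟩` is an abelian `q`-group, of order prime to `p`, so cyclic (`abCyc`, `AbCyc.mem_zpowers`) -/
theorem mem_zpowers_of_comm (h : Sr p G V) {q : ℕ} (hq : q.Prime) (hqp : q ≠ p) {a c : G} {k : ℕ}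
    (ha : orderOf a = q ^ k) (hc : orderOf c = q ^ k) (hac : Commute a c) : c ∈ Subgroup.zpowers a := by
  haveI : Fact q.Prime := ⟨hq⟩
  let K : Subgroup G := Subgroup.closure {a, c}
  have hK : IsPGroup q K := by
    rintro ⟨x, hx⟩
    refine ⟨k, Subtype.ext ?_⟩
    change x ^ q ^ k = 1
    have key : x ^ q ^ k = 1 ∧ Commute x a ∧ Commute x c := by
      induction hx using Subgroup.closure_induction'' with
      | one => simp
      | mem y hy =>
        rcases hy with rfl | rfl
        · exact ⟨ha ▸ pow_orderOf_eq_one _, Commute.refl _, hac⟩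
        · exact ⟨hc ▸ pow_orderOf_eq_one _, hac.symm, Commute.refl _⟩
      | inv_mem y hy =>
        rcases hy with rfl | rfl
        · exact ⟨by rw [inv_pow, ← ha, pow_orderOf_eq_one, inv_one], (Commute.refl _).inv_left,
            hac.inv_left⟩
        · exact ⟨by rw [inv_pow, ← hc, pow_orderOf_eq_one, inv_one], hac.symm.inv_left,
            (Commute.refl _).inv_left⟩
      | mul y z hy hz ihy ihz =>
        have hyz : Commute y z := by
          refine Subgroup.closure_induction (p := fun z _ => Commute y z) ?_ ?_ ?_ ?_ hz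
          · rintro w (rfl | rfl)
            exacts [ihy.2.1, ihy.2.2]
          · exact Commute.one_right _
          · exact fun _ _ _ _ h1 h2 => h1.mul_right h2
          · exact fun _ _ h1 => h1.inv_right
        exact ⟨by rw [hyz.mul_pow, ihy.1, ihz.1, one_mul], ihy.2.1.mul_left ihz.2.1,
          ihy.2.2.mul_left ihz.2.2⟩
    exact key.1
  obtain ⟨m, hm⟩ := hK.exists_card_eq
  have hco : (Nat.card K).Coprime p := by
    rw [hm]
    exact Nat.Coprime.pow_left _ ((Nat.coprime_primes hq h.prime).2 hqp)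
  let a' : K := ⟨a, Subgroup.subset_closure (by simp)⟩
  let c' : K := ⟨c, Subgroup.subset_closure (by simp)⟩
  have hm' := (h.abCyc hco).mem_zpowers (x := a') (y := c') (Subtype.ext hac.eq) (by
    rw [← Subgroup.orderOf_coe, ← Subgroup.orderOf_coe]
    exact dvd_of_eq (hc.trans ha.symm))
  obtain ⟨i, hi⟩ := hm'
  exact ⟨i, by simpa using congrArg Subtype.val hi⟩

/-- `p^n - 1 = (p^a + 1)(p^b - 1)`: `p^n + p^a = p^(a+b) + p^b`, `b < n`; `b < a` or `a < b` give `p ∣ 1` after division. -/
theorem cen_ar {n a b : ℕ} (hp : p.Prime) (ha : 0 < a) (hb : 0 < b)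
    (h : p ^ n - 1 = (p ^ a + 1) * (p ^ b - 1)) : n = 2 * a := by
  have h1 := hp.one_lt
  have pos : ∀ m, 1 ≤ p ^ m := fun m => Nat.one_le_pow _ _ hp.pos
  have e : p ^ n + p ^ a = p ^ (a + b) + p ^ b := by
    have hn := pos n
    obtain ⟨B, hB⟩ : ∃ B, p ^ b = B + 1 := ⟨p ^ b - 1, by have := pos b; omega⟩
    rw [pow_add, hB]
    rw [hB, Nat.add_sub_cancel] at h
    have : p ^ n = (p ^ a + 1) * B + 1 := by omega
    rw [this]
    ring
  have hbn : b < n := by
    have hb1 : 1 < p ^ b := Nat.one_lt_pow hb.ne' h1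
    have ha1 : 1 < p ^ a := Nat.one_lt_pow ha.ne' h1
    have : p ^ b < p ^ n := by
      rw [pow_add] at e
      nlinarith
    exact (Nat.pow_lt_pow_iff_right h1).1 this
  have nd : ∀ m, ¬ p ^ (m + 1) ∣ p ^ m := fun m hm => by
    have := (Nat.pow_dvd_pow_iff_le_right h1).1 hm
    omega
  rcases lt_trichotomy a b with hab | hab | hab
  · exfalso
    apply nd a
    have d1 : p ^ (a + 1) ∣ p ^ n := pow_dvd_pow _ (by omega)
    have d2 : p ^ (a + 1) ∣ p ^ (a + b) + p ^ b :=
      dvd_add (pow_dvd_pow _ (by omega)) (pow_dvd_pow _ (by omega))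
    rw [← e] at d2
    exact (Nat.dvd_add_right d1).1 d2
  · subst hab
    have : p ^ n = p ^ (a + a) := by omega
    have := Nat.pow_right_injective hp.two_le this
    omega
  · exfalso
    apply nd b
    have d1 : p ^ (b + 1) ∣ p ^ (a + b) := pow_dvd_pow _ (by omega)
    have d2 : p ^ (b + 1) ∣ p ^ n + p ^ a :=
      dvd_add (pow_dvd_pow _ (by omega)) (pow_dvd_pow _ (by omega))
    rw [e] at d2
    exact (Nat.dvd_add_right d1).1 d2

end Cfsg.Agent.Gag
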