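import Cfsg.Agent.Gag.Def
import Cfsg.Agent.Char.Quot
import Cfsg.Agent.Char.Irr
import Cfsg.Prelude.Def_Blocks
import Cfsg.Prelude.Def_CaseTheorems
import Mathlib.GroupTheory.Solvable
import Mathlib.GroupTheory.Complement
import Mathlib.LinearAlgebra.Matrix.SpecialLinearGroup

set_option autoImplicit false
set_option linter.unusedSectionVars false
open Matrix MatrixGroups Cfsg.Agent.Perm.Fpf Cfsg.Agent.PLocal.SL2Nat

namespace Cfsg.Agent.Gag

universe u v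
variable {p : ℕ} {G : Type u} {V : Type v} [Group G] [Finite G] [AddCommGroup V] [Finite V] [DistribMulAction G V]

open Cfsg.Agent.Char ComplexConjugate in
/-- `χ` is nonzero on `1` and one class `K ∋ k`. `χ` is not the trivial character (else `G` has two classes, all nonidentity elements are conjugate, `|G| = 2`). Orthogonality with the trivial character and with `ψ ≠ χ`:
`χ(1) + |K| conj χ(k) = 0`, `ψ(1) χ(1) + |K| ψ(k) conj χ(k) = 0`, so `ψ(k) = ψ(1)`. `N = ⋂_{ψ ≠ χ} ker ψ ⊇ {1} ∪ K`; if `1 ≠ g ∈ N \ K` then `χ(g) = 0` and `0 = ∑ ψ(1) ψ(g) = ∑_{ψ ≠ χ} ψ(1)² > 0`. For `g ∉ N`,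
`a ∈ N`: `ψ(g a) = ψ(g)` for `ψ ≠ χ`, `χ(g a) = 0 = χ(g)`; irreducible characters separate classes. (Character library: `ca find 'IrrCharacter'`, folder `Chr/` or similar.) -/
theorem cha1 (hns : ¬ Group.IsSolvable G) (χ : Cfsg.IrrCharacter G)
    (hχ : Nat.card {C : ConjClasses G // ∃ g ∈ C.carrier, (χ : G → ℂ) g ≠ 0} = 2) :
    ∃ N : Subgroup G, N.Normal ∧ N ≠ ⊥ ∧ (∀ a ∈ N, ∀ b ∈ N, a ≠ 1 → b ≠ 1 → IsConj a b) ∧
      ∀ g, g ∉ N → ∀ a ∈ N, IsConj g (g * a) := by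
  classical
  have := Fintype.ofFinite G
  choose n n0 hn using fun ψ : IrrCharacter G => ψ.2.exists_nat_one
  have c1 : (χ : G → ℂ) 1 ≠ 0 := by rw [hn]; exact_mod_cast (n0 χ).ne'
  obtain ⟨⟨C, k, hk, ck⟩, k1, hu⟩ := (Nat.card_eq_two_iff'
    ⟨ConjClasses.mk 1, 1, ConjClasses.mem_carrier_mk, c1⟩).1 hχ
  obtain rfl := ConjClasses.mem_carrier_iff_mk_eq.1 hk
  replace k1 : k ≠ 1 := fun e => k1 (Subtype.ext (congrArg ConjClasses.mk e))
  replace hu : ∀ g, g ≠ 1 → (χ : G → ℂ) g ≠ 0 → IsConj g k := fun g g1 c =>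
    ConjClasses.mk_eq_mk_iff_isConj.1 (congrArg Subtype.val (hu ⟨ConjClasses.mk g, g, ConjClasses.mem_carrier_mk, c⟩
      fun e => g1 (isConj_one_left.1 (ConjClasses.mk_eq_mk_iff_isConj.1 (congrArg Subtype.val e)))))
  by_cases t : irrOne G = χ
  · subst t
    refine ⟨⊤, inferInstance, fun e => k1 (e.le (Subgroup.mem_top k)), fun a _ b _ a1 b1 =>
      (hu a a1 one_ne_zero).trans (hu b b1 one_ne_zero).symm, fun g hg => absurd (Subgroup.mem_top g) hg⟩
  have o : ∀ ψ : IrrCharacter G, ψ ≠ χ → ∑ g, (ψ : G → ℂ) g * conj ((χ : G → ℂ) g) = 0 := fun ψ h => by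
    have := irr_inner ψ χ
    rw [if_neg h, classInner, mul_eq_zero] at this
    exact this.resolve_left (inv_ne_zero (by exact_mod_cast Nat.card_pos.ne'))
  let N : Subgroup G := ⨅ ψ : {ψ : IrrCharacter G // ψ ≠ χ}, charKer (ψ.1 : G → ℂ)
  have nN : N.Normal := Subgroup.normal_iInf_normal fun ψ => charKer_normal ψ.1.2.isClassFunction
  have kN : k ∈ N := Subgroup.mem_iInf.2 fun ⟨ψ, h⟩ => (mem_charKer_irr ψ).2 (by
    have e : ∑ g, ((ψ : G → ℂ) g - (ψ : G → ℂ) k) * conj ((χ : G → ℂ) g) = 0 := by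
      have := o _ t
      simp only [irrOne_apply, one_mul] at this
      simp only [sub_mul, Finset.sum_sub_distrib, o ψ h, ← Finset.mul_sum, this, mul_zero, sub_zero]
    rw [Finset.sum_eq_single 1 (fun g _ g1 => by
      by_cases c : (χ : G → ℂ) g = 0
      · rw [c, map_zero, mul_zero]
      · rw [ψ.2.isClassFunction.eq_of_isConj (hu g g1 c), sub_self, zero_mul]) (by simp), mul_eq_zero,
      map_eq_zero, sub_eq_zero] at e
    exact (e.resolve_right c1).symm)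
  have h1 : ∀ g ∈ N, g ≠ 1 → IsConj g k := fun g hg g1 => hu g g1 fun c => by
    have e := sum_irr_one_mul g1
    rw [← Finset.add_sum_erase _ _ (Finset.mem_univ χ), c, mul_zero, zero_add, Finset.sum_congr rfl fun ψ h => by
      rw [(mem_charKer_irr ψ).1 (Subgroup.mem_iInf.1 hg ⟨ψ, Finset.ne_of_mem_erase h⟩), hn]] at e
    have e' : ∑ ψ ∈ Finset.univ.erase χ, n ψ * n ψ = 0 := by exact_mod_cast e
    exact (Nat.mul_pos (n0 _) (n0 _)).ne'
      (Finset.sum_eq_zero_iff.1 e' _ (Finset.mem_erase.2 ⟨t, Finset.mem_univ _⟩))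
  have h0 : ∀ g, g ∉ N → (χ : G → ℂ) g = 0 := fun g hg => by_contra fun c => by
    obtain ⟨x, e⟩ := isConj_iff.1 (hu g (fun e => hg (e ▸ N.one_mem)) c).symm
    exact hg (e ▸ nN.conj_mem k kN x)
  refine ⟨N, nN, fun e => k1 (e.le kN), fun a ha b hb a1 b1 => (h1 a ha a1).trans (h1 b hb b1).symm,
    fun g hg a ha => (isConj_iff_irr _ _).2 fun ψ => ?_⟩
  by_cases e : ψ = χ
  · rw [e, h0 g hg, h0 _ (by rwa [N.mul_mem_cancel_right ha])]
  · exact (apply_mul_of_mem_charKer ψ.2.isClassFunction (Subgroup.mem_iInf.1 ha ⟨ψ, e⟩) g).symm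

end Cfsg.Agent.Gag
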