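import Cfsg.Agent.Gag.Def
import Cfsg.Agent.PLocal.AmbSyl

set_option autoImplicit false
set_option linter.unusedSectionVars false
open Matrix MatrixGroups Cfsg.Agent.Perm.Fpf Cfsg.Agent.PLocal.SL2Nat

namespace Cfsg.Agent.Gag

universe u v
variable {p : ℕ} {G : Type u} {V : Type v} [Group G] [Finite G] [AddCommGroup V] [Finite V] [DistribMulAction G V]

/-- Cauchy: all nonidentity elements of `N` have the same prime order `p`; `Z(N) ≠ 1` is normal in `G` so is `N`. If `g` commutes with `1 ≠ a ∈ N`, `orderOf g = p^k m`, `p ∤ m`, `y = g^(p^k)` has order `m`;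
if `y ≠ 1` then `y ∉ N` and `y a ~ y`, but `y a` has order `m p`. -/
theorem cha2 (N : Subgroup G) [N.Normal] (h0 : N ≠ ⊥) (h1 : ∀ a ∈ N, ∀ b ∈ N, a ≠ 1 → b ≠ 1 → IsConj a b)
    (h2 : ∀ g, g ∉ N → ∀ a ∈ N, IsConj g (g * a)) :
    ∃ p : ℕ, p.Prime ∧ IsElementaryAbelian p N ∧
      ∀ g : G, ∀ a ∈ N, a ≠ 1 → Commute g a → ∃ k : ℕ, g ^ p ^ k = 1 := by
  have oc : ∀ {a b : G}, IsConj a b → orderOf a = orderOf b := fun h => by
    obtain ⟨c, rfl⟩ := isConj_iff.1 h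
    exact (PLocal.Amb.orderOf_conj' c _).symm
  obtain ⟨p, hp, hd⟩ := Nat.exists_prime_and_dvd fun e => h0 (Subgroup.card_eq_one.1 e)
  haveI := Fact.mk hp
  obtain ⟨x, hx⟩ := exists_prime_orderOf_dvd_card' (G := N) p hd
  have hx' : orderOf (x : G) = p := (Subgroup.orderOf_coe x).trans hx
  have x1 : (x : G) ≠ 1 := fun e => hp.ne_one (by rw [← hx', e, orderOf_one])
  have ho : ∀ a ∈ N, a ≠ 1 → orderOf a = p := fun a ha a1 => (oc (h1 a ha x x.2 a1 x1)).trans hx'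
  have hpow : ∀ a ∈ N, a ^ p = 1 := fun a ha => by
    by_cases a1 : a = 1
    · rw [a1, one_pow]
    · rw [← ho a ha a1, pow_orderOf_eq_one]
  have hP : IsPGroup p N := PLocal.Amb.isPGroup_iff.2 fun a ha => ⟨1, by rw [pow_one, hpow a ha]⟩
  obtain ⟨z, hz, z1⟩ := (Subgroup.bot_or_exists_ne_one _).resolve_left
    (PLocal.Amb.inf_centralizer_ne_bot hP hP Subgroup.le_normalizer h0)
  have hc : ∀ a ∈ N, ∀ b ∈ N, a * b = b * a := fun a ha b hb => by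
    by_cases a1 : a = 1
    · rw [a1, one_mul, mul_one]
    obtain ⟨c, rfl⟩ := isConj_iff.1 (h1 z hz.1 a ha z1 a1)
    have := hz.2 (c⁻¹ * b * c) (by simpa using ‹N.Normal›.conj_mem b hb c⁻¹)
    calc c * z * c⁻¹ * b = c * (z * (c⁻¹ * b * c)) * c⁻¹ := by group
      _ = _ := by rw [← this]; group
  refine ⟨p, hp, ⟨⟨⟨fun a b => Subtype.ext (hc a a.2 b b.2)⟩⟩, hpow⟩,
    fun g a ha a1 c => ?_⟩
  obtain ⟨k, m, hm, e⟩ := Nat.exists_eq_pow_mul_and_not_dvd (orderOf_pos g).ne' p hp.ne_one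
  refine ⟨k, ?_⟩
  by_contra y1
  have y2 : ¬ p ∣ orderOf (g ^ p ^ k) := fun d => hm (d.trans (orderOf_dvd_of_pow_eq_one (by
    rw [← pow_mul, ← e, pow_orderOf_eq_one])))
  have y3 := oc (h2 (g ^ p ^ k) (fun q => y2 (ho _ q y1).symm.dvd) a ha)
  rw [(c.pow_left _).orderOf_mul_eq_mul_orderOf_of_coprime (by
    rw [ho a ha a1]
    exact ((Nat.Prime.coprime_iff_not_dvd hp).2 y2).symm), ho a ha a1] at y3
  exact y2 (y3 ▸ Dvd.intro_left _ rfl)

end Cfsg.Agent.Gag
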