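import Cfsg.Agent.Gag.Def
import Cfsg.Prelude.Def_Blocks
import Cfsg.Prelude.Def_CaseTheorems
import Mathlib.GroupTheory.Solvable
import Mathlib.GroupTheory.Complement
import Mathlib.LinearAlgebra.Matrix.SpecialLinearGroup
import Cfsg.Agent.Gag.Bas1

set_option autoImplicit false
set_option linter.unusedSectionVars false
open Matrix MatrixGroups Cfsg.Agent.Perm.Fpf Cfsg.Agent.PLocal.SL2Nat

namespace Cfsg.Agent.Gag

universe u v
variable {p : ℕ} {G : Type u} {V : Type v} [Group G] [Finite G] [AddCommGroup V] [Finite V] [DistribMulAction G V]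

/-- `O_p(G) ≥ N ≠ ⊥`. For `q ≠ p`, `O_q(G)` commutes with `N` so consists of `p`-elements: trivial. `C_G(N) = O_p(G)`: it is normal and consists of `p`-elements; and `Z(O_p) ⊓ N ≠ ⊥` is normal so contains `N` (`h1`).
`V = Additive N` with the conjugation action of `G ⧸ O_p(G)` (`QuotientGroup.lift` of `MulAut.conjNormal`). `O_p(G / O_p(G)) = ⊥` (library), and the quotient by the solvable `O_p(G)` is not solvable. -/
theorem chb (hns : ¬ Group.IsSolvable G) (hp : p.Prime) (N : Subgroup G) [N.Normal] (h0 : N ≠ ⊥)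
    (h1 : ∀ a ∈ N, ∀ b ∈ N, a ≠ 1 → b ≠ 1 → IsConj a b) (hN : IsElementaryAbelian p N)
    (h2 : ∀ g : G, ∀ a ∈ N, a ≠ 1 → Commute g a → ∃ k : ℕ, g ^ p ^ k = 1) :
    (∀ q : ℕ, q.Prime → (pCore q G ≠ ⊥ ↔ q = p)) ∧ pCore p (G ⧸ pCore p G) = ⊥ ∧
      ¬ Group.IsSolvable (G ⧸ pCore p G) ∧
      ∃ (W : Type u) (_ : AddCommGroup W) (_ : Finite W) (_ : DistribMulAction (G ⧸ pCore p G) W),
        Sr p (G ⧸ pCore p G) W ∧ Tr (G ⧸ pCore p G) W := by
  have := Fact.mk hp
  have pN : IsPGroup p N := fun a => ⟨1, Subtype.ext (by rw [pow_one]; exact hN.2 a a.2)⟩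
  have pO := Grp.pCore_isPGroup p G
  obtain ⟨⟨a0, ha0⟩, a1⟩ := Subgroup.ne_bot_iff_exists_ne_one.1 h0
  replace a1 : a0 ≠ 1 := fun e => a1 (Subtype.ext e)
  have c1 : Subgroup.centralizer (N : Set G) ≤ pCore p G :=
    Grp.le_pCore inferInstance (PLocal.Amb.isPGroup_iff.2 fun g hg => h2 g a0 ha0 a1 (hg a0 ha0).symm)
  have c2 : N ≤ Subgroup.centralizer (pCore p G : Set G) := by
    obtain ⟨⟨b, hb, hb'⟩, b1⟩ := Subgroup.ne_bot_iff_exists_ne_one.1
      (PLocal.Amb.inf_centralizer_ne_bot pO pN Subgroup.le_normalizer_of_normal h0)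
    intro a ha
    by_cases e : a = 1
    · rw [e]; exact one_mem _
    obtain ⟨c, rfl⟩ := isConj_iff.1 (h1 b hb a ha (fun e => b1 (Subtype.ext e)) e)
    exact Subgroup.Normal.conj_mem inferInstance b hb' c
  refine ⟨fun q hq => ⟨fun h => ?_, ?_⟩, Grp.pCore_quotient_pCore p G, fun h => hns ?_, ?_⟩
  · by_contra n
    have := Fact.mk hq
    have d := fun {H : Subgroup G} (hH : IsPGroup p H) =>
      IsPGroup.disjoint_of_ne q p n _ _ (Grp.pCore_isPGroup q G) hH
    refine h ((d pO).eq_bot_of_le fun x hx => c1 fun y hy => ?_)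
    exact (Subgroup.commute_of_normal_of_disjoint _ _ inferInstance inferInstance (d pN) x y hx hy).symm
  · rintro rfl e
    exact h0 (le_bot_iff.1 (e ▸ Grp.le_pCore inferInstance pN))
  · have := pO.isNilpotent
    exact (Group.isSolvable_iff_subgroup_quotient (pCore p G)).2 ⟨inferInstance, h⟩
  let _ : CommGroup N := { (inferInstance : Group N) with mul_comm := hN.1.is_comm.comm }
  let φ : G ⧸ pCore p G →* MulAut N := QuotientGroup.lift _ MulAut.conjNormal fun x hx => by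
    ext a
    rw [MulAut.conjNormal_apply, c2 a.2 x hx, mul_inv_cancel_right]
    rfl
  let _ : DistribMulAction (G ⧸ pCore p G) (Additive N) :=
    { smul := fun g v => Additive.ofMul (φ g v.toMul)
      one_smul := fun v => by change Additive.ofMul (φ 1 v.toMul) = v; rw [map_one]; rfl
      mul_smul := fun g h v => by change Additive.ofMul (φ (g * h) v.toMul) = _; rw [map_mul]; rfl
      smul_zero := fun g => map_one (φ g)
      smul_add := fun g v w => map_mul (φ g) v.toMul w.toMul }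
  have key : ∀ (x : G) (v w : Additive N), (x : G ⧸ pCore p G) • v = w ↔
      x * (v.toMul : G) * x⁻¹ = (w.toMul : G) := fun x v w =>
    ⟨fun e => congrArg (fun u : Additive N => (u.toMul : G)) e, fun e => Subtype.ext e⟩
  refine ⟨Additive N, inferInstance, inferInstance, inferInstance,
    ⟨hp, ⟨⟨Additive.ofMul ⟨a0, ha0⟩, 0, fun e => a1 (congrArg (fun u : Additive N => (u.toMul : G)) e)⟩⟩,
      fun v => Subtype.ext (hN.2 _ v.toMul.2), fun g hg => ?_, fun g v v0 e => ?_⟩, fun v w v0 w0 => ?_⟩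
  · obtain ⟨x, rfl⟩ := QuotientGroup.mk_surjective g
    refine (QuotientGroup.eq_one_iff x).2 (c1 fun a ha => ?_)
    exact (mul_inv_eq_iff_eq_mul.1 ((key x (Additive.ofMul ⟨a, ha⟩) _).1 (hg _))).symm
  · obtain ⟨x, rfl⟩ := QuotientGroup.mk_surjective g
    obtain ⟨k, hk⟩ := h2 x _ v.toMul.2 (fun e => v0 (Subtype.ext e))
      (mul_inv_eq_iff_eq_mul.1 ((key x v v).1 e))
    exact ⟨k, by rw [← QuotientGroup.mk_pow, hk, QuotientGroup.mk_one]⟩
  · obtain ⟨c, hc⟩ := isConj_iff.1 (h1 _ v.toMul.2 _ w.toMul.2 (fun e => v0 (Subtype.ext e))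
      fun e => w0 (Subtype.ext e))
    exact ⟨c, (key c v w).2 hc⟩

end Cfsg.Agent.Gag
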