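import Cfsg.Agent.Gag.Def
import Cfsg.Agent.Gag.Bas1
import Cfsg.Agent.Class.SL2Sylow

set_option autoImplicit false
set_option linter.unusedSectionVars false
open Matrix MatrixGroups Cfsg.Agent.Perm.Fpf Cfsg.Agent.PLocal.SL2Nat

namespace Cfsg.Agent.Gag

universe u v
variable {p : ℕ} {G : Type u} {V : Type v} [Group G] [Finite G] [AddCommGroup V] [Finite V] [DistribMulAction G V]

/-- `SL(2, -)` of a ring isomorphism -/
def crossSL {A B : Type*} [CommRing A] [CommRing B] (f : A ≃+* B) : SL(2, A) ≃* SL(2, B) :=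
  MonoidHom.toMulEquiv (SpecialLinearGroup.map (f : A →+* B)) (SpecialLinearGroup.map (f.symm : B →+* A))
    (by ext g i j; simp) (by ext g i j; simp)

theorem cross_five {F : Type} [Field F] {R : Type*} [Ring R] (σ : SL(2, F) →* R) (h2 : (2 : F) ≠ 0)
    (hw : σ (nn 1 one_ne_zero) * σ (nn 1 one_ne_zero) = -1)
    (hb : σ (nn 1 one_ne_zero * uu 1) * σ (nn 1 one_ne_zero * uu 1) + σ (nn 1 one_ne_zero * uu 1) + 1 = 0) :
    (σ (uu 5) - 1) * (σ (uu 3) - 1) = 0 := by
  have fa : ∀ a b c : F, a + b = c → σ (uu a) * σ (uu b) = σ (uu c) := fun a b c e => by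
    rw [← map_mul, ← uu_add, e]
  have f0 : σ (uu 0) = 1 := by rw [uu_zero, map_one]
  rw [map_mul] at hb
  have uu' : σ (uu 1) * σ (uu (-1)) = 1 := by rw [fa _ _ 0 (by ring), f0]
  have cW : Commute (σ (uu 1) + σ (uu (-1))) (σ (nn 1 one_ne_zero)) := by
    generalize σ (nn 1 one_ne_zero) = W at hw hb
    generalize σ (uu 1) = U at hb uu'
    generalize σ (uu (-1)) = U' at uu'
    have e1 : W * U * W + W + U' = 0 := by
      have := congrArg (· * U') hb
      simp only [add_mul, mul_assoc, uu', mul_one, one_mul, zero_mul] at this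
      simpa only [mul_assoc] using this
    have e2 : W * U' = U * W + 1 := by
      have := congrArg (W * ·) e1
      simp only [mul_add, ← mul_assoc, hw, mul_zero] at this
      linear_combination (norm := noncomm_ring) this
    have e3 : U' * W = W * U + 1 := by
      have := congrArg (· * W) e1
      simp only [add_mul, mul_assoc, hw, zero_mul] at this
      linear_combination (norm := noncomm_ring) this
    change _ = _
    rw [add_mul, mul_add, e2, e3]
    abel
  have cU : ∀ a, Commute (σ (uu 1) + σ (uu (-1))) (σ (uu a)) := fun a =>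
    Commute.add_left ((fa _ _ _ rfl).trans (fa _ _ _ (add_comm _ _)).symm)
      ((fa _ _ _ rfl).trans (fa _ _ _ (add_comm _ _)).symm)
  have cm : ∀ g k, Commute (σ (uu 1) + σ (uu (-1))) (σ g) → Commute (σ (uu 1) + σ (uu (-1))) (σ k) →
      Commute (σ (uu 1) + σ (uu (-1))) (σ (g * k)) := fun g k a b => by
    rw [map_mul]; exact a.mul_right b
  have cN : Commute (σ (uu 1) + σ (uu (-1))) (σ (nn (-1) (neg_ne_zero.2 one_ne_zero))) := by
    have : nn (-1 : F) (neg_ne_zero.2 one_ne_zero) =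
        nn 1 one_ne_zero * nn 1 one_ne_zero * nn 1 one_ne_zero := by
      refine sl_ext ?_ ?_ ?_ ?_ <;> simp [PLocal.SL2Nat.mul_apply', coe_nn]
    rw [this]
    exact cm _ _ (cm _ _ cW cW) cW
  have cL : ∀ a, Commute (σ (uu 1) + σ (uu (-1))) (σ (ll a)) := fun a => by
    have : ll a = nn 1 one_ne_zero * uu (-a) * nn (-1 : F) (neg_ne_zero.2 one_ne_zero) := by
      refine sl_ext ?_ ?_ ?_ ?_ <;> simp [PLocal.SL2Nat.mul_apply', coe_nn, coe_uu, coe_ll]
    rw [this]
    exact cm _ _ (cm _ _ cW (cU _)) cN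
  have cD : Commute (σ (uu 1) + σ (uu (-1))) (σ (hh 2 h2)) := by
    have : hh (2 : F) h2 = nn 2 h2 * nn (-1 : F) (neg_ne_zero.2 one_ne_zero) := by
      refine sl_ext ?_ ?_ ?_ ?_ <;> simp [PLocal.SL2Nat.mul_apply', coe_nn, coe_hh]
    rw [this, ← uu_ll_uu]
    exact cm _ _ (cm _ _ (cm _ _ (cU _) (cL _)) (cU _)) cN
  have e4 : σ (uu 4) + σ (uu (-4)) = σ (uu 1) + σ (uu (-1)) := by
    have d : ∀ a c : F, 2 ^ 2 * a = c → σ (hh 2 h2) * σ (uu a) = σ (uu c) * σ (hh 2 h2) := fun a c e => by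
      rw [← map_mul, hh_mul_uu, map_mul, e]
    have e := cD.eq
    rw [mul_add, d 1 4 (by ring), d (-1) (-4) (by ring), ← add_mul] at e
    have := congrArg (· * σ (hh 2 h2)⁻¹) e
    simp only [mul_assoc, ← map_mul, mul_inv_cancel, map_one, mul_one] at this
    exact this.symm
  have e8 := congrArg (σ (uu 4) * ·) e4
  simp only [mul_add] at e8
  rw [fa _ _ 8 (by ring), fa _ _ 0 (by ring), fa _ _ 5 (by ring), fa _ _ 3 (by ring), f0] at e8
  rw [sub_mul, mul_sub, fa _ _ 8 (by ring)]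
  linear_combination (norm := noncomm_ring) e8

/-- `r = char F`, odd, `≠ p`. `{uu a} ≅ (F, +)` is an `r`-group, cyclic by `Sr.cyc`, so `|F| = r`, `F ≃+* ZMod r` (`ZMod.ringEquivOfPrime`). For `p ≠ 3`: `a = !![0,1;-1,0]`, `b` of
order 3 with `a b = ± u`, `u` unipotent `≠ 1` (e.g. `b = !![-1,1;-1,0]`: `a b = !![-1,0;1,-1]`); `ρ a² = -1`, `ρ (-1) = -1` (`invol`), `ρ b² + ρ b + 1 = 0` (`cube`).
`c = ρ(ab) + ρ(ab)⁻¹ = AB + BA + A` commutes with `A`, `B`; `a, b` generate `SL(2, ZMod r)` (they give `u` and its transpose type conjugate), so `τ = ρ u + ρ u⁻¹` commutes with `ρ G`.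
`u⁴ = d u d⁻¹` (`d = diag(2^{±1}, 2^{∓1})`), so `U⁴ + U⁻⁴ = U + U⁻¹`, `(U⁵ - 1)(U³ - 1) = 0`; `u³`, `u⁵` are trivial or fixed-point-free (`fpf`), so `r ∈ {3, 5}`. -/
theorem cross (h : Sr p G V) (h2 : p ≠ 2) {F : Type} [Field F] [Fintype F] (ho : Odd (Fintype.card F))
    (h3 : 3 < Fintype.card F) (e : G ≃* SL(2, F)) (hr : ¬ CharP F p) :
    ∃ r : ℕ, r.Prime ∧ 5 ≤ r ∧ r ≠ p ∧ Nonempty (G ≃* SL(2, ZMod r)) ∧ (p ≠ 3 → r = 5) := by
  obtain ⟨r, hc⟩ := CharP.exists F
  have hp : r.Prime := CharP.char_is_prime F r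
  haveI := Fact.mk hp
  have rp : r ≠ p := fun e => hr (e ▸ hc)
  have r2 : r ≠ 2 := by
    rintro rfl
    obtain ⟨n, -, hn⟩ := FiniteField.card F 2
    rw [hn] at ho
    exact (Nat.not_odd_iff_even.2 (Nat.even_pow.2 ⟨even_two, n.ne_zero⟩)) ho
  have ur : ∀ a : F, e.symm (uu a) ^ r = 1 := fun a => by
    rw [← map_pow, uu_pow, CharP.cast_eq_zero, zero_mul, uu_zero, map_one]
  let φ : Multiplicative F →* G :=
    { toFun := fun a => e.symm (uu a.toAdd)
      map_one' := by simp [uu_zero]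
      map_mul' := fun a b => by simp [uu_add] }
  have hφ : Function.Injective φ := fun a b k =>
    Multiplicative.toAdd.injective (uu_injective (e.symm.injective k))
  have hK : IsPGroup r φ.range := fun ⟨_, a, ha⟩ => ⟨1, Subtype.ext (by
    rw [pow_one]; subst ha; exact ur _)⟩
  have hcy := h.cyc rp r2 hK
  have hcard : Fintype.card F = r := by
    obtain ⟨⟨g, a, ha⟩, hg⟩ := IsCyclic.exists_ofOrder_eq_natCard (α := φ.range)
    have d : Nat.card φ.range ∣ r := hg ▸ orderOf_dvd_of_pow_eq_one (Subtype.ext (by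
      subst ha; exact ur _))
    rw [← Nat.card_congr (MonoidHom.ofInjective hφ).toEquiv, Nat.card_congr Multiplicative.toAdd,
      Nat.card_eq_fintype_card] at d
    exact ((Nat.dvd_prime hp).1 d).resolve_left (by omega)
  have r5 : 5 ≤ r := by
    have : r ≠ 4 := by rintro rfl; exact absurd hp (by decide)
    omega
  refine ⟨r, hp, r5, rp, ⟨e.trans (crossSL (ZMod.ringEquivOfPrime F hp hcard).symm)⟩, fun p3 => ?_⟩
  have nz : ∀ k : ℕ, 0 < k → k < 5 → (k : F) ≠ 0 := fun k k0 k5 e => by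
    have := Nat.le_of_dvd k0 ((CharP.cast_eq_zero_iff F r k).1 e)
    omega
  have t2 : (2 : F) ≠ 0 := by exact_mod_cast nz 2 (by norm_num) (by norm_num)
  have t3 : (3 : F) ≠ 0 := by exact_mod_cast nz 3 (by norm_num) (by norm_num)
  have o2 : orderOf (e.symm (nn 1 one_ne_zero * nn 1 one_ne_zero)) = 2 := by
    rw [MulEquiv.orderOf_eq]
    refine orderOf_eq_prime ?_ fun k => t2 ?_
    · rw [pow_two]
      refine sl_ext ?_ ?_ ?_ ?_ <;> simp [PLocal.SL2Nat.mul_apply', coe_nn]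
    · have := congrArg (fun g : SL(2, F) => g.1 0 0) k
      simp [PLocal.SL2Nat.mul_apply', coe_nn] at this
      linear_combination -this
  have o3 : orderOf (e.symm (nn 1 one_ne_zero * uu 1)) = 3 := by
    rw [MulEquiv.orderOf_eq]
    haveI := Fact.mk Nat.prime_three
    refine orderOf_eq_prime ?_ fun k => ?_
    · rw [pow_succ, pow_two]
      refine sl_ext ?_ ?_ ?_ ?_ <;> simp [PLocal.SL2Nat.mul_apply', coe_nn, coe_uu]
    · have := congrArg (fun g : SL(2, F) => g.1 0 0) k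
      simp [PLocal.SL2Nat.mul_apply', coe_nn, coe_uu] at this
  have key := cross_five ((ρ V).comp e.symm.toMonoidHom) t2
    (by
      rw [← map_mul]
      ext v
      exact h.invol h2 o2 v) (h.cube p3 o3)
  have cp : ∀ a : F, (orderOf (e.symm (uu a))).Coprime p := fun a =>
    ((Nat.coprime_primes hp h.prime).2 rp).coprime_dvd_left (orderOf_dvd_of_pow_eq_one (ur a))
  have ne : ∀ a : F, a ≠ 0 → e.symm (uu a) ≠ 1 := fun a ha k =>
    ha (uu_eq_one_iff.1 (e.symm.injective (k.trans (map_one _).symm)))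
  obtain ⟨v, hv⟩ := @exists_ne V h.nontriv 0
  have k1 : e.symm (uu 5) • (e.symm (uu 3) • v - v) - (e.symm (uu 3) • v - v) = 0 :=
    congrArg (fun t : AddMonoid.End V => t v) key
  have t5 : (5 : F) = 0 := by
    by_contra t5
    exact hv (h.fpf (cp 3) (ne 3 t3) (sub_eq_zero.1 (h.fpf (cp 5) (ne 5 t5) (sub_eq_zero.1 k1))))
  exact (Nat.prime_dvd_prime_iff_eq hp Nat.prime_five).1
    ((CharP.cast_eq_zero_iff F r 5).1 (by exact_mod_cast t5))

end Cfsg.Agent.Gag
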