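import Cfsg.Agent.Perm.FpfGroup
import Cfsg.Agent.PLocal.SL2Fpf3
import Cfsg.Prelude.Def_Solvable
import Cfsg.Prelude.Def_Transfer

/-! Definitions for S4841 (Gagola characters): `p'`-semiregular pairs `(G, V)`. -/

set_option autoImplicit false

namespace Cfsg.Agent.Gag

/-- `G` acts faithfully on the nonzero elementary abelian `p`-group `V`, and only `p`-elements fix
nonzero vectors. -/
structure Sr (p : ℕ) (G V : Type*) [Group G] [AddCommGroup V] [DistribMulAction G V] : Prop where
  prime : p.Prime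
  nontriv : Nontrivial V
  tors : ∀ v : V, p • v = 0
  faith : ∀ g : G, (∀ v : V, g • v = v) → g = 1
  pel : ∀ (g : G) (v : V), v ≠ 0 → g • v = v → ∃ k : ℕ, g ^ p ^ k = 1

/-- transitive on nonzero vectors -/
def Tr (G V : Type*) [Group G] [AddCommGroup V] [DistribMulAction G V] : Prop :=
  ∀ v w : V, v ≠ 0 → w ≠ 0 → ∃ g : G, g • v = w

/-- stabilisers of nonzero vectors have index prime to `p` (with `Sr`: they are Sylow) -/
def Sy (p : ℕ) (G V : Type*) [Group G] [AddCommGroup V] [DistribMulAction G V] : Prop :=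
  ∀ v : V, v ≠ 0 → ¬ p ∣ (MulAction.stabilizer G v).index

section
variable {G : Type*} [Group G] (V : Type*) [AddCommGroup V] [DistribMulAction G V]

/-- the representation in the endomorphism ring -/
def ρ : G →* AddMonoid.End V := DistribMulAction.toAddMonoidEnd G V

/-- `g - 1` -/
def n (g : G) : AddMonoid.End V := ρ V g - 1

variable {V}
@[simp] theorem ρ_apply (g : G) (v : V) : ρ V g v = g • v := rfl
@[simp] theorem n_apply (g : G) (v : V) : n V g v = g • v - v := rfl
theorem ρ_eq (g : G) : ρ V g = n V g + 1 := by simp [n]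
theorem n_mul (g h : G) : n V (g * h) = n V g + n V h + n V g * n V h := by
  simp only [n, map_mul]; noncomm_ring
theorem n_conj (k g : G) : n V (k * g * k⁻¹) = ρ V k * n V g * ρ V k⁻¹ := by
  have : ρ V k * ρ V k⁻¹ = 1 := by rw [← map_mul, mul_inv_cancel, map_one]
  simp only [n, map_mul, mul_sub, sub_mul, mul_one, this]
theorem n_comm {g h : G} (c : Commute g h) : Commute (n V g) (n V h) :=
  ((c.map (ρ V)).sub_left (Commute.one_left _)).sub_right (Commute.one_right _)

variable (V)
/-- the axis group of `e`: the pointwise stabiliser of `[V, e]` -/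
def Ax (e : G) : Subgroup G where
  carrier := {g | ρ V g * n V e = n V e}
  one_mem' := by simp
  mul_mem' := by
    intro a b ha hb
    simp only [Set.mem_setOf_eq] at *
    rw [map_mul, mul_assoc, hb, ha]
  inv_mem' := by
    intro a ha
    simp only [Set.mem_setOf_eq] at *
    conv_lhs => rw [← ha]
    rw [← mul_assoc, ← map_mul, inv_mul_cancel, map_one, one_mul]

variable {V}
theorem mem_Ax {e g : G} : g ∈ Ax V e ↔ n V g * n V e = 0 := by
  change ρ V g * n V e = n V e ↔ _
  rw [ρ_eq g, add_mul, one_mul, add_eq_right]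
end

/-- involutions are free: `C_V(t) = [V, t]` -/
def Fr (G V : Type*) [Group G] [AddCommGroup V] [DistribMulAction G V] : Prop :=
  ∀ t : G, t ≠ 1 → t * t = 1 → ∀ v : V, n V t v = 0 → ∃ u, n V t u = v

/-- elements of order three centralise every `2`-subgroup they normalise -/
def NoA (G : Type*) [Group G] : Prop :=
  ∀ x : G, orderOf x = 3 → ∀ S : Subgroup G, IsPGroup 2 S → (∀ s ∈ S, x * s * x⁻¹ ∈ S) →
    ∀ s ∈ S, Commute x s

/-- abelian subgroups of odd order are cyclic -/
def OddCyc (G : Type*) [Group G] : Prop :=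
  ∀ K : Subgroup G, Odd (Nat.card K) → IsMulCommutative K → IsCyclic K

/-- no conjugate of the axis group other than itself centralises it -/
def Wc {G : Type*} [Group G] (V : Type*) [AddCommGroup V] [DistribMulAction G V] (e : G) : Prop :=
  ∀ k : G, (∀ f ∈ Ax V e, ∀ f' ∈ Ax V (k * e * k⁻¹), Commute f f') → Ax V (k * e * k⁻¹) = Ax V e

/-- case (i) -/
def C1 (p : ℕ) (H : Type*) [Group H] : Prop :=
  ∃ (F : Type) (_ : Field F) (_ : Fintype F), (∃ a : ℕ, Fintype.card F = p ^ a) ∧ 2 < Fintype.card F ∧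
    ∃ S : Subgroup H, S.Normal ∧ Nonempty (S ≃* Matrix.SpecialLinearGroup (Fin 2) F) ∧ (∃ k : ℕ, S.index = p ^ k) ∧
      (∃ h : H, S ⊔ Subgroup.zpowers h = ⊤) ∧ Subgroup.centralizer (S : Set H) = (Subgroup.center S).map S.subtype

/-- case (ii) without `p = 3` -/
def C2 (H : Type*) [Group H] : Prop :=
  ∃ S : Subgroup H, S.Normal ∧ S.index = 2 ∧ Nonempty (S ≃* Matrix.SpecialLinearGroup (Fin 2) (ZMod 5)) ∧
    Subgroup.centralizer (S : Set H) = (Subgroup.center S).map S.subtype ∧ ∀ K : Subgroup H, ¬ Subgroup.IsComplement' S K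

/-- cases (iv) to (vi) -/
def C4 (p : ℕ) (H : Type*) [Group H] : Prop :=
  (p = 11 ∧ Nonempty (H ≃* Matrix.SpecialLinearGroup (Fin 2) (ZMod 5))) ∨
  (p = 29 ∧ Nonempty (H ≃* Matrix.SpecialLinearGroup (Fin 2) (ZMod 5) × Multiplicative (ZMod 7))) ∨
  (p = 59 ∧ Nonempty (H ≃* Matrix.SpecialLinearGroup (Fin 2) (ZMod 5) × Multiplicative (ZMod 29)))

/-- the conclusion of S4841 for `H = G / O_p(G)` -/
def Concl (p : ℕ) (H : Type*) [Group H] : Prop :=
  C1 p H ∨ (p = 3 ∧ C2 H) ∨ (p = 3 ∧ Nonempty (H ≃* Matrix.SpecialLinearGroup (Fin 2) (ZMod 13))) ∨ C4 p H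

end Cfsg.Agent.Gag
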