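import Cfsg.Agent.Gag.Def
import Cfsg.Agent.CT.AutSL2
import Cfsg.Agent.Class.SL2Cover

set_option autoImplicit false
set_option linter.unusedSectionVars false
open Matrix MatrixGroups

namespace Cfsg.Agent.Gag.OB

variable {F : Type} [Field F] [Fintype F]

theorem cycF : IsCyclic (RingAut F) := by
  obtain ⟨p, hp, n, hpp, hn⟩ := FiniteField.card' F
  have := Fact.mk hpp
  let _ : Algebra (ZMod p) F := ZMod.algebra F p
  let f : (F ≃ₐ[ZMod p] F) →* RingAut F :=
    { toFun := fun a => a.toRingEquiv, map_one' := rfl, map_mul' := fun _ _ => rfl }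
  refine isCyclic_of_surjective f fun σ => ⟨AlgEquiv.ofRingEquiv (f := σ) fun x => ?_, rfl⟩
  obtain ⟨k, rfl⟩ := ZMod.intCast_surjective x
  simp

/-- conjugation by `g` -/
def cj (g : GL (Fin 2) F) (x : SL(2, F)) : SL(2, F) :=
  ⟨g.1 * x.1 * (g⁻¹).1, by
    rw [det_mul, det_mul, x.2, mul_one, ← det_mul, Units.mul_inv, det_one]⟩

theorem cj_mul (g h : GL (Fin 2) F) (x : SL(2, F)) : cj (g * h) x = cj g (cj h x) := by
  apply Subtype.ext
  simp only [cj, _root_.mul_inv_rev, Units.val_mul, Matrix.mul_assoc]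

theorem cj_one (x : SL(2, F)) : cj 1 x = x := by
  apply Subtype.ext
  simp [cj]

/-- inner-diagonal automorphisms -/
def δ : GL (Fin 2) F →* MulAut SL(2, F) where
  toFun g :=
    { toFun := cj g
      invFun := cj g⁻¹
      left_inv := fun x => by rw [← cj_mul, inv_mul_cancel, cj_one]
      right_inv := fun x => by rw [← cj_mul, mul_inv_cancel, cj_one]
      map_mul' := fun x y => by
        apply Subtype.ext
        change g.1 * (x.1 * y.1) * (g⁻¹).1 = g.1 * x.1 * (g⁻¹).1 * (g.1 * y.1 * (g⁻¹).1)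
        simp only [Matrix.mul_assoc]
        rw [← Matrix.mul_assoc (g⁻¹).1, Units.inv_mul, Matrix.one_mul] }
  map_one' := MulEquiv.ext cj_one
  map_mul' g h := MulEquiv.ext (cj_mul g h)

theorem δ_val (g : GL (Fin 2) F) (x : SL(2, F)) : (δ g x).1 = g.1 * x.1 * (g⁻¹).1 := rfl

/-- entrywise map -/
def mp (τ : RingAut F) : SL(2, F) →* SL(2, F) := Matrix.SpecialLinearGroup.map (τ : F →+* F)

theorem mp_val (τ : RingAut F) (x : SL(2, F)) : (mp τ x).1 = x.1.map τ := rfl

theorem mp_mul (σ τ : RingAut F) (x : SL(2, F)) : mp (σ * τ) x = mp σ (mp τ x) := by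
  apply Subtype.ext
  rw [mp_val, mp_val, mp_val, Matrix.map_map]; rfl

theorem mp_one (x : SL(2, F)) : mp 1 x = x := by
  apply Subtype.ext
  rw [mp_val]; rfl

/-- field automorphisms -/
def φ : RingAut F →* MulAut SL(2, F) where
  toFun τ :=
    { toFun := mp τ
      invFun := mp τ⁻¹
      left_inv := fun x => by rw [← mp_mul, inv_mul_cancel, mp_one]
      right_inv := fun x => by rw [← mp_mul, mul_inv_cancel, mp_one]
      map_mul' := map_mul _ }
  map_one' := MulEquiv.ext mp_one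
  map_mul' g h := MulEquiv.ext (mp_mul g h)

theorem φ_val (τ : RingAut F) (x : SL(2, F)) : (φ τ x).1 = x.1.map τ := rfl

theorem fact (a : MulAut SL(2, F)) : ∃ g τ, a = δ g * φ τ := by
  obtain ⟨g, τ, h⟩ := CT.aut_SL2 (K := F) a
  exact ⟨g, τ, MulEquiv.ext fun x => Subtype.ext (h x)⟩

theorem φ_δ (τ : RingAut F) (g : GL (Fin 2) F) :
    φ τ * δ g = δ (Matrix.GeneralLinearGroup.map (τ : F →+* F) g) * φ τ := by
  refine MulEquiv.ext fun x => Subtype.ext ?_
  rw [MulAut.mul_apply, MulAut.mul_apply, φ_val, δ_val, δ_val, φ_val, ← map_inv]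
  exact (Matrix.map_mul (f := (τ : F →+* F))).trans
    (congrArg₂ (· * ·) (Matrix.map_mul (f := (τ : F →+* F))) rfl)

instance δ_normal : (δ (F := F)).range.Normal := by
  refine ⟨?_⟩
  rintro _ ⟨g, rfl⟩ a
  obtain ⟨k, τ, rfl⟩ := fact a
  refine ⟨k * Matrix.GeneralLinearGroup.map (τ : F →+* F) g * k⁻¹, ?_⟩
  rw [map_mul, map_mul, map_inv, mul_assoc (δ k) (φ τ), φ_δ]
  group

theorem surj : Function.Surjective ((QuotientGroup.mk' (δ (F := F)).range).comp φ) := by
  intro y
  obtain ⟨a, rfl⟩ := QuotientGroup.mk'_surjective _ y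
  obtain ⟨k, τ, rfl⟩ := fact a
  refine ⟨τ, ?_⟩
  have : QuotientGroup.mk' (δ (F := F)).range (δ k) = 1 :=
    (QuotientGroup.eq_one_iff (N := (δ (F := F)).range) (δ k)).2 ⟨k, rfl⟩
  rw [map_mul, this, one_mul]; rfl

theorem δ_sl (s : SL(2, F)) : δ (Matrix.SpecialLinearGroup.toGL s) = MulAut.conj s := by
  refine MulEquiv.ext fun x => Subtype.ext ?_
  rw [δ_val, ← map_inv]; rfl

theorem δ_sq {g : GL (Fin 2) F} {c : Fˣ} (h : c ^ 2 = Matrix.GeneralLinearGroup.det g) :
    δ g ∈ (MulAut.conj : SL(2, F) →* _).range := by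
  have hd : g.1.det = c * c := by
    have := congrArg Units.val h
    rw [Matrix.GeneralLinearGroup.val_det_apply] at this
    rw [← this]; simp [sq]
  let s : SL(2, F) := ⟨(c⁻¹ : Fˣ).1 • g.1, by
    rw [det_smul, hd]; simp [sq]; field_simp⟩
  refine ⟨s, MulEquiv.ext fun x => ?_⟩
  rw [MulAut.conj_apply, mul_inv_eq_iff_eq_mul]
  apply Subtype.ext
  change ((c⁻¹ : Fˣ).1 • g.1) * x.1 = g.1 * x.1 * (g⁻¹).1 * ((c⁻¹ : Fˣ).1 • g.1)
  simp only [Matrix.smul_mul, Matrix.mul_smul, Matrix.mul_assoc]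
  rw [Units.inv_mul, Matrix.mul_one]

instance inn_normal {X : Type*} [Group X] : (MulAut.conj : X →* MulAut X).range.Normal := by
  refine ⟨?_⟩
  rintro _ ⟨g, rfl⟩ a
  exact ⟨a g, MulEquiv.ext fun x => by simp⟩

theorem rel : (MulAut.conj : SL(2, F) →* _).range.relIndex (δ (F := F)).range ∣
    Nat.gcd 2 (Fintype.card F - 1) := by
  rw [← Subgroup.index_comap]
  have h1 : (powMonoidHom 2 : Fˣ →* Fˣ).range.comap Matrix.GeneralLinearGroup.det ≤
      (MulAut.conj : SL(2, F) →* _).range.comap δ := fun g ⟨c, hc⟩ => δ_sq hc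
  refine (Subgroup.index_dvd_of_le h1).trans ?_
  rw [Subgroup.index_comap]
  refine (Subgroup.relIndex_dvd_index_of_normal _ _).trans ?_
  rw [IsCyclic.index_powMonoidHom_range, Nat.card_units, Nat.card_eq_fintype_card, Nat.gcd_comm]

theorem out {H : Type*} [Group H] [Finite H] (S : Subgroup H) [S.Normal] (e : S ≃* SL(2, F)) :
    ∃ K : Subgroup H, K.Normal ∧ S ⊔ Subgroup.centralizer (S : Set H) ≤ K ∧
      (S ⊔ Subgroup.centralizer (S : Set H)).relIndex K ∣ Nat.gcd 2 (Fintype.card F - 1) ∧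
      (∃ h : H, K ⊔ Subgroup.zpowers h = ⊤) ∧ K.index ∣ Nat.card (RingAut F) := by
  let α : H →* MulAut SL(2, F) := (MulAut.congr e).toMonoidHom.comp MulAut.conjNormal
  have hα : ∀ h x, α h (e x) = e (MulAut.conjNormal h x) := fun h x => by simp [α]
  have hs : ∀ s : S, α s = MulAut.conj (e s) := fun s => MulEquiv.ext fun x => by
    obtain ⟨y, rfl⟩ := e.surjective x
    rw [hα, MulAut.conj_apply, ← map_inv, ← map_mul, ← map_mul]
    exact congrArg e (Subtype.ext rfl)
  have hk : ∀ h, α h = 1 ↔ h ∈ Subgroup.centralizer (S : Set H) := fun h => by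
    constructor
    · intro h1 s hs'
      have := hα h ⟨s, hs'⟩
      rw [h1, MulAut.one_apply] at this
      have := congrArg Subtype.val (e.injective this)
      rw [MulAut.conjNormal_apply] at this
      simp only at this
      rw [eq_mul_inv_iff_mul_eq] at this
      exact this
    · intro h1
      refine MulEquiv.ext fun x => ?_
      obtain ⟨y, rfl⟩ := e.surjective x
      rw [hα, MulAut.one_apply]
      refine congrArg e (Subtype.ext ?_)
      rw [MulAut.conjNormal_apply, ← h1 y y.2, mul_inv_cancel_right]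
  have hI : S ⊔ Subgroup.centralizer (S : Set H) =
      (MulAut.conj : SL(2, F) →* _).range.comap α := by
    apply le_antisymm
    · refine sup_le (fun s hs' => ⟨e ⟨s, hs'⟩, (hs ⟨s, hs'⟩).symm⟩) fun c hc => ?_
      rw [Subgroup.mem_comap, (hk c).2 hc]; exact one_mem _
    · rintro h ⟨x, hx⟩
      obtain ⟨y, rfl⟩ := e.surjective x
      rw [← hs] at hx
      have : (y : H)⁻¹ * h ∈ Subgroup.centralizer (S : Set H) := by
        rw [← hk, map_mul, map_inv, hx, inv_mul_cancel]
      have := mul_mem (Subgroup.mem_sup_left y.2) (Subgroup.mem_sup_right this)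
      rwa [mul_inv_cancel_left] at this
  have hID : (MulAut.conj : SL(2, F) →* _).range ≤ (δ (F := F)).range := by
    rintro _ ⟨s, rfl⟩; exact ⟨_, δ_sl s⟩
  have := cycF (F := F)
  have : IsCyclic (MulAut SL(2, F) ⧸ (δ (F := F)).range) := isCyclic_of_surjective _ surj
  refine ⟨(δ (F := F)).range.comap α, inferInstance, hI ▸ Subgroup.comap_mono hID, ?_, ?_, ?_⟩
  · rw [hI, Subgroup.relIndex_comap]
    refine dvd_trans ?_ rel
    have hle : ((δ (F := F)).range.comap α).map α ≤ (δ (F := F)).range := Subgroup.map_comap_le _ _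
    rw [← Subgroup.relIndex_subgroupOf hle]
    exact Subgroup.relIndex_dvd_index_of_normal _ _
  · let β := (QuotientGroup.mk' (δ (F := F)).range).comp α
    obtain ⟨⟨_, h, rfl⟩, hh⟩ := IsCyclic.exists_generator (α := β.range)
    refine ⟨h, eq_top_iff.2 fun x _ => ?_⟩
    obtain ⟨k, hk'⟩ := hh ⟨β x, x, rfl⟩
    have h2 : β (h ^ k) = β x := by rw [map_zpow]; exact congrArg Subtype.val hk'
    have h3 : x * (h ^ k)⁻¹ ∈ (δ (F := F)).range.comap α := by
      rw [Subgroup.mem_comap, ← QuotientGroup.eq_one_iff]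
      change β (x * (h ^ k)⁻¹) = 1
      rw [map_mul, map_inv, h2, mul_inv_cancel]
    have := mul_mem (Subgroup.mem_sup_left h3)
      (Subgroup.mem_sup_right (Subgroup.zpow_mem_zpowers h k))
    rwa [inv_mul_cancel_right] at this
  · rw [Subgroup.index_comap]
    refine (Subgroup.relIndex_dvd_index_of_normal _ _).trans ?_
    exact Subgroup.card_dvd_of_surjective _ surj

theorem out_prime {H : Type*} [Group H] [Finite H] (S : Subgroup H) [S.Normal] {r : ℕ} (hr : r.Prime)
    (e : S ≃* SL(2, ZMod r)) : (S ⊔ Subgroup.centralizer (S : Set H)).index ∣ 2 := by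
  have := Fact.mk hr
  obtain ⟨K, -, h1, h2, -, h3⟩ := out (F := ZMod r) S e
  have : Subsingleton (RingAut (ZMod r)) :=
    ⟨fun a b => RingEquiv.toRingHom_injective (RingHom.ext_zmod _ _)⟩
  rw [Nat.card_unique, Nat.dvd_one] at h3
  rw [← Subgroup.relIndex_mul_index h1, h3, mul_one]
  exact h2.trans (Nat.gcd_dvd_left _ _)

end Cfsg.Agent.Gag.OB
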