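import Cfsg.Agent.Gag.Def
import Cfsg.Agent.S2690
import Cfsg.Agent.Gag.OutB
import Cfsg.Agent.Class.SL2Cover

set_option autoImplicit false
set_option linter.unusedSectionVars false
open Matrix MatrixGroups Cfsg.Agent.Perm.Fpf Cfsg.Agent.PLocal.SL2Nat

namespace Cfsg.Agent.Gag

universe u v
variable {p : ℕ} {G : Type u} {V : Type v} [Group G] [Finite G] [AddCommGroup V] [Finite V] [DistribMulAction G V]

/-- Conjugation gives `α : H →* MulAut (PSL(2, F))` (via `e`, the centre is characteristic), with kernel `C_H(S)` (`S` perfect) and `α(S) = Inn`. `D` = inner-diagonal automorphisms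
(image of `GL(2, F)`), a subgroup; `|D : Inn| ∣ gcd(2, q - 1)` (`det` modulo squares). By `S2690.result` every automorphism is `δ φ_σ` (for `n = 2` inverse-transpose is
conjugation by `!![0,1;-1,0]`), `φ_σ` normalises `D`; so `D ⊴ Aut` and `Aut / D` is an image of the cyclic group `RingAut F` under `σ ↦ φ_σ`. `K = D.comap α`.
(Look first: `ca find 'InnerDiagonal|Inndiag|outPSL|Out.*PSL'`.) -/
theorem out {H : Type*} [Group H] [Finite H] (S : Subgroup H) [S.Normal] {F : Type} [Field F] [Fintype F]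
    (h4 : 4 ≤ Fintype.card F) (e : S ≃* SL(2, F)) :
    ∃ K : Subgroup H, K.Normal ∧ S ⊔ Subgroup.centralizer (S : Set H) ≤ K ∧
      (S ⊔ Subgroup.centralizer (S : Set H)).relIndex K ∣ Nat.gcd 2 (Fintype.card F - 1) ∧
      (∃ h : H, K ⊔ Subgroup.zpowers h = ⊤) ∧ K.index ∣ Nat.card (RingAut F) := OB.out S e

/-- prime field: `RingAut (ZMod r)` is trivial -/
theorem out_prime {H : Type*} [Group H] [Finite H] (S : Subgroup H) [S.Normal] {r : ℕ} (hr : r.Prime) (h5 : 5 ≤ r)
    (e : S ≃* SL(2, ZMod r)) : (S ⊔ Subgroup.centralizer (S : Set H)).index ∣ 2 := OB.out_prime S hr e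

end Cfsg.Agent.Gag
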