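import Cfsg.Agent.Gag.Def
import Cfsg.Agent.Gag.Bas2
import Cfsg.Agent.Gag.Out
import Cfsg.Agent.Gag.Cen
import Cfsg.Agent.Class.SL2Sylow

set_option autoImplicit false
set_option linter.unusedSectionVars false
open Matrix MatrixGroups Cfsg.Agent.Perm.Fpf Cfsg.Agent.PLocal.SL2Nat

namespace Cfsg.Agent.Gag

universe u v
variable {p : ℕ} {G : Type u} {V : Type v} [Group G] [Finite G] [AddCommGroup V] [Finite V] [DistribMulAction G V]

theorem fin1_sylow [Fact p.Prime] {A B : Type*} [Group A] [Group B] [Finite A] [Finite B] (e : A ≃* B) :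
    Nat.card (Sylow p A) = Nat.card (Sylow p B) :=
  le_antisymm
    (Nat.card_le_card_of_surjective _
      (Sylow.mapSurjective_surjective (f := e.symm.toMonoidHom) e.symm.surjective p))
    (Nat.card_le_card_of_surjective _
      (Sylow.mapSurjective_surjective (f := e.toMonoidHom) e.surjective p))

/-- `q = p^a`. `S` has `q + 1` Sylow `p`-subgroups (library: `Class/SL2Sylow`, `ca find 'Sylow p SL'`); `points` for `S` (`Tr.sy`, `Sr.sub`), `cen_ar`: `|V| = q²`. `index_eq`: `|G| = p^j (q² - 1)`,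
`|S| = q (q² - 1)`, so `S.index = p^k`. `cen_eq` (`relIndex ∣ index`), so `S ⊔ C = S`. `out`: `|K : S|` divides `gcd(2, q - 1)` and `p^k`, so is 1. -/
theorem fin1 (h : Sr p G V) (ht : Tr G V) (hO : pCore p G = ⊥) (S : Subgroup G) [S.Normal]
    {F : Type} [Field F] [Fintype F] [CharP F p] (h4 : 4 ≤ Fintype.card F) (e : S ≃* SL(2, F)) : C1 p G := by
  have hp := h.prime
  have : Fact p.Prime := ⟨hp⟩
  obtain ⟨a, -, ha⟩ := FiniteField.card F p
  have hsyl : Nat.card (Sylow p S) = p ^ (a : ℕ) + 1 := by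
    rw [fin1_sylow e, Class.card_sylows_SL2, ha]
  obtain ⟨Q⟩ : Nonempty (Sylow p S) := inferInstance
  obtain ⟨b, hb, -, hV⟩ := Sy.points (h.sub S) (Tr.sy h ht S) Q
  obtain ⟨m, -, hm⟩ := h.card_V
  rw [hsyl, hm] at hV
  have hm2 := cen_ar hp a.pos hb hV
  obtain ⟨P⟩ : Nonempty (Sylow p G) := inferInstance
  have hi := Tr.index_eq h ht P
  obtain ⟨j, hj⟩ := P.2.exists_card_eq
  have hG := (P : Subgroup G).card_mul_index
  have hS := S.card_mul_index
  have hSc : Nat.card S = Fintype.card F * (Fintype.card F ^ 2 - 1) := by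
    rw [Nat.card_congr e.toEquiv, Class.card_SL2]
  have hq2 : Fintype.card F ^ 2 - 1 = p ^ m - 1 := by rw [ha, ← pow_mul, hm2, mul_comm]
  have hpos : 0 < Fintype.card F ^ 2 - 1 := by
    have : 4 ^ 2 ≤ Fintype.card F ^ 2 := Nat.pow_le_pow_left h4 2
    omega
  have hj' : Nat.card (P : Subgroup G) = p ^ j := hj
  rw [hj', hi, hm, ← hq2, ← hS, hSc] at hG
  have hd : S.index ∣ p ^ j := by
    have : p ^ j = Fintype.card F * S.index :=
      Nat.eq_of_mul_eq_mul_right hpos (hG.trans (by ring))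
    exact this ▸ Dvd.intro_left _ rfl
  obtain ⟨k, -, hk⟩ := (Nat.dvd_prime_pow hp).1 hd
  have hrel : ∀ K : Subgroup G, S.relIndex K ∣ p ^ k := fun K =>
    hk ▸ Subgroup.relIndex_dvd_index_of_normal S K
  obtain ⟨k', -, hk'⟩ := (Nat.dvd_prime_pow hp).1 (hrel (Subgroup.centralizer (S : Set G)))
  have hC := cen_eq hp hO S hk'
  have hSC : S ⊔ Subgroup.centralizer (S : Set G) = S := by
    rw [hC]
    exact sup_eq_left.2 (Subgroup.map_subtype_le _)
  obtain ⟨K, -, hK1, hK2, ⟨g, hg⟩, -⟩ := out S h4 e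
  rw [hSC] at hK1 hK2
  have hcop : Nat.Coprime (Fintype.card F - 1) (p ^ k) := by
    refine Nat.Coprime.pow_right _ (Nat.Coprime.symm ((Nat.Prime.coprime_iff_not_dvd hp).2 ?_))
    have := Class.not_dvd_pow_sub_one hp dvd_rfl hp.pos a.pos
    rwa [ha]
  have h1 : S.relIndex K = 1 :=
    Nat.eq_one_of_dvd_coprimes hcop (hK2.trans (Nat.gcd_dvd_right _ _)) (hrel K)
  have hKS : K = S := le_antisymm (Subgroup.relIndex_eq_one.1 h1) hK1
  exact ⟨F, inferInstance, inferInstance, ⟨a, ha⟩, by omega, S, inferInstance, ⟨e⟩, ⟨k, hk⟩,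
    ⟨g, hKS ▸ hg⟩, hC⟩

end Cfsg.Agent.Gag
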