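import Cfsg.Agent.Gag.Def
import Cfsg.Agent.Gag.Bas2
import Cfsg.Agent.Gag.Out
import Cfsg.Agent.Gag.Cen
import Cfsg.Agent.Class.SL2Sylow

set_option autoImplicit false
set_option linter.unusedSectionVars false
open Matrix MatrixGroups Cfsg.Agent.Perm.Fpf Cfsg.Agent.PLocal.SL2Nat

namespace Cfsg.Agent.Gag

universe u v
variable {p : ℕ} {G : Type u} {V : Type v} [Group G] [Finite G] [AddCommGroup V] [Finite V] [DistribMulAction G V]

theorem fin3_card (h : Sr 3 G V) (ht : Tr G V) : ∃ j, Nat.card G = (Nat.card V - 1) * 3 ^ j := by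
  haveI : Fact (Nat.Prime 3) := ⟨Nat.prime_three⟩
  obtain ⟨P⟩ : Nonempty (Sylow 3 G) := inferInstance
  obtain ⟨j, hj⟩ := IsPGroup.iff_card.1 P.isPGroup'
  exact ⟨j, by rw [← Tr.index_eq h ht P, ← hj, Subgroup.index_mul_card]⟩

theorem fin3_le (S : Subgroup G) : (Subgroup.center S).map S.subtype ≤ S := by
  rintro _ ⟨x, -, rfl⟩; exact x.2

theorem fin3_inv (h : Sr 3 G V) {t z : G} (ht : orderOf t = 2) (hz : orderOf z = 2) : t = z := by
  apply h.ρ_inj
  ext v
  rw [ρ_apply, ρ_apply, h.invol (by norm_num) ht, h.invol (by norm_num) hz]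

theorem fin3_AB : ∃ A B : SL(2, ZMod 5), orderOf A = 2 ^ (1 + 1) ∧ B * A ≠ A * B :=
  ⟨⟨!![0, 4; 1, 0], by rw [Matrix.det_fin_two_of]; decide⟩,
    ⟨!![1, 1; 0, 1], by rw [Matrix.det_fin_two_of]; decide⟩,
    orderOf_eq_prime_pow (by decide) (by decide), by decide⟩

/-- `|G| = 728 * 3^j` (`index_eq`), `|S| = 2184 = 728 * 3`, so `S.index` is a power of 3; `cen_eq`, `out_prime`: `S.index ∣ 2`, so `S = ⊤`. -/
theorem fin13 (h : Sr 3 G V) (ht : Tr G V) (hO : pCore 3 G = ⊥) (S : Subgroup G) [S.Normal]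
    (e : S ≃* SL(2, ZMod 13)) (hV : Nat.card V = 729) : Nonempty (G ≃* SL(2, ZMod 13)) := by
  haveI : Fact (Nat.Prime 13) := ⟨by norm_num⟩
  obtain ⟨j, hj⟩ := fin3_card h ht
  have hS : Nat.card S = 2184 := by
    rw [Nat.card_congr e.toEquiv, Class.card_SL2, ZMod.card]; norm_num
  have e1 := S.index_mul_card
  rw [hS, hj, hV] at e1
  have d1 : S.index ∣ 3 ^ j := ⟨3, by omega⟩
  obtain ⟨k, -, hk⟩ := (Nat.dvd_prime_pow Nat.prime_three).1
    ((S.relIndex_dvd_index_of_normal (Subgroup.centralizer (S : Set G))).trans d1)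
  have hc := cen_eq Nat.prime_three hO S hk
  have d2 := out_prime S (r := 13) (by norm_num) (by norm_num) e
  rw [hc, sup_eq_left.2 (fin3_le S)] at d2
  have c23 : Nat.Coprime 2 (3 ^ j) := Nat.Coprime.pow_right _ (by norm_num)
  have i1 : S.index = 1 := Nat.eq_one_of_dvd_coprimes c23 d2 d1
  obtain rfl := Subgroup.index_eq_one.1 i1
  exact ⟨Subgroup.topEquiv.symm.trans e⟩

/-- `|G| = 80 * 3^j`, `|S| = 120`, `S.index = 2 * 3^(j-1)`. `C = C_G(S)`, `|C : C ⊓ S| ∣ S.index`. It is odd: else `4 ∣ |C|` (`-1 ∈ C ⊓ S`), `C` has a subgroup of order 4 with a unique involution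
(`invol`, `ρ_inj`), so an element `c` of order 4, which lies in `⟨a⟩ ≤ S` for `a ∈ S` of order 4 (`mem_zpowers_of_comm`), but `Z(S)` has order 2. So it is a power of 3, `cen_eq`,
`out_prime`: `S.index ∣ 2`, so `= 2`. A complement has order 2, is generated by the unique involution, which lies in `S`. -/
theorem fin5 (h : Sr 3 G V) (ht : Tr G V) (hO : pCore 3 G = ⊥) (S : Subgroup G) [S.Normal]
    (e : S ≃* SL(2, ZMod 5)) (hV : Nat.card V = 81) : C2 G := by
  haveI : Fact (Nat.Prime 5) := ⟨by norm_num⟩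
  haveI : Fact (Nat.Prime 2) := ⟨Nat.prime_two⟩
  obtain ⟨j, hj⟩ := fin3_card h ht
  have hS : Nat.card S = 120 := by
    rw [Nat.card_congr e.toEquiv, Class.card_SL2, ZMod.card]; norm_num
  have e1 := S.index_mul_card
  rw [hS, hj, hV] at e1
  have d1 : S.index ∣ 2 * 3 ^ j := ⟨3, by omega⟩
  have ev : 2 ∣ S.index := by omega
  obtain ⟨A, B, oA, nAB⟩ := fin3_AB
  have oa : orderOf ((e.symm A : S) : G) = 2 ^ (1 + 1) := by
    rw [Subgroup.orderOf_coe, MulEquiv.orderOf_eq, oA]
  set a : G := ((e.symm A : S) : G) with ha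
  have aS : a ∈ S := (e.symm A).2
  have oz : orderOf (a ^ 2) = 2 := by rw [orderOf_pow' _ (by norm_num), oa]; norm_num
  have zS : a ^ 2 ∈ S := pow_mem aS 2
  have zC : a ^ 2 ∈ Subgroup.centralizer (S : Set G) := by
    rw [Subgroup.mem_centralizer_iff]
    intro g _
    have := fin3_inv h (t := g * a ^ 2 * g⁻¹) (z := a ^ 2)
      (((MulAut.conj g).orderOf_eq (a ^ 2)).trans oz) oz
    calc g * a ^ 2 = g * a ^ 2 * g⁻¹ * g := by group
      _ = a ^ 2 * g := by rw [this]
  have od : ¬ 2 ∣ S.relIndex (Subgroup.centralizer (S : Set G)) := by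
    intro h2
    set C := Subgroup.centralizer (S : Set G) with hC
    have h3 : 2 ∣ Nat.card (S.subgroupOf C) := by
      have := Subgroup.orderOf_dvd_natCard (S.subgroupOf C) (x := ⟨a ^ 2, zC⟩) zS
      rwa [← Subgroup.orderOf_coe, oz] at this
    have h4 : 2 ^ 2 ∣ Nat.card C := by
      rw [← (S.subgroupOf C).index_mul_card, pow_two]
      exact Nat.mul_dvd_mul h2 h3
    obtain ⟨K, hK⟩ := Sylow.exists_subgroup_card_pow_prime 2 h4
    have hc : ∃ c : K, orderOf c = 2 ^ 2 := by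
      by_contra hn
      push Not at hn
      have hsub : ∀ c : K, ((c : C) : G) = 1 ∨ ((c : C) : G) = a ^ 2 := by
        intro c
        have hd := orderOf_dvd_natCard c
        rw [hK] at hd
        obtain ⟨i, hi, ei⟩ := (Nat.dvd_prime_pow Nat.prime_two).1 hd
        interval_cases i
        · left
          have : c = 1 := orderOf_eq_one_iff.1 (by simpa using ei)
          rw [this]; rfl
        · right
          refine fin3_inv h ?_ oz
          rw [Subgroup.orderOf_coe, Subgroup.orderOf_coe, ei]; rfl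
        · exact absurd ei (hn c)
      classical
      have hle : Nat.card K ≤ Nat.card ({1, a ^ 2} : Set G) :=
        Nat.card_le_card_of_injective (fun c : K => (⟨((c : C) : G), hsub c⟩ : ({1, a ^ 2} : Set G)))
          (fun x y exy => Subtype.ext (Subtype.ext
            (congrArg (fun z : ({1, a ^ 2} : Set G) => (z : G)) exy)))
      have : ({1, a ^ 2} : Set G).ncard ≤ 2 := (Set.ncard_insert_le _ _).trans (by simp)
      rw [hK, Nat.card_coe_set_eq] at hle
      omega
    obtain ⟨c, oc⟩ := hc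
    have oc' : orderOf ((c : C) : G) = 2 ^ (1 + 1) := by
      rw [Subgroup.orderOf_coe, Subgroup.orderOf_coe, oc]
    have cC : ((c : C) : G) ∈ C := (c : C).2
    have hm : a ∈ Subgroup.zpowers ((c : C) : G) :=
      mem_zpowers_of_comm h Nat.prime_two (by norm_num) oc' oa
        (Subgroup.mem_centralizer_iff.1 cC a aS).symm
    have aC : a ∈ C := (Subgroup.zpowers_le.2 cC) hm
    have hb := Subgroup.mem_centralizer_iff.1 aC ((e.symm B : S) : G) (e.symm B).2
    apply nAB
    apply e.symm.injective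
    apply Subtype.ext
    rw [map_mul, map_mul]
    exact hb
  have d3 : S.relIndex (Subgroup.centralizer (S : Set G)) ∣ 3 ^ j :=
    Nat.Coprime.dvd_of_dvd_mul_left ((Nat.Prime.coprime_iff_not_dvd Nat.prime_two).2 od).symm
      ((S.relIndex_dvd_index_of_normal (Subgroup.centralizer (S : Set G))).trans d1)
  obtain ⟨k, -, hk⟩ := (Nat.dvd_prime_pow Nat.prime_three).1 d3
  have hc := cen_eq Nat.prime_three hO S hk
  have d2 := out_prime S (r := 5) (by norm_num) (by norm_num) e
  rw [hc, sup_eq_left.2 (fin3_le S)] at d2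
  have i2 : S.index = 2 := Nat.dvd_antisymm d2 ev
  refine ⟨S, inferInstance, i2, ⟨e⟩, hc, fun K hK => ?_⟩
  have cK : Nat.card K = 2 := by rw [← hK.symm.index_eq_card, i2]
  obtain ⟨t, ot⟩ := exists_prime_orderOf_dvd_card' (G := K) 2 (by rw [cK])
  have et : (t : G) = a ^ 2 := fin3_inv h (by rw [Subgroup.orderOf_coe, ot]) oz
  have hm : (t : G) ∈ S ⊓ K := ⟨et ▸ zS, t.2⟩
  rw [hK.disjoint.eq_bot, Subgroup.mem_bot] at hm
  rw [← et, hm, orderOf_one] at oz
  exact absurd oz (by norm_num)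

end Cfsg.Agent.Gag
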