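import Cfsg.Agent.Gag.Def
import Cfsg.Agent.Gag.Bas1
import Cfsg.Agent.S0199
import Cfsg.Agent.Inv.Basic

set_option autoImplicit false
set_option linter.unusedSectionVars false
open Matrix MatrixGroups Cfsg.Agent.Perm.Fpf Cfsg.Agent.PLocal

namespace Cfsg.Agent.Gag

universe u v
variable {p : ℕ} {G : Type u} {V : Type v} [Group G] [Finite G] [AddCommGroup V] [Finite V] [DistribMulAction G V]

/-- Baer-Suzuki (`S0199.result` with `X = zpowers t`): some `⟨t, t'⟩`, `t' = g t g⁻¹`, is not a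
2-group, so (dihedral) `t t'` is not a 2-element and a power `y ≠ 1` of it has odd order, `t y t = y⁻¹`.
`y²` is fixed-point-free so `ρ y + ρ y⁻¹` is injective, hence bijective. If `t v = v` write
`v = (y + y⁻¹) a`; then `(y⁻¹ + y) t a = v` so `t a = a`, and `(t - 1)(y a) = y⁻¹ a + y a = v` (char 2). -/
theorem Sr.fr (h : Sr 2 G V) (hO : pCore 2 G = ⊥) : Fr G V := by
  intro t t1 t2 v hv
  obtain ⟨y, y1, yo, e⟩ := Inv.exists_odd_inverted_of_not_mem_pCore (t := t)
    (orderOf_eq_prime (by rw [sq]; exact t2) t1) (by rw [hO, Subgroup.mem_bot]; exact t1)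
  have ng : ∀ w : V, -w = w := fun w => neg_eq_of_add_eq_zero_left (by rw [← two_nsmul]; exact h.tors w)
  have e1 : t * y = y⁻¹ * t := mul_inv_eq_iff_eq_mul.1 e
  have e2 : t * y⁻¹ = y * t := by
    rw [← mul_inv_eq_iff_eq_mul, ← conj_inv, e, inv_inv]
  let f : V →+ V := ρ V y + ρ V y⁻¹
  have hf : ∀ a, f a = y • a + y⁻¹ • a := fun a => rfl
  have inj : Function.Injective f := by
    rw [injective_iff_map_eq_zero]
    intro a ha
    rw [hf, add_eq_zero_iff_eq_neg, ng, eq_inv_smul_iff, smul_smul, ← sq] at ha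
    refine h.fpf ((Nat.coprime_two_right.2 yo).coprime_dvd_left (orderOf_pow_dvd 2)) (fun c => y1 ?_) ha
    exact orderOf_eq_one_iff.1 ((Nat.coprime_two_right.2 yo).eq_one_of_dvd (orderOf_dvd_of_pow_eq_one c))
  obtain ⟨a, rfl⟩ := Finite.injective_iff_surjective.1 inj v
  rw [n_apply, sub_eq_zero] at hv
  have ta : t • a = a := inj (by
    rw [← hv, hf, hf, smul_add, smul_smul, smul_smul, smul_smul, smul_smul, e1, e2, add_comm])
  refine ⟨y • a, ?_⟩
  rw [n_apply, smul_smul, e1, mul_smul, ta, sub_eq_add_neg, ng, hf, add_comm]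

end Cfsg.Agent.Gag
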