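import Cfsg.Agent.Gag.Def
import Cfsg.Agent.Class.LinearBasic

set_option autoImplicit false
set_option linter.unusedSectionVars false
open Matrix MatrixGroups Cfsg.Agent.Perm.Fpf Cfsg.Agent.PLocal

namespace Cfsg.Agent.Gag

universe u v
variable {p : ℕ} {G : Type u} {V : Type v} [Group G] [Finite G] [AddCommGroup V] [Finite V] [DistribMulAction G V]

theorem kl_key {A : Type*} [Group A] [Finite A] (hc : OddCyc A) {l : ℕ} (hl : l.Prime) (h2 : l ≠ 2) {a b : A}
    (c : Commute a b) (ha : a ^ l = 1) (hb : b ^ l = 1) (a1 : a ≠ 1) : ∃ i < l, a ^ i * b = 1 := by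
  have := Fact.mk hl
  have hm : IsMulCommutative (Subgroup.closure {a, b}) := Subgroup.isMulCommutative_closure (by
    rintro _ (rfl | rfl) _ (rfl | rfl)
    exacts [rfl, c, c.symm, rfl])
  have hp : ∀ x ∈ Subgroup.closure {a, b}, x ^ l = 1 := fun x hx => by
    induction hx using Subgroup.closure_induction with
    | mem x hx => rcases hx with rfl | rfl; exacts [ha, hb]
    | one => exact one_pow l
    | mul x y hx hy e1 e2 =>
      rw [Commute.mul_pow (congrArg Subtype.val (hm.is_comm.comm ⟨x, hx⟩ ⟨y, hy⟩)), e1, e2, one_mul]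
    | inv x hx e => rw [inv_pow, e, inv_one]
  obtain ⟨k, hk⟩ := IsPGroup.iff_card.1
    (show IsPGroup l (Subgroup.closure {a, b}) from fun x => ⟨1, Subtype.ext (by simpa using hp x x.2)⟩)
  obtain ⟨g, hg⟩ := (hc _ (hk ▸ (hl.odd_of_ne_two h2).pow) hm).exists_ofOrder_eq_natCard
  have o := orderOf_eq_prime ha a1
  have e : Subgroup.zpowers a = Subgroup.closure {a, b} :=
    Subgroup.eq_of_le_of_card_ge (Subgroup.zpowers_le.2 (Subgroup.subset_closure (by simp))) (by
      rw [Nat.card_zpowers, o, ← hg]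
      exact Nat.le_of_dvd hl.pos (orderOf_dvd_of_pow_eq_one (Subtype.ext (by simpa using hp g g.2))))
  have hb' : b⁻¹ ∈ Subgroup.zpowers a := e ▸ inv_mem (Subgroup.subset_closure (by simp))
  obtain ⟨i, hi⟩ := (mem_powers_iff_mem_zpowers.2 hb' :)
  refine ⟨i % l, Nat.mod_lt _ hl.pos, ?_⟩
  rw [← pow_eq_pow_mod i ha, show a ^ i = b⁻¹ from hi, inv_mul_cancel]

theorem kl_key' {m : ℕ} {F : Type} [Field F] [Fintype F] (hc : OddCyc (Matrix.ProjectiveSpecialLinearGroup (Fin m) F))
    {l : ℕ} (hl : l.Prime) (h2 : l ≠ 2) {a b : SpecialLinearGroup (Fin m) F} (c : Commute a b) (ha : a ^ l = 1)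
    (hb : b ^ l = 1) (a1 : ∀ r, scalar (Fin m) r ≠ a.1) (h : ∀ i < l, ∀ r, scalar (Fin m) r ≠ a.1 ^ i * b.1) :
    False := by
  obtain ⟨i, hi, e⟩ := kl_key hc hl h2 (c.map (QuotientGroup.mk' _)) (by rw [← map_pow, ha, map_one])
    (by rw [← map_pow, hb, map_one]) fun e =>
      let ⟨r, _, k⟩ := Matrix.SpecialLinearGroup.mem_center_iff.1 ((QuotientGroup.eq_one_iff a).1 e); a1 r k
  rw [← map_pow, ← map_mul] at e
  obtain ⟨r, -, k⟩ := Matrix.SpecialLinearGroup.mem_center_iff.1 ((QuotientGroup.eq_one_iff _).1 e)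
  exact h i hi r (by simpa using k)

/-- the block embedding -/
noncomputable def klE (F : Type) [Field F] [CharP F 2] (n : ℕ) :
    Matrix (Fin 4) (Fin 4) (ZMod 2) →* Matrix (Fin (4 + n)) (Fin (4 + n)) F where
  toFun A := reindex finSumFinEquiv finSumFinEquiv (fromBlocks (A.map (ZMod.castHom (dvd_refl 2) F)) 0 0 1)
  map_one' := by rw [Matrix.map_one _ (map_zero _) (map_one _), fromBlocks_one]; simp
  map_mul' A B := by
    rw [reindex_apply, reindex_apply, reindex_apply, submatrix_mul_equiv, fromBlocks_multiply, Matrix.map_mul]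
    simp

theorem klE_det (F : Type) [Field F] [CharP F 2] (n : ℕ) {A : Matrix (Fin 4) (Fin 4) (ZMod 2)} (h : A ^ 3 = 1) :
    (klE F n A).det = 1 := by
  have e : A.det = 1 := (by decide : ∀ x : ZMod 2, x ^ 3 = 1 → x = 1) _ (by rw [← det_pow, h, det_one])
  change (reindex _ _ _).det = 1
  rw [det_reindex_self, det_fromBlocks_zero₂₁, det_one, mul_one, ← RingHom.mapMatrix_apply, ← RingHom.map_det, e,
    map_one]

theorem klE_ne (F : Type) [Field F] [CharP F 2] (n : ℕ) {A : Matrix (Fin 4) (Fin 4) (ZMod 2)} {i j : Fin 4}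
    (hij : i ≠ j) (h : A i j = 1) (r : F) : scalar (Fin (4 + n)) r ≠ klE F n A := fun e => by
  have := congrFun (congrFun e (Fin.castAdd n i)) (Fin.castAdd n j)
  rw [scalar_apply, diagonal_apply_ne _ fun k => hij (Fin.castAdd_injective _ _ k)] at this
  simp [klE, h] at this

theorem kl_four {n : ℕ} {F : Type} [Field F] [Fintype F] [CharP F 2]
    (hc : OddCyc (Matrix.ProjectiveSpecialLinearGroup (Fin (4 + n)) F)) : False := by
  let A : Matrix (Fin 4) (Fin 4) (ZMod 2) := !![0, 1, 0, 0; 1, 1, 0, 0; 0, 0, 1, 0; 0, 0, 0, 1]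
  let B : Matrix (Fin 4) (Fin 4) (ZMod 2) := !![1, 0, 0, 0; 0, 1, 0, 0; 0, 0, 0, 1; 0, 0, 1, 1]
  have a3 : A ^ 3 = 1 := by decide +kernel
  have b3 : B ^ 3 = 1 := by decide +kernel
  refine kl_key' hc Nat.prime_three (by norm_num) (a := ⟨_, klE_det F n a3⟩) (b := ⟨_, klE_det F n b3⟩)
    (Subtype.ext ?_) (Subtype.ext ?_) (Subtype.ext ?_) (klE_ne F n (i := 0) (j := 1) (by decide) rfl) fun i hi => ?_
  · change klE F n A * klE F n B = klE F n B * klE F n A
    rw [← map_mul (klE F n), ← map_mul (klE F n), show A * B = B * A by decide +kernel]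
  · change klE F n A ^ 3 = 1
    rw [← map_pow, a3, map_one]
  · change klE F n B ^ 3 = 1
    rw [← map_pow, b3, map_one]
  · change ∀ r, _ ≠ klE F n A ^ i * klE F n B
    rw [← map_pow, ← map_mul (klE F n)]
    exact klE_ne F n (i := 2) (j := 3) (by decide) (by interval_cases i <;> decide +kernel)

theorem kl_num {e : ℕ} (he : 3 ≤ e) : ∃ l, l.Prime ∧ l ≠ 2 ∧ l ≠ 3 ∧ l ∣ 2 ^ e - 1 := by
  obtain ⟨k, rfl⟩ := Nat.exists_eq_add_of_le he
  have h0 : 0 < 2 ^ k := by positivity
  by_contra! h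
  have h1 := Nat.eq_prime_pow_of_unique_prime_dvd (n := 2 ^ (3 + k) - 1) (p := 3) (by rw [pow_add]; omega)
    fun {d} hd k' => by
      by_contra c
      refine h d hd (fun e => ?_) c k'
      rw [e, pow_add] at k'
      omega
  have h2 : ∀ j : ℕ, 3 ^ j % 8 = 1 ∨ 3 ^ j % 8 = 3 := fun j => by
    induction j with
    | zero => simp
    | succ j ih => rw [pow_succ]; omega
  have := h2 (2 ^ (3 + k) - 1).primeFactorsList.length
  rw [← h1, pow_add] at this
  omega

theorem kl_three {F : Type} [Field F] [Fintype F] (hc : OddCyc (Matrix.ProjectiveSpecialLinearGroup (Fin 3) F))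
    {l : ℕ} (hl : l.Prime) (h2 : l ≠ 2) (h3 : l ≠ 3) (hd : l ∣ Fintype.card F - 1) : False := by
  have := Fact.mk hl
  obtain ⟨u, hu⟩ := exists_prime_orderOf_dvd_card' (G := Fˣ) l (by rwa [Nat.card_units, Nat.card_eq_fintype_card])
  obtain ⟨t, t0, ht⟩ : ∃ t : F, t ≠ 0 ∧ orderOf t = l := ⟨u, u.ne_zero, by rw [orderOf_units, hu]⟩
  have tl : t ^ l = 1 := ht ▸ pow_orderOf_eq_one t
  have t1 : t ≠ 1 := fun e => hl.one_lt.ne' (by rw [← ht, e, orderOf_one])
  refine kl_key' hc hl h2 (a := ⟨diagonal ![t, t⁻¹, 1], by simp [Fin.prod_univ_three, t0]⟩)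
    (b := ⟨diagonal ![1, t, t⁻¹], by simp [Fin.prod_univ_three, t0]⟩) (Subtype.ext ?_) (Subtype.ext ?_)
    (Subtype.ext ?_) (fun r e => ?_) fun i hi r e => ?_
  · exact commute_diagonal _ _
  · change diagonal _ ^ l = 1
    rw [diagonal_pow, ← diagonal_one]
    congr 1; funext k; fin_cases k <;> simp [tl]
  · change diagonal _ ^ l = 1
    rw [diagonal_pow, ← diagonal_one]
    congr 1; funext k; fin_cases k <;> simp [tl]
  · have e1 := diagonal_injective e
    exact t1 ((congrFun e1 0).symm.trans (congrFun e1 2))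
  · change diagonal _ = diagonal _ ^ i * diagonal _ at e
    rw [diagonal_pow, diagonal_mul_diagonal] at e
    have e1 := diagonal_injective e
    have k0 : r = t ^ i * 1 := congrFun e1 0
    have k1 : r = t⁻¹ ^ i * t := congrFun e1 1
    have k2 : r = 1 ^ i * t⁻¹ := congrFun e1 2
    rw [one_pow, one_mul] at k2
    rw [mul_one, k2] at k0
    rw [inv_pow, ← k0, inv_inv, k2] at k1
    have : t ^ 3 = 1 := by rw [pow_succ, pow_two, ← k1, inv_mul_cancel₀ t0]
    exact h3 ((Nat.prime_dvd_prime_iff_eq hl Nat.prime_three).1 (ht ▸ orderOf_dvd_of_pow_eq_one this))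

/-- Give a noncyclic abelian subgroup of odd order. `m ≥ 4`: two commuting blocks `!![0,1;1,1]` (entries in `F₂`) generate
`3 × 3`, meeting the scalars trivially. `m = 3`, `q = |F|`: `q = 2`, `4` give the orders (`card` formula in the library: `ca find card_PSL`);
`q ≥ 8`: a prime `l ≠ 3` divides `q - 1` (`2^e - 1 = 3^k` only for `e ≤ 2`; if `9 ∣ 2^e - 1` then `7 ∣`), `t` of order `l`,
`diag(t, t⁻¹, 1)`, `diag(1, t, t⁻¹)` generate `l × l` meeting the centre (order `∣ 3`) trivially. To show `¬ OddCyc`: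
commuting `a, b` of odd prime order `l` with `b ∉ zpowers a`; `closure {a, b}` is an abelian `l`-group. -/
theorem kl {m : ℕ} {F : Type} [Field F] [Fintype F] [CharP F 2] (hm : 3 ≤ m)
    (hc : OddCyc (Matrix.ProjectiveSpecialLinearGroup (Fin m) F)) :
    Nat.card (Matrix.ProjectiveSpecialLinearGroup (Fin m) F) = 168 ∨
      Nat.card (Matrix.ProjectiveSpecialLinearGroup (Fin m) F) = 20160 := by
  rcases hm.eq_or_lt with rfl | h4
  swap
  · obtain ⟨n, rfl⟩ := Nat.exists_eq_add_of_le (show 4 ≤ m from h4)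
    exact (kl_four hc).elim
  have := Fact.mk Nat.prime_two
  obtain ⟨e, -, he⟩ := FiniteField.card F 2
  have h1 := Class.gcd_mul_card_PSL (ι := Fin 3) (F := F)
  have h2 := Class.card_units_mul_card_SL (ι := Fin 3) (R := F)
  rw [Matrix.card_GL_field, ← h1, Nat.card_units, Nat.card_eq_fintype_card, Fin.prod_univ_three, he] at h2
  have e0 := e.pos
  by_cases h3 : 3 ≤ (e : ℕ)
  · obtain ⟨l, a, b, c, d⟩ := kl_num h3
    exact (kl_three hc a b c (he ▸ d)).elim
  generalize (e : ℕ) = k at h2 e0 h3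
  generalize Nat.card (Matrix.ProjectiveSpecialLinearGroup (Fin 3) F) = N at h2 ⊢
  interval_cases k
  · norm_num at h2
    exact Or.inl h2
  · norm_num at h2
    exact Or.inr (by omega)

theorem OddCyc.of_equiv {A B : Type*} [Group A] [Group B] (e : A ≃* B) (h : OddCyc A) : OddCyc B := fun K k1 k2 => by
  have f := e.symm.subgroupMap K
  have := h (K.map e.symm) (Nat.card_congr f.toEquiv ▸ k1) ⟨⟨fun x y => f.symm.injective (by
    rw [map_mul, map_mul, k2.is_comm.comm])⟩⟩
  exact isCyclic_of_surjective f.symm f.symm.surjective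

end Cfsg.Agent.Gag
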