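import Cfsg.Agent.Gag.Def

set_option autoImplicit false
set_option linter.unusedSectionVars false
open Matrix MatrixGroups Cfsg.Agent.Perm.Fpf Cfsg.Agent.PLocal

namespace Cfsg.Agent.Gag

universe u v
variable {p : ℕ} {G : Type u} {V : Type v} [Group G] [Finite G] [AddCommGroup V] [Finite V] [DistribMulAction G V]

/-- `N = 2^a * u`; `u ∣ 2^(2m) - 1` forces the order of 2 mod `u` to divide `2m` (`Nat.ModEq`, `orderOf_dvd`, or periodicity of
`2^i % r` for the listed prime powers `r ∣ u`): 168: `3 ∣ m`; 360, 2520, 20160: `6 ∣ m` (9, 5); 181440: `27 ∣ m` (81);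
M22: `30 ∣ m` (9,5,11); M23: `11 ∣ 2m`, `30 ∣ m`; M24: `9 ∣ m`, `5 ∣ m` (27, 11); He: `147 ∣ 2m` (343). Then `2^m + 1 ≤ N` bounds `m`
and the few values left do not divide `N`. -/
theorem kord {N u a m : ℕ} (hm : 0 < m) (hN : N = 2 ^ a * u) (hu : Odd u) (h1 : u ∣ 2 ^ (2 * m) - 1)
    (h2 : 2 ^ m + 1 ∣ N)
    (hl : N = 168 ∨ N = 360 ∨ N = 2520 ∨ N = 20160 ∨ N = 181440 ∨ N = 443520 ∨ N = 10200960 ∨
      N = 244823040 ∨ N = 4030387200) : False := by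
  have key : ∀ w, Odd w → w ∣ N → w ∣ 2 ^ (2 * m) - 1 := fun w hw h =>
    ((Nat.Coprime.pow_right a (Nat.coprime_two_right.2 hw)).dvd_of_dvd_mul_left (hN ▸ h)).trans h1
  have hN' : 0 < N ∧ N < 2 ^ 32 := by
    rcases hl with h | h | h | h | h | h | h | h | h <;> rw [h] <;> norm_num
  have hm2 : m < 32 := (Nat.pow_lt_pow_iff_right (a := 2) (by norm_num)).1
    (by have := Nat.le_of_dvd hN'.1 h2; omega)
  have t : ∀ m < 32, ∀ x ∈ [(168, 21), (360, 45), (2520, 315), (20160, 315), (181440, 2835),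
      (443520, 3465), (10200960, 79695), (244823040, 239085), (4030387200, 3935925)],
      0 < m → x.2 ∣ 2 ^ (2 * m) - 1 → ¬ 2 ^ m + 1 ∣ x.1 := by decide +kernel
  rcases hl with h | h | h | h | h | h | h | h | h <;> rw [h] at key h2
  · exact t m hm2 (168, 21) (by simp) hm (key 21 (by decide) (by norm_num)) h2
  · exact t m hm2 (360, 45) (by simp) hm (key 45 (by decide) (by norm_num)) h2
  · exact t m hm2 (2520, 315) (by simp) hm (key 315 (by decide) (by norm_num)) h2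
  · exact t m hm2 (20160, 315) (by simp) hm (key 315 (by decide) (by norm_num)) h2
  · exact t m hm2 (181440, 2835) (by simp) hm (key 2835 (by decide) (by norm_num)) h2
  · exact t m hm2 (443520, 3465) (by simp) hm (key 3465 (by decide) (by norm_num)) h2
  · exact t m hm2 (10200960, 79695) (by simp) hm (key 79695 (by decide) (by norm_num)) h2
  · exact t m hm2 (244823040, 239085) (by simp) hm (key 239085 (by decide) (by norm_num)) h2
  · exact t m hm2 (4030387200, 3935925) (by simp) hm (key 3935925 (by decide) (by norm_num)) h2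

theorem kord_two {c n : ℕ} (hc : 0 < c) (h : 2 ^ c + 1 ∣ 2 ^ n - 1) : 2 * c ∣ n := by
  have h0 : 2 ^ c + 1 ∣ 2 ^ (2 * c) - 1 := by
    rw [mul_comm, pow_mul, ← one_pow 2, Nat.sq_sub_sq]
    exact dvd_mul_right _ _
  have h1 := Nat.dvd_gcd h h0
  rw [Nat.pow_sub_one_gcd_pow_sub_one] at h1
  have hg : 0 < n.gcd (2 * c) := Nat.gcd_pos_of_pos_right _ (by omega)
  have h2 := Nat.le_of_dvd (Nat.sub_pos_of_lt (Nat.one_lt_two_pow hg.ne')) h1
  have h3 : c < n.gcd (2 * c) := (Nat.pow_lt_pow_iff_right (a := 2) (by norm_num)).1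
    (lt_of_lt_of_le (Nat.lt_succ_self _) (h2.trans (Nat.sub_le _ _)))
  obtain ⟨t, ht⟩ := Nat.gcd_dvd_right n (2 * c)
  have : t = 1 := by
    rcases t with _ | _ | t
    · omega
    · rfl
    · nlinarith
  rw [this, mul_one] at ht
  exact ht ▸ Nat.gcd_dvd_left n (2 * c)

/-- `q = 2^a`, `a = 2k+1 ≥ 3`. `q² + 1 ∣ 2^(2m) - 1` so `4a ∣ 2m` (order of 2 mod `2^(2a)+1` is `4a`); `2^m + 1 ∣ (q²+1)(q-1) < q³`
(it is odd) so `m = 2a`. From `s (2^b - 1) = q⁴ - 1`, `s j = (q²+1)(q-1)`: `2^b - 1 = (q+1) j`, so `2a ∣ b`;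
`b < 4a` as `s > 1`; `b = 2a = m`. -/
theorem ksz_ar {k m b s j : ℕ} (hk : 1 ≤ k) (hm : 0 < m) (hb : 0 < b) (hs : s ≠ 1)
    (h1 : ((2 ^ (2 * k + 1)) ^ 2 + 1) * (2 ^ (2 * k + 1) - 1) ∣ 2 ^ (2 * m) - 1)
    (h2 : 2 ^ m + 1 ∣ (2 ^ (2 * k + 1)) ^ 2 * ((2 ^ (2 * k + 1)) ^ 2 + 1) * (2 ^ (2 * k + 1) - 1))
    (h3 : 2 ^ (2 * m) - 1 = s * (2 ^ b - 1))
    (h4 : s * j = ((2 ^ (2 * k + 1)) ^ 2 + 1) * (2 ^ (2 * k + 1) - 1)) : b = m := by
  generalize ha : 2 * k + 1 = a at *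
  have a0 : 0 < a := by omega
  have e1 : 2 * (2 * a) ∣ 2 * m := kord_two (by omega) (by
    rw [mul_comm 2 a, pow_mul]; exact (dvd_mul_right _ _).trans h1)
  have e2 : 2 * a ∣ m := Nat.dvd_of_mul_dvd_mul_left two_pos e1
  have hq : 1 < 2 ^ a := Nat.one_lt_two_pow a0.ne'
  obtain ⟨r, hr⟩ : ∃ r, 2 ^ a = r + 1 := ⟨2 ^ a - 1, by omega⟩
  have r0 : 0 < r := by omega
  have c : (2 ^ m + 1).Coprime ((2 ^ a) ^ 2) :=
    Nat.Coprime.pow_right _ (Nat.Coprime.pow_right _ (Nat.coprime_two_right.2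
      ((Nat.even_pow.2 ⟨even_two, hm.ne'⟩).add_one)))
  rw [mul_assoc] at h2
  have e3 := Nat.le_of_dvd (by rw [hr]; simp [r0]) (c.dvd_of_dvd_mul_left h2)
  have e4 : m < a * 3 := (Nat.pow_lt_pow_iff_right (a := 2) (by norm_num)).1 (by
    rw [pow_mul, hr]
    rw [hr, Nat.add_sub_cancel] at e3
    nlinarith)
  obtain ⟨t, ht⟩ := e2
  have t1 : t = 1 := by
    rcases t with _ | _ | t
    · omega
    · rfl
    · nlinarith
  rw [t1, mul_one] at ht
  have e5 : 2 ^ (2 * m) - 1 = s * (j * (2 ^ a + 1)) := by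
    rw [← mul_assoc, h4, ht, show 2 * (2 * a) = a * 4 by ring, pow_mul, hr, Nat.add_sub_cancel]
    exact Nat.sub_eq_of_eq_add (by ring)
  have p0 : 0 < 2 ^ (2 * m) - 1 := Nat.sub_pos_of_lt (Nat.one_lt_two_pow (by omega))
  have s0 : 0 < s := Nat.pos_of_ne_zero (by rintro rfl; omega)
  have e6 : 2 ^ b - 1 = j * (2 ^ a + 1) := Nat.eq_of_mul_eq_mul_left s0 (h3.symm.trans e5)
  obtain ⟨t', ht'⟩ := kord_two a0 (e6 ▸ dvd_mul_left _ _ : 2 ^ a + 1 ∣ 2 ^ b - 1)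
  have b0 : 0 < 2 ^ b - 1 := Nat.sub_pos_of_lt (Nat.one_lt_two_pow hb.ne')
  have e7 : b < 2 * m := (Nat.pow_lt_pow_iff_right (a := 2) (by norm_num)).1 (by
    have : 2 ≤ s := by omega
    have : 2 * (2 ^ b - 1) ≤ s * (2 ^ b - 1) := Nat.mul_le_mul_right _ this
    omega)
  have t2 : t' = 1 := by
    rcases t' with _ | _ | t'
    · omega
    · rfl
    · nlinarith
  rw [ht', t2, mul_one, ht]

end Cfsg.Agent.Gag
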