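import Cfsg.Agent.Gag.Def

set_option autoImplicit false
set_option linter.unusedSectionVars false
open Matrix MatrixGroups Cfsg.Agent.Perm.Fpf Cfsg.Agent.PLocal

namespace Cfsg.Agent.Gag

universe u v
variable {p : ℕ} {G : Type u} {V : Type v} [Group G] [Finite G] [AddCommGroup V] [Finite V] [DistribMulAction G V]

theorem ku_gen {H : Type*} [Group H] [Finite H] (hc : OddCyc H) {x y : H} (c : Commute x y) {m : ℕ}
    (hm : Odd m) (hx : orderOf x = m) (hy : y ^ m = 1) : y ∈ Subgroup.zpowers x := by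
  let K : Subgroup H :=
    { carrier := {k | ∃ i j : ℤ, k = x ^ i * y ^ j}
      one_mem' := ⟨0, 0, by simp⟩
      mul_mem' := by
        rintro _ _ ⟨i, j, rfl⟩ ⟨k, l, rfl⟩
        refine ⟨i + k, j + l, ?_⟩
        rw [_root_.zpow_add, _root_.zpow_add]
        exact ((c.symm.zpow_zpow j k).mul_mul_mul_comm _ _)
      inv_mem' := by
        rintro _ ⟨i, j, rfl⟩
        exact ⟨-i, -j, by rw [_root_.mul_inv_rev, ← _root_.zpow_neg, ← _root_.zpow_neg, (c.zpow_zpow (-i) (-j)).eq]⟩ }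
  have hp : ∀ k : K, k ^ m = 1 := by
    rintro ⟨_, i, j, rfl⟩
    refine Subtype.ext ?_
    show (x ^ i * y ^ j) ^ m = 1
    have e1 : (x ^ i) ^ m = 1 := by
      rw [← zpow_natCast, ← _root_.zpow_mul, mul_comm, _root_.zpow_mul, zpow_natCast, ← hx, pow_orderOf_eq_one,
        _root_.one_zpow]
    have e2 : (y ^ j) ^ m = 1 := by
      rw [← zpow_natCast, ← _root_.zpow_mul, mul_comm, _root_.zpow_mul, zpow_natCast, hy, _root_.one_zpow]
    rw [(c.zpow_zpow i j).mul_pow, e1, e2, one_mul]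
  have ho : Odd (Nat.card K) := by
    by_contra h
    haveI : Fact (Nat.Prime 2) := ⟨Nat.prime_two⟩
    obtain ⟨k, hk⟩ := exists_prime_orderOf_dvd_card' (G := K) 2 (Nat.not_odd_iff_even.1 h).two_dvd
    have := orderOf_dvd_of_pow_eq_one (hp k)
    rw [hk] at this
    exact (Nat.not_even_iff_odd.2 hm) (even_iff_two_dvd.2 this)
  have hm' : IsMulCommutative K := ⟨⟨by
    rintro ⟨_, i, j, rfl⟩ ⟨_, k, l, rfl⟩
    refine Subtype.ext ?_
    exact (((Commute.refl x).zpow_zpow i k).mul_right (c.zpow_zpow i l)).mul_left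
      ((c.symm.zpow_zpow j k).mul_right ((Commute.refl y).zpow_zpow j l))⟩⟩
  obtain ⟨g, hg⟩ := (hc K ho hm').exists_ofOrder_eq_natCard
  have hle : Subgroup.zpowers x ≤ K := Subgroup.zpowers_le.2 ⟨1, 0, by simp⟩
  have he : Subgroup.zpowers x = K := by
    refine Subgroup.eq_of_le_of_card_ge hle ?_
    rw [Nat.card_zpowers, hx, ← hg]
    exact Nat.le_of_dvd hm.pos (orderOf_dvd_of_pow_eq_one (hp g))
  rw [he]
  exact ⟨0, 1, by simp⟩

/-- diagonal elements -/
def kuD {F : Type} [Field F] (q : ℕ) (d : Fin 3 → F) (h1 : d 0 * d 1 * d 2 = 1) (h2 : ∀ i, d i ^ (q + 1) = 1) :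
    SU 3 F q :=
  ⟨⟨diagonal d, by rw [det_diagonal, Fin.prod_univ_three, h1]⟩, fun u v => by
    show hermForm 3 F q (diagonal d *ᵥ u) (diagonal d *ᵥ v) = _
    unfold hermForm
    refine Finset.sum_congr rfl fun i _ => ?_
    rw [mulVec_diagonal, mulVec_diagonal, mul_pow]
    calc d i * u i * (d i ^ q * v i ^ q) = d i ^ (q + 1) * (u i * v i ^ q) := by ring
      _ = _ := by rw [h2, one_mul]⟩

/-- a permutation matrix -/
def kuW (F : Type) [Field F] (q : ℕ) : SU 3 F q :=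
  ⟨⟨!![0, 1, 0; 0, 0, 1; 1, 0, 0], by simp [det_fin_three]⟩, fun u v => by
    show hermForm 3 F q ((!![0, 1, 0; 0, 0, 1; 1, 0, 0] : Matrix (Fin 3) (Fin 3) F) *ᵥ u)
      ((!![0, 1, 0; 0, 0, 1; 1, 0, 0] : Matrix (Fin 3) (Fin 3) F) *ᵥ v) = _
    simp [hermForm, Fin.sum_univ_three, mulVec, dotProduct]
    ring⟩

theorem ku_cen {F : Type} [Field F] {q : ℕ} {g : SU 3 F q} {d : Fin 3 → F}
    (e : (g.1 : Matrix (Fin 3) (Fin 3) F) = diagonal d) (hg : (g : PSU 3 F q) = 1) : d 0 = d 2 ∧ d 1 = d 2 := by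
  have h := Subgroup.mem_center_iff.1 ((QuotientGroup.eq_one_iff g).1 hg) (kuW F q)
  have h' : (!![0, 1, 0; 0, 0, 1; 1, 0, 0] : Matrix (Fin 3) (Fin 3) F) * diagonal d =
      diagonal d * !![0, 1, 0; 0, 0, 1; 1, 0, 0] := by
    rw [← e]
    exact congrArg (fun t : SU 3 F q => (t.1 : Matrix (Fin 3) (Fin 3) F)) h
  have h1 := congrFun (congrFun h' 2) 0
  have h2 := congrFun (congrFun h' 1) 2
  simp at h1 h2
  exact ⟨h1, h2.symm⟩

/-- `μ = {a | a^(q+1) = 1} ≤ Fˣ` is cyclic of odd order `q + 1 ≥ 5`. The image in `PSU` of the torus `{diag(a, b, (a b)⁻¹)}` (in an orthonormal basis;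
check `hermForm` in `Def_Classical`, library may have the torus: `ca find 'SU 3'`) is abelian of odd order `(q+1)²/d`, `d ∣ 3`, and of exponent
dividing `q + 1 < (q+1)²/d`: not cyclic. -/
theorem ku {F : Type} [Field F] [Fintype F] {q : ℕ} (hF : Fintype.card F = q ^ 2) (he : Even q) (h4 : 4 ≤ q)
    (hc : OddCyc (PSU 3 F q)) : False := by
  classical
  obtain ⟨g, hg⟩ := IsCyclic.exists_ofOrder_eq_natCard (α := Fˣ)
  have hd : q + 1 ∣ orderOf g := by
    rw [hg, Nat.card_units, Nat.card_eq_fintype_card, hF]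
    exact ⟨q - 1, by rw [← Nat.sq_sub_sq q 1]⟩
  obtain ⟨u, hu⟩ : ∃ u : Fˣ, orderOf u = q + 1 := ⟨_, orderOf_pow_orderOf_div (orderOf_pos g).ne' hd⟩
  obtain ⟨a, ha, a0⟩ : ∃ a : F, orderOf a = q + 1 ∧ a ≠ 0 := ⟨u, by rw [orderOf_units, hu], u.ne_zero⟩
  have a1 : a ^ (q + 1) = 1 := by rw [← ha, pow_orderOf_eq_one]
  have a2 : a⁻¹ ^ (q + 1) = 1 := by rw [inv_pow, a1, inv_one]
  let x : SU 3 F q := kuD q ![a, a⁻¹, 1] (by simp [a0]) (fun i => by fin_cases i <;> simp [a1])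
  let y : SU 3 F q := kuD q ![1, a, a⁻¹] (by simp [a0]) (fun i => by fin_cases i <;> simp [a1])
  have ex : ∀ k : ℕ, ((x ^ k).1 : Matrix (Fin 3) (Fin 3) F) = diagonal (![a, a⁻¹, 1] ^ k) := fun k => by
    rw [← diagonal_pow]; rfl
  have ey : ∀ k : ℕ, ((y ^ k).1 : Matrix (Fin 3) (Fin 3) F) = diagonal (![1, a, a⁻¹] ^ k) := fun k => by
    rw [← diagonal_pow]; rfl
  have c : Commute x y := Subtype.ext (Subtype.ext (commute_diagonal _ _))
  have hx : orderOf (x : PSU 3 F q) = q + 1 := by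
    rw [← ha, orderOf_eq_orderOf_iff]
    intro k
    rw [← QuotientGroup.mk_pow]
    constructor
    · intro h
      simpa using (ku_cen (ex k) h).1
    · intro h
      have : x ^ k = 1 := Subtype.ext (Subtype.ext ((ex k).trans (by
        show _ = diagonal (fun _ => (1 : F))
        congr 1
        funext i
        fin_cases i <;> simp [h])))
      rw [this]; rfl
  have hy : (y : PSU 3 F q) ^ (q + 1) = 1 := by
    have : y ^ (q + 1) = 1 := Subtype.ext (Subtype.ext ((ey _).trans (by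
      show _ = diagonal (fun _ => (1 : F))
      congr 1
      funext i
      fin_cases i <;> simp [a1])))
    rw [← QuotientGroup.mk_pow, this]; rfl
  have hm := ku_gen hc (c.map (QuotientGroup.mk' _)) (m := q + 1) he.add_one hx hy
  obtain ⟨k, hk⟩ := mem_powers_iff_mem_zpowers.2 (inv_mem hm)
  have hk' : ((x ^ k * y : SU 3 F q) : PSU 3 F q) = 1 := by
    rw [QuotientGroup.mk_mul, QuotientGroup.mk_pow]
    exact mul_eq_one_iff_eq_inv.2 hk
  have e : ((x ^ k * y).1 : Matrix (Fin 3) (Fin 3) F) = diagonal (![a, a⁻¹, 1] ^ k * ![1, a, a⁻¹]) := by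
    show ((x ^ k).1 : Matrix (Fin 3) (Fin 3) F) * diagonal ![1, a, a⁻¹] = _
    rw [ex, diagonal_mul_diagonal]; rfl
  obtain ⟨h1, h2⟩ := ku_cen e hk'
  have h1' : a ^ k = a⁻¹ := by simpa using h1
  have h2' : (a ^ k)⁻¹ * a = a⁻¹ := by simpa using h2
  rw [h1', inv_inv] at h2'
  have h3 : a ^ 3 = 1 := by
    calc a ^ 3 = a * a * a := by ring
      _ = 1 := by rw [h2', inv_mul_cancel₀ a0]
  have := Nat.le_of_dvd (by norm_num) (orderOf_dvd_of_pow_eq_one h3)
  omega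

end Cfsg.Agent.Gag
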