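import Cfsg.Agent.Gag.Def
import Cfsg.Agent.Inv.AutCyc
import Cfsg.Agent.S3742
import Cfsg.Agent.Char.Burnside

set_option autoImplicit false
set_option linter.unusedSectionVars false
open Matrix MatrixGroups Cfsg.Agent.Perm.Fpf Cfsg.Agent.PLocal.SL2Nat

namespace Cfsg.Agent.Gag

universe u v
variable {p : ℕ} {G : Type u} {V : Type v} [Group G] [Finite G] [AddCommGroup V] [Finite V] [DistribMulAction G V]

theorem radQ_solv {m : ℕ} (hm : 1 ≤ m) : Group.IsSolvable (MulAut (QuaternionGroup (2 ^ m))) := by
  have : NeZero (2 ^ m) := ⟨by positivity⟩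
  rcases hm.eq_or_lt with rfl | h
  · obtain ⟨e⟩ := S3742.result
    refine Char.isSolvable_of_card_dvd_pow_mul_pow (a := 3) (b := 1) Nat.prime_two Nat.prime_three
      (MulAut (QuaternionGroup 2)) ?_
    rw [Nat.card_congr e.toEquiv, Nat.card_perm, Nat.card_eq_fintype_card, Fintype.card_fin]
    decide
  · have := Fact.mk Nat.prime_two
    obtain ⟨k, hk⟩ := IsPGroup.iff_card.1 (Inv.AutCyc.isPGroup_mulAut_quaternion (n := m) h)
    exact Char.isSolvable_of_card_dvd_pow_mul_pow (a := k) (b := 0) Nat.prime_two Nat.prime_three _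
      (by rw [hk]; simp)

/-- `m = 1` (`Q₈`): `P` permutes the three cyclic subgroups of order 4 (a solvable `S₃`), so normalises each, and
`le_centralizer_of_perfect`. `m ≥ 2`: `⟨a⟩` (generated by the elements of order `> 4`) is normalised, so centralised;
`g x g⁻¹ = x a^(i g)` defines a homomorphism of the perfect `P` to an abelian group. (Or: `Aut` of these groups is solvable:
`ca find QuaternionGroup`.) -/
theorem radQ {P S : Subgroup G} (hP : ⁅P, P⁆ = P) {m : ℕ} (hm : 1 ≤ m)
    (hS : Nonempty (S ≃* QuaternionGroup (2 ^ m))) (hn : P ≤ Subgroup.normalizer (S : Set G)) :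
    P ≤ Subgroup.centralizer (S : Set G) := by
  obtain ⟨e⟩ := hS
  have := radQ_solv hm
  have : Group.IsSolvable (MulAut S) :=
    Group.isSolvable_of_isSolvable_injective (f := (MulAut.congr e).toMonoidHom) (MulAut.congr e).injective
  have h1 : ⁅P.subgroupOf (Subgroup.normalizer (S : Set G)), P.subgroupOf (Subgroup.normalizer (S : Set G))⁆ =
      P.subgroupOf (Subgroup.normalizer (S : Set G)) := by
    apply Subgroup.map_injective (Subgroup.subtype_injective _)
    rw [Subgroup.map_commutator, Subgroup.map_subgroupOf_eq_of_le hn, hP]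
  have h2 : (P.subgroupOf (Subgroup.normalizer (S : Set G))).map S.normalizerMonoidHom = ⊥ := by
    by_contra c
    have := Group.IsSolvable.commutator_lt_of_ne_bot c
    rw [← Subgroup.map_commutator, h1] at this
    exact lt_irrefl _ this
  rw [Subgroup.map_eq_bot_iff, Subgroup.normalizerMonoidHom_ker] at h2
  exact fun x hx => h2 (x := ⟨x, hn hx⟩) hx

end Cfsg.Agent.Gag
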