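import Cfsg.Agent.Gag.Def
import Cfsg.Agent.Gag.Bas1
import Cfsg.Agent.Gag.RadQ
import Cfsg.Agent.Grp.Fitting

set_option autoImplicit false
set_option linter.unusedSectionVars false
open Matrix MatrixGroups Cfsg.Agent.Perm.Fpf Cfsg.Agent.PLocal.SL2Nat

namespace Cfsg.Agent.Gag

universe u v
variable {p : ℕ} {G : Type u} {V : Type v} [Group G] [Finite G] [AddCommGroup V] [Finite V] [DistribMulAction G V]

/-- `F = F(N)` (Fitting subgroup, mapped to `G`) is normal in `G`; each Sylow `q`-subgroup of `F` is normal in `G`, trivial for `q = p`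
(`eq_bot_of_normal_pgroup`), else cyclic or quaternion (`abCyc`, `AbCyc.isCyclic_or`), so centralised by `L`
(`le_centralizer_of_perfect`, `radQ`). `C_G(F) ⊴ G` contains `L`, so `⁅N, L⁆ ≤ N ⊓ C(F) ≤ F` (solvable `N`: `C_N(F(N)) ≤ F(N)`, in the library),
`⁅⁅N, L⁆, L⁆ = ⊥`, three subgroups lemma (`Subgroup.commutator_commutator_eq_bot_of_rotate`): `⁅L, N⁆ = ⁅⁅L, L⁆, N⁆ = ⊥`. -/
theorem rad (h : Sr p G V) (hO : pCore p G = ⊥) {L N : Subgroup G} (hL : ⁅L, L⁆ = L) [N.Normal]
    (hN : Group.IsSolvable N) : L ≤ Subgroup.centralizer (N : Set G) := by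
  have h1 : ∀ q : Nat.Primes, L ≤ Subgroup.centralizer (pCore (q : ℕ) G : Set G) := by
    intro q
    have : Fact (q : ℕ).Prime := ⟨q.2⟩
    have hn : L ≤ Subgroup.normalizer (pCore (q : ℕ) G : Set G) := by
      rw [Subgroup.normalizer_eq_top]; exact le_top
    by_cases hq : (q : ℕ) = p
    · rw [hq, hO]
      intro x _
      rw [Subgroup.mem_centralizer_iff]
      intro y hy
      rw [SetLike.mem_coe, Subgroup.mem_bot] at hy
      rw [hy, one_mul, mul_one]
    · have hP := Grp.pCore_isPGroup (q : ℕ) G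
      have hc : (Nat.card (pCore (q : ℕ) G)).Coprime p := by
        obtain ⟨k, hk⟩ := hP.exists_card_eq
        rw [hk]
        exact Nat.Coprime.pow_left _ ((Nat.coprime_primes q.2 h.prime).2 hq)
      rcases (h.abCyc hc).isCyclic_or hP with h2 | ⟨-, m, hm, h2⟩
      · exact le_centralizer_of_perfect hL hn
      · exact radQ hL hm h2 hn
  have h2 : L ≤ Subgroup.centralizer (fittingSubgroup G : Set G) := by
    rw [Subgroup.le_centralizer_iff, Grp.fitting_eq_iSup_pCore]
    exact iSup_le fun q => Subgroup.le_centralizer_iff.1 (h1 q)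
  have : Group.IsSolvable (N ⊓ Subgroup.centralizer (fittingSubgroup G : Set G) : Subgroup G) :=
    Grp.isSolvable_of_le (K := N) inf_le_left
  have h3 : N ⊓ Subgroup.centralizer (fittingSubgroup G : Set G) ≤ fittingSubgroup G :=
    Grp.le_fitting_of_le_centralizer_fitting _ inf_le_right
  have h4 : ⁅N, L⁆ ≤ fittingSubgroup G :=
    ((Subgroup.commutator_mono le_rfl h2).trans (Subgroup.commutator_le_inf _ _)).trans h3
  have h5 : ⁅⁅N, L⁆, L⁆ = ⊥ := by
    rw [Subgroup.commutator_comm, Subgroup.commutator_eq_bot_iff_le_centralizer]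
    exact h2.trans (Subgroup.centralizer_le h4)
  have h6 : ⁅⁅L, L⁆, N⁆ = ⊥ :=
    Subgroup.commutator_commutator_eq_bot_of_rotate (by rw [Subgroup.commutator_comm L N]; exact h5) h5
  rw [hL, Subgroup.commutator_eq_bot_iff_le_centralizer] at h6
  exact h6

end Cfsg.Agent.Gag
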