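import Cfsg.Agent.Gag.Def
import Cfsg.Agent.Gag.Bas1

set_option autoImplicit false
set_option linter.unusedSectionVars false
open Matrix MatrixGroups Cfsg.Agent.Perm.Fpf Cfsg.Agent.PLocal.SL2Nat

namespace Cfsg.Agent.Gag

universe u v
variable {p : ℕ} {G : Type u} {V : Type v} [Group G] [Finite G] [AddCommGroup V] [Finite V] [DistribMulAction G V]

/-- the derived series stabilises at a nontrivial term -/
theorem exists_perf (hns : ¬ Group.IsSolvable G) : ∃ L : Subgroup G, L.Normal ∧ ⁅L, L⁆ = L ∧ L ≠ ⊥ := by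
  obtain ⟨_, ⟨k, rfl⟩, hm⟩ := (wellFounded_lt (α := Subgroup G)).has_min (Set.range (derivedSeries G)) ⟨_, 0, rfl⟩
  refine ⟨derivedSeries G k, inferInstance, ?_, fun e => hns ⟨k, e⟩⟩
  by_contra hc
  exact hm _ ⟨k + 1, rfl⟩ (lt_of_le_of_ne (Subgroup.commutator_le_self _) hc)

theorem commutator_top_of_perf {L : Subgroup G} (hL : ⁅L, L⁆ = L) : commutator L = ⊤ := by
  apply Subgroup.map_injective L.subtype_injective
  rw [Subgroup.map_subtype_commutator, hL, ← MonoidHom.range_eq_map, Subgroup.range_subtype]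

/-- A central `x` of prime order `q`: `q = p` is excluded by `hO`; for odd `q ≠ p` the Sylow `q`-subgroup `P` is cyclic (`Sr.cyc`) and
the transfer `G → P` sends `x` to `x ^ index ≠ 1` (copy the proof of `AbCyc.not_mem_center` in `Perm/FpfGroup`), against perfectness. -/
theorem zen (h : Sr p G V) (hO : pCore p G = ⊥) (hp : commutator G = ⊤) :
    IsPGroup 2 (Subgroup.center G) ∧ (p = 2 → Subgroup.center G = ⊥) := by
  have key : IsPGroup 2 (Subgroup.center G) := by
    refine IsPGroup.of_card (Nat.eq_prime_pow_of_unique_prime_dvd Nat.card_pos.ne' fun {q} hq hd => ?_)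
    by_contra h2
    haveI : Fact q.Prime := ⟨hq⟩
    obtain ⟨⟨x, hc⟩, hx⟩ := exists_prime_orderOf_dvd_card' (G := Subgroup.center G) q hd
    rw [← Subgroup.orderOf_coe] at hx
    change orderOf x = q at hx
    by_cases hqp : q = p
    · subst hqp
      haveI : (Subgroup.zpowers x).Normal := ⟨fun y hy g => by
        rw [Subgroup.mem_center_iff.1 (Subgroup.zpowers_le.2 hc hy) g, mul_inv_cancel_right]
        exact hy⟩
      have := eq_bot_of_normal_pgroup hO (Subgroup.zpowers x)
        (IsPGroup.of_card (n := 1) (by rw [Nat.card_zpowers, hx, pow_one]))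
      rw [Subgroup.zpowers_eq_bot] at this
      rw [this, orderOf_one] at hx
      exact hq.one_lt.ne hx
    obtain ⟨P⟩ : Nonempty (Sylow q G) := inferInstance
    haveI := h.cyc hqp h2 P.isPGroup'
    letI : CommGroup P := IsCyclic.commGroup
    have h1 := MonoidHom.transfer_eq_pow (H := P) (MonoidHom.id P) x (fun k g _ => by
      rw [mul_assoc, ← Subgroup.mem_center_iff.1 (Subgroup.pow_mem _ hc k) g, inv_mul_cancel_left])
    have h3 : x ∈ (MonoidHom.transfer (H := P) (MonoidHom.id P)).ker :=
      Abelianization.commutator_subset_ker _ (hp ▸ Subgroup.mem_top x)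
    rw [MonoidHom.mem_ker, h1] at h3
    have h4 : x ^ (P : Subgroup G).index = 1 := congrArg Subtype.val h3
    exact P.not_dvd_index (hx.symm.dvd.trans (orderOf_dvd_of_pow_eq_one h4))
  exact ⟨key, fun e => eq_bot_of_normal_pgroup hO _ (e ▸ key)⟩

end Cfsg.Agent.Gag
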