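import Cfsg.Agent.Gag.Def
import Cfsg.Agent.Gag.Rad
import Cfsg.Agent.Gag.Zen

set_option autoImplicit false
set_option linter.unusedSectionVars false
open Matrix MatrixGroups Cfsg.Agent.Perm.Fpf Cfsg.Agent.PLocal.SL2Nat

namespace Cfsg.Agent.Gag

universe u v
variable {p : ℕ} {G : Type u} {V : Type v} [Group G] [Finite G] [AddCommGroup V] [Finite V] [DistribMulAction G V]

/-- `L` from `exists_perf`, `Z(L) = ⊥` (`zen` for `L`, `pCore_sub_eq_bot`). `M ≤ L` minimal among nontrivial normal subgroups of `G` in `L`.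
`M` is not solvable (else `rad`: `M ≤ Z(L)`). A minimal normal subgroup `T` of `M` is nonsolvable (else the `G`-closure `M` of `T` is solvable); if `T ≠ M`
some conjugate `T^g ≠ T` commutes with `T` and meets it trivially, an odd prime `q` divides `|T|` (`T` is not a 2-group), giving `q × q`, against `oddCyc`.
So `T = M` is simple. (The library has the structure of minimal normal subgroups: `ca find 'inimal.?ormal'`.) -/
theorem min2 (h : Sr 2 G V) (hO : pCore 2 G = ⊥) (hns : ¬ Group.IsSolvable G) :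
    ∃ M : Subgroup G, M.Normal ∧ IsSimpleGroup M ∧ ¬ IsMulCommutative M := by
  classical
  obtain ⟨L, hLn, hL, hL0⟩ := exists_perf hns
  have hZ : Subgroup.center L = ⊥ :=
    (zen (h.sub L) (pCore_sub_eq_bot hO L) (commutator_top_of_perf hL)).2 rfl
  obtain ⟨M, ⟨hMn, hM0, hML⟩, hmin⟩ := exists_minimal_of_wellFoundedLT
    (fun M : Subgroup G => M.Normal ∧ M ≠ ⊥ ∧ M ≤ L) ⟨L, hLn, hL0, le_rfl⟩
  refine ⟨M, hMn, ?_, fun hc => hM0 ?_⟩
  · have : Nontrivial M := (Subgroup.nontrivial_iff_ne_bot M).2 hM0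
    refine ⟨fun N hN => ?_⟩
    by_contra hh
    push Not at hh
    obtain ⟨T, ⟨hTn, hT0, hTN⟩, hT⟩ := exists_minimal_of_wellFoundedLT
      (fun T : Subgroup M => T.Normal ∧ T ≠ ⊥ ∧ T ≤ N) ⟨N, hN, hh.1, le_rfl⟩
    have h1 : ∃ φ : MulAut M, ¬ T ≤ T.map φ.toMonoidHom := by
      by_contra h2
      push Not at h2
      have hn : (T.map M.subtype).Normal := ⟨by
        rintro _ ⟨x, hx, rfl⟩ g
        obtain ⟨y, hy, e⟩ := h2 (MulAut.conjNormal g⁻¹) hx
        refine ⟨y, hy, ?_⟩
        rw [← e]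
        simp [mul_assoc]⟩
      have h3 : M ≤ T.map M.subtype := hmin ⟨hn, fun e => hT0 (by
        rwa [Subgroup.map_eq_bot_iff_of_injective _ M.subtype_injective] at e),
        (Subgroup.map_subtype_le T).trans hML⟩ (Subgroup.map_subtype_le T)
      refine hh.2 (eq_top_iff.2 fun x _ => hTN ?_)
      obtain ⟨y, hy, e⟩ := h3 x.2
      rwa [← Subtype.ext e]
    obtain ⟨φ, hφ⟩ := h1
    have hn' : (T.map φ.toMonoidHom).Normal := hTn.map _ φ.surjective
    have h4 : T ⊓ T.map φ.toMonoidHom = ⊥ := by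
      by_contra h5
      exact hφ ((hT ⟨inferInstance, h5, inf_le_left.trans hTN⟩ inf_le_left).trans inf_le_right)
    have h6 : ∃ q, q.Prime ∧ q ≠ 2 ∧ q ∣ Nat.card T := by
      by_contra h7
      push Not at h7
      have : Fact (Nat.Prime 2) := ⟨Nat.prime_two⟩
      refine hT0 (eq_bot_of_normal_pgroup (pCore_sub_eq_bot hO M) T (IsPGroup.iff_card.2
        ⟨_, Nat.eq_prime_pow_of_unique_prime_dvd Nat.card_pos.ne' fun {d} hd hd' => ?_⟩))
      by_contra h8
      exact h7 d hd h8 hd'
    obtain ⟨q, hq, hq2, hqT⟩ := h6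
    have := Fact.mk hq
    obtain ⟨⟨x, hxT⟩, hx⟩ := exists_prime_orderOf_dvd_card' q hqT
    rw [Subgroup.orderOf_mk] at hx
    have hy : orderOf (φ x) = q := by rw [MulEquiv.orderOf_eq, hx]
    have hyT : φ x ∈ T.map φ.toMonoidHom := ⟨x, hxT, rfl⟩
    have hxy : Commute x (φ x) :=
      Subgroup.commute_of_normal_of_disjoint T _ hTn hn' (disjoint_iff.2 h4) _ _ hxT hyT
    set K := Subgroup.closure ({x, φ x} : Set M) with hK
    have hKc : IsMulCommutative K := Subgroup.isMulCommutative_closure (by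
      intro a ha b hb
      simp only [Set.mem_insert_iff, Set.mem_singleton_iff] at ha hb
      rcases ha with rfl | rfl <;> rcases hb with rfl | rfl <;>
        first | rfl | exact hxy.eq | exact hxy.eq.symm)
    have hKe : ∀ a ∈ K, a ^ q = 1 := by
      intro a ha
      induction ha using Subgroup.closure_induction with
      | mem a ha =>
        simp only [Set.mem_insert_iff, Set.mem_singleton_iff] at ha
        rcases ha with rfl | rfl
        · exact hx ▸ pow_orderOf_eq_one _
        · exact hy ▸ pow_orderOf_eq_one _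
      | one => simp
      | mul a b ha hb h1 h2 =>
        have : Commute a b := congrArg Subtype.val (mul_comm' (⟨a, ha⟩ : K) ⟨b, hb⟩)
        rw [this.mul_pow, h1, h2, one_mul]
      | inv a _ h1 => rw [inv_pow, h1, inv_one]
    have hKp : IsPGroup q K := fun a => ⟨1, Subtype.ext (by simpa using hKe a a.2)⟩
    have hcyc : IsCyclic K := (h.sub M).cyc hq2 hq2 hKp
    have hKq : Nat.card K ≤ q := by
      obtain ⟨a, ha⟩ := IsCyclic.exists_ofOrder_eq_natCard (α := K)
      rw [← ha]
      exact orderOf_le_of_pow_eq_one hq.pos (Subtype.ext (by simpa using hKe a a.2))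
    have h9 : Subgroup.zpowers x = K := Subgroup.eq_of_le_of_card_ge
      (Subgroup.zpowers_le.2 (Subgroup.subset_closure (by simp))) (by rwa [Nat.card_zpowers, hx])
    have h10 : φ x ∈ T := (Subgroup.zpowers_le.2 hxT)
      (h9 ▸ (Subgroup.subset_closure (by simp) : φ x ∈ K))
    have h11 : φ x = 1 := Subgroup.mem_bot.1 (h4 ▸ (⟨h10, hyT⟩ : φ x ∈ T ⊓ _))
    rw [h11, orderOf_one] at hy
    exact hq.one_lt.ne hy
  · have h1 := rad h hO hL (N := M) (Group.isSolvable_of_comm fun a b => mul_comm' a b)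
    refine eq_bot_iff.2 fun x hx => ?_
    have h2 : (⟨x, hML hx⟩ : L) ∈ Subgroup.center L := Subgroup.mem_center_iff.2 fun g =>
      Subtype.ext (Subgroup.mem_centralizer_iff.1 (h1 g.2) x hx).symm
    rw [hZ] at h2
    exact congrArg Subtype.val (Subgroup.mem_bot.1 h2)

end Cfsg.Agent.Gag
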