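import Cfsg.Agent.Gag.Def
import Cfsg.Agent.Gag.E2r
import Cfsg.Agent.Gag.Bas1

set_option autoImplicit false
set_option linter.unusedSectionVars false
open Matrix MatrixGroups Cfsg.Agent.Perm.Fpf Cfsg.Agent.PLocal

namespace Cfsg.Agent.Gag

universe u v
variable {p : ℕ} {G : Type u} {V : Type v} [Group G] [Finite G] [AddCommGroup V] [Finite V] [DistribMulAction G V]

theorem na1_of (h : Sr p G V) {F : Type*} [Field F] {x y : G} (ι : (Fin 2 → F) → V)
    (hi : Function.Injective ι) (h0 : ι 0 = 0) (A B : SL(2, F)) (hx : ∀ c, x • ι c = ι (A.1 *ᵥ c))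
    (hy : ∀ c, y • ι c = ι (B.1 *ᵥ c)) :
    ∃ ψ : Subgroup.closure ({x, y} : Set G) →* SL(2, F), IsPGroup p ψ.ker := by
  let H : Subgroup G :=
    { carrier := {g | ∃ M : SL(2, F), ∀ c, g • ι c = ι (M.1 *ᵥ c)}
      one_mem' := ⟨1, fun c => by simp⟩
      mul_mem' := by
        rintro a b ⟨M, hM⟩ ⟨N, hN⟩
        exact ⟨M * N, fun c => by rw [mul_smul, hN, hM, mulVec_mulVec]; rfl⟩
      inv_mem' := by
        rintro a ⟨M, hM⟩
        refine ⟨M⁻¹, fun c => ?_⟩
        have e : M.1 * (M⁻¹).1 = 1 := congrArg Subtype.val (mul_inv_cancel M)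
        rw [inv_smul_eq_iff, hM, mulVec_mulVec, e, one_mulVec] }
  have hle : Subgroup.closure ({x, y} : Set G) ≤ H := by
    rw [Subgroup.closure_le]
    rintro g (rfl | rfl)
    exacts [⟨A, hx⟩, ⟨B, hy⟩]
  choose f hf using fun g : Subgroup.closure ({x, y} : Set G) => hle g.2
  let ψ : Subgroup.closure ({x, y} : Set G) →* SL(2, F) := MonoidHom.mk' f fun a b => by
    apply Subtype.ext
    apply Matrix.mulVec_injective
    funext c
    apply hi
    rw [← hf, Subgroup.coe_mul, mul_smul, hf, hf, mulVec_mulVec]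
    rfl
  refine ⟨ψ, ?_⟩
  have hv : ι 1 ≠ 0 := fun e => one_ne_zero (hi (e.trans h0.symm))
  have := h.pgroup_of_fix (K := ψ.ker.map (Subgroup.subtype _)) hv (by
    rintro _ ⟨g, hg, rfl⟩
    have e : f g = 1 := hg
    have := hf g 1
    rw [e] at this
    simpa using this)
  exact this.of_equiv (Subgroup.equivMapOfInjective _ _ (Subgroup.subtype_injective _)).symm

theorem na1_lin {F U : Type*} [Field F] [Finite F] [CharP F 2] [AddCommGroup U] [Module F U] [Nontrivial U]
    (X Y : U →ₗ[F] U) (hX : ∀ u, X (X u) + X u + u = 0) (hY : ∀ u, Y (Y u) + Y u + u = 0) (s : F)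
    (hs : ∀ u, X (X u + Y u) + Y (X u + Y u) = s • u) (n1 : ∀ u, X u = Y u → u = 0)
    (n2 : ∀ u, X u = Y (Y u) → u = 0) :
    ∃ ι : (Fin 2 → F) → U, Function.Injective ι ∧ ι 0 = 0 ∧ ∃ A B : SL(2, F),
      (∀ c, X (ι c) = ι (A.1 *ᵥ c)) ∧ ∀ c, Y (ι c) = ι (B.1 *ᵥ c) := by
  have := Fact.mk Nat.prime_two
  obtain ⟨ζ, hζ⟩ := surjective_frobenius F 2 s
  rw [frobenius_def] at hζ
  have two : ∀ u : U, (2 : F) • u = 0 := fun u => by rw [CharTwo.two_eq_zero, zero_smul]
  obtain ⟨v, v0, hv⟩ : ∃ v : U, v ≠ 0 ∧ Y v = ζ • v - X v := by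
    obtain ⟨u, hu⟩ := exists_ne (0 : U)
    by_cases e : X u + Y u - ζ • u = 0
    · exact ⟨u, hu, by linear_combination (norm := module) e⟩
    · refine ⟨_, e, ?_⟩
      have h1 := hs u
      rw [← hζ] at h1
      simp only [map_sub, map_add, map_smul] at h1 ⊢
      linear_combination (norm := module) h1 + (ζ ^ 2) • two u - ζ • two (X u) - ζ • two (Y u)
  have ind : ∀ a b : F, a • v + b • X v = 0 → a = 0 ∧ b = 0 := by
    intro a b e
    by_cases hb : b = 0
    · rw [hb, zero_smul, add_zero, smul_eq_zero] at e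
      exact ⟨e.resolve_right v0, hb⟩
    exfalso
    obtain ⟨w, hw⟩ : ∃ w : F, X v = w • v := ⟨-(b⁻¹ * a), by
      have : b⁻¹ • (a • v + b • X v) = 0 := by rw [e, smul_zero]
      rw [smul_add, smul_smul, smul_smul, inv_mul_cancel₀ hb, one_smul] at this
      linear_combination (norm := module) this⟩
    obtain ⟨w', hw'⟩ : ∃ w' : F, Y v = w' • v := ⟨ζ - w, by rw [hv, hw, sub_smul]⟩
    have r : ∀ (T : U →ₗ[F] U) (c : F), T (T v) + T v + v = 0 → T v = c • v → c * c + c + 1 = 0 := by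
      intro T c h1 h2
      rw [h2, map_smul, h2] at h1
      exact (smul_eq_zero.1 (show (c * c + c + 1) • v = 0 by
        linear_combination (norm := module) h1)).resolve_right v0
    have r1 := r X w (hX v) hw
    have r2 := r Y w' (hY v) hw'
    rcases mul_eq_zero.1 (show (w - w') * (w + w' + 1) = 0 by linear_combination r1 - r2) with e | e
    · exact v0 (n1 v (by rw [hw, hw', sub_eq_zero.1 e]))
    · refine v0 (n2 v ?_)
      rw [hw, hw', map_smul, hw', smul_smul]
      congr 1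
      linear_combination e - r2
  have hYX : Y (X v) = (ζ ^ 2 + ζ + 1) • v - (ζ + 1) • X v := by
    have h1 := congrArg Y hv
    rw [map_sub, map_smul] at h1
    have h2 := hY v
    linear_combination (norm := module) h1 - h2 + (ζ + 1) • hv
  refine ⟨fun c => c 0 • v + c 1 • X v, fun c d e => ?_, by simp,
    ⟨!![0, -1; 1, -1], by simp [det_fin_two]⟩,
    ⟨!![ζ, ζ ^ 2 + ζ + 1; -1, -(ζ + 1)], by simp [det_fin_two]; ring⟩, fun c => ?_, fun c => ?_⟩
  · obtain ⟨h1, h2⟩ := ind (c 0 - d 0) (c 1 - d 1) (by linear_combination (norm := module) e)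
    ext i
    fin_cases i
    exacts [sub_eq_zero.1 h1, sub_eq_zero.1 h2]
  · simp only [map_add, map_smul, mulVec, dotProduct, Fin.sum_univ_two, of_apply, cons_val', cons_val_zero,
      cons_val_one, cons_val_fin_one]
    linear_combination (norm := module) c 1 • hX v
  · simp only [map_add, map_smul, mulVec, dotProduct, Fin.sum_univ_two, of_apply, cons_val', cons_val_zero,
      cons_val_one, cons_val_fin_one]
    linear_combination (norm := module) c 0 • hv + c 1 • hYX

theorem na1_cube (h : Sr 2 G V) {x : G} (hx : orderOf x = 3) (v : V) : x • x • v + x • v + v = 0 :=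
  DFunLike.congr_fun (h.cube (by norm_num) hx) v

/-- if `x v = y v`, `v ≠ 0`: `S = {g | g v = v ∧ g x v = x v}` is a 2-group normalised by `x` containing
`g = y x⁻¹`; `NoA`: `g` commutes with `x`, `g³ = 1`, so `g = 1`. -/
theorem na1_ne (h : Sr 2 G V) (hA : NoA G) {x y : G} (hx : orderOf x = 3) (hy : orderOf y = 3)
    (h1 : y ≠ x) {v : V} (hv : x • v = y • v) : v = 0 := by
  by_contra v0
  have x3 : x ^ 3 = 1 := by rw [← hx, pow_orderOf_eq_one]
  have y3 : y ^ 3 = 1 := by rw [← hy, pow_orderOf_eq_one]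
  have hi : x⁻¹ • v = -(x • v) - v := by
    rw [inv_smul_eq_iff, smul_sub, smul_neg]
    linear_combination (norm := abel) na1_cube h hx v
  let S : Subgroup G := MulAction.stabilizer G v ⊓ MulAction.stabilizer G (x • v)
  have hS : IsPGroup 2 S := h.pgroup_of_fix v0 fun g hg => hg.1
  have hg : y * x⁻¹ ∈ S := by
    refine ⟨?_, ?_⟩
    · show (y * x⁻¹) • v = v
      rw [mul_smul, hi, hv, smul_sub, smul_neg]
      linear_combination (norm := abel) -na1_cube h hy v
    · show (y * x⁻¹) • x • v = x • v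
      rw [mul_smul, inv_smul_smul, hv]
  have hc := hA x hx S hS (fun s hs => by
    have a1 : s • v = v := hs.1
    have a2 : s • x • v = x • v := hs.2
    refine ⟨?_, ?_⟩
    · show (x * s * x⁻¹) • v = v
      rw [mul_smul, mul_smul, hi, smul_sub, smul_neg, a1, a2, ← hi, smul_inv_smul]
    · show (x * s * x⁻¹) • x • v = x • v
      rw [mul_smul, mul_smul, inv_smul_smul, a1]) _ hg
  have hc' : Commute y x⁻¹ := by
    have := (hc.mul_right (Commute.refl x)).symm.inv_right
    simpa using this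
  have h3 : (y * x⁻¹) ^ 3 = 1 := by rw [hc'.mul_pow, y3, inv_pow, x3]; simp
  obtain ⟨k, hk⟩ := hS ⟨_, hg⟩
  have h4 : (y * x⁻¹) ^ 2 ^ k = 1 := congrArg Subtype.val hk
  have h5 := Nat.eq_one_of_dvd_coprimes (Nat.Coprime.pow_right k (by norm_num : Nat.Coprime 3 2))
    (orderOf_dvd_of_pow_eq_one h3) (orderOf_dvd_of_pow_eq_one h4)
  exact h1 (mul_inv_eq_one.1 (orderOf_eq_one_iff.1 h5))

/-- `X = ρ x`, `Y = ρ y`, `d = X + Y`, `z = d d` commutes with `X`, `Y` (`e2r_z`). Make `V` a module over `(ZMod 2)[T]` via `z`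
(or over the finite commutative subring `Z` generated by `z`); choose a maximal ideal `m` with `V₀ = V[m] ≠ 0`
(an irreducible factor of the minimal polynomial), `F = Z / m` a finite field of char 2, `V₀` an `F`-space on which
`X`, `Y` are linear. `z = ζ²` in `F`, `(d + ζ)² = 0` on `V₀`, so `Y v = X v + ζ v` for some `v ≠ 0`. `span {v, X v}` is
invariant (`Y X v = (Y + 1) v + ζ Y v`), 2-dimensional (if `X v = ω v` then `Y v = ω' v` with `ω, ω'` roots of
`T² + T + 1`, so `X v = Y^{±1} v`, against `na1_ne`). In the basis `v, X v`: `x ↦ !![0,1;1,1]`,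
`y ↦ !![ζ, 1+ζ+ζ²; 1, 1+ζ]`, determinant 1, so the whole closure maps to `SL`; the kernel fixes `v`. -/
theorem na1 (h : Sr 2 G V) (hA : NoA G) {x y : G} (hx : orderOf x = 3) (hy : orderOf y = 3)
    (h1 : y ≠ x) (h2 : y ≠ x⁻¹) :
    ∃ (F : Type v) (_ : Field F) (_ : Finite F) (_ : CharP F 2)
      (ψ : Subgroup.closure ({x, y} : Set G) →* SL(2, F)), IsPGroup 2 ψ.ker := by
  have := h.nontriv
  have cx := h.cube (by norm_num) hx
  have cy := h.cube (by norm_num) hy
  obtain ⟨-, zx, zy⟩ := e2r_z h.two cx cy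
  let B : Subring (AddMonoid.End V) := Subring.centralizer {ρ V x, ρ V y}
  let Z : Subring B := Subring.center B
  have : Finite (AddMonoid.End V) := DFunLike.finite _
  have zB : (ρ V x + ρ V y) * (ρ V x + ρ V y) ∈ B := by
    rintro _ (rfl | rfl)
    exacts [zx.eq, zy.eq]
  have zZ : (⟨_, zB⟩ : B) ∈ Z := Subring.mem_center_iff.2 fun b => Subtype.ext (by
    have c1 : Commute (ρ V x) b := b.2 _ (Or.inl rfl)
    have c2 : Commute (ρ V y) b := b.2 _ (Or.inr rfl)
    exact (((c1.add_left c2).mul_left (c1.add_left c2)).symm).eq)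
  obtain ⟨W, hW, -⟩ := (eq_bot_or_exists_atom_le (⊤ : Submodule Z V)).resolve_left top_ne_bot
  have := isSimpleModule_iff_isAtom.2 hW
  let m : Ideal Z := Module.annihilator Z W
  have hm : m.IsMaximal := IsSimpleModule.annihilator_isMaximal
  let : Field (Z ⧸ m) := Ideal.Quotient.field m
  have : Finite (Z ⧸ m) := Finite.of_surjective _ (Ideal.Quotient.mk_surjective (I := m))
  have h2Z : (2 : Z) = 0 := Subtype.ext (Subtype.ext h.two)
  have : CharP (Z ⧸ m) 2 := CharTwo.of_one_ne_zero_of_two_eq_zero one_ne_zero (by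
    rw [← map_ofNat (Ideal.Quotient.mk m) 2, h2Z, map_zero])
  let U := Submodule.torsionBySet Z V m
  have : Nontrivial U := by
    obtain ⟨w, hw, w0⟩ := (Submodule.ne_bot_iff W).1 hW.1
    refine ⟨⟨⟨w, (Submodule.mem_torsionBySet_iff _ _).2 fun a => ?_⟩, 0, fun e => w0 (congrArg Subtype.val e)⟩⟩
    exact congrArg Subtype.val (Module.mem_annihilator.1 a.2 ⟨w, hw⟩)
  have cm : ∀ g : G, ρ V g ∈ ({ρ V x, ρ V y} : Set (AddMonoid.End V)) → ∀ (a : Z) (v : V),
      g • a • v = a • g • v := fun g hg a v => DFunLike.congr_fun (a.1.2 _ hg) v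
  let T : ∀ g : G, ρ V g ∈ ({ρ V x, ρ V y} : Set (AddMonoid.End V)) → (U →ₗ[Z ⧸ m] U) := fun g hg =>
    { toFun := fun u => ⟨g • (u : V), (Submodule.mem_torsionBySet_iff _ _).2 fun a => by
        rw [← cm g hg, (Submodule.mem_torsionBySet_iff _ _).1 u.2 a, smul_zero]⟩
      map_add' := fun u u' => Subtype.ext (smul_add _ _ _)
      map_smul' := fun a u => by
        obtain ⟨a, rfl⟩ := Ideal.Quotient.mk_surjective a
        exact Subtype.ext (cm g hg a u) }
  obtain ⟨ι, hi, h0, A, C, hA', hC⟩ := na1_lin (T x (Or.inl rfl)) (T y (Or.inr rfl))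
    (fun u => Subtype.ext (na1_cube h hx u)) (fun u => Subtype.ext (na1_cube h hy u))
    (Ideal.Quotient.mk m ⟨_, zZ⟩) (fun u => Subtype.ext rfl)
    (fun u e => Subtype.ext (na1_ne h hA hx hy h1 (congrArg Subtype.val e)))
    (fun u e => Subtype.ext (na1_ne h hA hx (y := y⁻¹) (by rwa [orderOf_inv])
      (fun e' => h2 (by rw [← e', inv_inv])) (by
        have e1 : x • (u : V) = y • y • (u : V) := congrArg Subtype.val e
        have y3 : y ^ 3 = 1 := by rw [← hy, pow_orderOf_eq_one]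
        rw [e1, ← mul_smul, eq_inv_of_mul_eq_one_left (by rw [← y3, pow_three, mul_assoc] : y * y * y = 1)])))
  obtain ⟨ψ, hψ⟩ := na1_of h (x := x) (y := y) (fun c => (ι c : V)) (Subtype.val_injective.comp hi)
    (by simp [h0]) A C (fun c => congrArg Subtype.val (hA' c)) (fun c => congrArg Subtype.val (hC c))
  exact ⟨Z ⧸ m, inferInstance, inferInstance, inferInstance, ψ, hψ⟩

end Cfsg.Agent.Gag
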