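import Cfsg.Agent.Gag.Def
import Cfsg.Agent.S0799
import Cfsg.Agent.Class.SL2Sylow

set_option autoImplicit false
set_option linter.unusedSectionVars false
open Matrix MatrixGroups Cfsg.Agent.Perm.Fpf Cfsg.Agent.PLocal.SL2Nat

namespace Cfsg.Agent.Gag

universe u v
variable {p : ℕ} {G : Type u} {V : Type v} [Group G] [Finite G] [AddCommGroup V] [Finite V] [DistribMulAction G V]

section
open Cfsg.Agent.Class Cfsg.Agent.Class.Dickson

variable {X : Type*} [Group X] [Finite X] {x y : X}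

theorem na2_tr {Y : Type*} [Group Y] (hA : NoA X) (j : X →* Y) (hj : Function.Injective j)
    (T : Subgroup Y) (hT : ∀ g ∈ T, g ^ 2 = 1) {a s : Y} (ha : a ∈ j.range) (hs : s ∈ j.range)
    (h3 : orderOf a = 3) (hn : ∀ g ∈ T, a * g * a⁻¹ ∈ T) (hsT : s ∈ T) : a * s = s * a := by
  obtain ⟨a, rfl⟩ := ha
  obtain ⟨s, rfl⟩ := hs
  exact ((hA a (by rwa [orderOf_injective j hj] at h3) (T.comap j)
    (IsPGroup.comap_of_injective (fun g => ⟨1, Subtype.ext (hT g g.2)⟩) j hj)
    (fun g hg => by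
      rw [Subgroup.mem_comap, map_mul, map_mul, map_inv]
      exact hn _ hg) s hsT).map j).eq

theorem na2_perm {m : ℕ} (hA : NoA X) (j : X →* Equiv.Perm (Fin m)) (hj : Function.Injective j)
    (hr : alternatingGroup (Fin m) ≤ j.range) (T : List (Equiv.Perm (Fin m))) (a s : Equiv.Perm (Fin m))
    (ha : Equiv.Perm.sign a = 1) (hs : Equiv.Perm.sign s = 1) (h3 : a ^ 3 = 1) (h1 : 1 ∈ T)
    (hm : ∀ g ∈ T, ∀ h ∈ T, g * h ∈ T) (h2 : ∀ g ∈ T, g * g = 1) (hn : ∀ g ∈ T, a * g * a⁻¹ ∈ T)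
    (hsT : s ∈ T) (hne : a * s ≠ s * a) : False := by
  have := Fact.mk Nat.prime_three
  exact hne (na2_tr hA j hj
    { carrier := {g | g ∈ T}
      one_mem' := h1
      mul_mem' := fun hg hh => hm _ hg _ hh
      inv_mem' := fun {g} hg => by rwa [inv_eq_of_mul_eq_one_right (h2 g hg)] }
    (fun g hg => by rw [sq]; exact h2 g hg) (hr ha) (hr hs)
    (orderOf_eq_prime h3 fun e => hne (by rw [e, one_mul, mul_one])) hn hsT)

theorem na2_four (hA : NoA X) (j : X →* Equiv.Perm (Fin 4)) (hj : Function.Injective j)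
    (hr : alternatingGroup (Fin 4) ≤ j.range) : False :=
  na2_perm hA j hj hr [1, Equiv.swap 0 1 * Equiv.swap 2 3, Equiv.swap 0 2 * Equiv.swap 1 3,
    Equiv.swap 0 3 * Equiv.swap 1 2] (Equiv.swap 0 1 * Equiv.swap 1 2) (Equiv.swap 0 1 * Equiv.swap 2 3)
    (by simp [Equiv.Perm.sign_swap']) (by simp [Equiv.Perm.sign_swap']) (by decide +kernel) (by decide +kernel)
    (by decide +kernel) (by decide +kernel) (by decide +kernel) (by decide +kernel) (by decide +kernel)

theorem na2_five (hA : NoA X) (j : X →* Equiv.Perm (Fin 5)) (hj : Function.Injective j)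
    (hr : alternatingGroup (Fin 5) ≤ j.range) : False :=
  na2_perm hA j hj hr [1, Equiv.swap 0 1 * Equiv.swap 2 3, Equiv.swap 0 2 * Equiv.swap 1 3,
    Equiv.swap 0 3 * Equiv.swap 1 2] (Equiv.swap 0 1 * Equiv.swap 1 2) (Equiv.swap 0 1 * Equiv.swap 2 3)
    (by simp [Equiv.Perm.sign_swap']) (by simp [Equiv.Perm.sign_swap']) (by decide +kernel) (by decide +kernel)
    (by decide +kernel) (by decide +kernel) (by decide +kernel) (by decide +kernel) (by decide +kernel)

theorem na2_alt {m : ℕ} (e : X ≃* alternatingGroup (Fin m)) :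
    Function.Injective ((alternatingGroup (Fin m)).subtype.comp e.toMonoidHom) ∧
      alternatingGroup (Fin m) ≤ ((alternatingGroup (Fin m)).subtype.comp e.toMonoidHom).range :=
  ⟨(Subgroup.subtype_injective _).comp e.injective,
    fun g hg => ⟨e.symm ⟨g, hg⟩, congrArg Subtype.val (e.apply_symm_apply _)⟩⟩

theorem na2_cyc (hx : orderOf x = 3) (hy : orderOf y = 3) (h1 : y ≠ x) (h2 : y ≠ x⁻¹)
    (hg : Subgroup.closure ({x, y} : Set X) = ⊤) {a : X} (ha : x ∈ Subgroup.zpowers a)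
    (hb : y ∈ Subgroup.zpowers a) : False := by
  classical
  have := Fintype.ofFinite X
  have : IsCyclic X := ⟨⟨a, fun g => (Subgroup.closure_le (Subgroup.zpowers a)).2
    (Set.pair_subset ha hb) (hg.ge (Subgroup.mem_top g))⟩⟩
  have c := IsCyclic.card_orderOf_eq_totient (α := X) (d := 3) (hx ▸ orderOf_dvd_card)
  rw [Nat.totient_prime Nat.prime_three] at c
  refine absurd c (Finset.two_lt_card_iff.2 ⟨y, x, x⁻¹, by simpa using hy, by simpa using hx,
    by simpa using hx, h1, h2, fun e => ?_⟩).ne'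
  have : orderOf x ∣ 2 := orderOf_dvd_of_pow_eq_one (by rw [sq]; exact mul_eq_one_iff_eq_inv.2 e)
  rw [hx] at this
  omega

theorem na2_two (hx : orderOf x = 3) (hy : orderOf y = 3) (h1 : y ≠ x) (h2 : y ≠ x⁻¹)
    (hg : Subgroup.closure ({x, y} : Set X) = ⊤) {K : Type*} [Field K] (φ : X →* PGL(2, K))
    (hφ : Function.Injective φ) {a b : P1 K} (hab : a ≠ b) (h : ∀ g, KeepsPair (φ g) a b) : False := by
  obtain ⟨c, -, -, hc, -⟩ := cyclic_or_dihedral_of_pair φ hφ hab h
  have k : ∀ g : X, orderOf g = 3 → g ∈ Subgroup.zpowers c := fun g e => by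
    rcases h g with r | r
    · exact hc g r.1
    · have : orderOf g ∣ 2 := orderOf_dvd_of_pow_eq_one (hφ (by
        rw [sq, map_mul, map_one]; exact mul_self_of_swap hab r.1 r.2))
      rw [e] at this
      omega
  exact na2_cyc hx hy h1 h2 hg (k x hx) (k y hy)

theorem na2_comm {K : Type*} [Field K] {u v : PGL(2, K)} {a : P1 K} (hu : u • a = a) (hv : v • a = a) :
    u * v * (v * u)⁻¹ ∈ unip a := by
  obtain ⟨h, rfl⟩ := exists_smul_inf a
  rw [← conj_smul_eq_iff] at hu hv
  rw [← conj_mem_unip, show h⁻¹ * (u * v * (v * u)⁻¹) * h =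
    h⁻¹ * u * h * (h⁻¹ * v * h) * (h⁻¹ * v * h * (h⁻¹ * u * h))⁻¹ by group]
  obtain ⟨A, hA⟩ := exists_pmk (h⁻¹ * u * h)
  obtain ⟨B, hB⟩ := exists_pmk (h⁻¹ * v * h)
  rw [hA] at hu ⊢
  rw [hB] at hv ⊢
  have hw : pmk (B * A)⁻¹ • inf K = inf K := by
    rw [pmk, map_inv, inv_smul_eq_iff, map_mul, mul_smul, hu, hv]
  rw [pmk_smul_inf_eq_inf] at hu hv hw
  rw [← map_mul, ← map_mul, ← map_inv, ← map_mul, pmk_mem_unip_inf]
  have e := inv_mul_cancel (B * A)
  generalize (B * A)⁻¹ = M at e hw ⊢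
  have e0 : (M * (B * A)) 0 0 = 1 := by rw [e]; simp
  have e1 : (M * (B * A)) 1 1 = 1 := by rw [e]; simp
  simp only [gl_mul_apply, hu, hv, hw, mul_zero, zero_mul, add_zero, zero_add] at e0 e1 ⊢
  exact ⟨trivial, by linear_combination e0 - e1⟩

theorem na2_inj (K : Type*) [Field K] [CharP K 2] : Function.Injective (slTo K) := fun A B h =>
  Subtype.ext (by
    rcases eq_or_neg_of_slTo_eq h with e | e
    · exact e.symm
    · rw [e]
      ext i j
      exact (CharTwo.neg_eq _).symm)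

theorem na2_bij (K : Type*) [Field K] [Finite K] [CharP K 2] : Function.Bijective (slTo K) :=
  ⟨na2_inj K, fun g => by
    obtain ⟨a, rfl⟩ := exists_pmk g
    obtain ⟨A, hA⟩ := mem_pslSub.1 ((pmk_mem_pslSub_iff a).2
      (FiniteField.isSquare_of_char_two (ringChar.eq K 2) _))
    exact ⟨A, hA.symm⟩⟩

theorem na2_q4 (hA : NoA X) {K : Type*} [Field K] [Fintype K] [CharP K 2] (h4 : Fintype.card K = 4)
    (e : X ≃* SL(2, K)) : False := by
  classical
  have := Fact.mk Nat.prime_three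
  obtain ⟨w, -, hw⟩ := Finset.exists_mem_notMem_of_card_lt_card (s := ({0, 1} : Finset K))
    (t := Finset.univ) (Finset.card_le_two.trans_lt (by rw [Finset.card_univ, h4]; norm_num))
  rw [Finset.mem_insert, Finset.mem_singleton, not_or] at hw
  have w3 : w ^ 3 = 1 := by simpa [h4] using FiniteField.pow_card_sub_one_eq_one w hw.1
  have k := na2_tr hA e.toMonoidHom e.injective
    { carrier := Set.range uu
      one_mem' := ⟨0, uu_zero⟩
      mul_mem' := by
        rintro _ _ ⟨a, rfl⟩ ⟨b, rfl⟩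
        exact ⟨a + b, uu_add a b⟩
      inv_mem' := by
        rintro _ ⟨a, rfl⟩
        exact ⟨-a, uu_neg a⟩ }
    (by
      rintro _ ⟨a, rfl⟩
      rw [sq, ← uu_add, CharTwo.add_self_eq_zero, uu_zero])
    (a := hh w hw.1) (s := uu 1) (e.surjective _) (e.surjective _)
    (orderOf_eq_prime (by
      rw [pow_three, hh_mul_hh, hh_mul_hh, ← hh_one]
      congr 1
      rw [← w3, pow_three]) fun r => hw.2 (congrArg (fun g : SL(2, K) => g.1 0 0) r))
    (by
      rintro _ ⟨a, rfl⟩
      exact ⟨w ^ 2 * a, by rw [hh_mul_uu, mul_inv_cancel_right]⟩) ⟨1, rfl⟩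
  rw [hh_mul_uu, mul_left_inj, uu_injective.eq_iff, mul_one] at k
  rw [pow_succ, k, one_mul] at w3
  exact hw.2 w3

end

open Cfsg.Agent.Class Cfsg.Agent.Class.Dickson in
/-- Dickson (`S0799.result`; `SL(2, F) ≃* PSL(2, F)` in char 2, trivial centre) for the image `H` of `f`.
(a) cyclic or dihedral: all elements of order 3 lie in one cyclic subgroup, which has only two: `y = x^{±1}`.
(b) `H ≅` subgroup of `N(P)`, `N(P)/P` cyclic (abelian): `Q = H ∩ P` is a normal 2-subgroup, centralised by `x, y`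
(`NoA`), `x y x⁻¹ y⁻¹ ∈ Q`; `H / Q` cyclic generated by order 3 elements, so `y ∈ x^{±1} Q`, `y = x^{±1}`.
(c) `A₄ ≤ H` contradicts `NoA` (a 3-cycle normalises the four-group). (d) `|K|^m = 2^n` so char 2, `PSL₂(K) ≅ PGL₂(K) ≅ SL₂(K)`;
`|K| = 2`: order 6, only two elements of order 3; `|K| = 4`: `hh ω` normalises `{uu a}` nontrivially, against `NoA`. -/
theorem na2 {X : Type*} [Group X] [Finite X] (hA : NoA X) {x y : X} (hx : orderOf x = 3) (hy : orderOf y = 3)
    (h1 : y ≠ x) (h2 : y ≠ x⁻¹) (hg : Subgroup.closure ({x, y} : Set X) = ⊤)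
    {F : Type*} [Field F] [Finite F] [CharP F 2] (f : X →* SL(2, F)) (hf : Function.Injective f) :
    ∃ (K : Type) (_ : Field K) (_ : Finite K) (_ : CharP K 2), 8 ≤ Nat.card K ∧ Nonempty (X ≃* SL(2, K)) := by
  classical
  have := Fintype.ofFinite F
  have := Fact.mk Nat.prime_two
  have hφ : Function.Injective ((slTo F).comp f) := (na2_inj F).comp hf
  rcases dickson_PGL2 (AlgebraicClosure F) _ hφ with ⟨a, ha⟩ | ⟨a, b, hab, h⟩ | ⟨⟨e⟩⟩ | ⟨⟨e⟩⟩ | ⟨⟨e⟩⟩ |
    ⟨L, k, hL⟩
  · exfalso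
    generalize (slTo F).comp f = φ at hφ ha
    have ox : orderOf (φ x) = 3 := by rw [orderOf_injective φ hφ, hx]
    have x1 : φ x ≠ 1 := fun e => by simp [e] at ox
    obtain ⟨b, hb, hba⟩ : ∃ b, φ x • b = b ∧ b ≠ a := by
      by_contra! r
      have := orderOf_dvd_of_pow_eq_one (pow_eq_one_of_mem_unip 2 (Or.inr ⟨ha x, r⟩))
      rw [ox] at this
      omega
    have fx : ∀ g, φ x * φ g = φ g * φ x → φ g • b = b := fun g e => by
      by_contra r
      refine x1 (eq_one_of_fix_three _ (x := a) (y := b) (z := φ g • b) hba.symm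
        (fun r' => hba (smul_left_cancel (φ g) (r'.symm.trans (ha g).symm))) (Ne.symm r) (ha x) hb ?_)
      rw [← mul_smul, e, mul_smul, hb]
    have c : φ (x * y * (y * x)⁻¹) ∈ unip a := by
      rw [map_mul, map_inv, map_mul, map_mul]
      exact na2_comm (ha x) (ha y)
    have c1 := fx _ (na2_tr hA φ hφ (unip a) (fun g hg => pow_eq_one_of_mem_unip 2 hg) ⟨x, rfl⟩ ⟨_, rfl⟩
      ox (fun g hg => by
        have := (conj_mem_unip (φ x⁻¹) g a).2 (by rwa [ha])
        rwa [map_inv, inv_inv] at this) c)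
    have c2 : φ x * φ y = φ y * φ x := by
      rcases c with c | c
      · rwa [map_mul, map_inv, map_mul, map_mul, mul_inv_eq_one] at c
      · exact absurd (c.2 b c1) hba
    refine na2_two hx hy h1 h2 hg φ hφ hba.symm fun g => Or.inl ⟨ha g, ?_⟩
    exact (Subgroup.closure_le ((MulAction.stabilizer _ b).comap φ)).2
      (Set.pair_subset hb (fx y c2)) (hg.ge (Subgroup.mem_top g))
  · exact (na2_two hx hy h1 h2 hg ((pmap (algebraMap F (AlgebraicClosure F))).comp ((slTo F).comp f))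
      ((pmap_injective _).comp hφ) hab h).elim
  · exact (na2_four hA _ (na2_alt e).1 (na2_alt e).2).elim
  · exact (na2_four hA e.toMonoidHom e.injective fun g _ => e.surjective g).elim
  · exact (na2_five hA _ (na2_alt e).1 (na2_alt e).2).elim
  let _ : Fintype L := Fintype.ofFinite L
  obtain ⟨n, -, hn⟩ := FiniteField.card L 2
  rcases hL with hL | ⟨hL, -⟩
  swap
  · rw [Nat.card_eq_fintype_card, hn] at hL
    exact absurd hL (Nat.not_odd_iff_even.2 (even_two.pow_of_ne_zero n.ne_zero))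
  have e : X ≃* SL(2, L) := ((((MonoidHom.ofInjective hφ).trans (MulEquiv.subgroupCongr hL)).trans
    (Subgroup.equivMapOfInjective _ _ (MulAut.conj k).injective).symm).trans
      (pglOfEquiv L.subtype).symm).trans (MulEquiv.ofBijective _ (na2_bij L)).symm
  let _ : Fintype (GaloisField 2 n) := Fintype.ofFinite _
  have hc : Fintype.card (GaloisField 2 n) = Fintype.card L := by
    rw [hn, ← Nat.card_eq_fintype_card, GaloisField.card 2 n n.ne_zero]
  refine ⟨GaloisField 2 n, inferInstance, inferInstance, inferInstance, ?_,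
    ⟨e.trans (slCongr _ (FiniteField.ringEquivOfCardEq hc.symm))⟩⟩
  rw [GaloisField.card 2 n n.ne_zero]
  by_contra! r
  have r3 : (n : ℕ) < 3 := (Nat.pow_lt_pow_iff_right one_lt_two).1 r
  have r0 := n.pos
  obtain r1 | r1 : (n : ℕ) = 1 ∨ (n : ℕ) = 2 := by omega
  · have c := (Subgroup.zpowers x).card_mul_index
    rw [Nat.card_zpowers, hx, Nat.card_congr e.toEquiv, card_SL2, hn, r1] at c
    have c1 := Subgroup.mul_self_mem_of_index_two (H := Subgroup.zpowers x) (by omega) y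
    refine na2_cyc hx hy h1 h2 hg (Subgroup.mem_zpowers x) ?_
    have c2 := mul_mem c1 c1
    rwa [show y * y * (y * y) = y ^ 3 * y by simp only [pow_three, mul_assoc], ← hy, pow_orderOf_eq_one, one_mul] at c2
  · exact na2_q4 hA (by rw [hn, r1]; rfl) e

end Cfsg.Agent.Gag
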