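import Cfsg.Agent.Gag.Def
import Cfsg.Agent.Gag.NA1
import Cfsg.Agent.Gag.NA2
import Cfsg.Agent.S2117
import Cfsg.Agent.FGS.SchurBasic

set_option autoImplicit false
set_option linter.unusedSectionVars false
open Matrix MatrixGroups Cfsg.Agent.Perm.Fpf Cfsg.Agent.PLocal

namespace Cfsg.Agent.Gag

universe u v
variable {p : ℕ} {G : Type u} {V : Type v} [Group G] [Finite G] [AddCommGroup V] [Finite V] [DistribMulAction G V]

theorem NoA.sub {X : Type*} [Group X] (hA : NoA X) (K : Subgroup X) : NoA K := by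
  intro x hx S hS hn s hs
  have := hA (x : X) (by rw [Subgroup.orderOf_coe, hx]) (S.map K.subtype) (hS.map _)
    (by
      rintro _ ⟨t, ht, rfl⟩
      exact ⟨x * t * x⁻¹, hn t ht, rfl⟩) (s : X) ⟨s, hs, rfl⟩
  exact Subtype.ext this.eq

theorem na3_pow {X : Type*} [Group X] {a : X} (ha : a ^ 3 = 1) (k : ℕ) : a ^ 4 ^ k = a := by
  induction k with
  | zero => simp
  | succ k ih => rw [pow_succ, pow_mul, ih, show 4 = 3 + 1 from rfl, pow_succ, ha, one_mul]

theorem na3_four {X : Type*} [Group X] {z : X} {k : ℕ} (hz : z ^ 2 ^ k = 1) : z ^ 4 ^ k = 1 := by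
  rw [show (4 : ℕ) = 2 * 2 from rfl, mul_pow, pow_mul, hz, one_pow]

/-- lift `x̄` to an element of order 3 (a power of any preimage), and `S̄` to its preimage, a 2-group -/
theorem NoA.quot {X Y : Type*} [Group X] [Finite X] [Group Y] (hA : NoA X) (f : X →* Y)
    (hf : Function.Surjective f) (hk : IsPGroup 2 f.ker) : NoA Y := by
  intro xb hx S hS hn s hs
  haveI : Fact (Nat.Prime 3) := ⟨Nat.prime_three⟩
  obtain ⟨g, rfl⟩ := hf xb
  have h3 : f g ^ 3 = 1 := by rw [← hx]; exact pow_orderOf_eq_one _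
  have hm : g ^ 3 ∈ f.ker := by rw [MonoidHom.mem_ker, map_pow, h3]
  obtain ⟨k, hk'⟩ := hk ⟨g ^ 3, hm⟩
  have hk2 : (g ^ 3) ^ 2 ^ k = 1 := congrArg Subtype.val hk'
  have hfx : f (g ^ 4 ^ k) = f g := by rw [map_pow, na3_pow h3]
  have hx3 : (g ^ 4 ^ k) ^ 3 = 1 := by rw [← pow_mul, mul_comm, pow_mul, na3_four hk2]
  have hne : g ^ 4 ^ k ≠ 1 := fun e => by
    rw [e, map_one] at hfx
    rw [← hfx, orderOf_one] at hx
    exact absurd hx (by norm_num)
  obtain ⟨t, rfl⟩ := hf s
  have := hA (g ^ 4 ^ k) (orderOf_eq_prime hx3 hne) (S.comap f) (hS.comap_of_ker_isPGroup f hk)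
    (fun u hu => by
      rw [Subgroup.mem_comap, map_mul, map_mul, map_inv, hfx]
      exact hn _ hu) t hs
  rw [← hfx]
  exact this.map f

theorem na3_sl {K : Type*} [Field K] [Finite K] (h4 : 4 ≤ Nat.card K) :
    _root_.commutator SL(2, K) = ⊤ := by
  obtain ⟨x, hx⟩ : IsCyclic Kˣ := inferInstance
  refine Matrix.SL2.commutator_eq_top (Units.ne_zero x) fun h => ?_
  have h1 := orderOf_le_of_pow_eq_one (x := x) two_pos (Units.ext (by simpa using h))
  rw [orderOf_eq_card_of_forall_mem_zpowers hx] at h1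
  have := Nat.card_eq_card_units_add_one K
  omega

theorem na3_conj [IsSimpleGroup G] (hna : ¬ IsMulCommutative G) {x : G} (hx : orderOf x = 3) :
    ∃ y : G, orderOf y = 3 ∧ y ≠ x ∧ y ≠ x⁻¹ := by
  by_contra hc
  push Not at hc
  have hn : (Subgroup.zpowers x).Normal := ⟨by
    rintro _ ⟨k, rfl⟩ g
    have h1 : g * x * g⁻¹ ∈ Subgroup.zpowers x := by
      have ho : orderOf (g * x * g⁻¹) = 3 := by
        rw [← hx]; exact (MulAut.conj g).orderOf_eq x
      by_cases e : g * x * g⁻¹ = x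
      · rw [e]; exact Subgroup.mem_zpowers x
      · rw [hc _ ho e]; exact Subgroup.inv_mem _ (Subgroup.mem_zpowers x)
    have h2 := Subgroup.zpow_mem _ h1 k
    rwa [conj_zpow] at h2⟩
  rcases hn.eq_bot_or_eq_top with h | h
  · rw [Subgroup.zpowers_eq_bot] at h
    rw [h, orderOf_one] at hx
    exact absurd hx (by norm_num)
  · refine hna ⟨⟨fun a b => ?_⟩⟩
    obtain ⟨i, rfl⟩ : a ∈ Subgroup.zpowers x := h ▸ Subgroup.mem_top a
    obtain ⟨j, rfl⟩ : b ∈ Subgroup.zpowers x := h ▸ Subgroup.mem_top b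
    exact (Commute.zpow_zpow_self x i j).eq

/-- the two-generator step -/
theorem na3_two {X : Type*} [Group X] [Finite X] (hA : NoA X) {x y : X} (hx : orderOf x = 3)
    (hy : orderOf y = 3) (h1 : y ≠ x) (h2 : y ≠ x⁻¹) (hg : Subgroup.closure ({x, y} : Set X) = ⊤)
    {F : Type*} [Field F] [Finite F] [CharP F 2] (ψ : X →* SL(2, F)) (hψ : IsPGroup 2 ψ.ker) :
    ∃ (K : Type) (_ : Field K) (_ : Finite K) (_ : CharP K 2), 8 ≤ Nat.card K ∧
      Nonempty (X ≃* SL(2, K)) := by
  haveI : Fact (Nat.Prime 3) := ⟨Nat.prime_three⟩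
  have hx3 : x ^ 3 = 1 := by rw [← hx]; exact pow_orderOf_eq_one _
  have hy3 : y ^ 3 = 1 := by rw [← hy]; exact pow_orderOf_eq_one _
  have hcen : ψ.ker ≤ Subgroup.center X := by
    intro s hs
    rw [Subgroup.mem_center_iff]
    intro g
    have hg' : g ∈ Subgroup.closure ({x, y} : Set X) := hg ▸ Subgroup.mem_top g
    have hle : Subgroup.closure ({x, y} : Set X) ≤ Subgroup.centralizer ({s} : Set X) := by
      rw [Subgroup.closure_le]
      rintro a (rfl | rfl)
      · exact Subgroup.mem_centralizer_singleton_iff.2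
          (hA _ hx ψ.ker hψ (fun u hu => (MonoidHom.normal_ker ψ).conj_mem u hu _) s hs).eq
      · exact Subgroup.mem_centralizer_singleton_iff.2
          (hA _ hy ψ.ker hψ (fun u hu => (MonoidHom.normal_ker ψ).conj_mem u hu _) s hs).eq
    exact Subgroup.mem_centralizer_singleton_iff.1 (hle hg')
  -- elements with the same image have the same `4 ^ k`-th power
  have key : ∀ a b : X, ψ a = ψ b → ∃ k : ℕ, a ^ 4 ^ k = b ^ 4 ^ k := by
    intro a b hab
    have hz : a * b⁻¹ ∈ ψ.ker := by rw [MonoidHom.mem_ker, map_mul, map_inv, hab, mul_inv_cancel]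
    obtain ⟨k, hk⟩ := hψ ⟨_, hz⟩
    have hk2 : (a * b⁻¹) ^ 2 ^ k = 1 := congrArg Subtype.val hk
    have hc : Commute (a * b⁻¹) b := (Subgroup.mem_center_iff.1 (hcen hz) b).symm
    refine ⟨k, ?_⟩
    have e : a = a * b⁻¹ * b := by group
    conv_lhs => rw [e]
    rw [hc.mul_pow, na3_four hk2, one_mul]
  have inj3 : ∀ a b : X, a ^ 3 = 1 → b ^ 3 = 1 → ψ a = ψ b → a = b := by
    intro a b ha hb hab
    obtain ⟨k, hk⟩ := key a b hab
    rwa [na3_pow ha, na3_pow hb] at hk
  let π : X →* ψ.range := ψ.rangeRestrict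
  have hπ : Function.Surjective π := ψ.rangeRestrict_surjective
  have hπk : π.ker = ψ.ker := ψ.ker_rangeRestrict
  have hπe : ∀ a b : X, π a = π b → ψ a = ψ b := fun a b e => congrArg Subtype.val e
  have ord : ∀ a : X, orderOf a = 3 → orderOf (π a) = 3 := by
    intro a ha
    have ha3 : a ^ 3 = 1 := by rw [← ha]; exact pow_orderOf_eq_one _
    refine orderOf_eq_prime (by rw [← map_pow, ha3, map_one]) fun e => ?_
    have := inj3 a 1 ha3 (one_pow _) (hπe a 1 (by rw [e, map_one]))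
    rw [this, orderOf_one] at ha
    exact absurd ha (by norm_num)
  obtain ⟨K, _, _, _, hK, ⟨e⟩⟩ := na2 (X := ψ.range) (hA.quot π hπ (hπk ▸ hψ)) (ord x hx) (ord y hy)
    (fun e => h1 (inj3 y x hy3 hx3 (hπe _ _ e)))
    (fun e => h2 (inj3 y x⁻¹ hy3 (by rw [inv_pow, hx3, inv_one]) (hπe _ _ (by rw [e, map_inv]))))
    (by
      have := congrArg (Subgroup.map π) hg
      rwa [MonoidHom.map_closure, Set.image_pair, Subgroup.map_top_of_surjective _ hπ] at this)
    ψ.range.subtype ψ.range.subtype_injective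
  let θ : X →* SL(2, K) := e.toMonoidHom.comp π
  have hθ : Function.Surjective θ := e.surjective.comp hπ
  have hθe : ∀ a b : X, θ a = θ b → ψ a = ψ b := fun a b h => hπe a b (e.injective h)
  have hper : _root_.commutator X = ⊤ := by
    have mem : ∀ a : X, a ^ 3 = 1 → a ∈ _root_.commutator X := by
      intro a ha
      have hm : θ a ∈ (_root_.commutator X).map θ := by
        rw [map_commutator_eq, MonoidHom.range_eq_top.2 hθ, ← commutator_def,
          na3_sl (by omega)]
        exact Subgroup.mem_top _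
      obtain ⟨c, hc, hca⟩ := hm
      obtain ⟨k, hk⟩ := key c a (hθe _ _ hca)
      rw [na3_pow ha] at hk
      rw [← hk]
      exact Subgroup.pow_mem _ hc _
    rw [eq_top_iff, ← hg, Subgroup.closure_le]
    rintro a (rfl | rfl)
    · exact mem _ hx3
    · exact mem _ hy3
  letI := Fintype.ofFinite K
  obtain ⟨n, -, hn⟩ := FiniteField.card K 2
  have hK' : 8 ≤ Fintype.card K := by rwa [Nat.card_eq_fintype_card] at hK
  have h9 : Fintype.card K ≠ 9 := fun h => by
    have : 2 ∣ Fintype.card K := hn ▸ dvd_pow_self 2 n.ne_zero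
    omega
  have hker : θ.ker = ⊥ := FGS.ker_eq_bot_of_trivial_multiplier
    (S2117.result (F := K) (by omega) h9)
    ⟨hθ, fun a ha => hcen (by
      rw [MonoidHom.mem_ker, hθe a 1 (by rw [map_one]; exact ha), map_one]), hper ▸ le_top⟩
  exact ⟨K, inferInstance, inferInstance, inferInstance, hK,
    ⟨MulEquiv.ofBijective θ ⟨(MonoidHom.ker_eq_bot_iff θ).1 hker, hθ⟩⟩⟩

/-- Cauchy: `x` of order 3; as `G` is simple nonabelian some conjugate `y ∉ {x, x⁻¹}`. `X = closure {x, y}`, `ψ` from `na1`;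
`ker ψ` is a 2-group centralised by `x, y`, so central; `na2` for `ψ.range` (images distinct: `y ∈ x^{±1} ker` forces
`y = x^{±1}`) gives `θ : X ↠ SL(2, K)` with central 2-group kernel. `X` is perfect (`X / X'` is an image of `ker`,
as `SL(2, K)` is perfect, so a 2-group, and is generated by elements of order 3). `S2117.result` (trivial
multiplier; move `X` to `Type` by `Shrink`/`Finite.equivFin`) gives `ker θ = ⊥`. -/
theorem na3 (h : Sr 2 G V) (hA : NoA G) [IsSimpleGroup G] (hna : ¬ IsMulCommutative G) (h3 : 3 ∣ Nat.card G) :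
    ∃ (K : Type) (_ : Field K) (_ : Finite K) (_ : CharP K 2), 8 ≤ Nat.card K ∧
      ∃ φ : SL(2, K) →* G, Function.Injective φ := by
  haveI : Fact (Nat.Prime 3) := ⟨Nat.prime_three⟩
  obtain ⟨x, hx⟩ := exists_prime_orderOf_dvd_card' 3 h3
  obtain ⟨y, hy, h1, h2⟩ := na3_conj hna hx
  obtain ⟨F, _, _, _, ψ, hψ⟩ := na1 h hA hx hy h1 h2
  let X := Subgroup.closure ({x, y} : Set G)
  let x' : X := ⟨x, Subgroup.subset_closure (by simp)⟩
  let y' : X := ⟨y, Subgroup.subset_closure (by simp)⟩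
  have hg : Subgroup.closure ({x', y'} : Set X) = ⊤ := by
    apply Subgroup.map_injective X.subtype_injective
    rw [MonoidHom.map_closure, Set.image_pair, ← MonoidHom.range_eq_map, Subgroup.range_subtype]
    rfl
  obtain ⟨K, _, _, _, hK, ⟨e⟩⟩ := na3_two (X := X) (hA.sub X) (x := x') (y := y')
    (by rw [Subgroup.orderOf_mk, hx]) (by rw [Subgroup.orderOf_mk, hy])
    (fun e => h1 (congrArg Subtype.val e)) (fun e => h2 (congrArg Subtype.val e)) hg ψ hψ
  exact ⟨K, inferInstance, inferInstance, inferInstance, hK, X.subtype.comp e.symm.toMonoidHom,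
    X.subtype_injective.comp e.symm.injective⟩

end Cfsg.Agent.Gag
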