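import Cfsg.Agent.Gag.Def
import Cfsg.Agent.Class.SL2Sylow
import Cfsg.Agent.S0262
import Cfsg.Agent.S2430

set_option autoImplicit false
set_option linter.unusedSectionVars false
open Matrix MatrixGroups Cfsg.Agent.Perm.Fpf Cfsg.Agent.PLocal.SL2Nat

namespace Cfsg.Agent.Gag

universe u v
variable {p : ℕ} {G : Type u} {V : Type v} [Group G] [Finite G] [AddCommGroup V] [Finite V] [DistribMulAction G V]

/-- `S0262` (cyclic). An element `x` of order 3 has centraliser a cyclic torus `T` of order `r - ε` (`3 ∣ r - ε`), `N(⟨x⟩) = N(T)` has order `2 (r - ε)`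
(see `Class/SL2Sylow`, `Class/DicksonCount`, `Class/PSL2Dickson`; or count: elements of order 3 are those of trace `-1`, `r (r + ε)` of them, all conjugate up to inverse).
`U ≤ T` is the unique Sylow of the cyclic `T`, so `N(U) = N(⟨x⟩)` for `x ∈ U` of order 3, and two Sylows sharing `x` lie in `T`. -/
theorem p3a {r : ℕ} (hr : r.Prime) (h5 : 5 ≤ r) (U : Sylow 3 SL(2, ZMod r)) :
    IsCyclic (U : Subgroup SL(2, ZMod r)) ∧
    (∀ U' : Sylow 3 SL(2, ZMod r), U' ≠ U → (U : Subgroup SL(2, ZMod r)) ⊓ U' = ⊥) ∧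
    (r % 3 = 1 → Nat.card (Subgroup.normalizer ((U : Subgroup SL(2, ZMod r)) : Set SL(2, ZMod r))) = 2 * (r - 1)) ∧
    (r % 3 = 2 → Nat.card (Subgroup.normalizer ((U : Subgroup SL(2, ZMod r)) : Set SL(2, ZMod r))) = 2 * (r + 1)) := by
  haveI : Fact r.Prime := ⟨hr⟩
  haveI : Fact (Nat.Prime 3) := ⟨Nat.prime_three⟩
  have cyc : ∀ U : Sylow 3 SL(2, ZMod r), IsCyclic (U : Subgroup SL(2, ZMod r)) := fun U =>
    S0262.result r 3 (by norm_num) (by omega) U
  have ho : Odd (Fintype.card (ZMod r)) := by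
    rw [ZMod.card]; exact hr.odd_of_ne_two (by omega)
  have h2 : (2 : ZMod r) ≠ 0 := KSG.M2.two_ne_zero_of_odd (by rwa [Nat.card_eq_fintype_card])
  have key := S2430.result ho 3 (by norm_num) U
  rw [ZMod.card] at key
  refine ⟨cyc U, fun U' hne => ?_, fun h => (key.1 (by omega)).2.2, fun h => (key.2 (by omega)).2.2⟩
  rw [eq_bot_iff]
  rintro x ⟨hx, hx'⟩
  by_contra x1
  apply hne
  have ns : ¬ KSG.M2.IsScal ((x : SL(2, ZMod r)) : Matrix (Fin 2) (Fin 2) (ZMod r)) := by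
    intro hs
    have h5 := orderOf_dvd_of_pow_eq_one ((KSG.M2.SL_sq_eq_one_iff h2).2 (KSG.M2.SL_isScal_iff.1 hs))
    obtain ⟨k, hk⟩ := U.isPGroup' ⟨x, hx⟩
    have h6 := orderOf_dvd_of_pow_eq_one (show x ^ 3 ^ k = 1 from congrArg Subtype.val hk)
    exact x1 (Subgroup.mem_bot.2 (orderOf_eq_one_iff.1
      (Nat.eq_one_of_dvd_coprimes (Nat.Coprime.pow_right k (by norm_num)) h5 h6)))
  have le : ∀ W : Sylow 3 SL(2, ZMod r), x ∈ (W : Subgroup SL(2, ZMod r)) →
      (W : Subgroup SL(2, ZMod r)) ≤ Subgroup.centralizer {x} := by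
    intro W hW y hy
    haveI := cyc W
    letI := IsCyclic.commGroup (α := (W : Subgroup SL(2, ZMod r)))
    exact Subgroup.mem_centralizer_singleton_iff.2
      (congrArg Subtype.val (mul_comm (⟨y, hy⟩ : (W : Subgroup SL(2, ZMod r))) ⟨x, hW⟩))
  have hn : (U' : Subgroup SL(2, ZMod r)) ≤
      Subgroup.normalizer ((U : Subgroup SL(2, ZMod r)) : Set SL(2, ZMod r)) := fun y hy =>
    Subgroup.centralizer_le_normalizer _ (Subgroup.mem_centralizer_iff.2 fun z hz =>
      KSG.M2.cent_comm ns (le U hx hz) (le U' hx' hy))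
  have hp := U'.isPGroup'.to_sup_of_normal_right' U.isPGroup' hn
  exact Sylow.ext ((U'.is_maximal' hp le_sup_left).symm.trans (U.is_maximal' hp le_sup_right))

end Cfsg.Agent.Gag
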