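import Cfsg.Agent.Gag.Def

set_option autoImplicit false
set_option linter.unusedSectionVars false
open Matrix MatrixGroups Cfsg.Agent.Perm.Fpf Cfsg.Agent.PLocal.SL2Nat

namespace Cfsg.Agent.Gag

universe u v
variable {p : ℕ} {G : Type u} {V : Type v} [Group G] [Finite G] [AddCommGroup V] [Finite V] [DistribMulAction G V]

/-- `w = 3^b`; `w - 1 ∣ 3^n - 1` gives `b ∣ n`, so `n = 2b`, `s = 1 + w` or `n = 3b`, `s = 1 + w + w²`. With `r - ε = 3m` (`m` even, `3 ∤ m`):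
`s - 1 = 9 (m/2)(m + ε)`. If `s - 1 = w`: `m/2 ∣ 3^b` so `m = 2`: `r = 7` (`w = 27`, `4 ∤ 26`) or `r = 5` (`w = 9`). If `s - 1 = w (w + 1)`: `m/2 ∣ w + 1` and
`m/2 ∣ w - 1` so `m ∈ {2, 4}`: `w (w + 1) ∈ {27, 9, 90, 54}`, so `w = 9`, `r = 13`. -/
theorem p3c {r n b s : ℕ} (hr : r.Prime) (h5 : 5 ≤ r) (hb : 0 < b) (hbn : b < n) (hn : n ≤ 3 * b)
    (hs : 3 ^ n - 1 = s * (3 ^ b - 1))
    (hc : (r % 3 = 1 ∧ 2 * s = r * (r + 1) ∧ ¬ 9 ∣ r - 1 ∧ 2 * ((r - 1) / 3) ∣ 3 ^ b - 1) ∨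
      (r % 3 = 2 ∧ 2 * s = r * (r - 1) ∧ ¬ 9 ∣ r + 1 ∧ 2 * ((r + 1) / 3) ∣ 3 ^ b - 1)) :
    (r = 5 ∧ n = 4) ∨ (r = 13 ∧ n = 6) := by
  have h3 : 3 ≤ 3 ^ b := Nat.le_self_pow hb.ne' 3
  have hd : b ∣ n := by
    have h1 := Nat.pow_sub_one_gcd_pow_sub_one 3 b n
    rw [Nat.gcd_eq_left ⟨s, by rw [hs, mul_comm]⟩] at h1
    have h2 : 0 < 3 ^ b.gcd n := by positivity
    have h4 : b = b.gcd n := Nat.pow_right_injective (a := 3) (by norm_num) (by simp only; omega)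
    exact h4 ▸ Nat.gcd_dvd_right b n
  obtain ⟨k, rfl⟩ := hd
  have k1 : 1 < k := by
    by_contra hk
    have : b * k ≤ b * 1 := Nat.mul_le_mul_left b (by omega)
    omega
  have k3 : k ≤ 3 := Nat.le_of_mul_le_mul_left (by rw [mul_comm b 3]; exact hn) hb
  have h9 : 3 ^ b = 9 → b = 2 := fun e =>
    Nat.pow_right_injective (a := 3) (by norm_num) (by simp only; omega)
  rw [pow_mul] at hs
  obtain ⟨v, hv⟩ : ∃ v, 3 ^ b = v + 1 := ⟨3 ^ b - 1, by omega⟩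
  rw [hv] at hs hc h3 h9
  rw [Nat.add_sub_cancel] at hs hc
  have v0 : 0 < v := by omega
  have hk : (k = 2 ∧ s = v + 2) ∨ (k = 3 ∧ s = v * v + 3 * v + 3) := by
    rcases (by omega : k = 2 ∨ k = 3) with rfl | rfl
    · refine .inl ⟨rfl, (Nat.eq_of_mul_eq_mul_right v0 ?_).symm⟩
      rw [← hs]
      exact (Nat.sub_eq_of_eq_add (by ring)).symm
    · refine .inr ⟨rfl, (Nat.eq_of_mul_eq_mul_right v0 ?_).symm⟩
      rw [← hs]
      exact (Nat.sub_eq_of_eq_add (by ring)).symm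
  have ro := hr.eq_two_or_odd.resolve_left (by omega)
  rcases hc with ⟨c1, c2, -, c4⟩ | ⟨c1, c2, -, c4⟩
  · obtain ⟨t, rfl⟩ : ∃ t, r = 6 * t + 1 := ⟨r / 6, by omega⟩
    rw [show 2 * ((6 * t + 1 - 1) / 3) = 4 * t by omega] at c4
    have tv : t ∣ v := (dvd_mul_left t 4).trans c4
    have e : s = t * (18 * t + 9) + 1 := by nlinarith
    rcases hk with ⟨rfl, e'⟩ | ⟨rfl, e'⟩
    · have t1 : t ∣ 1 := (Nat.dvd_add_right tv).1 ⟨18 * t + 9, by omega⟩
      obtain rfl := Nat.dvd_one.1 t1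
      omega
    · have t2 : t ∣ 2 := (Nat.dvd_add_right ((tv.mul_left v).add (tv.mul_left 3))).1
        ⟨18 * t + 9, by omega⟩
      have v9 : v < 10 := by
        have := Nat.le_of_dvd two_pos t2
        nlinarith
      rcases (Nat.dvd_prime Nat.prime_two).1 t2 with rfl | rfl
      · interval_cases v <;> omega
      · have : v = 8 := by interval_cases v <;> omega
        have := h9 (by omega)
        omega
  · obtain ⟨t, rfl⟩ : ∃ t, r = 6 * t + 5 := ⟨r / 6, by omega⟩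
    rw [show 2 * ((6 * t + 5 + 1) / 3) = 4 * (t + 1) by omega] at c4
    rw [show 6 * t + 5 - 1 = 6 * t + 4 by omega] at c2
    have tv : t + 1 ∣ v := (dvd_mul_left _ 4).trans c4
    have e : s = (t + 1) * (18 * t + 9) + 1 := by nlinarith
    rcases hk with ⟨rfl, e'⟩ | ⟨rfl, e'⟩
    · have t1 : t + 1 ∣ 1 := (Nat.dvd_add_right tv).1 ⟨18 * t + 9, by omega⟩
      obtain rfl : t = 0 := by
        have := Nat.dvd_one.1 t1
        omega
      have := h9 (by omega)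
      omega
    · have t2 : t + 1 ∣ 2 := (Nat.dvd_add_right ((tv.mul_left v).add (tv.mul_left 3))).1
        ⟨18 * t + 9, by omega⟩
      have t3 := Nat.le_of_dvd two_pos t2
      have v9 : v < 10 := by nlinarith
      rcases (by omega : t = 0 ∨ t = 1) with rfl | rfl <;> interval_cases v <;> omega

end Cfsg.Agent.Gag
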