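import Cfsg.Agent.Gag.Def
import Cfsg.Agent.Gag.Bas2
import Cfsg.Agent.Gag.P3a
import Cfsg.Agent.Gag.P3c

set_option autoImplicit false
set_option linter.unusedSectionVars false
open Matrix MatrixGroups Cfsg.Agent.Perm.Fpf Cfsg.Agent.PLocal.SL2Nat

namespace Cfsg.Agent.Gag

universe u v
variable {p : ℕ} {G : Type u} {V : Type v} [Group G] [Finite G] [AddCommGroup V] [Finite V] [DistribMulAction G V]

theorem p3b_le (f : V →+ V) (W : AddSubgroup V) :
    Nat.card W ≤ Nat.card f.ker * Nat.card (W.map f) := by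
  rw [← AddSubgroup.card_mul_index (f.comp W.subtype).ker, AddSubgroup.index_ker,
    ← AddMonoidHom.map_range, AddSubgroup.range_subtype]
  refine Nat.mul_le_mul_right _ (Nat.card_le_card_of_injective
    (fun x : (f.comp W.subtype).ker => (⟨x.1.1, x.2⟩ : f.ker)) fun x y e => ?_)
  exact Subtype.ext (Subtype.ext (congrArg (fun z : f.ker => z.1) e))

theorem p3b_cube (h : Sr 3 G V) (y : G) : n V (y ^ 3) = n V y ^ 3 := by
  have h3 : (3 : AddMonoid.End V) = 0 := by
    ext v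
    exact h.tors v
  have : ρ V (y ^ 3) - 1 = n V y ^ 3 + 3 * (n V y ^ 2 + n V y) := by
    rw [map_pow, ρ_eq]; noncomm_ring
  rw [n, this, h3, zero_mul, add_zero]

theorem p3b_core (h : Sr 3 G V) (hs : Sy 3 G V) (U : Sylow 3 G) (hc : IsCyclic (U : Subgroup G))
    (hT : ∀ U' : Sylow 3 G, U' ≠ U → (U : Subgroup G) ⊓ U' = ⊥) (h3 : 3 ∣ Nat.card G) :
    Nat.card (U : Subgroup G) = 3 ∧
      Nat.card V ≤ Nat.card {v : V // ∀ g ∈ (U : Subgroup G), g • v = v} ^ 3 := by
  have := Fact.mk Nat.prime_three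
  obtain ⟨y, hy⟩ := (Subgroup.isCyclic_iff_exists_zpowers_eq_top (U : Subgroup G)).1 hc
  have yU : y ∈ (U : Subgroup G) := hy ▸ Subgroup.mem_zpowers y
  have y1 : y ≠ 1 := by
    rintro rfl
    apply U.not_dvd_index
    rw [← hy, Subgroup.zpowers_one_eq_bot, Subgroup.index_bot]
    exact h3
  have hpow : ∀ k : ℕ, n V (y ^ 3 ^ k) = n V y ^ 3 ^ k := fun k => by
    induction k with
    | zero => simp
    | succ k ih => rw [pow_succ, pow_mul, pow_mul, p3b_cube h, ih]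
  have y3 : y ^ 3 = 1 := by
    by_contra c
    have k1 : ∀ v : V, (n V y ^ 3) v = 0 → n V y v = 0 := fun v hv => by
      by_cases v0 : v = 0
      · rw [v0, map_zero]
      obtain ⟨P, hP⟩ := hs.exists_sylow h v0
      rw [← p3b_cube h, n_apply, sub_eq_zero] at hv
      have e : P = U := by
        by_contra ne
        have : y ^ 3 ∈ (U : Subgroup G) ⊓ P := ⟨pow_mem yU 3, by rw [hP]; exact hv⟩
        rw [hT P ne, Subgroup.mem_bot] at this
        exact c this
      rw [← e, hP] at yU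
      rw [n_apply, sub_eq_zero]
      exact yU
    have k2 : ∀ (m : ℕ) (v : V), (n V y ^ (m + 1)) v = 0 → n V y v = 0 := fun m => by
      induction m with
      | zero => intro v hv; simpa using hv
      | succ m ih =>
        intro v hv
        rw [pow_succ] at hv
        have := ih (n V y v) hv
        apply k1
        rw [pow_three]
        change n V y (n V y (n V y v)) = 0
        rw [this, map_zero]
    obtain ⟨k, hk⟩ := U.isPGroup' ⟨y, yU⟩
    have hk' : y ^ 3 ^ k = 1 := congrArg Subtype.val hk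
    have z := hpow k
    rw [hk'] at z
    obtain ⟨m, hm⟩ : ∃ m, 3 ^ k = m + 1 := ⟨3 ^ k - 1, by have := Nat.one_le_pow k 3 (by norm_num); omega⟩
    refine y1 (h.n_eq_zero (AddMonoidHom.ext fun v => k2 m v ?_))
    rw [← hm, ← z]
    simp
  refine ⟨by rw [← hy, Nat.card_zpowers, orderOf_eq_prime y3 y1], ?_⟩
  have A3 : n V y ^ 3 = 0 := by
    rw [← p3b_cube h, y3]
    ext v
    simp
  obtain ⟨f, hf⟩ : ∃ f : V →+ V, f = n V y := ⟨_, rfl⟩
  have hk : Nat.card {v : V // ∀ g ∈ (U : Subgroup G), g • v = v} = Nat.card f.ker :=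
    Nat.card_congr (Equiv.subtypeEquivRight fun v => by
      rw [AddMonoidHom.mem_ker, hf, ← hy]
      change Subgroup.zpowers y ≤ MulAction.stabilizer G v ↔ y • v - v = 0
      rw [Subgroup.zpowers_le, sub_eq_zero]
      rfl)
  have b3 : (((⊤ : AddSubgroup V).map f).map f).map f = ⊥ := by
    rw [eq_bot_iff]
    rintro _ ⟨_, ⟨_, ⟨v, -, rfl⟩, rfl⟩, rfl⟩
    have : (n V y ^ 3) v = 0 := by rw [A3]; rfl
    rw [pow_three] at this
    rw [hf]
    exact this
  have a1 := p3b_le f ⊤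
  have a2 := p3b_le f ((⊤ : AddSubgroup V).map f)
  have a3 := p3b_le f (((⊤ : AddSubgroup V).map f).map f)
  rw [b3, AddSubgroup.card_bot, mul_one] at a3
  rw [AddSubgroup.card_top] at a1
  rw [hk, pow_three]
  exact a1.trans (Nat.mul_le_mul_left _ (a2.trans (Nat.mul_le_mul_left _ a3)))

theorem p3b_sl {r : ℕ} (hr : r.Prime) (h5 : 5 ≤ r) [DistribMulAction SL(2, ZMod r) V]
    (h : Sr 3 SL(2, ZMod r) V) (hs : Sy 3 SL(2, ZMod r) V) :
    (r = 5 ∧ Nat.card V = 81) ∨ (r = 13 ∧ Nat.card V = 729) := by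
  have := Fact.mk Nat.prime_three
  have := Fact.mk hr
  obtain ⟨U⟩ : Nonempty (Sylow 3 SL(2, ZMod r)) := inferInstance
  obtain ⟨hc, hT, n1, n2⟩ := p3a hr h5 U
  have hG : Nat.card SL(2, ZMod r) = r * ((r + 1) * (r - 1)) := by
    rw [Class.card_SL2, ZMod.card, ← Nat.sq_sub_sq, one_pow]
  have r3 : r % 3 = 1 ∨ r % 3 = 2 := by
    have : ¬ 3 ∣ r := fun d => by
      have := (Nat.prime_dvd_prime_iff_eq Nat.prime_three hr).1 d
      omega
    omega
  have h3 : 3 ∣ Nat.card SL(2, ZMod r) := by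
    rw [hG]
    rcases r3 with e | e
    · exact Dvd.dvd.mul_left (Dvd.dvd.mul_left (by omega) _) _
    · exact Dvd.dvd.mul_left (Dvd.dvd.mul_right (by omega) _) _
  obtain ⟨cU, hV⟩ := p3b_core h hs U hc hT h3
  obtain ⟨b, hb, e1, e2⟩ := hs.points h U
  have e3 := Sy.norm_dvd h U
  obtain ⟨m, -, hm⟩ := h.card_V
  rw [e1] at e3 hV
  rw [hm] at e2 hV
  rw [← pow_mul] at hV
  have hmb : m ≤ 3 * b := by
    have := (Nat.pow_le_pow_iff_right (by norm_num)).1 hV
    omega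
  have h9 : ¬ 9 ∣ Nat.card SL(2, ZMod r) := fun d => U.not_dvd_index (by
    rw [← (U : Subgroup SL(2, ZMod r)).card_mul_index, cU] at d
    omega)
  have hN := (Subgroup.normalizer ((U : Subgroup SL(2, ZMod r)) : Set SL(2, ZMod r))).card_mul_index
  have hI : Nat.card (Sylow 3 SL(2, ZMod r)) =
      (Subgroup.normalizer ((U : Subgroup SL(2, ZMod r)) : Set SL(2, ZMod r))).index :=
    U.card_eq_index_normalizer
  rw [← hI, hG] at hN
  have hR := ((U : Subgroup SL(2, ZMod r)).subgroupOf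
    (Subgroup.normalizer ((U : Subgroup SL(2, ZMod r)) : Set SL(2, ZMod r)))).card_mul_index
  rw [Nat.card_congr (Subgroup.subgroupOfEquivOfLe Subgroup.le_normalizer).toEquiv, cU] at hR
  change 3 * (U : Subgroup SL(2, ZMod r)).relIndex _ = _ at hR
  generalize (U : Subgroup SL(2, ZMod r)).relIndex _ = i at hR e3
  generalize Nat.card (Sylow 3 SL(2, ZMod r)) = s at hN e2
  rw [hG] at h9
  have hcase : (r % 3 = 1 ∧ 2 * s = r * (r + 1) ∧ ¬ 9 ∣ r - 1 ∧ 2 * ((r - 1) / 3) ∣ 3 ^ b - 1) ∨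
      (r % 3 = 2 ∧ 2 * s = r * (r - 1) ∧ ¬ 9 ∣ r + 1 ∧ 2 * ((r + 1) / 3) ∣ 3 ^ b - 1) := by
    rcases r3 with e | e
    · rw [n1 e] at hN hR
      refine .inl ⟨e, Nat.eq_of_mul_eq_mul_right (show 0 < r - 1 by omega) (by linarith),
        fun d => h9 (Dvd.dvd.mul_left (Dvd.dvd.mul_left d _) _), ?_⟩
      rwa [show 2 * ((r - 1) / 3) = i by omega]
    · rw [n2 e] at hN hR
      refine .inr ⟨e, Nat.eq_of_mul_eq_mul_right (show 0 < r + 1 by omega) (by linarith),
        fun d => h9 (Dvd.dvd.mul_left (Dvd.dvd.mul_right d _) _), ?_⟩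
      rwa [show 2 * ((r + 1) / 3) = i by omega]
  have s2 : 2 ≤ s := by
    rcases hcase with ⟨-, e, -⟩ | ⟨-, e, -⟩
    · have := Nat.mul_le_mul h5 (show 1 ≤ r + 1 by omega)
      omega
    · have := Nat.mul_le_mul h5 (show 1 ≤ r - 1 by omega)
      omega
  have hbm : b < m := by
    refine (Nat.pow_lt_pow_iff_right (show 1 < 3 by norm_num)).1 ?_
    have := Nat.mul_le_mul_right (3 ^ b - 1) s2
    have := Nat.one_lt_pow hb.ne' (show 1 < 3 by norm_num)
    omega
  rcases p3c hr h5 hb hbm hmb e2 hcase with ⟨e, rfl⟩ | ⟨e, rfl⟩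
  · exact .inl ⟨e, hm⟩
  · exact .inr ⟨e, hm⟩

/-- Transport `p3a` along `e`. `U = ⟨y⟩` cyclic of order `3^k`, `k ≥ 1`. If `1 ≠ x ∈ U` fixes `v ≠ 0` then `G_v` is a Sylow (`exists_sylow`) meeting `U`, so `= U`: `C_V(x) = C_V(U)`.
If `k ≥ 2`, `x = y³ ≠ 1`, `n x = (n y)³` (char 3), so `ker (n y)² = ker (n y)`, and `n y` nilpotent gives `n y = 0`: absurd. So `|U| = 3` (so `9 ∤ r² - 1`), `(n y)³ = 0`,
`|V| ≤ |ker (n y)|³`. `points`, `norm_dvd`, `s = |G| / |N(U)|`, `|G| = r (r² - 1)` (`Class.card_SL2`); `p3c`. -/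
theorem p3b (h : Sr 3 G V) (hs : Sy 3 G V) {r : ℕ} (hr : r.Prime) (h5 : 5 ≤ r) (e : G ≃* SL(2, ZMod r)) :
    (r = 5 ∧ Nat.card V = 81) ∨ (r = 13 ∧ Nat.card V = 729) := by
  letI : DistribMulAction SL(2, ZMod r) V := DistribMulAction.compHom V e.symm.toMonoidHom
  refine p3b_sl hr h5 ⟨h.prime, h.nontriv, h.tors, fun g hg => ?_, fun g v hv hg => ?_⟩ fun v hv => ?_
  · exact e.symm.injective ((h.faith (e.symm g) hg).trans (map_one e.symm).symm)
  · obtain ⟨k, hk⟩ := h.pel (e.symm g) v hv hg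
    exact ⟨k, e.symm.injective (by rw [map_pow, hk, map_one])⟩
  · have : MulAction.stabilizer SL(2, ZMod r) v = (MulAction.stabilizer G v).comap e.symm.toMonoidHom := rfl
    rw [this, Subgroup.index_comap_of_surjective _ e.symm.surjective]
    exact hs v hv

end Cfsg.Agent.Gag
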