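import Cfsg.Agent.Gag.Def
import Cfsg.Agent.S4840

/-! S4841: reduction from the character to the linear group `G / O_p(G)` on the support `N`. -/

set_option autoImplicit false

namespace Cfsg.Agent.Gag

open Subgroup Cfsg.Agent.FGS.FrobCompl

universe u

theorem red {G : Type u} [Group G] [Finite G] (hns : ¬ Group.IsSolvable G) (χ : Cfsg.IrrCharacter G)
    (hχ : Nat.card {C : ConjClasses G // ∃ g ∈ C.carrier, (χ : G → ℂ) g ≠ 0} = 2) :
    ∃ p : ℕ, p.Prime ∧ (∀ q : ℕ, q.Prime → (Cfsg.pCore q G ≠ ⊥ ↔ q = p)) ∧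
      ∃ (V : Type u) (_ : AddCommGroup V) (_ : Finite V) (_ : DistribMulAction (G ⧸ pCore p G) V),
        Sr p (G ⧸ pCore p G) V ∧ Tr (G ⧸ pCore p G) V ∧ Sy p (G ⧸ pCore p G) V ∧
          ¬ Group.IsSolvable (G ⧸ pCore p G) ∧ pCore p (G ⧸ pCore p G) = ⊥ := by
  have hG : 2 < Nat.card G := by
    by_contra hc
    have h0 : 0 < Nat.card G := Nat.card_pos
    have hd : Nat.card G ∣ 2 := by
      have h2 : Nat.card G ≤ 2 := not_lt.1 hc
      generalize Nat.card G = m at *
      interval_cases m <;> simp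
    haveI : Fact (Nat.Prime 2) := ⟨Nat.prime_two⟩
    haveI := isCyclic_of_card_dvd_prime hd
    exact hns (isSolvable_of_comm fun a b => (IsCyclic.commGroup (α := G)).mul_comm a b)
  obtain ⟨N, h⟩ := Char.exists_gagola hG χ.2 hχ
  obtain ⟨p, hp, hN⟩ := h.exists_prime
  haveI := Fact.mk hp
  haveI := h.normal
  have hNp : IsPGroup p N := Grp.isPGroup_of_pow_eq_one hN
  have hO : pCore p G ≤ (MulAut.conjNormal : G →* MulAut N).ker := fun x hx => by
    rw [ker_conjNormal]
    intro n hn
    by_cases h1 : n = 1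
    · simp [h1]
    obtain ⟨P, hP⟩ := h.centralizer_sylow hNp hn h1
    exact (mem_centralizer_singleton_iff.1 (hP.ge (Grp.pCore_le_sylow P hx))).symm
  letI : CommGroup N := { (inferInstance : Group N) with
    mul_comm := fun a b => Subtype.ext (h.comm a a.2 b b.2) }
  haveI := (nontrivial_iff_ne_bot N).2 h.ne_bot
  let φ : G ⧸ pCore p G →* MulAut N := QuotientGroup.lift _ _ hO
  letI act : DistribMulAction (G ⧸ pCore p G) (Additive N) :=
    { smul := fun g v => Additive.ofMul (φ g v.toMul)
      one_smul := fun v => by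
        change Additive.ofMul (φ 1 v.toMul) = v
        rw [map_one]; rfl
      mul_smul := fun a b v => by
        change Additive.ofMul (φ (a * b) v.toMul) = Additive.ofMul (φ a (φ b v.toMul))
        rw [map_mul]; rfl
      smul_zero := fun g => by
        change Additive.ofMul (φ g 1) = 0
        rw [map_one]; rfl
      smul_add := fun g v w => by
        change Additive.ofMul (φ g (v.toMul * w.toMul)) = _
        rw [map_mul]; rfl }
  have hs : ∀ (g : G) (v : Additive N), ((g : G ⧸ pCore p G) • v).toMul.1 = g * v.toMul.1 * g⁻¹ :=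
    fun g v => rfl
  have hfix : ∀ (g : G) (v : Additive N), (g : G ⧸ pCore p G) • v = v ↔
      g ∈ centralizer ({(v.toMul.1 : G)} : Set G) := fun g v => by
    rw [mem_centralizer_singleton_iff, ← mul_inv_eq_iff_eq_mul, ← hs]
    exact ⟨fun e => by rw [e], fun e => Additive.toMul.injective (Subtype.ext e)⟩
  have hne : ∀ v : Additive N, v ≠ 0 → (v.toMul.1 : G) ≠ 1 := fun v hv e =>
    hv (Additive.toMul.injective (Subtype.ext e))
  refine ⟨p, hp, fun q hq => ⟨fun h1 => ?_, ?_⟩, Additive N, inferInstance, inferInstance, act,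
    ⟨hp, inferInstance, fun v => ?_, fun g hg => ?_, fun g v hv hg => ?_⟩, fun v w hv hw => ?_,
    fun v hv => ?_, fun k => hns ?_, Grp.pCore_quotient_pCore p G⟩
  · haveI := Fact.mk hq
    by_contra hne
    exact h.ne_bot (disjoint_self.1 ((IsPGroup.disjoint_of_ne q p hne _ _ (Grp.pCore_isPGroup q G)
      hNp).mono_left (h.le_of_normal h1)))
  · rintro rfl e
    exact h.ne_bot (eq_bot_iff.2 (e ▸ Grp.le_pCore h.normal hNp))
  · exact Additive.toMul.injective (Subtype.ext (hN _ v.toMul.2))
  · induction g using QuotientGroup.induction_on with | H g => ?_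
    obtain ⟨x, hx, hx1⟩ := h.exists_mem
    obtain ⟨P, hP⟩ := h.centralizer_sylow hNp hx hx1
    have h1 : IsPGroup p (centralizer (N : Set G)) :=
      P.2.to_le (hP ▸ centralizer_le (Set.singleton_subset_iff.2 hx))
    refine (QuotientGroup.eq_one_iff g).2 (Grp.le_pCore inferInstance h1 fun n hn => ?_)
    exact (mem_centralizer_singleton_iff.1 ((hfix g (Additive.ofMul ⟨n, hn⟩)).1 (hg _))).symm
  · induction g using QuotientGroup.induction_on with | H g => ?_
    obtain ⟨P, hP⟩ := h.centralizer_sylow hNp v.toMul.2 (hne v hv)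
    obtain ⟨k, hk⟩ := P.2 ⟨g, hP.le ((hfix g v).1 hg)⟩
    refine ⟨k, ?_⟩
    rw [← QuotientGroup.mk_pow, show g ^ p ^ k = 1 from congrArg Subtype.val hk, QuotientGroup.mk_one]
  · obtain ⟨c, hc⟩ := isConj_iff.1 (h.isConj _ v.toMul.2 _ w.toMul.2 (hne v hv) (hne w hw))
    exact ⟨c, Additive.toMul.injective (Subtype.ext hc)⟩
  · have h1 : (MulAction.stabilizer (G ⧸ pCore p G) v).comap (QuotientGroup.mk' _) =
        centralizer ({(v.toMul.1 : G)} : Set G) := Subgroup.ext fun g => hfix g v
    rw [← index_comap_of_surjective _ (QuotientGroup.mk'_surjective (pCore p G)), h1]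
    have := h.index_add_one v.toMul.2 (hne v hv)
    rw [show (centralizer ({(v.toMul.1 : G)} : Set G)).index = Nat.card N - 1 by omega]
    exact h.not_dvd hNp
  · haveI := (Grp.pCore_isPGroup p G).isNilpotent
    exact solvable_of_ker_le_range (pCore p G).subtype (QuotientGroup.mk' (pCore p G))
      (by rw [QuotientGroup.ker_mk', range_subtype])

end Cfsg.Agent.Gag
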