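import Cfsg.Agent.Gag.Def
import Cfsg.Agent.Gag.Bas1
import Cfsg.Agent.Misc.Zsigmondy

set_option autoImplicit false
set_option linter.unusedSectionVars false
open Matrix MatrixGroups Cfsg.Agent.Perm.Fpf Cfsg.Agent.PLocal.SL2Nat

namespace Cfsg.Agent.Gag

universe u v
variable {p : ℕ} {G : Type u} {V : Type v} [Group G] [Finite G] [AddCommGroup V] [Finite V] [DistribMulAction G V]

theorem z0_irr (h : Sr p G V) {m l : ℕ} (hV : Nat.card V = p ^ m) (hl : l.Prime) (hlp : l ≠ p)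
    (hd : ∀ i, 0 < i → i < m → ¬ l ∣ p ^ i - 1) {y : G} (hy : orderOf y = l) {W : AddSubgroup V}
    (hW : ∀ w ∈ W, y • w ∈ W) (h0 : W ≠ ⊥) : W = ⊤ := by
  have := Fact.mk hl
  have : Nontrivial W := (AddSubgroup.nontrivial_iff_ne_bot W).2 h0
  obtain ⟨i, hi0, hi⟩ := bas1_card (W := W) h.prime fun w => Subtype.ext (h.tors w)
  have hi' : ∀ g ∈ Subgroup.zpowers y, ∀ w ∈ W, g • w ∈ W := fun g hg w hw => by
    obtain ⟨k, rfl⟩ := (mem_powers_iff_mem_zpowers).2 hg
    induction k with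
    | zero => simpa using hw
    | succ k ih => simpa only [pow_succ', mul_smul] using hW _ (ih (Subgroup.npow_mem_zpowers y k))
  let : MulAction (Subgroup.zpowers y) W :=
    { smul := fun g w => ⟨(g : G) • (w : V), hi' g g.2 w w.2⟩
      one_smul := fun w => Subtype.ext (one_smul G (w : V))
      mul_smul := fun a b w => Subtype.ext (mul_smul (a : G) (b : G) (w : V)) }
  have hP : IsPGroup l (Subgroup.zpowers y) := .of_card (n := 1) (by rw [Nat.card_zpowers, hy, pow_one])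
  have h1 := hP.card_modEq_card_fixedPoints W
  have y1 : y ≠ 1 := fun e => hl.one_lt.ne (by rw [← hy, e, orderOf_one])
  have h2 : Nat.card (MulAction.fixedPoints (Subgroup.zpowers y) W) = 1 :=
    Nat.card_eq_one_iff_exists.2 ⟨⟨0, fun g => Subtype.ext (smul_zero (g : G))⟩, fun w =>
      Subtype.ext (Subtype.ext (h.fpf (hy ▸ (Nat.coprime_primes hl h.prime).2 hlp) y1
        (congrArg Subtype.val (w.2 ⟨y, Subgroup.mem_zpowers y⟩))))⟩
  rw [h2, hi] at h1
  have h3 := (Nat.modEq_iff_dvd' (Nat.one_le_pow _ _ h.prime.pos)).1 h1.symm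
  have h4 : m ≤ i := not_lt.1 fun e => hd i hi0 e h3
  exact AddSubgroup.eq_top_of_le_card W (by rw [hV, hi]; exact Nat.pow_le_pow_right h.prime.pos h4)

/-- `y` of prime order `l`, `l ∤ p^i - 1` for `0 < i < m`. A `y`-invariant subgroup `W` has `l ∣ |W| - 1` (`y` is fixed-point-free), `|W| = p^i`, so `W = ⊥` or `⊤`. So every nonzero element of the
centraliser `D` of `ρ y` in `End V` is bijective (kernel, range invariant): `D` is a finite division ring, commutative (Wedderburn, `littleWedderburn`). -/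
theorem z0 (h : Sr p G V) {m l : ℕ} (hV : Nat.card V = p ^ m) (hl : l.Prime) (hlp : l ≠ p)
    (hd : ∀ i, 0 < i → i < m → ¬ l ∣ p ^ i - 1) {y a b : G} (hy : orderOf y = l)
    (ha : Commute y a) (hb : Commute y b) : Commute a b := by
  have := h.nontriv
  let D : Subring (AddMonoid.End V) := Subring.centralizer {ρ V y}
  have : Finite D := Finite.of_injective (fun f : D => (f.1 : V → V))
    fun f g e => Subtype.ext (DFunLike.coe_injective e)
  have : Nontrivial D := ⟨⟨0, 1, fun e => by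
    obtain ⟨v, hv⟩ := exists_ne (0 : V)
    exact hv (congrArg (fun f : D => f.1 v) e).symm⟩⟩
  have : NoZeroDivisors D := ⟨fun {f g} e => or_iff_not_imp_left.2 fun hf => by
    have c : ∀ v, y • f.1 v = f.1 (y • v) := fun v =>
      congrArg (fun k : AddMonoid.End V => k v) (f.2 _ (Set.mem_singleton _))
    have k : AddMonoidHom.ker (f.1 : V →+ V) = ⊥ := by
      by_contra k
      have := z0_irr h hV hl hlp hd hy (W := AddMonoidHom.ker (f.1 : V →+ V)) (fun w hw => by
        have hw' : f.1 w = 0 := hw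
        change f.1 (y • w) = 0
        rw [← c, hw', smul_zero]) k
      exact hf (Subtype.ext (AddMonoidHom.ext fun v => (this.ge (AddSubgroup.mem_top v) :)))
    refine Subtype.ext (AddMonoidHom.ext fun v => ?_)
    exact AddSubgroup.mem_bot.1 (k.le (congrArg (fun k : D => k.1 v) e))⟩
  have : IsDomain D := NoZeroDivisors.to_isDomain D
  have m : ∀ {x : G}, Commute y x → ρ V x ∈ D := fun hx =>
    Subring.mem_centralizer_iff.2 fun g hg => by
      rw [Set.mem_singleton_iff.1 hg]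
      exact (hx.map (ρ V)).eq
  have := (Finite.isDomain_to_isField D).mul_comm ⟨_, m ha⟩ ⟨_, m hb⟩
  exact h.ρ_inj (by rw [map_mul, map_mul]; exact congrArg Subtype.val this)

/-- `Misc.Zsigmondy.zsigmondy` gives a primitive prime divisor `l`, `m ∣ l - 1` (Fermat), so `l > m ≥ 3`. If `l = 5` then `m = 4`; every odd prime divisor of `p² + 1 = 2 * odd ≥ 50` is
primitive; either one is `≥ 7` or `25 ∣ p² + 1`. -/
theorem z0_ar {m : ℕ} (hp : p.Prime) (h7 : 7 ≤ p) (hm : 3 ≤ m) :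
    ∃ l, l.Prime ∧ l ≠ p ∧ (∀ i, 0 < i → i < m → ¬ l ∣ p ^ i - 1) ∧
      ((7 ≤ l ∧ l ∣ p ^ m - 1) ∨ (l = 5 ∧ 25 ∣ p ^ m - 1)) := by
  have p1 := hp.one_lt
  have ne : ∀ l k : ℕ, 0 < k → l ∣ p ^ k - 1 → l ≠ p := fun l k hk hl e => by
    subst e
    have := (Nat.dvd_sub_iff_right (Nat.one_le_pow _ _ hp.pos) (dvd_pow_self l hk.ne')).1 hl
    exact p1.ne' (Nat.dvd_one.1 this)
  obtain ⟨l, hl⟩ := Misc.Zsig.zsigmondy p1 (show 1 < m by omega) (by omega) (by omega)
  have l1 := hl.lt (by omega) p1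
  have l2 := hl.dvd_sub_one (by omega) p1
  obtain ⟨l3, l4, l5⟩ := hl
  by_cases h : 7 ≤ l
  · exact ⟨l, l3, ne l m (by omega) l4, l5, .inl ⟨h, l4⟩⟩
  obtain rfl : l = 5 := by
    have : 4 ≤ l := by omega
    have : l ≤ 6 := by omega
    interval_cases l
    · exact absurd l3 (by norm_num)
    · rfl
    · exact absurd l3 (by norm_num)
  by_cases h25 : 25 ∣ p ^ m - 1
  · exact ⟨5, l3, by omega, l5, .inr ⟨rfl, h25⟩⟩
  obtain rfl : m = 4 := by
    have : m ≠ 3 := by rintro rfl; omega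
    omega
  have e : p ^ 4 - 1 = (p ^ 2 + 1) * (p ^ 2 - 1) := by
    rw [← Nat.sq_sub_sq, ← pow_mul]
  have o : p % 2 = 1 := hp.eq_two_or_odd.resolve_left (by omega)
  have d5 : 5 ∣ p ^ 2 + 1 := ((Nat.Prime.dvd_mul l3).1 (e ▸ l4)).resolve_right (l5 2 (by norm_num) (by norm_num))
  have m4 : p ^ 2 % 4 = 1 := by
    have : p % 4 = 1 ∨ p % 4 = 3 := by omega
    rcases this with k | k <;> simp [Nat.pow_mod, k]
  have m3 : p ^ 2 % 3 ≠ 2 := by
    have : p % 3 = 0 ∨ p % 3 = 1 ∨ p % 3 = 2 := by omega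
    rcases this with k | k | k <;> simp [Nat.pow_mod, k]
  have n25 : ¬ 25 ∣ p ^ 2 + 1 := fun k => h25 (e ▸ k.mul_right _)
  have b : 49 ≤ p ^ 2 := by nlinarith
  obtain ⟨N, hN⟩ : 10 ∣ p ^ 2 + 1 := by omega
  obtain ⟨q, q1, q2⟩ := Nat.exists_prime_and_dvd (show N ≠ 1 by omega)
  have q3 : q ∣ p ^ 2 + 1 := hN ▸ q2.mul_left _
  have q7 : 7 ≤ q := by
    by_contra k
    have : q ≤ 6 := by omega
    have := q1.two_le
    interval_cases q <;> first | omega | exact absurd q1 (by norm_num)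
  have q4 : q ∣ p ^ 4 - 1 := e ▸ q3.mul_right _
  refine ⟨q, q1, ne q 4 (by norm_num) q4, fun i i0 i4 k => ?_, .inl ⟨q7, q4⟩⟩
  rw [Misc.Zsig.dvd_pow_sub_one_iff p1] at k
  have z : (p : ZMod q) ^ 2 + 1 = 0 := by
    exact_mod_cast (ZMod.natCast_eq_zero_iff _ _).2 q3
  have t : ((2 : ℕ) : ZMod q) = 0 := by
    push_cast
    interval_cases i
    · linear_combination z - ((p : ZMod q) + 1) * k
    · linear_combination z - k
    · linear_combination (1 - p * (p - 1 : ZMod q)) * z + (p - 1 : ZMod q) * k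
  have := Nat.le_of_dvd two_pos ((ZMod.natCast_eq_zero_iff _ _).1 t)
  omega

end Cfsg.Agent.Gag
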