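import Cfsg.Agent.Gag.Def
import Cfsg.Agent.Gag.Bas2
import Cfsg.Agent.Gag.Out
import Cfsg.Agent.Gag.Z0
import Cfsg.Agent.Perm.FpfPerfect

set_option autoImplicit false
set_option linter.unusedSectionVars false
open Matrix MatrixGroups Cfsg.Agent.Perm.Fpf Cfsg.Agent.PLocal.SL2Nat

namespace Cfsg.Agent.Gag

universe u v
variable {p : ℕ} {G : Type u} {V : Type v} [Group G] [Finite G] [AddCommGroup V] [Finite V] [DistribMulAction G V]

/-- `|V| = p^m`, `p^m - 1 ∣ |G|` (`index_eq`). `C = C_G(S)`; `|G| = ε * |S ⊔ C|`, `ε ∣ 2` (`out_prime`), `|S ⊔ C| * |S ⊓ C| = 120 |C|`, so `|G| ∣ 240 |C|`. If `m ≥ 3`, `l` of `z0_ar` divides `|C|`; `y ∈ C`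
of order `l`, `z0` makes `S` commutative: false. `m = 1`: `V` is cyclic of order `p`, elements act as integer multiples, `G` is commutative (`ρ_inj`): false. -/
theorem z1 (h : Sr p G V) (ht : Tr G V) (h7 : 7 ≤ p) (S : Subgroup G) [S.Normal] (e : S ≃* SL(2, ZMod 5)) :
    Nat.card V = p ^ 2 := by
  have : Fact p.Prime := ⟨h.prime⟩
  have nc : ¬ ∀ a ∈ S, ∀ b ∈ S, Commute a b := fun r => by
    have q : ∀ x y : SL(2, ZMod 5), x * y = y * x := fun x y => e.symm.injective (by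
      rw [map_mul, map_mul]
      exact Subtype.ext (r _ (e.symm x).2 _ (e.symm y).2))
    have := congrArg (fun M : SL(2, ZMod 5) => M.1 0 0)
      (q ⟨!![1, 1; 0, 1], by decide⟩ ⟨!![1, 0; 1, 1], by decide⟩)
    revert this
    decide
  obtain ⟨m, hm, hV⟩ := h.card_V
  obtain rfl | rfl | h3 : m = 1 ∨ m = 2 ∨ 3 ≤ m := by omega
  · refine absurd (fun a _ b _ => h.ρ_inj ?_) nc
    obtain ⟨v, hv⟩ := (isAddCyclic_of_prime_card (hV.trans (pow_one p))).exists_zsmul_surjective
    obtain ⟨i, hi⟩ := hv (a • v)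
    obtain ⟨j, hj⟩ := hv (b • v)
    have k : ∀ (g : G) (t : ℤ) (w : V), g • t • w = t • g • w := fun g t w => map_zsmul (ρ V g) t w
    refine AddMonoidHom.ext fun w => ?_
    obtain ⟨t, rfl⟩ := hv w
    change (a * b) • t • v = (b * a) • t • v
    dsimp only at hi hj
    rw [k, k, mul_smul, mul_smul, ← hi, ← hj, k, k, ← hi, ← hj, smul_comm i j]
  · exact hV
  exfalso
  obtain ⟨P⟩ : Nonempty (Sylow p G) := inferInstance
  have d1 : p ^ m - 1 ∣ Nat.card G := hV ▸ ht.index_eq h P ▸ (P : Subgroup G).index_dvd_card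
  set C := Subgroup.centralizer (S : Set G) with hC
  have d2 : Nat.card ↥(S ⊔ C) ∣ Nat.card C * 120 := by
    rw [← (S.subgroupOf (S ⊔ C)).index_mul_card,
      Nat.card_congr (Subgroup.subgroupOfEquivOfLe le_sup_left).toEquiv, Nat.card_congr e.toEquiv,
      card_SL25]
    refine Nat.mul_dvd_mul_right ?_ _
    rw [← Subgroup.relIndex, Subgroup.relIndex_sup_left]
    exact (S.subgroupOf C).index_dvd_card
  have d3 : p ^ m - 1 ∣ 2 * (Nat.card C * 120) := by
    rw [← (S ⊔ C).index_mul_card] at d1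
    exact d1.trans (Nat.mul_dvd_mul (out_prime S (by norm_num) le_rfl e) d2)
  obtain ⟨l, l1, l2, l3, l4⟩ := z0_ar h.prime h7 h3
  have d4 : l ∣ Nat.card C := by
    rcases l4 with ⟨l5, l6⟩ | ⟨rfl, l6⟩
    · have q := l6.trans d3
      rw [show 2 * (Nat.card C * 120) = Nat.card C * (2 ^ 4 * 3 * 5) by ring] at q
      refine (l1.dvd_mul.1 q).resolve_right fun r => ?_
      rcases l1.dvd_mul.1 r with r | r
      · rcases l1.dvd_mul.1 r with r | r
        · have := Nat.le_of_dvd two_pos (l1.dvd_of_dvd_pow r); omega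
        · have := Nat.le_of_dvd three_pos r; omega
      · have := Nat.le_of_dvd (by norm_num) r; omega
    · have q := l6.trans d3
      omega
  have : Fact l.Prime := ⟨l1⟩
  obtain ⟨y, hy⟩ := exists_prime_orderOf_dvd_card' l d4
  exact nc fun a ha b hb => z0 h hV l1 l2 l3 ((Subgroup.orderOf_coe y).trans hy)
    (y.2 a ha).symm (y.2 b hb).symm

end Cfsg.Agent.Gag
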