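import Cfsg.Agent.Gag.Def
import Cfsg.Agent.Gag.Bas1

set_option autoImplicit false
set_option linter.unusedSectionVars false
open Matrix MatrixGroups Cfsg.Agent.Perm.Fpf Cfsg.Agent.PLocal.SL2Nat

namespace Cfsg.Agent.Gag

universe u v
variable {p : ℕ} {G : Type u} {V : Type v} [Group G] [Finite G] [AddCommGroup V] [Finite V] [DistribMulAction G V]

theorem z2_mat {K : Type*} [Field K] {A B C : Matrix (Fin 2) (Fin 2) K} (hA : A * C = C * A) (hB : B * C = C * B)
    (h : A * B ≠ B * A) : C 0 1 = 0 ∧ C 1 0 = 0 ∧ C 1 1 = C 0 0 := by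
  have a0 := congrFun (congrFun hA 0) 0
  have a1 := congrFun (congrFun hA 0) 1
  have a2 := congrFun (congrFun hA 1) 0
  have b0 := congrFun (congrFun hB 0) 0
  have b1 := congrFun (congrFun hB 0) 1
  have b2 := congrFun (congrFun hB 1) 0
  simp only [Matrix.mul_apply, Fin.sum_univ_two] at a0 a1 a2 b0 b1 b2
  have key : ∀ t : K, t ≠ 0 → t * (A 0 1 * B 1 0 - B 0 1 * A 1 0) = 0 →
      t * (A 0 0 * B 0 1 + A 0 1 * B 1 1 - (B 0 0 * A 0 1 + B 0 1 * A 1 1)) = 0 →
      t * (A 1 0 * B 0 0 + A 1 1 * B 1 0 - (B 1 0 * A 0 0 + B 1 1 * A 1 0)) = 0 → False := fun t ht e0 e1 e2 => by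
    have f0 := (mul_eq_zero.1 e0).resolve_left ht
    have f1 := (mul_eq_zero.1 e1).resolve_left ht
    have f2 := (mul_eq_zero.1 e2).resolve_left ht
    refine h ?_
    ext i j
    fin_cases i <;> fin_cases j <;> simp only [Matrix.mul_apply, Fin.sum_univ_two, Fin.zero_eta, Fin.mk_one, Fin.isValue]
    · linear_combination f0
    · linear_combination f1
    · linear_combination f2
    · linear_combination -f0
  refine ⟨?_, ?_, ?_⟩
  · by_contra hc
    exact key _ hc (by linear_combination B 0 1 * a0 - A 0 1 * b0)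
      (by linear_combination B 0 1 * a1 - A 0 1 * b1)
      (by linear_combination (-(A 0 1)) * b2 - (B 0 0 - B 1 1) * a0 - B 1 0 * a1)
  · by_contra hc
    exact key _ hc (by linear_combination B 1 0 * a0 - A 1 0 * b0)
      (by linear_combination (-(B 0 1)) * a2 - (B 0 0 - B 1 1) * a0 - A 1 0 * b1)
      (by linear_combination B 1 0 * a2 - A 1 0 * b2)
  · by_contra hc
    exact key (C 0 0 - C 1 1) (sub_ne_zero.2 (Ne.symm hc))
      (by linear_combination (-(B 1 0)) * a1 - B 0 1 * a2 - (A 0 0 - A 1 1) * b0)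
      (by linear_combination (B 0 0 - B 1 1) * a1 - (A 0 0 - A 1 1) * b1)
      (by linear_combination (B 0 0 - B 1 1) * a2 - (A 0 0 - A 1 1) * b2)

theorem z2_rep0 [Fact p.Prime] [Module (ZMod p) V] (h : Sr p G V) (hV : Nat.card V = p ^ 2) :
    ∃ φ : G →* Matrix (Fin 2) (Fin 2) (ZMod p), Function.Injective φ := by
  have : Module.Finite (ZMod p) V := Module.Finite.of_finite
  have hr : Module.finrank (ZMod p) V = 2 := by
    have := Module.natCard_eq_pow_finrank (K := ZMod p) (V := V)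
    rw [hV, Nat.card_zmod] at this
    exact (Nat.pow_right_injective h.prime.two_le this).symm
  let b := Module.finBasisOfFinrankEq (ZMod p) V hr
  let ψ : G → (V →ₗ[ZMod p] V) := fun g => (DistribSMul.toAddMonoidHom V g).toZModLinearMap p
  have h1 : ψ 1 = LinearMap.id := LinearMap.ext fun v => one_smul G v
  have h2 : ∀ a c, ψ (a * c) = (ψ a).comp (ψ c) := fun a c => LinearMap.ext fun v => mul_smul a c v
  let φ : G →* Matrix (Fin 2) (Fin 2) (ZMod p) :=
    { toFun := fun g => LinearMap.toMatrix b b (ψ g)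
      map_one' := by rw [h1, LinearMap.toMatrix_id]
      map_mul' := fun a c => by rw [h2, LinearMap.toMatrix_comp b b b] }
  refine ⟨φ, (injective_iff_map_eq_one _).2 fun g hg => h.faith g fun v => ?_⟩
  have e : ψ g = LinearMap.id := (LinearMap.toMatrix b b).injective (by rw [LinearMap.toMatrix_id]; exact hg)
  exact LinearMap.congr_fun e v

theorem z2_rep [Fact p.Prime] (h : Sr p G V) (hV : Nat.card V = p ^ 2) :
    ∃ φ : G →* Matrix (Fin 2) (Fin 2) (ZMod p), Function.Injective φ :=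
  @z2_rep0 p G V _ _ _ _ _ _ (AddCommGroup.zmodModule h.tors) h hV

/-- `V` is a 2-dimensional `ZMod p`-space (`AddCommGroup.zmodModule`), `G` acts linearly. If `c ∈ C` is not a scalar, `v, c v` is a basis for some `v`, and an endomorphism commuting with `c` is
`α + β c` (compare on `v`, `c v`), so `S` is commutative. So `C` embeds in the scalars `(ZMod p)ˣ`. -/
theorem z2 (h : Sr p G V) (hV : Nat.card V = p ^ 2) (S : Subgroup G) (hS : ¬ IsMulCommutative S) :
    IsCyclic (Subgroup.centralizer (S : Set G)) ∧ Nat.card (Subgroup.centralizer (S : Set G)) ∣ p - 1 ∧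
      Subgroup.centralizer (S : Set G) ≤ Subgroup.center G := by
  haveI := Fact.mk h.prime
  obtain ⟨φ, hφ⟩ := z2_rep h hV
  have : ∃ a ∈ S, ∃ b ∈ S, a * b ≠ b * a := by
    by_contra hc
    push Not at hc
    exact hS ⟨⟨fun a b => Subtype.ext (hc a a.2 b b.2)⟩⟩
  obtain ⟨a, ha, b, hb, hab⟩ := this
  have sc : ∀ c ∈ Subgroup.centralizer (S : Set G), φ c 0 1 = 0 ∧ φ c 1 0 = 0 ∧ φ c 1 1 = φ c 0 0 :=
    fun c hc => z2_mat (A := φ a) (B := φ b)
      (by rw [← map_mul, ← map_mul, Subgroup.mem_centralizer_iff.1 hc a ha])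
      (by rw [← map_mul, ← map_mul, Subgroup.mem_centralizer_iff.1 hc b hb])
      (by rw [← map_mul, ← map_mul]; exact fun e => hab (hφ e))
  let f : Subgroup.centralizer (S : Set G) →* ZMod p :=
    { toFun := fun c => φ c 0 0
      map_one' := by simp
      map_mul' := fun c d => by
        simp only [Subgroup.coe_mul, map_mul, Matrix.mul_apply, Fin.sum_univ_two, (sc c c.2).1, zero_mul, add_zero] }
  have hf : Function.Injective f := (injective_iff_map_eq_one _).2 fun c hc => Subtype.ext (hφ (by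
    obtain ⟨e1, e2, e3⟩ := sc c c.2
    have e0 : φ c 0 0 = 1 := hc
    rw [Subgroup.coe_one, map_one]
    ext i j
    fin_cases i <;> fin_cases j <;> simp [e0, e1, e2, e3]))
  refine ⟨isCyclic_of_injective_ringHom f hf, ?_, fun c hc => Subgroup.mem_center_iff.2 fun g => hφ ?_⟩
  · have := Subgroup.card_dvd_of_injective f.toHomUnits fun c d e => hf (by
      simpa using congrArg Units.val e)
    rwa [Nat.card_eq_fintype_card (α := (ZMod p)ˣ), ZMod.card_units] at this
  · obtain ⟨e1, e2, e3⟩ := sc c hc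
    rw [map_mul, map_mul]
    ext i j
    fin_cases i <;> fin_cases j <;> simp [Matrix.mul_apply, Fin.sum_univ_two, e1, e2, e3, mul_comm]

/-- `p - 1 = t c`, `t (p + 1) = 60 ε`, so `p + 1 ∣ 120`, `p ≤ 119`; check (`interval_cases`). -/
theorem z2_ar {c ε : ℕ} (hp : p.Prime) (h7 : 7 ≤ p) (hc : c ∣ p - 1) (h2 : 2 ∣ c) (h4 : ¬ 4 ∣ c) (h3 : ¬ 3 ∣ c)
    (h5 : ¬ 5 ∣ c) (hε : ε ∣ 2) (he : p ^ 2 - 1 = ε * (60 * c)) :
    ε = 1 ∧ ((p = 11 ∧ c = 2) ∨ (p = 29 ∧ c = 14) ∨ (p = 59 ∧ c = 58)) := by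
  obtain ⟨t, ht⟩ := hc
  have hc0 : 0 < c := Nat.pos_of_ne_zero fun e => by rw [e, zero_mul] at ht; omega
  have e1 : p ^ 2 - 1 = (p + 1) * (p - 1) := by
    have := Nat.sq_sub_sq p 1
    rwa [one_pow] at this
  have e2 : (p + 1) * t = 60 * ε := by
    refine Nat.eq_of_mul_eq_mul_left hc0 ?_
    calc c * ((p + 1) * t) = (p + 1) * (c * t) := by ring
      _ = ε * (60 * c) := by rw [← ht, ← e1, he]
      _ = c * (60 * ε) := by ring
  have hε' : ε = 1 ∨ ε = 2 := (Nat.dvd_prime Nat.prime_two).1 hε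
  have e3 : p + 1 ∣ 120 := by
    rcases hε' with rfl | rfl
    · exact Dvd.dvd.trans ⟨t, e2.symm⟩ (by norm_num)
    · exact ⟨t, e2.symm⟩
  have e4 : p + 1 ≤ 120 := Nat.le_of_dvd (by norm_num) e3
  have e5 : p ≤ 119 := by omega
  rcases hε' with rfl | rfl <;> interval_cases p <;>
    first | omega | (exfalso; revert hp; norm_num; done)

end Cfsg.Agent.Gag
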