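import Cfsg.Agent.Gag.Def
import Cfsg.Agent.Gag.Z1
import Cfsg.Agent.Gag.Z2
import Cfsg.Agent.Gag.Cen

set_option autoImplicit false
set_option linter.unusedSectionVars false
open Matrix MatrixGroups Cfsg.Agent.Perm.Fpf Cfsg.Agent.PLocal.SL2Nat

namespace Cfsg.Agent.Gag

universe u v
variable {p : ℕ} {G : Type u} {V : Type v} [Group G] [Finite G] [AddCommGroup V] [Finite V] [DistribMulAction G V]

/-- an element of order three -/
def z3a : SL(2, ZMod 5) := ⟨!![0, -1; 1, -1], by decide⟩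
/-- an element of order four -/
def z3b : SL(2, ZMod 5) := ⟨!![0, -1; 1, 0], by decide⟩
/-- an element of order five -/
def z3c : SL(2, ZMod 5) := ⟨!![1, 1; 0, 1], by decide⟩

theorem z3_oa : orderOf z3a = 3 ^ 1 := orderOf_eq_prime (p := 3) (by decide) (by decide)
theorem z3_ob : orderOf z3b = 2 ^ 2 := orderOf_eq_prime_pow (p := 2) (n := 1) (by decide) (by decide)
theorem z3_oc : orderOf z3c = 5 ^ 1 :=
  haveI : Fact (Nat.Prime 5) := ⟨by norm_num⟩
  orderOf_eq_prime (p := 5) (by decide) (by decide)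
theorem z3_nc : z3b * z3c ≠ z3c * z3b := by decide
theorem z3_cen (g : SL(2, ZMod 5)) (h1 : g * z3b = z3b * g) (h2 : g * z3c = z3c * g) :
    g = 1 ∨ g = -1 := by
  revert g; decide +kernel
theorem z3_on : orderOf (-1 : SL(2, ZMod 5)) = 2 := orderOf_eq_prime (by decide) (by decide)
theorem z3_card : Nat.card SL(2, ZMod 5) = 120 := by
  haveI : Fact (Nat.Prime 5) := ⟨by norm_num⟩
  rw [Class.card_SL2, ZMod.card]; norm_num

theorem z3_elt {C : Subgroup G} (hC : IsCyclic C) {d : ℕ} (hd : d ∣ Nat.card C) :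
    ∃ x ∈ C, orderOf x = d := by
  obtain ⟨g, hg⟩ := IsCyclic.exists_ofOrder_eq_natCard (α := C)
  refine ⟨(g ^ (orderOf g / d) : C), Subtype.prop _, ?_⟩
  rw [Subgroup.orderOf_coe]
  exact orderOf_pow_orderOf_div (orderOf_pos g).ne' (hg ▸ hd)

theorem z3_inf (S : Subgroup G) (e : S ≃* SL(2, ZMod 5)) :
    S ⊓ Subgroup.centralizer (S : Set G) = Subgroup.zpowers ((e.symm (-1) : S) : G) := by
  refine le_antisymm (fun x hx => ?_) (Subgroup.zpowers_le.2 ⟨Subtype.prop _, ?_⟩)
  · have k : ∀ y : SL(2, ZMod 5), e ⟨x, hx.1⟩ * y = y * e ⟨x, hx.1⟩ := fun y => by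
      obtain ⟨s, rfl⟩ := e.surjective y
      rw [← map_mul, ← map_mul]
      exact congrArg e (Subtype.ext (Subgroup.mem_centralizer_iff.1 hx.2 s s.2).symm)
    rcases z3_cen _ (k _) (k _) with r | r
    · have : (⟨x, hx.1⟩ : S) = 1 := e.injective (by rw [r, map_one])
      rw [show x = 1 from congrArg Subtype.val this]
      exact Subgroup.one_mem _
    · rw [← r, e.symm_apply_apply]
      exact Subgroup.mem_zpowers _
  · refine Subgroup.mem_centralizer_iff.2 fun s hs => ?_
    have : (⟨s, hs⟩ : S) * e.symm (-1) = e.symm (-1) * ⟨s, hs⟩ := e.injective (by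
      rw [map_mul, map_mul, e.apply_symm_apply]; simp)
    exact congrArg Subtype.val this

theorem z3_ord (S : Subgroup G) (e : S ≃* SL(2, ZMod 5)) (y : SL(2, ZMod 5)) :
    orderOf ((e.symm y : S) : G) = orderOf y := by
  rw [Subgroup.orderOf_coe, MulEquiv.orderOf_eq]

theorem z3_prod (S : Subgroup G) (e : S ≃* SL(2, ZMod 5)) {m : ℕ} [NeZero m] {x : G}
    (hx : x ∈ Subgroup.center G) (ho : orderOf x = m) (hm : Nat.Coprime 120 m)
    (hG : Nat.card G = 120 * m) : Nonempty (G ≃* SL(2, ZMod 5) × Multiplicative (ZMod m)) := by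
  have hS : Nat.card S = 120 := (Nat.card_congr e.toEquiv).trans z3_card
  have hM : Nat.card (Subgroup.zpowers x) = m := by rw [Nat.card_zpowers, ho]
  have hle : Subgroup.zpowers x ≤ Subgroup.center G := Subgroup.zpowers_le.2 hx
  let f : S × Subgroup.zpowers x →* G := MonoidHom.noncommCoprod S.subtype (Subgroup.zpowers x).subtype
    fun s y => Subgroup.mem_center_iff.1 (hle y.2) s
  have hd : Disjoint S (Subgroup.zpowers x) :=
    Subgroup.disjoint_of_coprime_natCard (by rw [hS, hM]; exact hm)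
  have hinj : Function.Injective f := by
    rw [injective_iff_map_eq_one]
    rintro ⟨s, y⟩ r
    have r' : (s : G) * y = 1 := r
    have s1 : (s : G) = 1 := Subgroup.disjoint_def.1 hd s.2 (by
      rw [eq_inv_of_mul_eq_one_left r']; exact Subgroup.inv_mem _ y.2)
    rw [s1, one_mul] at r'
    exact Prod.ext (Subtype.ext s1) (Subtype.ext r')
  have hb : Function.Bijective f :=
    (Nat.bijective_iff_injective_and_card f).2 ⟨hinj, by rw [Nat.card_prod, hS, hM, hG]⟩
  have e2 : Subgroup.zpowers x ≃* Multiplicative (ZMod m) :=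
    mulEquivOfCyclicCardEq (by rw [hM, Nat.card_congr Multiplicative.toAdd, Nat.card_zmod])
  exact ⟨(MulEquiv.ofBijective f hb).symm.trans (MulEquiv.prodCongr e e2)⟩

/-- `z1`, `z2`; `c = |C|`, `S ⊓ C = Z(S)` of order 2, `|G| = ε * 60 c` is prime to `p`, so `= p² - 1` (`index_eq`, trivial Sylow). `3, 4, 5 ∤ c`: an element of the cyclic `C` of order 3, 4 or 5 would lie in `S`
(`mem_zpowers_of_comm` with `a ∈ S` of that order), so in `Z(S)`. `z2_ar`: `G = S ⊔ C`; `M ≤ C` of order `c / 2 ∈ {1, 7, 29}` is central, `S ⊓ M = ⊥`, `|S| |M| = |G|`, so `G ≅ S × M`. -/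
theorem z3 (h : Sr p G V) (ht : Tr G V) (h7 : 7 ≤ p) (S : Subgroup G) [S.Normal] (e : S ≃* SL(2, ZMod 5)) :
    C4 p G := by
  have hp := h.prime
  have := Fact.mk hp
  have hV := z1 h ht h7 S e
  have hS : Nat.card S = 120 := (Nat.card_congr e.toEquiv).trans z3_card
  have hnc : ¬ IsMulCommutative S := fun hc => z3_nc (by
    have := congrArg e (hc.is_comm.comm (e.symm z3b) (e.symm z3c))
    rwa [map_mul, map_mul, e.apply_symm_apply, e.apply_symm_apply] at this)
  obtain ⟨hcyc, hdvd, hcen⟩ := z2 h hV S hnc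
  have hε := out_prime S (r := 5) (by norm_num) le_rfl e
  have hinf := z3_inf S e
  have hZ : Nat.card (S ⊓ Subgroup.centralizer (S : Set G) : Subgroup G) = 2 := by
    rw [hinf, Nat.card_zpowers, z3_ord, z3_on]
  have hsup := PLocal.card_sup_mul_card_inf (A := Subgroup.centralizer (S : Set G)) (B := S)
    (by rw [Subgroup.normalizer_eq_top]; exact le_top)
  rw [inf_comm, sup_comm, hZ, hS] at hsup
  have hG := (S ⊔ Subgroup.centralizer (S : Set G)).card_mul_index
  have h2 : 2 ∣ Nat.card (Subgroup.centralizer (S : Set G)) :=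
    hZ ▸ Subgroup.card_dvd_of_le inf_le_right
  have key : ∀ {q k : ℕ}, q.Prime → q < 7 → ∀ y : SL(2, ZMod 5), orderOf y = q ^ k →
      q ^ k ∣ Nat.card (Subgroup.centralizer (S : Set G)) → q ^ k ∣ 2 := by
    intro q k hq q7 y hy hd
    obtain ⟨x, hx, ho⟩ := z3_elt hcyc hd
    have h1 := mem_zpowers_of_comm h hq (by omega) ((z3_ord S e y).trans hy) ho
      (Subgroup.mem_centralizer_iff.1 hx _ (e.symm y).2)
    have h2 : x ∈ S ⊓ Subgroup.centralizer (S : Set G) :=
      ⟨Subgroup.zpowers_le.2 (e.symm y).2 h1, hx⟩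
    rw [← ho, ← hZ]
    exact Subgroup.orderOf_dvd_natCard _ h2
  have h3 : ¬ 3 ∣ Nat.card (Subgroup.centralizer (S : Set G)) := fun r =>
    absurd (key (k := 1) Nat.prime_three (by norm_num) _ z3_oa r) (by norm_num)
  have h4 : ¬ 4 ∣ Nat.card (Subgroup.centralizer (S : Set G)) := fun r =>
    absurd (key (k := 2) Nat.prime_two (by norm_num) _ z3_ob r) (by norm_num)
  have h5 : ¬ 5 ∣ Nat.card (Subgroup.centralizer (S : Set G)) := fun r =>
    absurd (key (k := 1) Nat.prime_five (by norm_num) _ z3_oc r) (by norm_num)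
  have hel : ∀ d, d ∣ Nat.card (Subgroup.centralizer (S : Set G)) →
      ∃ x ∈ Subgroup.center G, orderOf x = d := fun d hd =>
    let ⟨x, hx, ho⟩ := z3_elt hcyc hd
    ⟨x, hcen hx, ho⟩
  generalize Nat.card (Subgroup.centralizer (S : Set G)) = c at *
  generalize (S ⊔ Subgroup.centralizer (S : Set G)).index = ε at *
  have hGc : Nat.card G = ε * (60 * c) := by
    rw [← hG, mul_comm]
    congr 1
    omega
  have hnd : ¬ p ∣ Nat.card G := by
    rw [hGc]
    intro r
    rcases (Nat.Prime.dvd_mul hp).1 r with r | r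
    · have := Nat.le_of_dvd two_pos (r.trans hε)
      omega
    rcases (Nat.Prime.dvd_mul hp).1 r with r | r
    · have r' : p ∣ 2 * 2 * 3 * 5 := r
      simp only [Nat.Prime.dvd_mul hp] at r'
      rcases r' with ((r | r) | r) | r <;> have := Nat.le_of_dvd (by norm_num) r <;> omega
    · have := Nat.le_of_dvd (by omega) (r.trans hdvd)
      omega
  obtain ⟨P⟩ : Nonempty (Sylow p G) := inferInstance
  have hidx := Tr.index_eq h ht P
  have hP : Nat.card (P : Subgroup G) = 1 := by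
    obtain ⟨k, hk⟩ := P.isPGroup'.exists_card_eq
    rcases k with _ | k
    · simpa using hk
    · exact absurd ((hk ▸ dvd_pow_self p k.succ_ne_zero : p ∣ Nat.card (P : Subgroup G)).trans
        (Subgroup.card_subgroup_dvd_card _)) hnd
  have hGP := (P : Subgroup G).card_mul_index
  rw [hP, one_mul, hidx, hV, hGc] at hGP
  obtain ⟨rfl, hcase⟩ := z2_ar hp h7 hdvd h2 h4 h3 h5 hε hGP
  rcases hcase with ⟨rfl, rfl⟩ | ⟨rfl, rfl⟩ | ⟨rfl, rfl⟩
  · have : S = ⊤ := Subgroup.eq_top_of_card_eq S (by rw [hS, hGc])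
    exact Or.inl ⟨rfl, ⟨(Subgroup.topEquiv.symm.trans (MulEquiv.subgroupCongr this.symm)).trans e⟩⟩
  · obtain ⟨x, hx, ho⟩ := hel 7 (by norm_num)
    exact Or.inr (Or.inl ⟨rfl, z3_prod S e hx ho (by norm_num) (by rw [hGc])⟩)
  · obtain ⟨x, hx, ho⟩ := hel 29 (by norm_num)
    exact Or.inr (Or.inr ⟨rfl, z3_prod S e hx ho (by norm_num) (by rw [hGc])⟩)

end Cfsg.Agent.Gag
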